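import Cfsg.Agent.KnownB.ClassTupleDet

/-!
# Counting classes of `SL_n(q)` by tuples of polynomials
-/

set_option autoImplicit false
set_option linter.unusedSectionVars false
set_option linter.style.haveILetI false

namespace Cfsg.Agent.KnownB.ClassTuples

open Polynomial Cfsg.Agent.Linear.GLClasses Cfsg.Agent.Linear.GLClassArith

universe u

variable (F : Type u) [Field F] [Fintype F]

/-- Tuples of weighted degree `m`. -/
abbrev Tup (k m : ℕ) := {h : Fin k → F[X] // (∀ i, (h i).Monic ∧ (h i).coeff 0 ≠ 0) ∧ ∑ i, (i.1 + 1) * (h i).natDegree = m}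

theorem A_eq_of_le (q : ℕ) {k m : ℕ} (h : m ≤ k) : A q k m = A q m m := by
  induction k, h using Nat.le_induction with
  | base => rfl
  | succ k hk ih => rw [A_lt (by omega), ih]

instance instFinite_tup (k m : ℕ) : Finite (Tup F k m) := (card_tuples (F := F) rfl k m).1

theorem card_tup_le {k m : ℕ} (h : m ≤ k) : Nat.card (Tup F k m) ≤ A (Fintype.card F) m m :=
  (card_tuples rfl k m).2.trans_eq (A_eq_of_le _ h)

theorem card_tup_le_pow {k m : ℕ} (h : m ≤ k) (hm : 1 ≤ m) : Nat.card (Tup F k m) ≤ Fintype.card F ^ m :=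
  (card_tup_le F h).trans (A_le Fintype.one_lt_card hm)

variable {F}

/-- The exponents that occur in a tuple. -/
noncomputable def sup {k m : ℕ} (h : Tup F k m) : Finset (Fin k) :=
  Finset.univ.filter fun i => (h.1 i).natDegree ≠ 0

/-- The splitting weight of a tuple. -/
noncomputable def ew {k m : ℕ} (h : Tup F k m) : ℕ :=
  (Fintype.card F - 1).gcd ((sup h).gcd fun i => i.1 + 1)

theorem ew_pos {k m : ℕ} (h : Tup F k m) : 0 < ew h :=
  Nat.gcd_pos_of_pos_left _ (Nat.sub_pos_of_lt Fintype.one_lt_card)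

theorem ew_dvd_card {k m : ℕ} (h : Tup F k m) : ew h ∣ Fintype.card F - 1 := Nat.gcd_dvd_left _ _

theorem ew_dvd_mem {k m : ℕ} (h : Tup F k m) {i : Fin k} (hi : (h.1 i).natDegree ≠ 0) : ew h ∣ i.1 + 1 :=
  (Nat.gcd_dvd_right _ _).trans (Finset.gcd_dvd (Finset.mem_filter.2 ⟨Finset.mem_univ _, hi⟩))

theorem ew_dvd_deg {k m : ℕ} (h : Tup F k m) : ew h ∣ m := by
  conv_rhs => rw [← h.2.2]
  refine Finset.dvd_sum fun i _ => ?_
  by_cases hi : (h.1 i).natDegree = 0
  · rw [hi, mul_zero]; exact dvd_zero _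
  · exact (ew_dvd_mem h hi).mul_right _

/-- Inside a finite commutative group a set of exponents closes under gcd. -/
theorem pow_gcd_mem {A : Type*} [CommGroup A] [Finite A] (H : Subgroup A) {ι : Type*} (S : Finset ι) (f : ι → ℕ)
    (hS : ∀ i ∈ S, ∀ x : A, x ^ f i ∈ H) (x : A) : x ^ (Nat.card A).gcd (S.gcd f) ∈ H := by
  suffices h : ∀ x : A, x ^ S.gcd f ∈ H by
    have h1 : ((Nat.card A).gcd (S.gcd f) : ℤ) = _ := Nat.gcd_eq_gcd_ab (Nat.card A) (S.gcd f)
    rw [← zpow_natCast, h1, zpow_add, zpow_mul, zpow_mul, zpow_natCast, zpow_natCast, pow_card_eq_one', one_zpow, one_mul]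
    exact zpow_mem (h x) _
  classical
  induction S using Finset.induction with
  | empty => intro x; simp
  | insert i T hi ih =>
    intro x
    have hT := ih fun j hj => hS j (Finset.mem_insert_of_mem hj)
    rw [Finset.gcd_insert, ← zpow_natCast]
    have h1 : ((gcd (f i) (T.gcd f) : ℕ) : ℤ) = _ := Nat.gcd_eq_gcd_ab (f i) (T.gcd f)
    rw [h1, zpow_add, zpow_mul, zpow_mul, zpow_natCast, zpow_natCast]
    exact mul_mem (zpow_mem (hS i (Finset.mem_insert_self _ _) x) _) (zpow_mem (hT x) _)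

/-- The signed product of the constant terms. -/
noncomputable def cst (r : ℕ) {k m : ℕ} (h : Tup F k m) : F :=
  ∏ i : Fin k, ((-1) ^ (r * (h.1 i).natDegree) * (h.1 i).coeff 0) ^ (i.1 + 1)

theorem exists_scalars {k : ℕ} (S : Finset (Fin k)) (c : Fˣ) :
    ∃ b : Fin k → Fˣ, (∀ i, i ∉ S → b i = 1) ∧
      ((∃ y : Fˣ, y ^ (Fintype.card F - 1).gcd (S.gcd fun i => i.1 + 1) = c) → ∏ i, b i ^ (i.1 + 1) = c) := by
  classical
  by_cases hc : ∃ y : Fˣ, y ^ (Fintype.card F - 1).gcd (S.gcd fun i => i.1 + 1) = c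
  · obtain ⟨y, rfl⟩ := hc
    let K : Subgroup (Fin k → Fˣ) :=
      { carrier := {b | ∀ i, i ∉ S → b i = 1}
        one_mem' := fun _ _ => rfl
        mul_mem' := fun ha hb i hi => by rw [Pi.mul_apply, ha i hi, hb i hi, one_mul]
        inv_mem' := fun ha i hi => by rw [Pi.inv_apply, ha i hi, inv_one] }
    let φ : (Fin k → Fˣ) →* Fˣ := MonoidHom.mk' (fun b => ∏ i, b i ^ (i.1 + 1)) fun a b => by
      simp only [Pi.mul_apply, mul_pow, Finset.prod_mul_distrib]
    have hmem := pow_gcd_mem (K.map φ) S (fun i => i.1 + 1) (fun i hi x => by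
      refine ⟨Pi.mulSingle i x, fun j hj => Pi.mulSingle_eq_of_ne (fun e => hj (by rw [e]; exact hi)) _, ?_⟩
      show ∏ j, (Pi.mulSingle i x : Fin k → Fˣ) j ^ (j.1 + 1) = _
      rw [Finset.prod_eq_single i (fun j _ hj => by rw [Pi.mulSingle_eq_of_ne hj, one_pow])
        (fun h => absurd (Finset.mem_univ _) h), Pi.mulSingle_eq_same]) y
    rw [Nat.card_units, Nat.card_eq_fintype_card] at hmem
    obtain ⟨b, hb, hb'⟩ := hmem
    exact ⟨b, hb, fun _ => hb'⟩
  · exact ⟨1, fun _ _ => rfl, fun h => absurd h hc⟩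

/-- Scale the constant term of each entry. -/
noncomputable def scaleConst (b : Fˣ) (f : F[X]) : F[X] := f + C (((b : F) - 1) * f.coeff 0)

theorem scaleConst_deg {b : Fˣ} {f : F[X]} : (scaleConst b f).natDegree = f.natDegree := natDegree_add_C

theorem scaleConst_coeff (b : Fˣ) (f : F[X]) : (scaleConst b f).coeff 0 = b * f.coeff 0 := by
  rw [scaleConst, coeff_add, coeff_C_zero]; ring

theorem scaleConst_monic {b : Fˣ} {f : F[X]} (hf : f.Monic) (hb : f.natDegree = 0 → b = 1) :
    (scaleConst b f).Monic := by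
  rcases Nat.eq_zero_or_pos f.natDegree with h | h
  · simp only [scaleConst, hb h, Units.val_one, sub_self, zero_mul, map_zero, add_zero]
    exact hf
  · rw [Monic, leadingCoeff, scaleConst_deg, scaleConst, coeff_add, coeff_C, if_neg h.ne', add_zero]
    exact hf

/-- The weighted count of tuples with signed constant product `1`. -/
theorem twist_le {k m : ℕ} (r : ℕ) [Fintype (Tup F k m)] [DecidableEq F] :
    (Fintype.card F - 1) * ∑ h : Tup F k m with cst r h = 1, ew h ≤ ∑ h : Tup F k m, ew h ^ 2 := by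
  classical
  choose b hb1 hb2 using exists_scalars (F := F) (k := k)
  have hb0 : ∀ (h : Tup F k m) (c : Fˣ) i, (h.1 i).natDegree = 0 → b (sup h) c i = 1 := fun h c i hi =>
    hb1 _ _ i (by simp [sup, hi])
  let Φ : (Σ h : Tup F k m, (powMonoidHom (ew h) : Fˣ →* Fˣ).range) → Tup F k m := fun p =>
    ⟨fun i => scaleConst (b (sup p.1) p.2.1 i) (p.1.1 i),
      fun i => ⟨scaleConst_monic (p.1.2.1 i).1 (hb0 _ _ i), by
        rw [scaleConst_coeff]; exact mul_ne_zero (Units.ne_zero _) (p.1.2.1 i).2⟩,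
      by simp only [scaleConst_deg]; exact p.1.2.2⟩
  have hdeg : ∀ p i, ((Φ p).1 i).natDegree = (p.1.1 i).natDegree := fun p i => scaleConst_deg
  have hsup : ∀ p, sup (Φ p) = sup p.1 := fun p => by simp only [sup, hdeg]
  have hew : ∀ p, ew (Φ p) = ew p.1 := fun p => by simp only [ew, hsup]
  have hcst : ∀ p, cst r (Φ p) = (p.2.1 : F) * cst r p.1 := fun p => by
    have h1 := congrArg (Units.val : Fˣ → F) (hb2 (sup p.1) p.2.1 p.2.2)
    rw [Units.coe_prod] at h1
    simp only [cst, hdeg, Φ, scaleConst_coeff]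
    rw [← h1, ← Finset.prod_mul_distrib]
    refine Finset.prod_congr rfl fun i _ => ?_
    rw [Units.val_pow_eq_pow_val, ← mul_pow]
    ring
  set P := Finset.univ.filter fun h : Tup F k m => cst r h = 1
  set S := P.sigma fun h => (Finset.univ : Finset (powMonoidHom (ew h) : Fˣ →* Fˣ).range)
  have hinj : Set.InjOn Φ S := by
    intro p hp p' hp' he
    simp only [S, P, Finset.mem_coe, Finset.mem_sigma, Finset.mem_filter, Finset.mem_univ, true_and, and_true] at hp hp'
    have h1 := hcst p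
    rw [he, hcst p', hp', hp, mul_one, mul_one] at h1
    have hs : sup p'.1 = sup p.1 := by rw [← hsup p, ← hsup p', he]
    obtain ⟨h, c⟩ := p
    obtain ⟨h', c'⟩ := p'
    simp only at hs h1
    have hc : c.1 = c'.1 := Units.ext h1.symm
    suffices hh : h = h' by
      subst hh
      exact Sigma.ext rfl (heq_of_eq (Subtype.ext hc))
    refine Subtype.ext (funext fun i => ?_)
    have hi : scaleConst (b (sup h) c.1 i) (h.1 i) = scaleConst (b (sup h') c'.1 i) (h'.1 i) :=
      congrFun (congrArg Subtype.val he) i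
    rw [hs, hc] at hi
    refine Polynomial.ext fun j => ?_
    rcases j with _ | j
    · have := congrArg (fun f : F[X] => f.coeff 0) hi
      simp only [scaleConst_coeff] at this
      exact mul_left_cancel₀ (Units.ne_zero _) this
    · have := congrArg (fun f : F[X] => f.coeff (j + 1)) hi
      simpa [scaleConst, coeff_C, coeff_one] using this
  calc (Fintype.card F - 1) * ∑ h ∈ P, ew h
      ≤ ∑ h ∈ P, Fintype.card (powMonoidHom (ew h) : Fˣ →* Fˣ).range * ew h ^ 2 := by
        rw [Finset.mul_sum]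
        refine Finset.sum_le_sum fun h _ => ?_
        have h1 := Subgroup.index_mul_card (powMonoidHom (ew h) : Fˣ →* Fˣ).range
        rw [IsCyclic.index_powMonoidHom_range, Nat.card_units, Nat.card_eq_fintype_card,
          Nat.gcd_eq_right (ew_dvd_card h), Nat.card_eq_fintype_card] at h1
        rw [sq, ← h1]
        exact le_of_eq (by ring)
    _ = ∑ p ∈ S, ew (Φ p) ^ 2 := by
        simp only [hew, S, Finset.sum_sigma, Finset.sum_const, Finset.card_univ, smul_eq_mul]
    _ = ∑ h ∈ S.image Φ, ew h ^ 2 := (Finset.sum_image (f := fun h => ew h ^ 2) hinj).symm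
    _ ≤ ∑ h, ew h ^ 2 := Finset.sum_le_sum_of_subset (Finset.subset_univ _)

end Cfsg.Agent.KnownB.ClassTuples
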