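import Cfsg.Agent.KnownB.ClassTuples
import Mathlib.RingTheory.Norm.Transitivity
import Mathlib.FieldTheory.Finite.GaloisField

/-!
# Determinants of classes and of their centralisers in `GL_n(q)`
-/

set_option autoImplicit false
set_option linter.unusedSectionVars false
set_option linter.style.haveILetI false

namespace Cfsg.Agent.KnownB.ClassTuples

open Polynomial Cfsg.Agent.Linear.GLClasses
open scoped Matrix

universe u

variable {F : Type u} [Field F] [Fintype F] {n : ℕ}

/-- Multiplication by `u` on a quotient of `F[X]`. -/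
noncomputable def mulBy (h u : F[X]) : (F[X] ⧸ (F[X] ∙ h)) →ₗ[F] (F[X] ⧸ (F[X] ∙ h)) :=
  (LinearMap.lsmul F[X] (F[X] ⧸ (F[X] ∙ h)) u).restrictScalars F

theorem det_mulBy (h u : F[X]) :
    LinearMap.det (mulBy h u) = Algebra.norm F (AdjoinRoot.mk h u) := by
  rw [Algebra.norm_apply]
  refine congrArg _ (LinearMap.ext fun x => ?_)
  obtain ⟨c, rfl⟩ := Submodule.mkQ_surjective _ x
  exact (map_mul (AdjoinRoot.mk h) u c)

theorem det_mulBy_X {h : F[X]} (hh : h.Monic) :
    LinearMap.det (mulBy h X) = (-1) ^ h.natDegree * h.coeff 0 := by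
  rw [det_mulBy, AdjoinRoot.mk_X]
  have := Algebra.PowerBasis.norm_gen_eq_coeff_zero_minpoly (AdjoinRoot.powerBasis hh.ne_zero)
  rwa [AdjoinRoot.powerBasis_gen, AdjoinRoot.powerBasis_dim,
    ← AdjoinRoot.powerBasis_gen hh.ne_zero, AdjoinRoot.minpoly_powerBasis_gen_of_monic hh,
    AdjoinRoot.powerBasis_gen] at this

/-- Every `e`-th power is a norm from `F[X]/(f^e)`. -/
theorem exists_mulBy_det {f : F[X]} (hf : Irreducible f ∧ f.Monic) {e : ℕ} (he : 1 ≤ e) (a : Fˣ) :
    ∃ u : F[X], LinearMap.det (mulBy (f ^ e) u) = (a : F) ^ e := by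
  classical
  set R := AdjoinRoot (f ^ e)
  set q := Fintype.card F
  have hq : 1 < q := Fintype.one_lt_card
  set r : R := AdjoinRoot.root (f ^ e) with hr
  have hstep : ∀ k : ℕ, aeval (r ^ q ^ k) f = aeval r f ^ q ^ k := by
    intro k
    induction k with
    | zero => simp
    | succ k ih => rw [pow_succ, pow_mul, pow_mul, ← ih, ← map_pow, ← FiniteField.expand_card, expand_aeval]
  have hroot : aeval (r ^ q ^ e) f = 0 := by
    have h1 : aeval r f ^ e = 0 := by rw [← map_pow, hr, AdjoinRoot.aeval_eq, AdjoinRoot.mk_self]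
    rw [hstep, ← Nat.sub_add_cancel (Nat.lt_pow_self hq).le, pow_add, h1, mul_zero]
  haveI : Fact (Irreducible f) := ⟨hf.1⟩
  let φ : AdjoinRoot f →ₐ[F] R := AdjoinRoot.liftAlgHom f (Algebra.ofId F R) (r ^ q ^ e) hroot
  letI : Algebra (AdjoinRoot f) R := φ.toRingHom.toAlgebra
  haveI : IsScalarTower F (AdjoinRoot f) R := IsScalarTower.of_algebraMap_eq fun x => (φ.commutes x).symm
  haveI : Module.Finite F R := (hf.2.pow e).finite_adjoinRoot
  haveI : Module.Finite (AdjoinRoot f) R := Module.Finite.of_restrictScalars_finite F _ _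
  haveI : Module.Finite F (AdjoinRoot f) := hf.2.finite_adjoinRoot
  haveI : Finite (AdjoinRoot f) := Module.finite_of_finite F
  have hk : Module.finrank (AdjoinRoot f) R = e := by
    have h1 := Module.finrank_mul_finrank F (AdjoinRoot f) R
    rw [(AdjoinRoot.powerBasis hf.2.ne_zero).finrank, AdjoinRoot.powerBasis_dim,
      (AdjoinRoot.powerBasis (pow_ne_zero e hf.2.ne_zero)).finrank, AdjoinRoot.powerBasis_dim, natDegree_pow,
      mul_comm e] at h1
    exact Nat.eq_of_mul_eq_mul_left hf.1.natDegree_pos h1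
  obtain ⟨l, hl⟩ := FiniteField.norm_surjective F (AdjoinRoot f) (a : F)
  obtain ⟨u, hu⟩ := AdjoinRoot.mk_surjective (g := f ^ e) (algebraMap (AdjoinRoot f) R l)
  refine ⟨u, ?_⟩
  rw [det_mulBy, hu, ← Algebra.norm_norm (R := F) (S := AdjoinRoot f), Algebra.norm_algebraMap, hk, map_pow, hl]

theorem det_piMap {J : Type*} [Fintype J] {M : J → Type*} [∀ j, AddCommGroup (M j)] [∀ j, Module F (M j)]
    [∀ j, Module.Finite F (M j)] (φ : ∀ j, M j →ₗ[F] M j) :
    LinearMap.det (LinearMap.pi fun j => (φ j).comp (LinearMap.proj j)) = ∏ j, LinearMap.det (φ j) := by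
  letI hJord : LinearOrder J := LinearOrder.lift' (Fintype.equivFin J) (Equiv.injective _)
  let b := fun j => Module.finBasis F (M j)
  rw [← LinearMap.det_toMatrix (Pi.basis b)]
  have : LinearMap.toMatrix (Pi.basis b) (Pi.basis b) (LinearMap.pi fun j => (φ j).comp (LinearMap.proj j)) =
      Matrix.blockDiagonal' fun j => LinearMap.toMatrix (b j) (b j) (φ j) := by
    ext ⟨i, i'⟩ ⟨k, k'⟩
    rw [LinearMap.toMatrix_apply, Pi.basis_repr, Pi.basis_apply, LinearMap.pi_apply, LinearMap.comp_apply,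
      LinearMap.proj_apply]
    by_cases h : i = k
    · subst h
      rw [Pi.single_eq_same, Matrix.blockDiagonal'_apply_eq, LinearMap.toMatrix_apply]
    · rw [Pi.single_eq_of_ne h, map_zero, map_zero, Matrix.blockDiagonal'_apply_ne _ _ _ h]
      rfl
  rw [this, (Matrix.blockTriangular_blockDiagonal' _).det_fintype]
  refine Finset.prod_congr rfl fun j _ => ?_
  rw [← LinearMap.det_toMatrix (b j) (φ j)]
  refine Eq.trans ?_ (Matrix.det_reindex_self (Equiv.sigmaSubtype (β := fun j => Fin (Module.finrank F (M j))) j).symm _)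
  congr 1
  ext ⟨⟨i, i'⟩, rfl⟩ ⟨⟨k, k'⟩, hk⟩
  cases hk
  simp [Matrix.toSquareBlock_def]

/-- The matrix acting by the polynomials `u j` on the summands. -/
theorem Dec.exists_matrix {g : GL (Fin n) F} (D : Dec g) (u : D.J → F[X]) :
    ∃ M : Matrix (Fin n) (Fin n) F, M * g.1 = g.1 * M ∧
      M.det = (letI := D.fin; ∏ j, LinearMap.det (mulBy ((D.key j).1 ^ (D.key j).2) (u j))) ∧
      ((∀ j, u j = X) → M = g.1) := by
  letI := D.fin
  haveI : ∀ j : D.J, Module.Finite F (F[X] ⧸ (F[X] ∙ (D.key j).1 ^ (D.key j).2)) := fun j =>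
    ((D.hkey j).2.1.pow _).finite_quotient
  let L : (Fin n → F) ≃ₗ[F] ∀ j, F[X] ⧸ (F[X] ∙ (D.key j).1 ^ (D.key j).2) :=
    (Module.AEval'.of (Matrix.toLin' g.1)).trans (D.iso.restrictScalars F)
  let Φ : (∀ j, F[X] ⧸ (F[X] ∙ (D.key j).1 ^ (D.key j).2)) →ₗ[F] ∀ j, F[X] ⧸ (F[X] ∙ (D.key j).1 ^ (D.key j).2) :=
    LinearMap.pi fun j => (mulBy ((D.key j).1 ^ (D.key j).2) (u j)).comp (LinearMap.proj j)
  have hX : ∀ v, L (Matrix.toLin' g.1 v) = (X : F[X]) • L v := fun v => by
    simp only [L, LinearEquiv.trans_apply, LinearEquiv.restrictScalars_apply]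
    rw [← Module.AEval'.X_smul_of, map_smul]
  let T : (Fin n → F) →ₗ[F] (Fin n → F) := L.symm.toLinearMap ∘ₗ Φ ∘ₗ L.toLinearMap
  refine ⟨LinearMap.toMatrix' T, ?_, ?_, fun hu => ?_⟩
  · apply Matrix.toLin'.injective
    rw [Matrix.toLin'_mul, Matrix.toLin'_mul, Matrix.toLin'_toMatrix']
    refine LinearMap.ext fun v => L.injective ?_
    simp only [LinearMap.comp_apply, T, LinearEquiv.coe_coe, LinearEquiv.apply_symm_apply, hX]
    exact funext fun j => smul_comm (u j) (X : F[X]) (L v j)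
  · rw [LinearMap.det_toMatrix']
    have : T = L.symm.toLinearMap ∘ₗ Φ ∘ₗ L.symm.symm.toLinearMap := rfl
    rw [this, LinearMap.det_conj]
    exact det_piMap _
  · apply Matrix.toLin'.injective
    rw [Matrix.toLin'_toMatrix']
    refine LinearMap.ext fun v => L.injective ?_
    simp only [LinearMap.comp_apply, T, LinearEquiv.coe_coe, LinearEquiv.apply_symm_apply, hX]
    funext j
    show mulBy _ (u j) (L v j) = _
    rw [hu j]
    rfl

theorem det_eq (g : GL (Fin n) F) :
    g.1.det = ∏ i : Fin n, ((-1) ^ (tup g i).natDegree * (tup g i).coeff 0) ^ (i.1 + 1) := by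
  obtain ⟨M, -, hd, hM⟩ := (dec g).exists_matrix fun _ => X
  letI := (dec g).fin
  rw [hM fun _ => rfl] at hd
  rw [hd, Finset.prod_congr rfl fun j _ => det_mulBy_X (((dec g).hkey j).2.1.pow _)]
  simp only [natDegree_pow, ← Polynomial.constantCoeff_apply, map_pow, pow_mul']
  rw [(dec g).sum_fiber (M := F) fun f e => ((-1) ^ f.natDegree) ^ e * constantCoeff f ^ e]
  refine Finset.prod_congr rfl fun i _ => ?_
  rw [tup_natDegree, tup]
  generalize (dec g).slot i = t
  induction t using Multiset.induction with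
  | empty => simp
  | cons a t ih =>
    rw [Multiset.map_cons, Multiset.prod_cons, Multiset.map_cons, Multiset.sum_cons, Multiset.prod_cons, map_mul, ih]
    ring

theorem exists_centralizer_det (g : GL (Fin n) F) (i : Fin n) (hi : (tup g i).natDegree ≠ 0) (a : Fˣ) :
    ∃ c : GL (Fin n) F, c * g = g * c ∧ Matrix.GeneralLinearGroup.det c = a ^ (i.1 + 1) := by
  classical
  letI := (dec g).fin
  obtain ⟨f, hf⟩ : ∃ f, f ∈ (dec g).slot i := by
    refine Multiset.exists_mem_of_ne_zero fun h => hi ?_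
    rw [tup_natDegree, h, Multiset.map_zero, Multiset.sum_zero]
  simp only [Dec.slot, Multiset.mem_map, Finset.mem_val, Finset.mem_filter, Finset.mem_univ, true_and] at hf
  obtain ⟨j₀, hj, -⟩ := hf
  obtain ⟨u₀, hu₀⟩ := exists_mulBy_det ⟨((dec g).hkey j₀).1, ((dec g).hkey j₀).2.1⟩ ((dec g).hkey j₀).2.2.2.1 a
  obtain ⟨M, hc, hd, -⟩ := (dec g).exists_matrix fun j => if j = j₀ then u₀ else 1
  have hdet : M.det = (a : F) ^ (i.1 + 1) := by
    rw [hd, Finset.prod_eq_single j₀ (fun j _ hne => ?_) (fun h => absurd (Finset.mem_univ _) h), if_pos rfl, hu₀, hj]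
    rw [if_neg hne, det_mulBy, map_one, map_one]
  refine ⟨Matrix.GeneralLinearGroup.mkOfDetNeZero M (by rw [hdet]; exact pow_ne_zero _ a.ne_zero),
    Units.ext (by simpa using hc), Units.ext ?_⟩
  rw [Units.val_pow_eq_pow_val]
  exact Eq.trans (by simp) hdet

end Cfsg.Agent.KnownB.ClassTuples
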