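import Cfsg.Agent.Linear.GLClasses

/-!
# Invariant tuples of polynomials attached to the classes of `GL_n(q)`
-/

set_option autoImplicit false
set_option linter.unusedSectionVars false

namespace Cfsg.Agent.KnownB.ClassTuples

open Polynomial Cfsg.Agent.Linear.GLClasses
open scoped Matrix

universe u

variable {F : Type u} [Field F] [Fintype F] {n : ℕ}

/-- A decomposition of the module of `g` into primary cyclic summands. -/
structure Dec (g : GL (Fin n) F) where
  /-- the index type -/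
  J : Type u
  /-- finiteness -/
  fin : Fintype J
  /-- the polynomial and exponent of each summand -/
  key : J → F[X] × ℕ
  hkey : ∀ j, Irreducible (key j).1 ∧ (key j).1.Monic ∧ (key j).1.coeff 0 ≠ 0 ∧ 1 ≤ (key j).2 ∧ (key j).2 ≤ n
  hdeg : (letI := fin; ∑ j, (key j).2 * (key j).1.natDegree) = n
  iso : Mod g.1 ≃ₗ[F[X]] ∀ j, F[X] ⧸ (F[X] ∙ (key j).1 ^ (key j).2)

theorem nonempty_dec (g : GL (Fin n) F) : Nonempty (Dec g) := by
  classical
  obtain ⟨J, hJ, key, h1, h2, ⟨ψ⟩⟩ := exists_data g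
  exact ⟨⟨J, hJ, key, h1, h2, ψ⟩⟩

/-- A chosen decomposition. -/
noncomputable def dec (g : GL (Fin n) F) : Dec g := (nonempty_dec g).some

/-- The size of the image of `p(g)`. -/
noncomputable def imCard (g : Matrix (Fin n) (Fin n) F) (p : F[X]) : ℕ :=
  Nat.card (Set.range fun v : Fin n → F => aeval g p *ᵥ v)

theorem imCard_eq_mod (g : Matrix (Fin n) (Fin n) F) (p : F[X]) :
    imCard g p = Nat.card (Set.range fun x : Mod g => p • x) := by
  refine Nat.card_congr ((Equiv.image (Module.AEval'.of (Matrix.toLin' g)).toEquiv _).trans (Equiv.setCongr ?_))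
  have h : ∀ v, p • Module.AEval'.of (Matrix.toLin' g) v = Module.AEval'.of (Matrix.toLin' g) (aeval g p *ᵥ v) := by
    intro v
    have h1 : aeval (Matrix.toLin' g) p = Matrix.toLin' (aeval g p) :=
      aeval_algHom_apply (Matrix.toLinAlgEquiv' (R := F) (n := Fin n)).toAlgHom g p
    show p • Module.AEval.of F _ (Matrix.toLin' g) v = _
    rw [← Module.AEval.of_aeval_smul, h1]
    rfl
  ext x
  constructor
  · rintro ⟨_, ⟨v, rfl⟩, rfl⟩
    exact ⟨_, h v⟩
  · rintro ⟨y, rfl⟩
    obtain ⟨v, rfl⟩ := (Module.AEval'.of (Matrix.toLin' g)).surjective y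
    exact ⟨_, ⟨v, rfl⟩, (h v).symm⟩

theorem imCard_congr {M N : Type u} [AddCommGroup M] [AddCommGroup N] [Module F[X] M] [Module F[X] N]
    (ψ : M ≃ₗ[F[X]] N) (p : F[X]) :
    Nat.card (Set.range fun x : M => p • x) = Nat.card (Set.range fun x : N => p • x) := by
  refine Nat.card_congr ((Equiv.image ψ.toEquiv _).trans (Equiv.setCongr ?_))
  ext x
  constructor
  · rintro ⟨_, ⟨v, rfl⟩, rfl⟩
    exact ⟨ψ v, (map_smul ψ p v).symm⟩
  · rintro ⟨y, rfl⟩
    exact ⟨p • ψ.symm y, ⟨_, rfl⟩, by simp⟩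

theorem card_quot {h : F[X]} (hh : h.Monic) :
    Nat.card (F[X] ⧸ (F[X] ∙ h)) = Fintype.card F ^ h.natDegree := by
  haveI : Module.Finite F (F[X] ⧸ (F[X] ∙ h)) := hh.finite_quotient
  rw [Module.natCard_eq_pow_finrank (K := F), finrank_quot h hh, Nat.card_eq_fintype_card]

theorem card_range_quot (f p : F[X]) (hf : Irreducible f ∧ f.Monic) (hp : Irreducible p ∧ p.Monic) (j e : ℕ)
    [Decidable (p = f)] :
    Nat.card (Set.range fun x : F[X] ⧸ (F[X] ∙ p ^ e) => f ^ j • x) =
      Fintype.card F ^ (p.natDegree * if p = f then e - j else e) := by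
  by_cases h : p = f
  · rw [if_pos h]
    subst h
    let L : F[X] →ₗ[F[X]] F[X] ⧸ (F[X] ∙ p ^ e) :=
      (F[X] ∙ p ^ e).mkQ ∘ₗ LinearMap.mulLeft F[X] (p ^ j)
    have hr : (Set.range fun x : F[X] ⧸ (F[X] ∙ p ^ e) => p ^ j • x) = (LinearMap.range L : Set _) := by
      ext x
      constructor
      · rintro ⟨y, rfl⟩
        obtain ⟨a, rfl⟩ := Submodule.mkQ_surjective _ y
        exact ⟨a, rfl⟩
      · rintro ⟨a, rfl⟩
        exact ⟨Submodule.mkQ _ a, rfl⟩
    have hk : LinearMap.ker L = F[X] ∙ p ^ (e - j) := by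
      ext a
      rw [LinearMap.mem_ker, Submodule.mem_span_singleton]
      show Submodule.Quotient.mk (p ^ j * a) = 0 ↔ _
      rw [Submodule.Quotient.mk_eq_zero, Submodule.mem_span_singleton]
      simp only [smul_eq_mul]
      constructor
      · rintro ⟨c, hc⟩
        rcases le_total j e with hje | hje
        · refine ⟨c, mul_left_cancel₀ (pow_ne_zero j hp.1.ne_zero) ?_⟩
          rw [← hc, mul_left_comm, ← pow_add, Nat.add_sub_cancel' hje]
        · exact ⟨a, by rw [Nat.sub_eq_zero_of_le hje, pow_zero, mul_one]⟩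
      · rintro ⟨c, rfl⟩
        refine ⟨c * p ^ (j + (e - j) - e), ?_⟩
        rw [mul_assoc, ← pow_add, mul_left_comm, ← pow_add]
        congr 2
        omega
    rw [hr, SetLike.coe_sort_coe, ← Nat.card_congr L.quotKerEquivRange.toEquiv, hk, card_quot (hp.2.pow _),
      natDegree_pow, mul_comm]
  · rw [if_neg h]
    have hc : IsCoprime (f ^ j) (p ^ e) := by
      refine IsCoprime.pow ?_
      refine (hf.1.coprime_iff_not_dvd).2 fun hd => h ?_
      exact (eq_of_monic_of_associated hp.2 hf.2 (hf.1.associated_of_dvd hp.1 hd).symm)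
    obtain ⟨a, b, hab⟩ := hc
    have hs : (Set.range fun x : F[X] ⧸ (F[X] ∙ p ^ e) => f ^ j • x) = Set.univ := by
      refine Set.eq_univ_of_forall fun y => ⟨a • y, ?_⟩
      obtain ⟨c, rfl⟩ := Submodule.mkQ_surjective _ y
      show f ^ j • a • (F[X] ∙ p ^ e).mkQ c = _
      rw [← map_smul, ← map_smul]
      refine (Submodule.Quotient.eq _).2 (Submodule.mem_span_singleton.2 ⟨-(b * c), ?_⟩)
      simp only [smul_eq_mul]
      linear_combination -c * hab
    rw [hs, Nat.card_univ, card_quot (hp.2.pow _), natDegree_pow, mul_comm]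

/-- The number of occurrences of the summand `(f, i)`. -/
noncomputable def Dec.count {g : GL (Fin n) F} (D : Dec g) (x : F[X] × ℕ) : ℕ :=
  Nat.card {j // D.key j = x}

theorem Dec.imCard_pow {g : GL (Fin n) F} (D : Dec g) (f : F[X]) (hf : Irreducible f ∧ f.Monic) (j : ℕ)
    [DecidableEq F[X]] :
    letI := D.fin
    imCard g.1 (f ^ j) = Fintype.card F ^
      (n - f.natDegree * ∑ x, if (D.key x).1 = f then min (D.key x).2 j else 0) := by
  letI := D.fin
  rw [imCard_eq_mod, imCard_congr D.iso]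
  have : (Set.range fun x : ∀ i, F[X] ⧸ (F[X] ∙ (D.key i).1 ^ (D.key i).2) => f ^ j • x) =
      Set.univ.pi fun i => Set.range fun x : F[X] ⧸ (F[X] ∙ (D.key i).1 ^ (D.key i).2) => f ^ j • x := by
    exact Set.range_piMap fun i (x : F[X] ⧸ (F[X] ∙ (D.key i).1 ^ (D.key i).2)) => f ^ j • x
  rw [this, Nat.card_congr (Equiv.Set.univPi _), Nat.card_pi]
  rw [Finset.prod_congr rfl fun i _ => card_range_quot f (D.key i).1 hf ⟨(D.hkey i).1, (D.hkey i).2.1⟩ j (D.key i).2,
    Finset.prod_pow_eq_pow_sum]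
  congr 1
  refine Nat.eq_sub_of_add_eq ?_
  rw [Finset.mul_sum, ← Finset.sum_add_distrib]
  conv_rhs => rw [← D.hdeg]
  refine Finset.sum_congr rfl fun i _ => ?_
  split_ifs with h
  · rw [h, ← Nat.mul_add, mul_comm (D.key i).2]
    congr 1
    omega
  · rw [mul_zero, add_zero, mul_comm]

theorem count_eq {g g' : GL (Fin n) F} (D : Dec g) (D' : Dec g') {f f' : F[X]} (hf : Irreducible f ∧ f.Monic)
    (hf' : Irreducible f' ∧ f'.Monic) (hd : f'.natDegree = f.natDegree)
    (h : ∀ j, imCard g'.1 (f' ^ j) = imCard g.1 (f ^ j)) (i : ℕ) (hi : 1 ≤ i) :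
    D'.count (f', i) = D.count (f, i) := by
  classical
  letI := D.fin
  letI := D'.fin
  set U : ℕ → ℕ := fun j => ∑ x, if (D.key x).1 = f then min (D.key x).2 j else 0 with hU
  set U' : ℕ → ℕ := fun j => ∑ x, if (D'.key x).1 = f' then min (D'.key x).2 j else 0 with hU'
  have hle : ∀ {g : GL (Fin n) F} (D : Dec g) (f : F[X]) (j : ℕ), (letI := D.fin;
      f.natDegree * (∑ x, if (D.key x).1 = f then min (D.key x).2 j else 0) ≤ n) := by
    intro g D f j
    letI := D.fin
    conv_rhs => rw [← D.hdeg]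
    rw [Finset.mul_sum]
    refine Finset.sum_le_sum fun x _ => ?_
    split_ifs with h
    · rw [h, mul_comm]
      exact Nat.mul_le_mul_right _ (min_le_left _ _)
    · simp
  have hUU : ∀ j, U' j = U j := by
    intro j
    have h1 := h j
    rw [D.imCard_pow f hf, D'.imCard_pow f' hf'] at h1
    have h2 := Nat.pow_right_injective Fintype.one_lt_card h1
    rw [hd] at h2
    have h3 := hle D f j
    have h4 := hle D' f' j
    rw [hd] at h4
    exact Nat.eq_of_mul_eq_mul_left hf.1.natDegree_pos (by simp only [hU, hU'] at *; omega)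
  have key : ∀ {g : GL (Fin n) F} (D : Dec g) (f : F[X]), (letI := D.fin;
      2 * (∑ x, if (D.key x).1 = f then min (D.key x).2 i else 0) =
      (∑ x, if (D.key x).1 = f then min (D.key x).2 (i - 1) else 0) +
        (∑ x, if (D.key x).1 = f then min (D.key x).2 (i + 1) else 0) + D.count (f, i)) := by
    intro g D f
    letI := D.fin
    rw [Dec.count, Nat.card_eq_fintype_card, Fintype.card_subtype, Finset.card_filter, ← Finset.sum_add_distrib,
      ← Finset.sum_add_distrib, Finset.mul_sum]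
    refine Finset.sum_congr rfl fun x _ => ?_
    by_cases h1 : (D.key x).1 = f <;> by_cases h2 : (D.key x).2 = i <;>
      simp [Prod.ext_iff, h1, h2] <;> omega
  have h1 := key D f
  have h2 := key D' f'
  have := hUU i
  have := hUU (i - 1)
  have := hUU (i + 1)
  simp only [hU, hU'] at *
  omega

/-- The multiset of polynomials with exponent `i + 1`. -/
noncomputable def Dec.slot {g : GL (Fin n) F} (D : Dec g) (i : Fin n) : Multiset F[X] :=
  ((letI := D.fin; Finset.univ.filter fun j : D.J => (D.key j).2 = i.1 + 1).val).map fun j => (D.key j).1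

theorem Dec.slot_mem {g : GL (Fin n) F} (D : Dec g) (i : Fin n) (f : F[X]) (hf : f ∈ D.slot i) :
    Irreducible f ∧ f.Monic ∧ f.coeff 0 ≠ 0 := by
  simp only [Dec.slot, Multiset.mem_map] at hf
  obtain ⟨j, -, rfl⟩ := hf
  exact ⟨(D.hkey j).1, (D.hkey j).2.1, (D.hkey j).2.2.1⟩

theorem Dec.count_slot [DecidableEq F[X]] {g : GL (Fin n) F} (D : Dec g) (i : Fin n) (f : F[X]) :
    (D.slot i).count f = D.count (f, i.1 + 1) := by
  letI := D.fin
  rw [Dec.count, Nat.card_eq_fintype_card, Fintype.card_subtype]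
  simp only [Dec.slot, Multiset.count_map, ← Finset.filter_val, Finset.card_val, Finset.filter_filter]
  congr 1
  ext j
  simp only [Finset.mem_filter, Finset.mem_univ, true_and, Prod.ext_iff]
  constructor
  · rintro ⟨h1, h2⟩; exact ⟨h2.symm, h1⟩
  · rintro ⟨h1, h2⟩; exact ⟨h2, h1.symm⟩

/-- The invariant tuple. -/
noncomputable def tup (g : GL (Fin n) F) (i : Fin n) : F[X] := ((dec g).slot i).prod

theorem tup_monic (g : GL (Fin n) F) (i : Fin n) : (tup g i).Monic ∧ (tup g i).coeff 0 ≠ 0 := by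
  classical
  refine ⟨by simpa [tup] using monic_multiset_prod_of_monic _ id (fun f hf => ((dec g).slot_mem i f hf).2.1), ?_⟩
  rw [tup, coeff_zero_multiset_prod]
  intro h0
  rw [Multiset.prod_eq_zero_iff, Multiset.mem_map] at h0
  obtain ⟨f, hf, hf0⟩ := h0
  exact ((dec g).slot_mem i f hf).2.2 hf0

theorem Dec.sum_fiber {g : GL (Fin n) F} (D : Dec g) {M : Type*} [CommMonoid M] (φ : F[X] → ℕ → M) :
    (letI := D.fin; ∏ j, φ (D.key j).1 (D.key j).2) =
      ∏ i : Fin n, ((D.slot i).map fun f => φ f (i.1 + 1)).prod := by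
  classical
  letI := D.fin
  rw [← Finset.prod_fiberwise_of_maps_to (s := Finset.univ) (t := Finset.univ)
    (g := fun j : D.J => (⟨(D.key j).2 - 1, by have := (D.hkey j).2.2.2; omega⟩ : Fin n)) (fun _ _ => Finset.mem_univ _)]
  refine Finset.prod_congr rfl fun i _ => ?_
  have hfil : (Finset.univ.filter fun j : D.J => (D.key j).2 = i.1 + 1) =
      Finset.univ.filter fun j : D.J => (⟨(D.key j).2 - 1, by have := (D.hkey j).2.2.2; omega⟩ : Fin n) = i := by
    ext j
    have := (D.hkey j).2.2.2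
    simp only [Finset.mem_filter, Finset.mem_univ, true_and, Fin.ext_iff]
    omega
  rw [← hfil]
  simp only [Dec.slot, Multiset.map_map, Function.comp_def]
  exact Finset.prod_congr rfl fun j hj => by rw [(Finset.mem_filter.1 hj).2]

theorem tup_natDegree (g : GL (Fin n) F) (i : Fin n) :
    (tup g i).natDegree = (((dec g).slot i).map natDegree).sum :=
  natDegree_multiset_prod_of_monic _ fun f hf => ((dec g).slot_mem i f hf).2.1

theorem sum_tup (g : GL (Fin n) F) : ∑ i, (i.1 + 1) * (tup g i).natDegree = n := by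
  conv_rhs => rw [← (dec g).hdeg]
  have h := (dec g).sum_fiber (M := Multiplicative ℕ) fun f e => Multiplicative.ofAdd (e * f.natDegree)
  have h' := congrArg Multiplicative.toAdd h
  rw [toAdd_prod, toAdd_prod] at h'
  simp only [toAdd_ofAdd] at h'
  rw [h']
  refine Finset.sum_congr rfl fun i _ => ?_
  rw [tup_natDegree]
  generalize (dec g).slot i = t
  induction t using Multiset.induction with
  | empty => simp
  | cons a t ih => simp only [Multiset.map_cons, Multiset.sum_cons, Multiset.prod_cons, toAdd_mul, toAdd_ofAdd, mul_add, ih]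

theorem Dec.isConj {g g' : GL (Fin n) F} (D : Dec g) (D' : Dec g') (h : ∀ i, D.slot i = D'.slot i) : IsConj g g' := by
  classical
  letI := D.fin
  letI := D'.fin
  have hfib : ∀ x : F[X] × ℕ, Fintype.card {j // D.key j = x} = Fintype.card {j // D'.key j = x} := by
    intro x
    simp only [← Nat.card_eq_fintype_card]
    show D.count x = D'.count x
    by_cases hx : 1 ≤ x.2 ∧ x.2 ≤ n
    · have hx' : x = (x.1, (⟨x.2 - 1, by omega⟩ : Fin n).1 + 1) := Prod.ext rfl (by show x.2 = x.2 - 1 + 1; omega)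
      rw [hx', ← D.count_slot, ← D'.count_slot, h]
    · have hz : ∀ {g : GL (Fin n) F} (D : Dec g), D.count x = 0 := fun D => by
        rw [Dec.count, Nat.card_eq_zero]
        exact Or.inl ⟨fun j => hx (j.2 ▸ (D.hkey j.1).2.2.2)⟩
      rw [hz, hz]
  let σ : D.J ≃ D'.J := Equiv.ofFiberEquiv fun x => Fintype.equivOfCardEq (hfib x)
  have hσ : ∀ j, D'.key (σ j) = D.key j := fun j => Equiv.ofFiberEquiv_map _ j
  let E : (∀ j, F[X] ⧸ (F[X] ∙ (D.key j).1 ^ (D.key j).2)) ≃ₗ[F[X]] ∀ j, F[X] ⧸ (F[X] ∙ (D'.key j).1 ^ (D'.key j).2) :=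
    (LinearEquiv.piCongrRight fun j => Submodule.quotEquivOfEq _ _ (by rw [hσ j])).trans
      (LinearEquiv.piCongrLeft F[X] (fun j => F[X] ⧸ (F[X] ∙ (D'.key j).1 ^ (D'.key j).2)) σ)
  exact conj_of_iso (D.iso.trans (E.trans D'.iso.symm))

theorem isConj_of_tup {g g' : GL (Fin n) F} (h : tup g = tup g') : IsConj g g' := by
  classical
  refine (dec g).isConj (dec g') fun i => ?_
  rw [← Cfsg.Agent.Linear.PrimeOrderClasses.normalizedFactors_prod_monic ((dec g).slot i)
      (fun f hf => ⟨((dec g).slot_mem i f hf).1, ((dec g).slot_mem i f hf).2.1⟩),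
    ← Cfsg.Agent.Linear.PrimeOrderClasses.normalizedFactors_prod_monic ((dec g').slot i)
      (fun f hf => ⟨((dec g').slot_mem i f hf).1, ((dec g').slot_mem i f hf).2.1⟩)]
  exact congrArg _ (congrFun h i)

/-! ### Scaling by a scalar -/

theorem scaleRoots_scaleRoots (f : F[X]) (a b : F) : (f.scaleRoots a).scaleRoots b = f.scaleRoots (a * b) := by
  ext i
  rw [coeff_scaleRoots, coeff_scaleRoots, coeff_scaleRoots, natDegree_scaleRoots, mul_assoc, mul_pow]

theorem scaleRoots_irreducible {f : F[X]} (hf : Irreducible f) {ζ : F} (hζ : ζ ≠ 0) :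
    Irreducible (f.scaleRoots ζ) := by
  constructor
  · intro h
    have h1 := natDegree_eq_zero_of_isUnit h
    rw [natDegree_scaleRoots] at h1
    exact hf.natDegree_pos.ne' h1
  · intro a b hab
    have h1 : f = a.scaleRoots ζ⁻¹ * b.scaleRoots ζ⁻¹ := by
      rw [← mul_scaleRoots_of_noZeroDivisors, ← hab, scaleRoots_scaleRoots, mul_inv_cancel₀ hζ, scaleRoots_one]
    have hu : ∀ c : F[X], IsUnit (c.scaleRoots ζ⁻¹) → IsUnit c := fun c hc => by
      rw [isUnit_iff_degree_eq_zero] at hc ⊢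
      rwa [degree_scaleRoots] at hc
    rcases hf.isUnit_or_isUnit h1 with h | h
    · exact Or.inl (hu a h)
    · exact Or.inr (hu b h)

theorem imCard_scale (g : Matrix (Fin n) (Fin n) F) (p : F[X]) {ζ : F} (hζ : ζ ≠ 0) :
    imCard (ζ • g) (p.scaleRoots ζ) = imCard g p := by
  have h : aeval (ζ • g) (p.scaleRoots ζ) = ζ ^ p.natDegree • aeval g p := by
    rw [Algebra.smul_def, aeval_def, scaleRoots_eval₂_mul_of_commute _ _ _ (Algebra.commutes _ _)
      (fun a b => Algebra.commutes a _), ← map_pow, ← Algebra.smul_def, ← aeval_def]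
  rw [imCard, imCard, h]
  congr 2
  ext w
  constructor
  · rintro ⟨v, rfl⟩
    exact ⟨ζ ^ p.natDegree • v, by simp only [Matrix.mulVec_smul, Matrix.smul_mulVec]⟩
  · rintro ⟨v, rfl⟩
    refine ⟨(ζ ^ p.natDegree)⁻¹ • v, ?_⟩
    simp only [Matrix.mulVec_smul, Matrix.smul_mulVec, smul_smul]
    rw [inv_mul_cancel₀ (pow_ne_zero _ hζ), one_smul]

theorem imCard_conj (P g : GL (Fin n) F) (p : F[X]) : imCard (P * g * P⁻¹ : GL (Fin n) F).1 p = imCard g.1 p := by
  have h : aeval (P * g * P⁻¹ : GL (Fin n) F).1 p = P.1 * aeval g.1 p * (P⁻¹ : GL (Fin n) F).1 := by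
    have h1 := aeval_algHom_apply (MulSemiringAction.toAlgEquiv F (Matrix (Fin n) (Fin n) F) (ConjAct.toConjAct P)).toAlgHom g.1 p
    simpa [ConjAct.units_smul_def] using h1
  rw [imCard, imCard, h]
  refine Nat.card_congr ((Equiv.setCongr ?_).trans (Equiv.Set.image (fun v => P.1 *ᵥ v) _ ?_).symm)
  · ext w
    constructor
    · rintro ⟨v, rfl⟩
      exact ⟨_, ⟨(P⁻¹ : GL (Fin n) F).1 *ᵥ v, rfl⟩, by simp [Matrix.mulVec_mulVec, Matrix.mul_assoc]⟩
    · rintro ⟨_, ⟨v, rfl⟩, rfl⟩
      refine ⟨P.1 *ᵥ v, ?_⟩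
      simp only [Matrix.mulVec_mulVec, Matrix.mul_assoc, ← Units.val_mul, inv_mul_cancel, Units.val_one, Matrix.mul_one]
  · intro v w hvw
    have := congrArg (fun x => (P⁻¹ : GL (Fin n) F).1 *ᵥ x) hvw
    simpa [Matrix.mulVec_mulVec, ← Units.val_mul] using this

theorem tup_scale {g g' : GL (Fin n) F} {ζ : F} (hζ : ζ ≠ 0) (hg : g'.1 = ζ • g.1) (hc : IsConj g g') (i : Fin n) :
    (tup g i).scaleRoots ζ = tup g i := by
  classical
  obtain ⟨P, hP⟩ := isConj_iff.1 hc
  have him : ∀ p : F[X], imCard g.1 (p.scaleRoots ζ) = imCard g.1 p := fun p => by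
    rw [← imCard_conj P g, hP, hg, imCard_scale _ _ hζ]
  have hcount : ∀ f ∈ (dec g).slot i, ((dec g).slot i).count (f.scaleRoots ζ) = ((dec g).slot i).count f := by
    intro f hf
    obtain ⟨h1, h2, -⟩ := (dec g).slot_mem i f hf
    rw [Dec.count_slot, Dec.count_slot]
    refine count_eq (dec g) (dec g) ⟨h1, h2⟩ ⟨scaleRoots_irreducible h1 hζ, (monic_scaleRoots_iff ζ).2 h2⟩
      (natDegree_scaleRoots f ζ) (fun j => ?_) _ (Nat.le_add_left 1 _)
    rw [← him (f ^ j)]
    congr 1
    induction j with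
    | zero => rw [pow_zero, pow_zero, one_scaleRoots]
    | succ j ih => rw [pow_succ, pow_succ, mul_scaleRoots_of_noZeroDivisors, ← ih]
  set s := (dec g).slot i
  have hinj : Function.Injective fun f : F[X] => f.scaleRoots ζ := fun a b hab => by
    have := congrArg (fun f : F[X] => f.scaleRoots ζ⁻¹) hab
    simpa only [scaleRoots_scaleRoots, mul_inv_cancel₀ hζ, scaleRoots_one] using this
  have hle : s.map (fun f => f.scaleRoots ζ) ≤ s := Multiset.le_iff_count.2 fun x => by
    by_cases hx : x ∈ s.map fun f => f.scaleRoots ζ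
    · obtain ⟨f, hf, rfl⟩ := Multiset.mem_map.1 hx
      rw [Multiset.count_map_eq_count' _ _ hinj, hcount f hf]
    · rw [Multiset.count_eq_zero_of_notMem hx]
      exact Nat.zero_le _
  have heq := Multiset.eq_of_le_of_card_le hle (by rw [Multiset.card_map])
  show s.prod.scaleRoots ζ = s.prod
  conv_rhs => rw [← heq]
  clear heq hle hcount
  induction s using Multiset.induction with
  | empty => rw [Multiset.map_zero, Multiset.prod_zero, one_scaleRoots]
  | cons a t ih =>
    rw [Multiset.map_cons, Multiset.prod_cons, Multiset.prod_cons, mul_scaleRoots_of_noZeroDivisors, ih]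

end Cfsg.Agent.KnownB.ClassTuples
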