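import Cfsg.Agent.KnownB.ClassTupleCount
import Cfsg.Agent.Linear.Card

/-!
# Class numbers of `SL_n(q)` and `PSL_n(q)`
-/

set_option autoImplicit false
set_option linter.unusedSectionVars false
set_option linter.style.haveILetI false

namespace Cfsg.Agent.KnownB.ClassTuples

open Polynomial Cfsg.Agent.Linear.GLClasses Cfsg.Agent.Linear.GLClassArith

universe u

variable {F : Type u} [Field F] [Fintype F] {n : ℕ}

/-- The tuple of an element. -/
noncomputable def tupT (g : GL (Fin n) F) : Tup F n n := ⟨tup g, tup_monic g, sum_tup g⟩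

theorem cst_tupT (g : GL (Fin n) F) : cst 1 (tupT g) = g.1.det := by
  rw [det_eq]
  simp only [cst, one_mul]
  rfl

theorem sigma_quot {X : Type*} {G : Type*} [Group G] (H : X → Subgroup G) {x y : X} {a b : G}
    (h : (⟨x, QuotientGroup.mk a⟩ : Σ x, G ⧸ H x) = ⟨y, QuotientGroup.mk b⟩) : a⁻¹ * b ∈ H x := by
  obtain ⟨rfl, h2⟩ := Sigma.mk.inj_iff.1 h
  exact QuotientGroup.eq.1 (eq_of_heq h2)

/-- Classes of `SL_n` lying in a set are counted by weighted tuples. -/
theorem card_classes_le_sum [DecidableEq F] [Fintype (Tup F n n)] (Q : ConjClasses (Matrix.SpecialLinearGroup (Fin n) F) → Prop)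
    (R : Tup F n n → Prop) [DecidablePred R]
    (h : ∀ (g : Matrix.SpecialLinearGroup (Fin n) F) (g0 : GL (Fin n) F), Q (ConjClasses.mk g) →
      IsConj g.toGL g0 → R (tupT g0)) :
    Nat.card {C // Q C} ≤ ∑ x : Tup F n n with cst 1 x = 1 ∧ R x, ew x := by
  classical
  choose rep hrep using fun C : {C // Q C} => ConjClasses.mk_surjective C.1
  let g0 : {C // Q C} → GL (Fin n) F := fun C => (ConjClasses.mk (rep C).toGL).out
  have hg0 : ∀ C, IsConj (rep C).toGL (g0 C) := fun C =>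
    ConjClasses.mk_eq_mk_iff_isConj.1 (Quotient.out_eq (ConjClasses.mk (rep C).toGL)).symm
  choose P hP using fun C => isConj_iff.1 (hg0 C)
  have hmem : ∀ C, cst 1 (tupT (g0 C)) = 1 ∧ R (tupT (g0 C)) := fun C => by
    refine ⟨?_, h (rep C) _ (by rw [hrep]; exact C.2) (hg0 C)⟩
    rw [cst_tupT, ← hP C, Units.val_mul, Units.val_mul, Matrix.det_units_conj]
    exact (rep C).2
  let Φ : {C // Q C} → Σ x : {x : Tup F n n // cst 1 x = 1 ∧ R x}, Fˣ ⧸ (powMonoidHom (ew x.1) : Fˣ →* Fˣ).range :=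
    fun C => ⟨⟨tupT (g0 C), hmem C⟩, QuotientGroup.mk (Matrix.GeneralLinearGroup.det (P C))⟩
  have hΦ : Function.Injective Φ := fun C D e => by
    have e1 : tupT (g0 C) = tupT (g0 D) := congrArg (fun x => (Sigma.fst x).1) e
    have e2 : g0 C = g0 D := by
      have := isConj_of_tup (congrArg Subtype.val e1)
      show (ConjClasses.mk _).out = (ConjClasses.mk _).out
      congr 1
      exact ConjClasses.mk_eq_mk_iff_isConj.2 ((hg0 C).trans (this.trans (hg0 D).symm))
    have e3 : (Matrix.GeneralLinearGroup.det (P C))⁻¹ * Matrix.GeneralLinearGroup.det (P D) ∈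
        (powMonoidHom (ew (tupT (g0 C))) : Fˣ →* Fˣ).range := by
      exact sigma_quot (fun x : {x : Tup F n n // cst 1 x = 1 ∧ R x} => (powMonoidHom (ew x.1) : Fˣ →* Fˣ).range)
        (x := ⟨tupT (g0 C), hmem C⟩) (y := ⟨tupT (g0 D), hmem D⟩) e
    obtain ⟨y, hy⟩ := e3
    have hc := pow_gcd_mem ((Subgroup.centralizer {g0 C}).map Matrix.GeneralLinearGroup.det) (sup (tupT (g0 C)))
      (fun i => i.1 + 1) (fun i hi x => by
        obtain ⟨c, hc1, hc2⟩ := exists_centralizer_det (g0 C) i (Finset.mem_filter.1 hi).2 x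
        exact ⟨c, Subgroup.mem_centralizer_singleton_iff.2 hc1, hc2⟩) y
    rw [Nat.card_units, Nat.card_eq_fintype_card] at hc
    obtain ⟨c, hc1, hc2⟩ := hc
    rw [SetLike.mem_coe, Subgroup.mem_centralizer_singleton_iff] at hc1
    change Matrix.GeneralLinearGroup.det c = y ^ ew (tupT (g0 C)) at hc2
    rw [powMonoidHom_apply, ← hc2] at hy
    set M := (P D)⁻¹ * c * P C with hM
    have hdet : Matrix.GeneralLinearGroup.det M = 1 := by
      rw [hM, map_mul, map_mul, map_inv, hy]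
      rw [mul_comm (Matrix.GeneralLinearGroup.det (P C))⁻¹, inv_mul_cancel_left, inv_mul_cancel]
    let w : Matrix.SpecialLinearGroup (Fin n) F := ⟨M.1, by simpa using congrArg Units.val hdet⟩
    have hw : w.toGL = M := Units.ext rfl
    refine Subtype.ext ?_
    rw [← hrep C, ← hrep D, ConjClasses.mk_eq_mk_iff_isConj]
    refine isConj_iff.2 ⟨w, Matrix.SpecialLinearGroup.toGL_injective ?_⟩
    rw [map_mul, map_mul, map_inv, hw, hM]
    calc (P D)⁻¹ * c * P C * (rep C).toGL * ((P D)⁻¹ * c * P C)⁻¹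
        = (P D)⁻¹ * (c * (P C * (rep C).toGL * (P C)⁻¹) * c⁻¹) * P D := by group
      _ = (P D)⁻¹ * g0 C * P D := by rw [hP C, hc1, mul_inv_cancel_right]
      _ = (P D)⁻¹ * (P D * (rep D).toGL * (P D)⁻¹) * P D := by rw [hP D, e2]
      _ = (rep D).toGL := by group
  refine (Nat.card_le_card_of_injective Φ hΦ).trans (le_of_eq ?_)
  rw [Nat.card_sigma, Finset.sum_subtype (p := fun x => cst 1 x = 1 ∧ R x)
    (Finset.univ.filter fun x : Tup F n n => cst 1 x = 1 ∧ R x) (by simp) ew]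
  refine Finset.sum_congr rfl fun x _ => ?_
  rw [← Subgroup.index, IsCyclic.index_powMonoidHom_range, Nat.card_units, Nat.card_eq_fintype_card,
    Nat.gcd_eq_right (ew_dvd_card x.1)]

/-! ### Tuples in a power of the variable -/

theorem card_dvd_le {k m r : ℕ} (hr : r ∣ m) (hm : 1 ≤ m) (hk : m ≤ k) :
    Nat.card {x : Tup F k m // ∀ i, (x.1 i).natDegree ≠ 0 → r ∣ i.1 + 1} ≤ A (Fintype.card F) (m / r) (m / r) := by
  classical
  have hr1 : 0 < r := Nat.pos_of_dvd_of_pos hr hm
  refine (Nat.card_le_card_of_injective (β := Tup F (k / r) (m / r)) (fun x => ⟨fun j => x.1.1 ⟨r * (j.1 + 1) - 1, by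
      have := Nat.mul_le_mul_left r (Nat.succ_le_of_lt j.2)
      have := Nat.mul_div_le k r
      have := Nat.mul_pos hr1 (Nat.succ_pos j.1)
      simp only [Nat.succ_eq_add_one] at *
      omega⟩, fun j => x.1.2.1 _, ?_⟩) ?_).trans (card_tup_le F (Nat.div_le_div_right hk))
  · refine Nat.eq_div_of_mul_eq_right hr1.ne' ?_
    rw [Finset.mul_sum]
    conv_rhs => rw [← x.1.2.2]
    let ι : Fin (k / r) → Fin k := fun j => ⟨r * (j.1 + 1) - 1, by
      have := Nat.mul_le_mul_left r (Nat.succ_le_of_lt j.2)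
      have := Nat.mul_div_le k r
      have := Nat.mul_pos hr1 (Nat.succ_pos j.1)
      simp only [Nat.succ_eq_add_one] at *
      omega⟩
    have hι : ∀ j, (ι j).1 + 1 = r * (j.1 + 1) := fun j => by
      have := Nat.mul_pos hr1 (Nat.succ_pos j.1)
      simp only [ι, Nat.succ_eq_add_one] at *
      omega
    refine Finset.sum_bij_ne_zero (fun j _ _ => ι j) (fun _ _ _ => Finset.mem_univ _) ?_ ?_ ?_
    · intro a _ _ b _ _ hab
      have h1 := hι a
      rw [hab, hι b] at h1
      exact Fin.ext (by have := Nat.eq_of_mul_eq_mul_left hr1 h1; omega)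
    · intro i _ hi
      have hd : (x.1.1 i).natDegree ≠ 0 := fun h => hi (by rw [h, mul_zero])
      obtain ⟨a, ha⟩ := x.2 i hd
      obtain ⟨a, rfl⟩ : ∃ a', a = a' + 1 := ⟨a - 1, by rcases a with _ | a <;> simp at ha ⊢⟩
      have hlt : a < k / r := by
        refine Nat.lt_of_succ_le ((Nat.le_div_iff_mul_le hr1).2 ?_)
        have := i.2
        rw [Nat.succ_eq_add_one, mul_comm]
        omega
      have he : ι ⟨a, hlt⟩ = i := Fin.ext (by have := hι ⟨a, hlt⟩; simp only at this; omega)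
      refine ⟨⟨a, hlt⟩, Finset.mem_univ _, ?_, he⟩
      show r * ((a + 1) * (x.1.1 (ι ⟨a, hlt⟩)).natDegree) ≠ 0
      rw [he, ← mul_assoc, ← ha]
      exact hi
    · intro j _ _
      show r * ((j.1 + 1) * (x.1.1 (ι j)).natDegree) = ((ι j).1 + 1) * _
      rw [hι j, mul_assoc]
  · intro x y h
    refine Subtype.ext (Subtype.ext (funext fun i => ?_))
    by_cases hi : r ∣ i.1 + 1
    · obtain ⟨a, ha⟩ := hi
      obtain ⟨a, rfl⟩ : ∃ a', a = a' + 1 := ⟨a - 1, by rcases a with _ | a <;> simp at ha ⊢⟩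
      have hlt : a < k / r := by
        refine Nat.lt_of_succ_le ((Nat.le_div_iff_mul_le hr1).2 ?_)
        have := i.2
        rw [Nat.succ_eq_add_one, mul_comm]
        omega
      have he : (⟨r * ((⟨a, hlt⟩ : Fin (k / r)).1 + 1) - 1, by simp only; omega⟩ : Fin k) = i :=
        Fin.ext (by simp only; omega)
      have := congrFun (congrArg Subtype.val h) ⟨a, hlt⟩
      simpa only [he] using this
    · have h0 : ∀ z : {x : Tup F k m // ∀ i, (x.1 i).natDegree ≠ 0 → r ∣ i.1 + 1}, z.1.1 i = 1 := fun z => by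
        refine (z.1.2.1 i).1.natDegree_eq_zero.1 ?_
        by_contra hne
        exact hi (z.2 i hne)
      rw [h0 x, h0 y]

/-- The sum of the squared weights. -/
theorem sum_sq_le {k m : ℕ} [Fintype (Tup F k m)] (hm : 1 ≤ m) (hk : m ≤ k) :
    ∑ x : Tup F k m, ew x ^ 2 ≤ A (Fintype.card F) m m +
      ∑ r ∈ ((Fintype.card F - 1).gcd m).divisors.erase 1, (r ^ 2 - 1) * A (Fintype.card F) (m / r) (m / r) := by
  classical
  set E := ((Fintype.card F - 1).gcd m).divisors.erase 1
  have hpt : ∀ x : Tup F k m, ew x ^ 2 ≤ 1 + ∑ r ∈ E, if ∀ i, (x.1 i).natDegree ≠ 0 → r ∣ i.1 + 1 then r ^ 2 - 1 else 0 := by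
    intro x
    by_cases h1 : ew x = 1
    · rw [h1]; simp
    · have hmem : ew x ∈ E := Finset.mem_erase.2 ⟨h1, Nat.mem_divisors.2
        ⟨Nat.dvd_gcd (ew_dvd_card x) (ew_dvd_deg x), (Nat.gcd_pos_of_pos_right _ hm).ne'⟩⟩
      refine le_trans ?_ (Nat.add_le_add_left (Finset.single_le_sum (fun _ _ => Nat.zero_le _) hmem) 1)
      rw [if_pos fun i hi => ew_dvd_mem x hi]
      omega
  refine (Finset.sum_le_sum fun x _ => hpt x).trans ?_
  rw [Finset.sum_add_distrib, Finset.sum_comm]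
  refine Nat.add_le_add ?_ (Finset.sum_le_sum fun r hr => ?_)
  · rw [Finset.sum_const, smul_eq_mul, mul_one, Finset.card_univ, ← Nat.card_eq_fintype_card]
    exact card_tup_le F hk
  · rw [← Finset.sum_filter, Finset.sum_const, smul_eq_mul, mul_comm]
    refine Nat.mul_le_mul_left _ ?_
    rw [← Fintype.card_subtype, ← Nat.card_eq_fintype_card]
    exact card_dvd_le ((Nat.dvd_of_mem_divisors (Finset.mem_of_mem_erase hr)).trans (Nat.gcd_dvd_right _ _)) hm hk

theorem scale_support {f : F[X]} (h0 : f.coeff 0 ≠ 0) {ζ : F} (hf : f.scaleRoots ζ = f) (hζ : ζ ≠ 0) :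
    orderOf ζ ∣ f.natDegree ∧ ∀ j, f.coeff j ≠ 0 → orderOf ζ ∣ j := by
  have h : ∀ j, f.coeff j ≠ 0 → orderOf ζ ∣ f.natDegree - j := fun j hj => by
    refine orderOf_dvd_of_pow_eq_one ?_
    have := congrArg (fun p : F[X] => p.coeff j) hf
    rw [coeff_scaleRoots] at this
    exact (mul_eq_left₀ hj).1 this
  have hd : orderOf ζ ∣ f.natDegree := by simpa using h 0 h0
  refine ⟨hd, fun j hj => ?_⟩
  have hle := le_natDegree_of_ne_zero hj
  exact (Nat.dvd_add_right (h j hj)).1 (by rwa [Nat.sub_add_cancel hle])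

/-- The weighted count of tuples invariant under scaling by an element of order `r`. -/
theorem sum_fixed_le [DecidableEq F] {m r : ℕ} (hn : r * m = n) (hr : 1 ≤ r) [Fintype (Tup F n n)] [Fintype (Tup F n m)]
    {ζ : F} (hζ : ζ ≠ 0) (hord : orderOf ζ = r) [DecidablePred fun x : Tup F n n => ∀ i, (x.1 i).scaleRoots ζ = x.1 i] :
    ∑ x : Tup F n n with cst 1 x = 1 ∧ ∀ i, (x.1 i).scaleRoots ζ = x.1 i, ew x ≤
      ∑ x : Tup F n m with cst r x = 1, ew x := by
  classical
  set S := Finset.univ.filter fun x : Tup F n n => cst 1 x = 1 ∧ ∀ i, (x.1 i).scaleRoots ζ = x.1 i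
  have key : ∀ x ∈ S, ∀ i, r ∣ (x.1 i).natDegree ∧ (contract r (x.1 i)).natDegree * r = (x.1 i).natDegree ∧
      (contract r (x.1 i)).Monic ∧ (contract r (x.1 i)).coeff 0 = (x.1 i).coeff 0 := by
    intro x hx i
    obtain ⟨-, hinv⟩ := (Finset.mem_filter.1 hx).2
    obtain ⟨⟨a, ha⟩, -⟩ := scale_support (x.2.1 i).2 (hinv i) hζ
    rw [hord] at ha
    have hr0 : r ≠ 0 := by omega
    have hlead : (contract r (x.1 i)).coeff a = 1 := by
      rw [coeff_contract hr0, mul_comm, ← ha]
      exact (x.2.1 i).1.coeff_natDegree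
    have hdeg : (contract r (x.1 i)).natDegree = a := by
      refine natDegree_eq_of_le_of_coeff_ne_zero (natDegree_le_iff_coeff_eq_zero.2 fun j hj => ?_) (by rw [hlead]; exact one_ne_zero)
      rw [coeff_contract hr0]
      refine coeff_eq_zero_of_natDegree_lt ?_
      rw [ha, mul_comm r a]
      exact Nat.mul_lt_mul_of_pos_right hj hr
    refine ⟨⟨a, ha⟩, by rw [hdeg, ha, mul_comm], ?_, by rw [coeff_contract hr0, zero_mul]⟩
    rw [Monic, leadingCoeff, hdeg, hlead]
  let Φ : S → Tup F n m := fun x => ⟨fun i => contract r (x.1.1 i),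
    fun i => ⟨(key x.1 x.2 i).2.2.1, by rw [(key x.1 x.2 i).2.2.2]; exact (x.1.2.1 i).2⟩, by
      refine Nat.eq_of_mul_eq_mul_left (show 0 < r from hr) ?_
      rw [hn, Finset.mul_sum]
      conv_rhs => rw [← x.1.2.2]
      refine Finset.sum_congr rfl fun i _ => ?_
      rw [← (key x.1 x.2 i).2.1]; ring⟩
  have hΦ : Function.Injective Φ := fun x y h => by
    refine Subtype.ext (Subtype.ext (funext fun i => Polynomial.ext fun j => ?_))
    by_cases hj : r ∣ j
    · obtain ⟨a, rfl⟩ := hj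
      have := congrArg (fun z : Tup F n m => (z.1 i).coeff a) h
      simp only [Φ, coeff_contract (show r ≠ 0 by omega)] at this
      rwa [mul_comm]
    · have hz : ∀ z : S, (z.1.1 i).coeff j = 0 := fun z => by
        by_contra hne
        exact hj (hord ▸ (scale_support (z.1.2.1 i).2 ((Finset.mem_filter.1 z.2).2.2 i) hζ).2 j hne)
      rw [hz x, hz y]
  have hew : ∀ x : S, ew (Φ x) = ew x.1 := fun x => by
    have : sup (Φ x) = sup x.1 := by
      ext i
      simp only [sup, Finset.mem_filter, Finset.mem_univ, true_and, Φ]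
      rw [← (key x.1 x.2 i).2.1]
      simp [show r ≠ 0 by omega]
    simp only [ew, this]
  have hc : ∀ x : S, cst r (Φ x) = 1 := fun x => by
    rw [← (Finset.mem_filter.1 x.2).2.1]
    simp only [cst, Φ, (key x.1 x.2 _).2.2.2, one_mul]
    refine Finset.prod_congr rfl fun i _ => ?_
    rw [← (key x.1 x.2 i).2.1, mul_comm r]
  calc ∑ x ∈ S, ew x = ∑ x : S, ew (Φ x) := by rw [← Finset.sum_coe_sort S]; exact Finset.sum_congr rfl fun x _ => (hew x).symm
    _ = ∑ y ∈ Finset.univ.image Φ, ew y := (Finset.sum_image hΦ.injOn).symm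
    _ ≤ _ := Finset.sum_le_sum_of_subset fun y hy => by
      obtain ⟨x, -, rfl⟩ := Finset.mem_image.1 hy
      exact Finset.mem_filter.2 ⟨Finset.mem_univ _, hc x⟩

end Cfsg.Agent.KnownB.ClassTuples
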