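import Cfsg.Agent.KnownB.SpBlocks
import Cfsg.Agent.KnownB.SLClassBound

/-!
# The classes of `Sp_2n(q)`, `q` odd, are determined by tuples and signs
-/

set_option autoImplicit false
set_option linter.unusedSectionVars false
set_option linter.style.haveILetI false

namespace Cfsg.Agent.KnownB.ClassTuples

open Polynomial Cfsg.Agent.Linear.UnipotentCent Cfsg.Agent.Linear.AltJordan Cfsg.Agent.Linear.SpUnipotentClasses
  Cfsg.Agent.Linear.SpPrimeClasses Cfsg.Agent.Linear.GUPrimeCount Cfsg.Agent.Linear.GUUnipotentCent Cfsg.Agent.Linear.HermJordan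
open scoped Matrix

universe u

variable {F : Type u} [Field F] [Fintype F] {n m : ℕ}

/-- The standard form on `Fin (2 * n)`. -/
noncomputable def omega (F : Type u) [Field F] (n : ℕ) : Matrix (Fin (2 * n)) (Fin (2 * n)) F :=
  Matrix.reindexAlgEquiv F F (E0 n).symm (Matrix.J (Fin n) F)

theorem toGL_omega (u : Matrix.symplecticGroup (Fin n) F) :
    (toGL F n u).1ᵀ * omega F n * (toGL F n u).1 = omega F n := by
  rw [toGL_val, omega]
  show Matrix.reindexAlgEquiv F F (E0 n).symm u.1ᵀ * _ * _ = _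
  rw [← map_mul, ← map_mul, SymplecticGroup.mem_iff'.1 u.2]

theorem omega_skew : (omega F n)ᵀ = -omega F n := by
  rw [omega, ← map_neg, ← Matrix.J_transpose]
  rfl

theorem omega_unit : IsUnit (omega F n).det := by
  rw [omega, Matrix.det_reindexAlgEquiv]
  exact Matrix.isUnit_det_J (Fin n) F

theorem count_hat_of_sp (u : Matrix.symplecticGroup (Fin n) F) (D : Dec (toGL F n u)) {x : F[X] × ℕ} (hx : GoodKey x) :
    D.count (hat x.1, x.2) = D.count x := by
  classical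
  have h0 := toGL_omega u
  generalize toGL F n u = g at D h0 ⊢
  have hσ2 : ∀ c : F, RingHom.id F (RingHom.id F c) = c := fun c => rfl
  let W : GL (Fin (2 * n)) F := ((Matrix.isUnit_iff_isUnit_det _).2 omega_unit).unit
  have hW : W.1 = omega F n := rfl
  have hc : IsConj g (adjI (RingHom.id F) g) := by
    refine isConj_iff.2 ⟨W, ?_⟩
    have h : adjI (RingHom.id F) g * W = W * g := by
      refine Units.ext ?_
      rw [Units.val_mul, Units.val_mul, hW]
      show ((g⁻¹ : GL (Fin (2 * n)) F).1.map (RingHom.id F))ᵀ * omega F n = omega F n * g.1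
      rw [RingHom.coe_id, Matrix.map_id]
      conv_lhs => rw [← h0]
      rw [← mul_assoc, ← mul_assoc, ← Matrix.transpose_mul, Units.mul_inv, Matrix.transpose_one, one_mul]
    rw [← h]
    group
  obtain ⟨D', e, he⟩ := exists_dec_conj D hc
  have h := count_adjI (RingHom.id F) hσ2 D D' hx
  have hD' : ∀ y, D'.count y = D.count y := fun y => D'.count_eq_of_equiv D.key e he y
  rw [tau, Polynomial.map_id, hD'] at h
  exact h

theorem hat_prod_of_counts {g : GL (Fin m) F} (D : Dec g) (h : ∀ x, GoodKey x → D.count (hat x.1, x.2) = D.count x)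
    (i : Fin m) : hat (D.slot i).prod = (D.slot i).prod := by
  classical
  set s := D.slot i with hs
  have hgood : ∀ f ∈ s, GoodKey (f, i.1 + 1) := fun f hf =>
    ⟨(D.slot_mem i f hf).1, (D.slot_mem i f hf).2.1, (D.slot_mem i f hf).2.2, Nat.le_add_left 1 _⟩
  have hcount : ∀ f ∈ s, s.count (hat f) = s.count f := fun f hf => by
    rw [hs, Dec.count_slot, Dec.count_slot]
    exact h (f, i.1 + 1) (hgood f hf)
  have hback : ∀ f ∈ s, hat (hat f) = f := fun f hf =>
    (hat_props (hgood f hf).2.1 (hgood f hf).2.2.1).2.2.1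
  have hle : s.map hat ≤ s := Multiset.le_iff_count.2 fun x => by
    by_cases hx : x ∈ s.map hat
    · obtain ⟨f, hf, rfl⟩ := Multiset.mem_map.1 hx
      rw [Multiset.count_map, hcount f hf, Multiset.count, Multiset.countP_eq_card_filter]
      refine le_of_eq (congrArg _ (Multiset.filter_congr fun y hy => ?_))
      constructor
      · intro h
        rw [← hback f hf, h, hback y hy]
      · rintro rfl
        rfl
    · rw [Multiset.count_eq_zero_of_notMem hx]
      exact Nat.zero_le _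
  have heq := Multiset.eq_of_le_of_card_le hle (by rw [Multiset.card_map])
  rw [hat_prod, heq]

theorem rootMultiplicity_slot {g : GL (Fin m) F} (D : Dec g) (i : Fin m) (s : F) :
    (D.slot i).prod.rootMultiplicity s = D.count (X - C s, i.1 + 1) := by
  classical
  rw [← D.count_slot i]
  have hgood : ∀ f ∈ D.slot i, Irreducible f ∧ f.Monic := fun f hf =>
    ⟨(D.slot_mem i f hf).1, (D.slot_mem i f hf).2.1⟩
  generalize D.slot i = t at hgood
  induction t using Multiset.induction with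
  | empty => rw [Multiset.prod_zero, ← C_1, rootMultiplicity_C, Multiset.count_zero]
  | cons a t ih =>
    obtain ⟨ha, ham⟩ := hgood a (Multiset.mem_cons_self _ _)
    have ht : (t.prod).Monic := by
      simpa using monic_multiset_prod_of_monic t id fun f hf => (hgood f (Multiset.mem_cons_of_mem hf)).2
    rw [Multiset.prod_cons, rootMultiplicity_mul (mul_ne_zero ha.ne_zero ht.ne_zero),
      ih fun f hf => hgood f (Multiset.mem_cons_of_mem hf), Multiset.count_cons, add_comm]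
    congr 1
    split_ifs with h
    · rw [← h, rootMultiplicity_X_sub_C_self]
    · refine rootMultiplicity_eq_zero fun hr => h ?_
      exact eq_of_monic_of_associated (monic_X_sub_C s) ham
        ((irreducible_X_sub_C s).associated_of_dvd ha (dvd_iff_isRoot.2 hr))

/-- A model for a class of `GL_m`: unipotent part, negative unipotent part, rest. -/
structure Model (g : GL (Fin m) F) where
  /-- number of blocks at one -/
  tp : ℕ
  /-- blocks at one -/
  dp : Fin tp → ℕ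
  /-- number of blocks at minus one -/
  tm : ℕ
  /-- blocks at minus one -/
  dm : Fin tm → ℕ
  /-- size of the rest -/
  r : ℕ
  /-- the rest -/
  A : GL (Fin r) F
  /-- the index map -/
  e : Idx dp ⊕ (Idx dm ⊕ Fin r) ≃ Fin m
  hdp : ∀ k, 1 ≤ dp k
  hdm : ∀ k, 1 ≤ dm k
  hA : IsUnit (A.1 - 1)
  hA' : IsUnit (A.1 + 1)
  hconj : IsConj (Matrix.reindex e e (Matrix.fromBlocks (Cfsg.jordanTypeMatrix dp F) 0 0
    (Matrix.fromBlocks (-Cfsg.jordanTypeMatrix dm F) 0 0 A.1))) g.1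
  hp : ∀ i, 1 ≤ i → (Finset.univ.filter fun k => dp k = i).card = (dec g).count (X - C 1, i)
  hm : ∀ i, 1 ≤ i → (Finset.univ.filter fun k => dm k = i).card = (dec g).count (X - C (-1), i)

theorem isConj_blocks {ι κ : Type*} [Fintype ι] [DecidableEq ι] [Fintype κ] [DecidableEq κ] {A A' : Matrix ι ι F}
    {B B' : Matrix κ κ F} (hA : IsConj A A') (hB : IsConj B B') :
    IsConj (Matrix.fromBlocks A 0 0 B) (Matrix.fromBlocks A' 0 0 B') := by
  obtain ⟨a, ha⟩ := hA
  obtain ⟨b, hb⟩ := hB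
  refine ⟨⟨Matrix.fromBlocks a.1 0 0 b.1, Matrix.fromBlocks (a⁻¹).1 0 0 (b⁻¹).1, ?_, ?_⟩, ?_⟩
  · rw [Matrix.fromBlocks_multiply]
    simp
  · rw [Matrix.fromBlocks_multiply]
    simp
  · show Matrix.fromBlocks a.1 0 0 b.1 * _ = _ * Matrix.fromBlocks a.1 0 0 b.1
    rw [Matrix.fromBlocks_multiply, Matrix.fromBlocks_multiply]
    simp [ha.eq, hb.eq]

theorem nonempty_model (h2 : (2 : F) ≠ 0) (g : GL (Fin m) F) : Nonempty (Model g) := by
  classical
  have hne : (X - C (-1 : F)) ≠ X - C 1 := fun h => by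
    have := congrArg (fun f => coeff f 0) h
    simp only [coeff_sub, coeff_X_zero, coeff_C_zero, zero_sub, neg_neg] at this
    exact h2 (by linear_combination this)
  obtain ⟨a, b, ε, A, B, DA, DB, hA, hB, hcA, hcB, hc⟩ := exists_split (dec g) fun f => f = X - C 1
  obtain ⟨a', b', ε', A', B', DA', DB', hA', hB', hcA', hcB', hc'⟩ := exists_split DB fun f => f = X - C (-1)
  obtain ⟨tp, dp, e1, hdp, hc1, hn1⟩ := exists_type DA one_ne_zero hA
  obtain ⟨tm, dm, e2, hdm, hc2, hn2⟩ := exists_type DA' (neg_ne_zero.2 one_ne_zero) hA'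
  rw [one_smul] at hc1
  rw [neg_one_smul] at hc2
  have hB1 : ∀ j, (DB'.key j).1 ≠ X - C 1 := fun j h => by
    have h1 := hcB' (DB'.key j) (hB' j)
    have hpos : 0 < DB.count (DB'.key j) := by
      rw [← h1]
      haveI : Nonempty {i // DB'.key i = DB'.key j} := ⟨⟨j, rfl⟩⟩
      letI := DB'.fin
      exact Nat.card_pos
    obtain ⟨⟨⟨i, hi⟩⟩, -⟩ := Nat.card_pos_iff.1 hpos
    exact hB i (by rw [hi, h])
  have hu1 := isUnit_sub_of_keys DB' 1 hB1
  have hu2 := isUnit_sub_of_keys DB' (-1) hB'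
  rw [map_one] at hu1
  rw [map_neg, map_one, sub_neg_eq_add] at hu2
  refine ⟨⟨tp, dp, tm, dm, b', B', ((Equiv.sumCongr e1 ((Equiv.sumCongr e2 (Equiv.refl _)).trans ε'))).trans ε, hdp, hdm,
    hu1, hu2, ?_, fun i hi => ?_, fun i hi => ?_⟩⟩
  · refine IsConj.trans ?_ hc
    have hB2 : IsConj (Matrix.reindex ε' ε' (Matrix.fromBlocks
        (Matrix.reindex e2 e2 (-Cfsg.jordanTypeMatrix dm F)) 0 0 B'.1)) B.1 :=
      ((Matrix.reindexAlgEquiv F F ε').toAlgHom.toRingHom.toMonoidHom.map_isConj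
        (isConj_blocks hc2 (IsConj.refl _))).trans hc'
    refine (show IsConj _ _ from ?_)
    have h := (Matrix.reindexAlgEquiv F F ε).toAlgHom.toRingHom.toMonoidHom.map_isConj (isConj_blocks hc1 hB2)
    refine Eq.mp (congrArg₂ IsConj ?_ rfl) h
    ext x y
    obtain ⟨x, rfl⟩ := ε.surjective x
    obtain ⟨y, rfl⟩ := ε.surjective y
    rcases x with x | x <;> rcases y with y | y <;>
      first
        | (obtain ⟨x, rfl⟩ := ε'.surjective x; obtain ⟨y, rfl⟩ := ε'.surjective y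
           rcases x with x | x <;> rcases y with y | y <;> simp)
        | (obtain ⟨x, rfl⟩ := ε'.surjective x; rcases x with x | x <;> simp)
        | (obtain ⟨y, rfl⟩ := ε'.surjective y; rcases y with y | y <;> simp)
        | simp
  · rw [hn1 i hi, hcA (X - C 1, i) rfl]
  · rw [hn2 i hi, hcA' (X - C (-1), i) rfl, hcB (X - C (-1), i) hne]

/-- The chosen model. -/
noncomputable def model (h2 : (2 : F) ≠ 0) (g : GL (Fin m) F) : Model g := (nonempty_model h2 g).some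

variable {g : GL (Fin m) F} (μ : Model g)

/-- The index type of a model. -/
abbrev Model.Ix : Type := Idx μ.dp ⊕ (Idx μ.dm ⊕ Fin μ.r)

/-- The matrix of a model. -/
noncomputable def Model.mat : Matrix μ.Ix μ.Ix F :=
  Matrix.fromBlocks (Cfsg.jordanTypeMatrix μ.dp F) 0 0 (Matrix.fromBlocks (-Cfsg.jordanTypeMatrix μ.dm F) 0 0 μ.A.1)

theorem nilpotent_E {t : ℕ} (d : Fin t → ℕ) : (Cfsg.jordanTypeMatrix d F - 1) ^ (∑ k, d k + 1) = 0 := by
  rw [jordanType_eq, add_sub_cancel_left]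
  ext x y
  rw [Cfsg.Agent.Linear.JordanTypeParity.E_pow_apply, if_neg, Matrix.zero_apply]
  rintro ⟨-, h⟩
  have := Finset.single_le_sum (f := d) (fun _ _ => Nat.zero_le _) (Finset.mem_univ x.1)
  have := x.2.2
  omega

/-- Invariant forms of a model are orthogonal sums. -/
theorem Model.form_blocks (h2 : (2 : F) ≠ 0) {G : Matrix μ.Ix μ.Ix F} (hskew : Gᵀ = -G) (hu : IsUnit G.det)
    (hinv : μ.matᵀ * G * μ.mat = G) :
    ∃ (Gp : Matrix (Idx μ.dp) (Idx μ.dp) F) (Gm : Matrix (Idx μ.dm) (Idx μ.dm) F) (G0 : Matrix (Fin μ.r) (Fin μ.r) F),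
      G = Matrix.fromBlocks Gp 0 0 (Matrix.fromBlocks Gm 0 0 G0) ∧ IsForm μ.dp Gp ∧ IsForm μ.dm Gm ∧
      G0ᵀ = -G0 ∧ IsUnit G0.det ∧ μ.A.1ᵀ * G0 * μ.A.1 = G0 := by
  classical
  obtain ⟨G11, G12, G21, G22, rfl⟩ : ∃ a b c d, G = Matrix.fromBlocks a b c d :=
    ⟨_, _, _, _, (Matrix.fromBlocks_toBlocks G).symm⟩
  rw [Model.mat, Matrix.fromBlocks_transpose, Matrix.fromBlocks_multiply, Matrix.fromBlocks_multiply] at hinv
  simp only [Matrix.transpose_zero, Matrix.zero_mul, Matrix.mul_zero, add_zero, zero_add] at hinv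
  obtain ⟨i11, i12, -, i22⟩ := Matrix.fromBlocks_inj.1 hinv
  rw [Matrix.fromBlocks_transpose, Matrix.fromBlocks_neg] at hskew
  obtain ⟨s11, -, s12, s22⟩ := Matrix.fromBlocks_inj.1 hskew
  set J := Cfsg.jordanTypeMatrix μ.dm F with hJ
  have hB : IsUnit (Matrix.fromBlocks (-J) 0 0 μ.A.1 - 1) := by
    have hsub : Matrix.fromBlocks (-J) 0 0 μ.A.1 - 1 = Matrix.fromBlocks (-J - 1) 0 0 (μ.A.1 - 1) := by
      rw [← Matrix.fromBlocks_one]
      ext (x | x) (y | y) <;> simp [Matrix.one_apply]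
    rw [Matrix.isUnit_iff_isUnit_det, hsub, Matrix.det_fromBlocks_zero₂₁]
    refine IsUnit.mul ((Matrix.isUnit_iff_isUnit_det _).1 ?_) ((Matrix.isUnit_iff_isUnit_det _).1 μ.hA)
    rw [hJ, show -Cfsg.jordanTypeMatrix μ.dm F - 1 =
      -(algebraMap F _ 2 + (Cfsg.jordanTypeMatrix μ.dm F - 1)) by rw [map_ofNat, ← one_add_one_eq_two]; abel]
    exact (IsNilpotent.isUnit_add_left_of_commute ⟨_, nilpotent_E μ.dm⟩ ((isUnit_iff_ne_zero.2 h2).map (algebraMap F _))
      (Algebra.commutes _ _).symm).neg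
  have h12 : G12 = 0 := cross_zero (nilpotent_E μ.dp) hB i12
  subst h12
  obtain rfl : G21 = 0 := neg_eq_zero.1 (s12 ▸ Matrix.transpose_zero)
  obtain ⟨H11, H12, H21, H22, rfl⟩ : ∃ a b c d, G22 = Matrix.fromBlocks a b c d :=
    ⟨_, _, _, _, (Matrix.fromBlocks_toBlocks G22).symm⟩
  rw [Matrix.fromBlocks_transpose, Matrix.fromBlocks_multiply, Matrix.fromBlocks_multiply] at i22
  simp only [Matrix.transpose_zero, Matrix.zero_mul, Matrix.mul_zero, add_zero, zero_add] at i22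
  obtain ⟨j11, j12, -, j22⟩ := Matrix.fromBlocks_inj.1 i22
  rw [Matrix.fromBlocks_transpose, Matrix.fromBlocks_neg] at s22
  obtain ⟨t11, -, t12, t22⟩ := Matrix.fromBlocks_inj.1 s22
  have hH12 : H12 = 0 := by
    refine cross_zero (A := J) (B := -μ.A.1) (nilpotent_E μ.dm) ?_ ?_
    · rw [show -μ.A.1 - 1 = -(μ.A.1 + 1) by abel]
      exact μ.hA'.neg
    · rw [Matrix.mul_neg]
      rw [Matrix.transpose_neg, Matrix.neg_mul, Matrix.neg_mul] at j12
      exact j12
  subst hH12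
  obtain rfl : H21 = 0 := neg_eq_zero.1 (t12 ▸ Matrix.transpose_zero)
  rw [Matrix.det_fromBlocks_zero₂₁, Matrix.det_fromBlocks_zero₂₁, IsUnit.mul_iff, IsUnit.mul_iff] at hu
  obtain ⟨u1, u2, u3⟩ := hu
  refine ⟨G11, H11, H22, rfl, ⟨s11, u1, i11⟩, ⟨t11, u2, ?_⟩, t22, u3, j22⟩
  rw [Matrix.transpose_neg, Matrix.neg_mul, Matrix.neg_mul, Matrix.mul_neg, neg_neg] at j11
  exact j11

variable {u v : Matrix.symplecticGroup (Fin n) F}

/-- The sign set of a form. -/
noncomputable def signs {t : ℕ} (d : Fin t → ℕ) (G : Matrix (Idx d) (Idx d) F) : Finset (Fin m) := by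
  classical
  exact Finset.univ.filter fun i : Fin m => Even (i.1 + 1) ∧ (∃ k, d k = i.1 + 1) ∧ ¬ IsSquare (topG (i.1 + 1) G).det

theorem signs_spec {t : ℕ} {d : Fin t → ℕ} (hd : ∀ k, 1 ≤ d k) (hle : ∑ k, d k ≤ m) {G G' : Matrix (Idx d) (Idx d) F}
    (h : (signs d G : Finset (Fin m)) = signs d G') (i : ℕ) (hi : Even i) (hk : ∃ k, d k = i) :
    IsSquare (topG i G).det ↔ IsSquare (topG i G').det := by
  obtain ⟨k, hk⟩ := hk
  have := hd k
  have := Finset.single_le_sum (f := d) (fun _ _ => Nat.zero_le _) (Finset.mem_univ k)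
  obtain ⟨j, rfl⟩ : ∃ j, i = j + 1 := ⟨i - 1, by omega⟩
  have h1 := Finset.ext_iff.1 h ⟨j, by omega⟩
  simp only [signs, Finset.mem_filter, Finset.mem_univ, true_and, hi, (⟨k, hk⟩ : ∃ k, d k = j + 1)] at h1
  exact not_iff_not.1 h1

theorem Model.sum_le : ∑ k, μ.dp k ≤ m ∧ ∑ k, μ.dm k ≤ m := by
  have h := Fintype.card_congr μ.e
  simp only [Fintype.card_sum, Fintype.card_sigma, Fintype.card_fin] at h
  omega

/-- The group element on the index type of a model. -/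
noncomputable def Model.act {g : GL (Fin (2 * n)) F} (μ : Model g) :
    Matrix (Fin (2 * n)) (Fin (2 * n)) F ≃ₐ[F] Matrix μ.Ix μ.Ix F :=
  Matrix.reindexAlgEquiv F F μ.e.symm

theorem Model.exists_form {g : GL (Fin (2 * n)) F} (μ : Model g) (h2 : (2 : F) ≠ 0) (hc : IsConj (toGL F n u) g) :
    ∃ (z : GL μ.Ix F) (Gp : Matrix (Idx μ.dp) (Idx μ.dp) F) (Gm : Matrix (Idx μ.dm) (Idx μ.dm) F)
      (G0 : Matrix (Fin μ.r) (Fin μ.r) F),
      z.1 * μ.mat = μ.act (toGL F n u).1 * z.1 ∧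
      z.1ᵀ * μ.act (omega F n) * z.1 = Matrix.fromBlocks Gp 0 0 (Matrix.fromBlocks Gm 0 0 G0) ∧
      IsForm μ.dp Gp ∧ IsForm μ.dm Gm ∧ G0ᵀ = -G0 ∧ IsUnit G0.det ∧ μ.A.1ᵀ * G0 * μ.A.1 = G0 := by
  obtain ⟨c, hc'⟩ := (Units.coeHom (Matrix (Fin (2 * n)) (Fin (2 * n)) F)).map_isConj hc
  obtain ⟨b, hb⟩ := μ.act.toAlgHom.toRingHom.toMonoidHom.map_isConj (μ.hconj.trans ⟨c⁻¹, hc'.units_inv_symm_left⟩)
  have hM : μ.act (Matrix.reindex μ.e μ.e μ.mat) = μ.mat := by
    ext x y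
    simp [Model.act]
  have hz : b.1 * μ.mat = μ.act (toGL F n u).1 * b.1 := by
    rw [← hM]
    exact hb.eq
  have hO : (μ.act (toGL F n u).1)ᵀ * μ.act (omega F n) * μ.act (toGL F n u).1 = μ.act (omega F n) := by
    show μ.act (toGL F n u).1ᵀ * _ * _ = _
    rw [← map_mul, ← map_mul, toGL_omega]
  have hOu : IsUnit (μ.act (omega F n)).det := by
    rw [Model.act, Matrix.det_reindexAlgEquiv]
    exact omega_unit
  have hOs : (μ.act (omega F n))ᵀ = -μ.act (omega F n) := by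
    show μ.act (omega F n)ᵀ = _
    rw [omega_skew, map_neg]
  have hbu := (Matrix.isUnit_iff_isUnit_det _).1 b.isUnit
  obtain ⟨Gp, Gm, G0, hG, h⟩ := μ.form_blocks h2 (G := b.1ᵀ * μ.act (omega F n) * b.1)
    (by rw [Matrix.transpose_mul, Matrix.transpose_mul, Matrix.transpose_transpose, hOs, Matrix.neg_mul, Matrix.mul_neg, mul_assoc])
    (by rw [Matrix.det_mul, Matrix.det_mul, Matrix.det_transpose]; exact (hbu.mul hOu).mul hbu)
    (by
      calc μ.matᵀ * (b.1ᵀ * μ.act (omega F n) * b.1) * μ.mat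
          = (b.1 * μ.mat)ᵀ * μ.act (omega F n) * (b.1 * μ.mat) := by rw [Matrix.transpose_mul]; simp only [mul_assoc]
        _ = b.1ᵀ * ((μ.act (toGL F n u).1)ᵀ * μ.act (omega F n) * μ.act (toGL F n u).1) * b.1 := by
          rw [hz, Matrix.transpose_mul]; simp only [mul_assoc]
        _ = _ := by rw [hO])
  exact ⟨b, Gp, Gm, G0, hz, hG, h⟩

/-- Equal forms of frames give conjugate elements. -/
theorem Model.conj {g : GL (Fin (2 * n)) F} (μ : Model g) {z w c : GL μ.Ix F}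
    (hz : z.1 * μ.mat = μ.act (toGL F n u).1 * z.1) (hw : w.1 * μ.mat = μ.act (toGL F n v).1 * w.1)
    (hc : c.1 * μ.mat = μ.mat * c.1)
    (h : c.1ᵀ * (z.1ᵀ * μ.act (omega F n) * z.1) * c.1 = w.1ᵀ * μ.act (omega F n) * w.1) : IsConj u v := by
  let R : Matrix (Fin n ⊕ Fin n) (Fin n ⊕ Fin n) F ≃ₐ[F] Matrix μ.Ix μ.Ix F :=
    (Matrix.reindexAlgEquiv F F (E0 n).symm).trans μ.act
  have hRt : ∀ A, R Aᵀ = (R A)ᵀ := fun A => rfl
  set Ω := μ.act (omega F n) with hΩ
  have hRJ : R (Matrix.J (Fin n) F) = Ω := rfl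
  set z' := z * c with hz'
  have hz'f : z'.1 * μ.mat = R u.1 * z'.1 := by
    rw [hz', Units.val_mul, mul_assoc, hc, ← mul_assoc, hz, mul_assoc]
    rfl
  have hform : z'.1ᵀ * Ω * z'.1 = w.1ᵀ * Ω * w.1 := by
    rw [hz', Units.val_mul, Matrix.transpose_mul, ← h]
    simp only [mul_assoc]
  set P := w.1 * (z'⁻¹ : GL μ.Ix F).1 with hP
  have hPi : Pᵀ * Ω * P = Ω := by
    calc Pᵀ * Ω * P = (z'⁻¹ : GL μ.Ix F).1ᵀ * (w.1ᵀ * Ω * w.1) * (z'⁻¹ : GL μ.Ix F).1 := by
          rw [hP, Matrix.transpose_mul]; simp only [mul_assoc]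
      _ = (z'.1 * (z'⁻¹ : GL μ.Ix F).1)ᵀ * Ω * (z'.1 * (z'⁻¹ : GL μ.Ix F).1) := by
        rw [← hform, Matrix.transpose_mul]; simp only [mul_assoc]
      _ = Ω := by rw [Units.mul_inv, Matrix.transpose_one, one_mul, mul_one]
  let p : Matrix.symplecticGroup (Fin n) F := ⟨R.symm P, SymplecticGroup.mem_iff'.2 (R.injective (by
    rw [map_mul, map_mul, hRt, R.apply_symm_apply, hRJ]; exact hPi))⟩
  refine isConj_iff.2 ⟨p, mul_inv_eq_iff_eq_mul.2 (Subtype.ext (R.injective ?_))⟩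
  show R (R.symm P * u.1) = R (v.1 * R.symm P)
  rw [map_mul R, map_mul R, R.apply_symm_apply]
  calc w.1 * (z'⁻¹ : GL μ.Ix F).1 * R u.1
      = w.1 * (z'⁻¹ : GL μ.Ix F).1 * (R u.1 * z'.1) * (z'⁻¹ : GL μ.Ix F).1 := by
        rw [mul_assoc _ (R u.1 * z'.1), mul_assoc (R u.1), Units.mul_inv, mul_one]
    _ = w.1 * μ.mat * (z'⁻¹ : GL μ.Ix F).1 := by
        rw [← hz'f, ← mul_assoc (w.1 * _) z'.1, mul_assoc w.1, Units.inv_mul, mul_one]
    _ = R v.1 * w.1 * (z'⁻¹ : GL μ.Ix F).1 := by rw [hw]; rfl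
    _ = _ := by rw [mul_assoc]

/-- The conditions on the data of a class. -/
def GoodData (x : Tup F (2 * n) (2 * n) × Finset (Fin (2 * n)) × Finset (Fin (2 * n))) : Prop :=
  (∀ i, hat (x.1.1 i) = x.1.1 i) ∧
  (∀ i : Fin (2 * n), Odd (i.1 + 1) → Even ((x.1.1 i).rootMultiplicity 1) ∧ Even ((x.1.1 i).rootMultiplicity (-1))) ∧
  (∀ i ∈ x.2.1, Even (i.1 + 1) ∧ 0 < (x.1.1 i).rootMultiplicity 1) ∧
  (∀ i ∈ x.2.2, Even (i.1 + 1) ∧ 0 < (x.1.1 i).rootMultiplicity (-1))

/-- The classes inject into their data. -/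
theorem card_classes_le_data (hodd : Odd (Fintype.card F)) :
    Nat.card (ConjClasses (Matrix.symplecticGroup (Fin n) F)) ≤
      Nat.card {x : Tup F (2 * n) (2 * n) × Finset (Fin (2 * n)) × Finset (Fin (2 * n)) // GoodData x} := by
  classical
  obtain ⟨p, hp⟩ := CharP.exists F
  haveI : Fact p.Prime := ⟨CharP.char_is_prime F p⟩
  have hp2 : p ≠ 2 := by
    rintro rfl
    exact (Nat.not_even_iff_odd.2 hodd) (FiniteField.even_card_iff_char_two.1 (ringChar.eq F 2) |> Nat.even_iff.2)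
  have h2 : (2 : F) ≠ 0 := Ring.two_ne_zero (by rw [ringChar.eq F p]; exact hp2)
  choose rep hrep using ConjClasses.mk_surjective (α := Matrix.symplecticGroup (Fin n) F)
  let g0 : ConjClasses (Matrix.symplecticGroup (Fin n) F) → GL (Fin (2 * n)) F :=
    fun c => (ConjClasses.mk (toGL F n (rep c))).out
  have hg0 : ∀ c, IsConj (toGL F n (rep c)) (g0 c) := fun c =>
    ConjClasses.mk_eq_mk_iff_isConj.1 (Quotient.out_eq (ConjClasses.mk (toGL F n (rep c)))).symm
  choose z Gp Gm G0 hz hG hp' hm' hs0 hu0 hi0 using fun c => (model h2 (g0 c)).exists_form h2 (hg0 c)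
  let Φ : ConjClasses (Matrix.symplecticGroup (Fin n) F) → Tup F (2 * n) (2 * n) × Finset (Fin (2 * n)) × Finset (Fin (2 * n)) :=
    fun c => (tupT (g0 c), signs (model h2 (g0 c)).dp (Gp c), signs (model h2 (g0 c)).dm (Gm c))
  have hgood : ∀ c, GoodData (Φ c) := fun c => by
    set μ := model h2 (g0 c)
    have hmult : ∀ (i : Fin (2 * n)) (s : F),
        ((tupT (g0 c)).1 i).rootMultiplicity s = (dec (g0 c)).count (X - C s, i.1 + 1) :=
      fun i s => rootMultiplicity_slot (dec (g0 c)) i s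
    refine ⟨fun i => hat_prod_of_counts (dec (g0 c)) (fun x hx => ?_) i, fun i hi => ⟨?_, ?_⟩, fun i hi => ?_,
      fun i hi => ?_⟩
    · obtain ⟨D', e, he⟩ := exists_dec_conj (dec (toGL F n (rep c))) (hg0 c)
      have hD' : ∀ y, D'.count y = (dec (toGL F n (rep c))).count y := fun y => D'.count_eq_of_equiv _ e he y
      rw [count_dec_eq (dec (g0 c)) D', count_dec_eq (dec (g0 c)) D', hD', hD']
      exact count_hat_of_sp _ _ hx
    · rw [hmult, ← μ.hp _ (Nat.le_add_left 1 _)]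
      exact even_count h2 (hp' c) hi
    · rw [hmult, ← μ.hm _ (Nat.le_add_left 1 _)]
      exact even_count h2 (hm' c) hi
    · obtain ⟨h1, ⟨k, hk⟩, -⟩ := (Finset.mem_filter.1 hi).2
      refine ⟨h1, ?_⟩
      rw [hmult, ← μ.hp _ (Nat.le_add_left 1 _)]
      exact Finset.card_pos.2 ⟨k, Finset.mem_filter.2 ⟨Finset.mem_univ _, hk⟩⟩
    · obtain ⟨h1, ⟨k, hk⟩, -⟩ := (Finset.mem_filter.1 hi).2
      refine ⟨h1, ?_⟩
      rw [hmult, ← μ.hm _ (Nat.le_add_left 1 _)]
      exact Finset.card_pos.2 ⟨k, Finset.mem_filter.2 ⟨Finset.mem_univ _, hk⟩⟩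
  haveI : Finite (Tup F (2 * n) (2 * n)) := instFinite_tup F _ _
  refine Nat.card_le_card_of_injective (fun c => (⟨Φ c, hgood c⟩ : {x // GoodData x})) fun c c' hcc => ?_
  have hΦ : Φ c = Φ c' := congrArg Subtype.val hcc
  have e1 : tupT (g0 c) = tupT (g0 c') := congrArg Prod.fst hΦ
  have e2 : g0 c = g0 c' := by
    have := isConj_of_tup (congrArg Subtype.val e1)
    show (ConjClasses.mk _).out = (ConjClasses.mk _).out
    congr 1
    exact ConjClasses.mk_eq_mk_iff_isConj.2 ((hg0 c).trans (this.trans (hg0 c').symm))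
  rw [← hrep c, ← hrep c', ConjClasses.mk_eq_mk_iff_isConj]
  have es1 : (signs (model h2 (g0 c)).dp (Gp c) : Finset (Fin (2 * n))) = signs (model h2 (g0 c')).dp (Gp c') :=
    congrArg (fun x => x.2.1) hΦ
  have es2 : (signs (model h2 (g0 c)).dm (Gm c) : Finset (Fin (2 * n))) = signs (model h2 (g0 c')).dm (Gm c') :=
    congrArg (fun x => x.2.2) hΦ
  have hzc := hz c
  have hzc' := hz c'
  have hGc := hG c
  have hGc' := hG c'
  have hpc := hp' c
  have hpc' := hp' c'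
  have hmc := hm' c
  have hmc' := hm' c'
  have hsc := hs0 c
  have hsc' := hs0 c'
  have huc := hu0 c
  have huc' := hu0 c'
  have hic := hi0 c
  have hic' := hi0 c'
  revert hzc hzc' hGc hGc' hpc hpc' hmc hmc' hsc hsc' huc huc' hic hic' es1 es2
  generalize z c = z₁, z c' = z₂, Gp c = P₁, Gp c' = P₂, Gm c = M₁, Gm c' = M₂, G0 c = O₁, G0 c' = O₂
  revert z₂ P₂ M₂ O₂
  rw [← e2]
  intro z₂ P₂ M₂ O₂ es1 es2 hzc hzc' hGc hGc' hpc hpc' hmc hmc' hsc hsc' huc huc' hic hic'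
  set μ := model h2 (g0 c)
  obtain ⟨cp, hcp, hcp'⟩ := exists_congr_com μ.hdp hp2 h2 hpc hpc' fun i hi hk => signs_spec μ.hdp μ.sum_le.1 es1 i hi hk
  obtain ⟨cm, hcm, hcm'⟩ := exists_congr_com μ.hdm hp2 h2 hmc hmc' fun i hi hk => signs_spec μ.hdm μ.sum_le.2 es2 i hi hk
  obtain ⟨c₀, hc₀, hc₀'⟩ := congr_centralizer μ.A μ.hA μ.hA' hsc hsc' huc huc' hic hic'
  let C : GL μ.Ix F := ⟨Matrix.fromBlocks cp.1 0 0 (Matrix.fromBlocks cm.1 0 0 c₀.1),
    Matrix.fromBlocks (cp⁻¹).1 0 0 (Matrix.fromBlocks (cm⁻¹).1 0 0 (c₀⁻¹).1),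
    by simp [Matrix.fromBlocks_multiply], by simp [Matrix.fromBlocks_multiply]⟩
  refine μ.conj hzc hzc' (c := C) ?_ ?_
  · show Matrix.fromBlocks cp.1 0 0 (Matrix.fromBlocks cm.1 0 0 c₀.1) * μ.mat =
      μ.mat * Matrix.fromBlocks cp.1 0 0 (Matrix.fromBlocks cm.1 0 0 c₀.1)
    rw [Model.mat]
    simp only [Matrix.fromBlocks_multiply, Matrix.zero_mul, Matrix.mul_zero, add_zero, zero_add, Matrix.mul_neg,
      Matrix.neg_mul, neg_zero, (com_iff cp.1).1 hcp, (com_iff cm.1).1 hcm, hc₀]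
  · rw [hGc, hGc']
    show (Matrix.fromBlocks cp.1 0 0 (Matrix.fromBlocks cm.1 0 0 c₀.1))ᵀ * _ * _ = _
    simp only [Matrix.fromBlocks_transpose, Matrix.fromBlocks_multiply, Matrix.transpose_zero, Matrix.zero_mul,
      Matrix.mul_zero, add_zero, zero_add, hcp', hcm', hc₀']
    simp [C, Matrix.fromBlocks_multiply, hcp', hcm', hc₀']

end Cfsg.Agent.KnownB.ClassTuples
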