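import Cfsg.Agent.KnownB.SymJordan
import Cfsg.Agent.KnownB.SpClassData

/-!
# The classes of orthogonal groups of even dimension, odd `q`, are determined by tuples and signs
-/

set_option autoImplicit false
set_option linter.unusedSectionVars false
set_option linter.style.haveILetI false

namespace Cfsg.Agent.KnownB.OrthClassCount

open Polynomial Cfsg.Agent.KnownB.ClassTuples Cfsg.Agent.KnownB.SymJordan Cfsg.Agent.Linear.UnipotentCent
  Cfsg.Agent.Linear.AltJordan Cfsg.Agent.Linear.SpPrimeClasses Cfsg.Agent.Linear.GUPrimeCount Cfsg.Agent.Linear.HermJordan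
open scoped Matrix

universe u

variable {F : Type u} [Field F] [Fintype F] {m : ℕ}

/-- The group of a bilinear form. -/
def orth (B : Matrix (Fin m) (Fin m) F) : Subgroup (GL (Fin m) F) where
  carrier := {g | g.1ᵀ * B * g.1 = B}
  one_mem' := by simp
  mul_mem' {a b} ha hb := by
    simp only [Set.mem_setOf_eq] at *
    calc (a * b : GL (Fin m) F).1ᵀ * B * (a * b : GL (Fin m) F).1 = b.1ᵀ * (a.1ᵀ * B * a.1) * b.1 := by
          rw [Units.val_mul, Matrix.transpose_mul]; simp only [mul_assoc]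
      _ = B := by rw [ha, hb]
  inv_mem' {a} ha := by
    simp only [Set.mem_setOf_eq] at *
    calc (a⁻¹ : GL (Fin m) F).1ᵀ * B * (a⁻¹ : GL (Fin m) F).1
        = (a⁻¹ : GL (Fin m) F).1ᵀ * (a.1ᵀ * B * a.1) * (a⁻¹ : GL (Fin m) F).1 := by rw [ha]
      _ = (a.1 * (a⁻¹ : GL (Fin m) F).1)ᵀ * B * (a.1 * (a⁻¹ : GL (Fin m) F).1) := by
        rw [Matrix.transpose_mul]; simp only [mul_assoc]
      _ = B := by rw [Units.mul_inv, Matrix.transpose_one, one_mul, mul_one]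

theorem isSquare_mul_iff {a b : F} (ha : a ≠ 0) (hb : b ≠ 0) : IsSquare (a * b) ↔ (IsSquare a ↔ IsSquare b) := by
  by_cases h1 : IsSquare a <;> by_cases h2' : IsSquare b
  · exact iff_of_true (h1.mul h2') (iff_of_true h1 h2')
  · exact iff_of_false (fun (hab : IsSquare (a * b)) => h2' (by simpa [ha] using hab.div h1)) fun h => h2' (h.1 h1)
  · exact iff_of_false (fun (hab : IsSquare (a * b)) => h1 (by simpa [hb] using hab.div h2')) fun h => h1 (h.2 h2')
  · exact iff_of_true (Cfsg.Agent.Forms.isSquare_mul_of_not_isSquare h1 h2') (iff_of_false h1 h2')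

theorem isSquare_congr {ι : Type*} [Fintype ι] [DecidableEq ι] {H H' : Matrix ι ι F} {u : GL ι F}
    (hu : u.1ᵀ * H * u.1 = H') : IsSquare H.det ↔ IsSquare H'.det := by
  have hu0 := ((Matrix.isUnit_iff_isUnit_det _).1 u.isUnit).ne_zero
  rw [← hu, Matrix.det_mul, Matrix.det_mul, Matrix.det_transpose]
  constructor
  · rintro ⟨s, hs⟩
    exact ⟨u.1.det * s, by rw [hs]; ring⟩
  · rintro ⟨s, hs⟩
    exact ⟨s / u.1.det, by field_simp; linear_combination hs⟩

variable {B : Matrix (Fin m) (Fin m) F}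

theorem count_hat_of_orth (hB : IsUnit B.det) {g : GL (Fin m) F} (hg : g ∈ orth B) (D : Dec g) {x : F[X] × ℕ}
    (hx : GoodKey x) : D.count (hat x.1, x.2) = D.count x := by
  classical
  have h0 : g.1ᵀ * B * g.1 = B := hg
  have hσ2 : ∀ c : F, RingHom.id F (RingHom.id F c) = c := fun c => rfl
  let W : GL (Fin m) F := ((Matrix.isUnit_iff_isUnit_det _).2 hB).unit
  have hW : W.1 = B := rfl
  have hc : IsConj g (adjI (RingHom.id F) g) := by
    refine isConj_iff.2 ⟨W, ?_⟩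
    have h : adjI (RingHom.id F) g * W = W * g := by
      refine Units.ext ?_
      rw [Units.val_mul, Units.val_mul, hW]
      show ((g⁻¹ : GL (Fin m) F).1.map (RingHom.id F))ᵀ * B = B * g.1
      rw [RingHom.coe_id, Matrix.map_id]
      conv_lhs => rw [← h0]
      rw [← mul_assoc, ← mul_assoc, ← Matrix.transpose_mul, Units.mul_inv, Matrix.transpose_one, one_mul]
    rw [← h]
    group
  obtain ⟨D', e, he⟩ := exists_dec_conj D hc
  have h := count_adjI (RingHom.id F) hσ2 D D' hx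
  have hD' : ∀ y, D'.count y = D.count y := fun y => D'.count_eq_of_equiv D.key e he y
  rw [tau, Polynomial.map_id, hD'] at h
  exact h

theorem congr_centralizer_sym {r : ℕ} (A : GL (Fin r) F) (h1 : IsUnit (A.1 - 1)) (h1' : IsUnit (A.1 + 1))
    {G G' : Matrix (Fin r) (Fin r) F} (hG : Gᵀ = G) (hG' : G'ᵀ = G') (hGu : IsUnit G.det) (hG'u : IsUnit G'.det)
    (hi : A.1ᵀ * G * A.1 = G) (hi' : A.1ᵀ * G' * A.1 = G') :
    ∃ w : GL (Fin r) F, w.1 * A.1 = A.1 * w.1 ∧ w.1ᵀ * G * w.1 = G' := by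
  set Ai := (A⁻¹ : GL (Fin r) F).1 with hAi
  set Z := A.1 - Ai with hZ
  have hZu : IsUnit Z := by
    rw [hZ, show A.1 - Ai = Ai * ((A.1 - 1) * (A.1 + 1)) by
      rw [show (A.1 - 1) * (A.1 + 1) = A.1 * A.1 - 1 by noncomm_ring, mul_sub, mul_one, ← mul_assoc, hAi,
        Units.inv_mul, one_mul]]
    exact (A⁻¹).isUnit.mul (h1.mul h1')
  have key : ∀ H : Matrix (Fin r) (Fin r) F, Hᵀ = H → A.1ᵀ * H * A.1 = H →
      (H * Z)ᵀ = -(H * Z) ∧ A.1ᵀ * (H * Z) * A.1 = H * Z := fun H hH hiH => by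
    have e1 : A.1ᵀ * H = H * Ai := by
      conv_rhs => rw [← hiH]
      rw [mul_assoc, mul_assoc, hAi, Units.mul_inv, mul_one]
    have e2 : Aiᵀ * H = H * A.1 := by
      conv_lhs => rw [← hiH]
      rw [← mul_assoc, ← mul_assoc, ← Matrix.transpose_mul, hAi, Units.mul_inv, Matrix.transpose_one, one_mul]
    constructor
    · rw [Matrix.transpose_mul, hH, hZ, Matrix.transpose_sub, sub_mul, e1, e2, mul_sub]
      abel
    · have hc : Z * A.1 = A.1 * Z := by rw [hZ, sub_mul, mul_sub, hAi, Units.inv_mul, Units.mul_inv]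
      rw [← mul_assoc A.1ᵀ, mul_assoc _ Z, hc, ← mul_assoc, hiH]
  obtain ⟨w, hw, hwG⟩ := congr_centralizer A h1 h1' (key G hG hi).1 (key G' hG' hi').1
    (by rw [Matrix.det_mul]; exact hGu.mul ((Matrix.isUnit_iff_isUnit_det _).1 hZu))
    (by rw [Matrix.det_mul]; exact hG'u.mul ((Matrix.isUnit_iff_isUnit_det _).1 hZu)) (key G hG hi).2 (key G' hG' hi').2
  refine ⟨w, hw, hZu.mul_right_cancel ?_⟩
  have hc : Commute Ai w.1 := (show Commute A.1 w.1 from hw.symm).units_inv_left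
  have hwZ : Z * w.1 = w.1 * Z := by rw [hZ, sub_mul, mul_sub, hw, hc.eq]
  rw [← hwG, mul_assoc (w.1ᵀ), mul_assoc (w.1ᵀ), mul_assoc (w.1ᵀ), mul_assoc G, mul_assoc G, hwZ]

/-- Invariant symmetric forms of a model are orthogonal sums. -/
theorem form_blocks {g : GL (Fin m) F} (μ : Model g) (h2 : (2 : F) ≠ 0) {G : Matrix μ.Ix μ.Ix F} (hsym : Gᵀ = G)
    (hu : IsUnit G.det) (hinv : μ.matᵀ * G * μ.mat = G) :
    ∃ (Gp : Matrix (Idx μ.dp) (Idx μ.dp) F) (Gm : Matrix (Idx μ.dm) (Idx μ.dm) F) (G0 : Matrix (Fin μ.r) (Fin μ.r) F),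
      G = Matrix.fromBlocks Gp 0 0 (Matrix.fromBlocks Gm 0 0 G0) ∧ IsSymForm μ.dp Gp ∧ IsSymForm μ.dm Gm ∧
      G0ᵀ = G0 ∧ IsUnit G0.det ∧ μ.A.1ᵀ * G0 * μ.A.1 = G0 := by
  classical
  obtain ⟨G11, G12, G21, G22, rfl⟩ : ∃ a b c d, G = Matrix.fromBlocks a b c d :=
    ⟨_, _, _, _, (Matrix.fromBlocks_toBlocks G).symm⟩
  rw [Model.mat, Matrix.fromBlocks_transpose, Matrix.fromBlocks_multiply, Matrix.fromBlocks_multiply] at hinv
  simp only [Matrix.transpose_zero, Matrix.zero_mul, Matrix.mul_zero, add_zero, zero_add] at hinv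
  obtain ⟨i11, i12, -, i22⟩ := Matrix.fromBlocks_inj.1 hinv
  rw [Matrix.fromBlocks_transpose] at hsym
  obtain ⟨s11, -, s12, s22⟩ := Matrix.fromBlocks_inj.1 hsym
  set J := Cfsg.jordanTypeMatrix μ.dm F with hJ
  have hB : IsUnit (Matrix.fromBlocks (-J) 0 0 μ.A.1 - 1) := by
    have hsub : Matrix.fromBlocks (-J) 0 0 μ.A.1 - 1 = Matrix.fromBlocks (-J - 1) 0 0 (μ.A.1 - 1) := by
      rw [← Matrix.fromBlocks_one]
      ext (x | x) (y | y) <;> simp [Matrix.one_apply]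
    rw [Matrix.isUnit_iff_isUnit_det, hsub, Matrix.det_fromBlocks_zero₂₁]
    refine IsUnit.mul ((Matrix.isUnit_iff_isUnit_det _).1 ?_) ((Matrix.isUnit_iff_isUnit_det _).1 μ.hA)
    rw [hJ, show -Cfsg.jordanTypeMatrix μ.dm F - 1 =
      -(algebraMap F _ 2 + (Cfsg.jordanTypeMatrix μ.dm F - 1)) by rw [map_ofNat, ← one_add_one_eq_two]; abel]
    exact (IsNilpotent.isUnit_add_left_of_commute ⟨_, nilpotent_E μ.dm⟩ ((isUnit_iff_ne_zero.2 h2).map (algebraMap F _))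
      (Algebra.commutes _ _).symm).neg
  have h12 : G12 = 0 := cross_zero (nilpotent_E μ.dp) hB i12
  subst h12
  obtain rfl : G21 = 0 := s12 ▸ Matrix.transpose_zero
  obtain ⟨H11, H12, H21, H22, rfl⟩ : ∃ a b c d, G22 = Matrix.fromBlocks a b c d :=
    ⟨_, _, _, _, (Matrix.fromBlocks_toBlocks G22).symm⟩
  rw [Matrix.fromBlocks_transpose, Matrix.fromBlocks_multiply, Matrix.fromBlocks_multiply] at i22
  simp only [Matrix.transpose_zero, Matrix.zero_mul, Matrix.mul_zero, add_zero, zero_add] at i22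
  obtain ⟨j11, j12, -, j22⟩ := Matrix.fromBlocks_inj.1 i22
  rw [Matrix.fromBlocks_transpose] at s22
  obtain ⟨t11, -, t12, t22⟩ := Matrix.fromBlocks_inj.1 s22
  have hH12 : H12 = 0 := by
    refine cross_zero (A := J) (B := -μ.A.1) (nilpotent_E μ.dm) ?_ ?_
    · rw [show -μ.A.1 - 1 = -(μ.A.1 + 1) by abel]
      exact μ.hA'.neg
    · rw [Matrix.mul_neg]
      rw [Matrix.transpose_neg, Matrix.neg_mul, Matrix.neg_mul] at j12
      exact j12
  subst hH12
  obtain rfl : H21 = 0 := t12 ▸ Matrix.transpose_zero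
  rw [Matrix.det_fromBlocks_zero₂₁, Matrix.det_fromBlocks_zero₂₁, IsUnit.mul_iff, IsUnit.mul_iff] at hu
  obtain ⟨u1, u2, u3⟩ := hu
  refine ⟨G11, H11, H22, rfl, ⟨s11, u1, i11⟩, ⟨t11, u2, ?_⟩, t22, u3, j22⟩
  rw [Matrix.transpose_neg, Matrix.neg_mul, Matrix.neg_mul, Matrix.mul_neg, neg_neg] at j11
  exact j11

/-- A matrix on the index type of a model. -/
noncomputable def tr {g : GL (Fin m) F} (μ : Model g) :
    Matrix (Fin m) (Fin m) F ≃ₐ[F] Matrix μ.Ix μ.Ix F := Matrix.reindexAlgEquiv F F μ.e.symm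

theorem exists_form {g : GL (Fin m) F} (μ : Model g) (h2 : (2 : F) ≠ 0) (hs : Bᵀ = B) (hu' : IsUnit B.det)
    {u : orth B} (hc : IsConj (u : GL (Fin m) F) g) :
    ∃ (z : GL μ.Ix F) (Gp : Matrix (Idx μ.dp) (Idx μ.dp) F) (Gm : Matrix (Idx μ.dm) (Idx μ.dm) F)
      (G0 : Matrix (Fin μ.r) (Fin μ.r) F),
      z.1 * μ.mat = tr μ u.1.1 * z.1 ∧
      z.1ᵀ * tr μ B * z.1 = Matrix.fromBlocks Gp 0 0 (Matrix.fromBlocks Gm 0 0 G0) ∧
      IsSymForm μ.dp Gp ∧ IsSymForm μ.dm Gm ∧ G0ᵀ = G0 ∧ IsUnit G0.det ∧ μ.A.1ᵀ * G0 * μ.A.1 = G0 := by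
  obtain ⟨c, hc'⟩ := (Units.coeHom (Matrix (Fin m) (Fin m) F)).map_isConj hc
  obtain ⟨b, hb⟩ := (tr μ).toAlgHom.toRingHom.toMonoidHom.map_isConj (μ.hconj.trans ⟨c⁻¹, hc'.units_inv_symm_left⟩)
  have hM : tr μ (Matrix.reindex μ.e μ.e μ.mat) = μ.mat := by
    ext x y
    simp [tr]
  have hz : b.1 * μ.mat = tr μ u.1.1 * b.1 := by
    rw [← hM]
    exact hb.eq
  have hO : (tr μ u.1.1)ᵀ * tr μ B * tr μ u.1.1 = tr μ B := by
    show tr μ u.1.1ᵀ * _ * _ = _
    rw [← map_mul, ← map_mul, show u.1.1ᵀ * B * u.1.1 = B from u.2]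
  have hOu : IsUnit (tr μ B).det := by
    rw [tr, Matrix.det_reindexAlgEquiv]
    exact hu'
  have hOs : (tr μ B)ᵀ = tr μ B := by
    show tr μ Bᵀ = _
    rw [hs]
  have hbu := (Matrix.isUnit_iff_isUnit_det _).1 b.isUnit
  obtain ⟨Gp, Gm, G0, hG, h⟩ := form_blocks μ h2 (G := b.1ᵀ * tr μ B * b.1)
    (by rw [Matrix.transpose_mul, Matrix.transpose_mul, Matrix.transpose_transpose, hOs, mul_assoc])
    (by rw [Matrix.det_mul, Matrix.det_mul, Matrix.det_transpose]; exact (hbu.mul hOu).mul hbu)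
    (by
      calc μ.matᵀ * (b.1ᵀ * tr μ B * b.1) * μ.mat
          = (b.1 * μ.mat)ᵀ * tr μ B * (b.1 * μ.mat) := by rw [Matrix.transpose_mul]; simp only [mul_assoc]
        _ = b.1ᵀ * ((tr μ u.1.1)ᵀ * tr μ B * tr μ u.1.1) * b.1 := by
          rw [hz, Matrix.transpose_mul]; simp only [mul_assoc]
        _ = _ := by rw [hO])
  exact ⟨b, Gp, Gm, G0, hz, hG, h⟩

/-- Equal forms of frames give conjugate elements. -/
theorem conj_of_forms {g : GL (Fin m) F} (μ : Model g) {u v : orth B} {z w c : GL μ.Ix F}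
    (hz : z.1 * μ.mat = tr μ u.1.1 * z.1) (hw : w.1 * μ.mat = tr μ v.1.1 * w.1)
    (hc : c.1 * μ.mat = μ.mat * c.1)
    (h : c.1ᵀ * (z.1ᵀ * tr μ B * z.1) * c.1 = w.1ᵀ * tr μ B * w.1) : IsConj u v := by
  set Ω := tr μ B with hΩ
  set z' := z * c with hz'
  have hz'f : z'.1 * μ.mat = tr μ u.1.1 * z'.1 := by
    rw [hz', Units.val_mul, mul_assoc, hc, ← mul_assoc, hz, mul_assoc]
  have hform : z'.1ᵀ * Ω * z'.1 = w.1ᵀ * Ω * w.1 := by
    rw [hz', Units.val_mul, Matrix.transpose_mul, ← h]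
    simp only [mul_assoc]
  let Pu : GL (Fin m) F := Units.mapEquiv (tr μ).symm.toMulEquiv (w * z'⁻¹)
  have hPv : tr μ Pu.1 = w.1 * (z'⁻¹ : GL μ.Ix F).1 := (tr μ).apply_symm_apply _
  have hPi : (tr μ Pu.1)ᵀ * Ω * tr μ Pu.1 = Ω := by
    rw [hPv]
    calc (w.1 * (z'⁻¹ : GL μ.Ix F).1)ᵀ * Ω * (w.1 * (z'⁻¹ : GL μ.Ix F).1)
        = (z'⁻¹ : GL μ.Ix F).1ᵀ * (w.1ᵀ * Ω * w.1) * (z'⁻¹ : GL μ.Ix F).1 := by
          rw [Matrix.transpose_mul]; simp only [mul_assoc]
      _ = (z'.1 * (z'⁻¹ : GL μ.Ix F).1)ᵀ * Ω * (z'.1 * (z'⁻¹ : GL μ.Ix F).1) := by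
        rw [← hform, Matrix.transpose_mul]; simp only [mul_assoc]
      _ = Ω := by rw [Units.mul_inv, Matrix.transpose_one, one_mul, mul_one]
  let p : orth B := ⟨Pu, (tr μ).injective (by
    rw [map_mul, map_mul, show tr μ Pu.1ᵀ = (tr μ Pu.1)ᵀ from rfl]; exact hPi)⟩
  refine isConj_iff.2 ⟨p, mul_inv_eq_iff_eq_mul.2 (Subtype.ext (Units.ext ((tr μ).injective ?_)))⟩
  show tr μ (Pu.1 * u.1.1) = tr μ (v.1.1 * Pu.1)
  rw [map_mul, map_mul, hPv]
  calc w.1 * (z'⁻¹ : GL μ.Ix F).1 * tr μ u.1.1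
      = w.1 * (z'⁻¹ : GL μ.Ix F).1 * (tr μ u.1.1 * z'.1) * (z'⁻¹ : GL μ.Ix F).1 := by
        rw [mul_assoc _ (tr μ u.1.1 * z'.1), mul_assoc (tr μ u.1.1), Units.mul_inv, mul_one]
    _ = w.1 * μ.mat * (z'⁻¹ : GL μ.Ix F).1 := by
        rw [← hz'f, ← mul_assoc (w.1 * _) z'.1, mul_assoc w.1, Units.inv_mul, mul_one]
    _ = tr μ v.1.1 * w.1 * (z'⁻¹ : GL μ.Ix F).1 := by rw [hw]
    _ = _ := by rw [mul_assoc]

/-- The sign set of a form. -/
noncomputable def signs {t : ℕ} (d : Fin t → ℕ) (G : Matrix (Idx d) (Idx d) F) : Finset (Fin m) := by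
  classical
  exact Finset.univ.filter fun i : Fin m => Odd (i.1 + 1) ∧ (∃ k, d k = i.1 + 1) ∧ ¬ IsSquare (topG (i.1 + 1) G).det

theorem exists_index {t : ℕ} {d : Fin t → ℕ} (hle : ∑ k, d k ≤ m) {i : ℕ} (hi : Odd i) (hk : ∃ k, d k = i) :
    ∃ j : Fin m, i = j.1 + 1 := by
  obtain ⟨k, hk⟩ := hk
  have := Finset.single_le_sum (f := d) (fun _ _ => Nat.zero_le _) (Finset.mem_univ k)
  obtain ⟨c, hc⟩ := hi
  exact ⟨⟨i - 1, by omega⟩, by show i = i - 1 + 1; omega⟩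

theorem mem_signs {t : ℕ} {d : Fin t → ℕ} {G : Matrix (Idx d) (Idx d) F} {j : Fin m} (hj : Odd (j.1 + 1))
    (hk : ∃ k, d k = j.1 + 1) : j ∈ (signs d G : Finset (Fin m)) ↔ ¬ IsSquare (topG (j.1 + 1) G).det := by
  classical
  simp [signs, hj, hk]

/-- A class datum. -/
abbrev Datum (F : Type u) [Field F] (m : ℕ) := Tup F m m × Finset (Fin m) × Finset (Fin m)

/-- The conditions on the data of a class. -/
def GoodData (x : Datum F m) : Prop :=
  (∀ i, hat (x.1.1 i) = x.1.1 i) ∧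
  (∀ i : Fin m, Even (i.1 + 1) → Even ((x.1.1 i).rootMultiplicity 1) ∧ Even ((x.1.1 i).rootMultiplicity (-1))) ∧
  (∀ i ∈ x.2.1, Odd (i.1 + 1) ∧ 0 < (x.1.1 i).rootMultiplicity 1) ∧
  (∀ i ∈ x.2.2, Odd (i.1 + 1) ∧ 0 < (x.1.1 i).rootMultiplicity (-1))

/-- Data without odd parts at `1` and `-1`. -/
def Rigid (x : Datum F m) : Prop :=
  ∀ i : Fin m, Odd (i.1 + 1) → (x.1.1 i).rootMultiplicity 1 = 0 ∧ (x.1.1 i).rootMultiplicity (-1) = 0

open Classical in
/-- The indices of the odd parts at `s`. -/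
noncomputable def oddParts (s : F) (h : Tup F m m) : Finset (Fin m) :=
  Finset.univ.filter fun i => Odd (i.1 + 1) ∧ 0 < (h.1 i).rootMultiplicity s

/-- The least index in a set, as a set. -/
noncomputable def least (S : Finset (Fin m)) : Finset (Fin m) := S.filter fun i => ∀ j ∈ S, i ≤ j

theorem least_eq_singleton {S : Finset (Fin m)} (h : S.Nonempty) : ∃ i ∈ S, least S = {i} := by
  refine ⟨S.min' h, S.min'_mem h, Finset.ext fun j => ?_⟩
  simp only [least, Finset.mem_filter, Finset.mem_singleton]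
  constructor
  · rintro ⟨h1, h2⟩
    exact le_antisymm (h2 _ (S.min'_mem h)) (S.min'_le j h1)
  · rintro rfl
    exact ⟨S.min'_mem h, fun k hk => S.min'_le k hk⟩

open Classical in
/-- The sign to flip at `1`. -/
noncomputable def flipP (h : Tup F m m) : Finset (Fin m) := least (oddParts 1 h)

open Classical in
/-- The sign to flip at `-1`. -/
noncomputable def flipM (h : Tup F m m) : Finset (Fin m) :=
  if (oddParts 1 h).Nonempty then ∅ else least (oddParts (-1) h)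

open Classical in
/-- Flipping one sign. -/
noncomputable def flip (x : Datum F m) : Datum F m :=
  (x.1, symmDiff x.2.1 (flipP x.1), symmDiff x.2.2 (flipM x.1))

theorem flip_flip (x : Datum F m) : flip (flip x) = x := by
  simp [flip, symmDiff_symmDiff_cancel_right]

theorem good_flip {x : Datum F m} (hx : GoodData x) : GoodData (flip x) := by
  classical
  obtain ⟨h1, h2, h3, h4⟩ := hx
  refine ⟨h1, h2, fun i hi => ?_, fun i hi => ?_⟩
  · rcases Finset.mem_symmDiff.1 hi with h | h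
    · exact h3 i h.1
    · exact (Finset.mem_filter.1 (Finset.mem_of_mem_filter i h.1)).2
  · rcases Finset.mem_symmDiff.1 hi with h | h
    · exact h4 i h.1
    · have h' := h.1
      simp only [flipM] at h'
      split_ifs at h' with hn
      · exact absurd h' (Finset.notMem_empty _)
      · exact (Finset.mem_filter.1 (Finset.mem_of_mem_filter i h')).2

theorem parity_left {b p p' q q' o o' : Prop} (h : b ↔ (p ↔ (q ↔ o))) (h' : b ↔ (p' ↔ (q' ↔ o')))
    (hp : p ↔ ¬ p') (hq : q ↔ q') (ho : o ↔ o') : False := by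
  rw [hp, hq, ho, h'] at h
  by_cases hp' : p' <;> simp_all

theorem parity_right {b p p' q q' o o' : Prop} (h : b ↔ (p ↔ (q ↔ o))) (h' : b ↔ (p' ↔ (q' ↔ o')))
    (hp : p ↔ p') (hq : q ↔ ¬ q') (ho : o ↔ o') : False := by
  rw [hp, hq, ho, h'] at h
  by_cases hp' : p' <;> by_cases hq' : q' <;> simp_all

section Core

variable [Fact (Nat.Prime (ringChar F))]

theorem isConj_of_data (hp2 : ringChar F ≠ 2) (h2 : (2 : F) ≠ 0) {g : GL (Fin m) F} (μ : Model g) {u v : orth B}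
    {z₁ z₂ : GL μ.Ix F} {P₁ P₂ : Matrix (Idx μ.dp) (Idx μ.dp) F} {M₁ M₂ : Matrix (Idx μ.dm) (Idx μ.dm) F}
    {O₁ O₂ : Matrix (Fin μ.r) (Fin μ.r) F}
    (es1 : (signs μ.dp P₁ : Finset (Fin m)) = signs μ.dp P₂) (es2 : (signs μ.dm M₁ : Finset (Fin m)) = signs μ.dm M₂)
    (hzc : z₁.1 * μ.mat = tr μ u.1.1 * z₁.1) (hzc' : z₂.1 * μ.mat = tr μ v.1.1 * z₂.1)
    (hGc : z₁.1ᵀ * tr μ B * z₁.1 = Matrix.fromBlocks P₁ 0 0 (Matrix.fromBlocks M₁ 0 0 O₁))
    (hGc' : z₂.1ᵀ * tr μ B * z₂.1 = Matrix.fromBlocks P₂ 0 0 (Matrix.fromBlocks M₂ 0 0 O₂))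
    (hpc : IsSymForm μ.dp P₁) (hpc' : IsSymForm μ.dp P₂) (hmc : IsSymForm μ.dm M₁) (hmc' : IsSymForm μ.dm M₂)
    (hsc : O₁ᵀ = O₁) (hsc' : O₂ᵀ = O₂) (huc : IsUnit O₁.det) (huc' : IsUnit O₂.det)
    (hic : μ.A.1ᵀ * O₁ * μ.A.1 = O₁) (hic' : μ.A.1ᵀ * O₂ * μ.A.1 = O₂) : IsConj u v := by
  have hsame : ∀ {t : ℕ} {d : Fin t → ℕ} (_ : ∑ k, d k ≤ m) {G G' : Matrix (Idx d) (Idx d) F},
      (signs d G : Finset (Fin m)) = signs d G' → ∀ i, Odd i → (∃ k, d k = i) →
        (IsSquare (topG i G).det ↔ IsSquare (topG i G').det) := by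
    intro t d hle G G' he i hi hk
    obtain ⟨j, rfl⟩ := exists_index (m := m) hle hi hk
    have := Finset.ext_iff.1 he j
    rw [mem_signs hi hk, mem_signs hi hk] at this
    exact not_iff_not.1 this
  obtain ⟨cp, hcp, hcp'⟩ := SymJordan.exists_congr_com (p := ringChar F) μ.hdp hp2 h2 hpc hpc' (hsame μ.sum_le.1 es1)
  obtain ⟨cm, hcm, hcm'⟩ := SymJordan.exists_congr_com (p := ringChar F) μ.hdm hp2 h2 hmc hmc' (hsame μ.sum_le.2 es2)
  obtain ⟨c₀, hc₀, hc₀'⟩ := congr_centralizer_sym μ.A μ.hA μ.hA' hsc hsc' huc huc' hic hic'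
  let C : GL μ.Ix F := ⟨Matrix.fromBlocks cp.1 0 0 (Matrix.fromBlocks cm.1 0 0 c₀.1),
    Matrix.fromBlocks (cp⁻¹).1 0 0 (Matrix.fromBlocks (cm⁻¹).1 0 0 (c₀⁻¹).1),
    by simp [Matrix.fromBlocks_multiply], by simp [Matrix.fromBlocks_multiply]⟩
  refine conj_of_forms μ hzc hzc' (c := C) ?_ ?_
  · show Matrix.fromBlocks cp.1 0 0 (Matrix.fromBlocks cm.1 0 0 c₀.1) * μ.mat =
      μ.mat * Matrix.fromBlocks cp.1 0 0 (Matrix.fromBlocks cm.1 0 0 c₀.1)
    rw [Model.mat]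
    simp only [Matrix.fromBlocks_multiply, Matrix.zero_mul, Matrix.mul_zero, add_zero, zero_add, Matrix.mul_neg,
      Matrix.neg_mul, neg_zero, (com_iff cp.1).1 hcp, (com_iff cm.1).1 hcm, hc₀]
  · rw [hGc, hGc']
    simp [C, Matrix.fromBlocks_transpose, Matrix.fromBlocks_multiply, hcp', hcm', hc₀']

theorem no_flip (hp2 : ringChar F ≠ 2) (h2 : (2 : F) ≠ 0) {g : GL (Fin m) F} (μ : Model g)
    (hr : ¬ ∀ i : Fin m, Odd (i.1 + 1) → ((tupT g).1 i).rootMultiplicity 1 = 0 ∧ ((tupT g).1 i).rootMultiplicity (-1) = 0)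
    {z₁ z₂ : GL μ.Ix F} {P₁ P₂ : Matrix (Idx μ.dp) (Idx μ.dp) F} {M₁ M₂ : Matrix (Idx μ.dm) (Idx μ.dm) F}
    {O₁ O₂ : Matrix (Fin μ.r) (Fin μ.r) F}
    (hGc : z₁.1ᵀ * tr μ B * z₁.1 = Matrix.fromBlocks P₁ 0 0 (Matrix.fromBlocks M₁ 0 0 O₁))
    (hGc' : z₂.1ᵀ * tr μ B * z₂.1 = Matrix.fromBlocks P₂ 0 0 (Matrix.fromBlocks M₂ 0 0 O₂))
    (hpc : IsSymForm μ.dp P₁) (hpc' : IsSymForm μ.dp P₂) (hmc : IsSymForm μ.dm M₁) (hmc' : IsSymForm μ.dm M₂)
    (hsc : O₁ᵀ = O₁) (hsc' : O₂ᵀ = O₂) (huc : IsUnit O₁.det) (huc' : IsUnit O₂.det)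
    (hic : μ.A.1ᵀ * O₁ * μ.A.1 = O₁) (hic' : μ.A.1ᵀ * O₂ * μ.A.1 = O₂)
    (es1 : (signs μ.dp P₂ : Finset (Fin m)) = symmDiff (signs μ.dp P₁) (flipP (tupT g)))
    (es2 : (signs μ.dm M₂ : Finset (Fin m)) = symmDiff (signs μ.dm M₁) (flipM (tupT g))) : False := by
  classical
  have hmult : ∀ (i : Fin m) (s : F), ((tupT g).1 i).rootMultiplicity s = (dec g).count (X - C s, i.1 + 1) :=
    fun i s => rootMultiplicity_slot (dec g) i s
  obtain ⟨c₀, -, hc₀'⟩ := congr_centralizer_sym μ.A μ.hA μ.hA' hsc hsc' huc huc' hic hic'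
  have hO := isSquare_congr hc₀'
  have hparts : ∀ (s : F) {t : ℕ} {d : Fin t → ℕ}, (∀ i, 1 ≤ i → (Finset.univ.filter fun k => d k = i).card =
      (dec g).count (X - C s, i)) → ∀ j : Fin m, j ∈ oddParts s (tupT g) ↔ Odd (j.1 + 1) ∧ ∃ k, d k = j.1 + 1 := by
    intro s t d hd j
    simp only [oddParts, Finset.mem_filter, Finset.mem_univ, true_and, hmult]
    rw [← hd _ (Nat.le_add_left 1 _), Finset.card_pos]
    exact and_congr_right fun _ => ⟨fun ⟨k, hk⟩ => ⟨k, (Finset.mem_filter.1 hk).2⟩,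
      fun ⟨k, hk⟩ => ⟨k, Finset.mem_filter.2 ⟨Finset.mem_univ _, hk⟩⟩⟩
  have hkeep : ∀ {t : ℕ} {d : Fin t → ℕ} (_ : ∀ k, 1 ≤ d k) (_ : ∑ k, d k ≤ m) {G G' : Matrix (Idx d) (Idx d) F},
      IsSymForm d G → IsSymForm d G' → (signs d G' : Finset (Fin m)) = symmDiff (signs d G) ∅ →
      (IsSquare G.det ↔ IsSquare G'.det) := by
    intro t d hd hle G G' hG hG' he
    obtain ⟨w, -, hw⟩ := SymJordan.exists_congr_com (p := ringChar F) hd hp2 h2 hG hG' fun i hi hk => by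
      obtain ⟨j, rfl⟩ := exists_index (m := m) hle hi hk
      have := Finset.ext_iff.1 he j
      rw [← Finset.bot_eq_empty, symmDiff_bot, mem_signs hi hk, mem_signs hi hk] at this
      exact (not_iff_not.1 this).symm
    exact isSquare_congr hw
  have hswap : ∀ {t : ℕ} {d : Fin t → ℕ} (_ : ∀ k, 1 ≤ d k) (_ : ∑ k, d k ≤ m) {G G' : Matrix (Idx d) (Idx d) F}
      (j₀ : Fin m), IsSymForm d G → IsSymForm d G' → Odd (j₀.1 + 1) → (∃ k, d k = j₀.1 + 1) →
      (signs d G' : Finset (Fin m)) = symmDiff (signs d G) {j₀} → (IsSquare G.det ↔ ¬ IsSquare G'.det) := by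
    intro t d hd hle G G' j₀ hG hG' hj hk₀ he
    refine SymJordan.det_flip (p := ringChar F) hd hp2 h2 hG hG' hj hk₀ ?_ fun i hi hne hk => ?_
    · have := Finset.ext_iff.1 he j₀
      rw [Finset.mem_symmDiff, mem_signs hj hk₀, mem_signs hj hk₀] at this
      simp only [Finset.mem_singleton, not_true, and_false, true_and, not_not, false_or] at this
      exact this.symm
    · obtain ⟨j, rfl⟩ := exists_index (m := m) hle hi hk
      have hjne : j ≠ j₀ := fun h => hne (by rw [h])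
      have := Finset.ext_iff.1 he j
      rw [Finset.mem_symmDiff, mem_signs hi hk, mem_signs hi hk] at this
      simp only [Finset.mem_singleton, hjne, not_false_eq_true, and_true, false_and, or_false] at this
      exact (not_iff_not.1 this).symm
  -- the discriminant
  have hdet : ∀ (w : GL μ.Ix F) (P : Matrix (Idx μ.dp) (Idx μ.dp) F) (M : Matrix (Idx μ.dm) (Idx μ.dm) F)
      (O : Matrix (Fin μ.r) (Fin μ.r) F), IsUnit P.det → IsUnit M.det → IsUnit O.det →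
      w.1ᵀ * tr μ B * w.1 = Matrix.fromBlocks P 0 0 (Matrix.fromBlocks M 0 0 O) →
      (IsSquare B.det ↔ (IsSquare P.det ↔ (IsSquare M.det ↔ IsSquare O.det))) := by
    intro w P M O hP hM hO' he
    rw [← isSquare_mul_iff hM.ne_zero hO'.ne_zero, ← isSquare_mul_iff hP.ne_zero (mul_ne_zero hM.ne_zero hO'.ne_zero),
      ← Matrix.det_fromBlocks_zero₂₁ M 0, ← Matrix.det_fromBlocks_zero₂₁ P 0, ← isSquare_congr he, tr,
      Matrix.det_reindexAlgEquiv]
  have d1 := hdet z₁ P₁ M₁ O₁ hpc.unit hmc.unit huc hGc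
  have d2 := hdet z₂ P₂ M₂ O₂ hpc'.unit hmc'.unit huc' hGc'
  by_cases hne : (oddParts 1 (tupT g)).Nonempty
  · obtain ⟨j₀, hj₀, he⟩ := least_eq_singleton hne
    obtain ⟨hj, hk⟩ := (hparts 1 μ.hp j₀).1 hj₀
    rw [flipP, he] at es1
    rw [flipM, if_pos hne] at es2
    have h1 := hswap μ.hdp μ.sum_le.1 j₀ hpc hpc' hj hk es1
    have h3 := hkeep μ.hdm μ.sum_le.2 hmc hmc' es2
    exact parity_left d1 d2 h1 h3 hO
  · have hne' : (oddParts (-1) (tupT g)).Nonempty := by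
      by_contra h
      refine hr fun i hi => ⟨?_, ?_⟩
      · exact Nat.eq_zero_of_not_pos fun hpos => hne ⟨i, Finset.mem_filter.2 ⟨Finset.mem_univ _, hi, hpos⟩⟩
      · exact Nat.eq_zero_of_not_pos fun hpos => h ⟨i, Finset.mem_filter.2 ⟨Finset.mem_univ _, hi, hpos⟩⟩
    obtain ⟨j₀, hj₀, he⟩ := least_eq_singleton hne'
    obtain ⟨hj, hk⟩ := (hparts (-1) μ.hm j₀).1 hj₀
    rw [flipP, show least (oddParts 1 (tupT g)) = ∅ by
      rw [least, Finset.not_nonempty_iff_eq_empty.1 hne, Finset.filter_empty]] at es1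
    rw [flipM, if_neg hne, he] at es2
    have h1 := hkeep μ.hdp μ.sum_le.1 hpc hpc' es1
    have h3 := hswap μ.hdm μ.sum_le.2 j₀ hmc hmc' hj hk es2
    exact parity_right d1 d2 h1 h3 hO
end Core

/-- Twice the class number is bounded by all data plus the rigid data. -/
theorem two_classes_le (hodd : Odd (Fintype.card F)) (hs : Bᵀ = B) (hu : IsUnit B.det) :
    2 * Nat.card (ConjClasses (orth B)) ≤
      Nat.card {x : Datum F m // GoodData x} + Nat.card {x : Datum F m // GoodData x ∧ Rigid x} := by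
  classical
  obtain ⟨p, hp⟩ := CharP.exists F
  haveI : Fact p.Prime := ⟨CharP.char_is_prime F p⟩
  have hp2 : p ≠ 2 := by
    rintro rfl
    exact (Nat.not_even_iff_odd.2 hodd) (FiniteField.even_card_iff_char_two.1 (ringChar.eq F 2) |> Nat.even_iff.2)
  have h2 : (2 : F) ≠ 0 := Ring.two_ne_zero (by rw [ringChar.eq F p]; exact hp2)
  choose rep hrep using ConjClasses.mk_surjective (α := orth B)
  let g0 : ConjClasses (orth B) → GL (Fin m) F := fun c => (ConjClasses.mk ((rep c : orth B) : GL (Fin m) F)).out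
  have hg0 : ∀ c, IsConj ((rep c : orth B) : GL (Fin m) F) (g0 c) := fun c =>
    ConjClasses.mk_eq_mk_iff_isConj.1 (Quotient.out_eq (ConjClasses.mk ((rep c : orth B) : GL (Fin m) F))).symm
  choose z Gp Gm G0 hz hG hp' hm' hs0 hu0 hi0 using fun c => exists_form (model h2 (g0 c)) h2 hs hu (hg0 c)
  let Φ : ConjClasses (orth B) → Datum F m :=
    fun c => (tupT (g0 c), signs (model h2 (g0 c)).dp (Gp c), signs (model h2 (g0 c)).dm (Gm c))
  have hmult : ∀ (c : ConjClasses (orth B)) (i : Fin m) (s : F),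
      ((tupT (g0 c)).1 i).rootMultiplicity s = (dec (g0 c)).count (X - C s, i.1 + 1) :=
    fun c i s => rootMultiplicity_slot (dec (g0 c)) i s
  have hgood : ∀ c, GoodData (Φ c) := fun c => by
    set μ := model h2 (g0 c)
    refine ⟨fun i => hat_prod_of_counts (dec (g0 c)) (fun x hx => ?_) i, fun i hi => ⟨?_, ?_⟩, fun i hi => ?_,
      fun i hi => ?_⟩
    · obtain ⟨D', e, he⟩ := exists_dec_conj (dec ((rep c : orth B) : GL (Fin m) F)) (hg0 c)
      have hD' : ∀ y, D'.count y = (dec ((rep c : orth B) : GL (Fin m) F)).count y := fun y =>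
        D'.count_eq_of_equiv _ e he y
      rw [count_dec_eq (dec (g0 c)) D', count_dec_eq (dec (g0 c)) D', hD', hD']
      exact count_hat_of_orth hu (rep c).2 _ hx
    · rw [hmult, ← μ.hp _ (Nat.le_add_left 1 _)]
      exact SymJordan.even_count h2 (hp' c) hi (Nat.le_add_left 1 _)
    · rw [hmult, ← μ.hm _ (Nat.le_add_left 1 _)]
      exact SymJordan.even_count h2 (hm' c) hi (Nat.le_add_left 1 _)
    · obtain ⟨h1, ⟨k, hk⟩, -⟩ := (Finset.mem_filter.1 hi).2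
      refine ⟨h1, ?_⟩
      rw [hmult, ← μ.hp _ (Nat.le_add_left 1 _)]
      exact Finset.card_pos.2 ⟨k, Finset.mem_filter.2 ⟨Finset.mem_univ _, hk⟩⟩
    · obtain ⟨h1, ⟨k, hk⟩, -⟩ := (Finset.mem_filter.1 hi).2
      refine ⟨h1, ?_⟩
      rw [hmult, ← μ.hm _ (Nat.le_add_left 1 _)]
      exact Finset.card_pos.2 ⟨k, Finset.mem_filter.2 ⟨Finset.mem_univ _, hk⟩⟩
  have e2 : ∀ c c', tupT (g0 c) = tupT (g0 c') → g0 c = g0 c' := fun c c' e1 => by
    have := isConj_of_tup (congrArg Subtype.val e1)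
    show (ConjClasses.mk _).out = (ConjClasses.mk _).out
    congr 1
    exact ConjClasses.mk_eq_mk_iff_isConj.2 ((hg0 c).trans (this.trans (hg0 c').symm))
  haveI : Finite (Tup F m m) := instFinite_tup F _ _
  haveI : Fintype (Datum F m) := Fintype.ofFinite _
  have hring : ringChar F = p := ringChar.eq F p
  haveI : Fact (Nat.Prime (ringChar F)) := ⟨by rw [hring]; exact Fact.out⟩
  have hp2' : ringChar F ≠ 2 := by rw [hring]; exact hp2
  -- data determine the class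
  have hinj : Function.Injective Φ := fun c c' hΦ => by
    have hgg := e2 c c' (congrArg Prod.fst hΦ)
    rw [← hrep c, ← hrep c', ConjClasses.mk_eq_mk_iff_isConj]
    have es1 : (signs (model h2 (g0 c)).dp (Gp c) : Finset (Fin m)) = signs (model h2 (g0 c')).dp (Gp c') :=
      congrArg (fun x => x.2.1) hΦ
    have es2 : (signs (model h2 (g0 c)).dm (Gm c) : Finset (Fin m)) = signs (model h2 (g0 c')).dm (Gm c') :=
      congrArg (fun x => x.2.2) hΦ
    have hlem := @isConj_of_data F _ _ m B _ hp2' h2 (g0 c) (model h2 (g0 c)) (rep c) (rep c') (z c)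
    have h' := And.intro (hz c') (And.intro (hG c') (And.intro (hp' c') (And.intro (hm' c') (And.intro (hs0 c') (And.intro (hu0 c') (hi0 c'))))))
    revert h' es1 es2
    generalize z c' = z₂, Gp c' = P₂, Gm c' = M₂, G0 c' = O₂
    revert z₂ P₂ M₂ O₂
    rw [← hgg]
    rintro z₂ P₂ M₂ O₂ es1 es2 ⟨a1, a2, a3, a4, a5, a6, a7⟩
    exact hlem es1 es2 (hz c) a1 (hG c) a2 (hp' c) a3 (hm' c) a4 (hs0 c) a5 (hu0 c) a6 (hi0 c) a7
  -- flipped data are not realised
  have hdisj : ∀ c c', ¬ Rigid (Φ c) → Φ c' ≠ flip (Φ c) := fun c c' hr hΦ => by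
    have hgg := e2 c c' (congrArg Prod.fst hΦ).symm
    have es1 : (signs (model h2 (g0 c')).dp (Gp c') : Finset (Fin m)) =
        symmDiff (signs (model h2 (g0 c)).dp (Gp c)) (flipP (tupT (g0 c))) := congrArg (fun x => x.2.1) hΦ
    have es2 : (signs (model h2 (g0 c')).dm (Gm c') : Finset (Fin m)) =
        symmDiff (signs (model h2 (g0 c)).dm (Gm c)) (flipM (tupT (g0 c))) := congrArg (fun x => x.2.2) hΦ
    have hlem := @no_flip F _ _ m B _ hp2' h2 (g0 c) (model h2 (g0 c)) hr (z c)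
    have h' := And.intro (hG c') (And.intro (hp' c') (And.intro (hm' c') (And.intro (hs0 c') (And.intro (hu0 c') (hi0 c')))))
    revert h' es1 es2
    generalize z c' = z₂, Gp c' = P₂, Gm c' = M₂, G0 c' = O₂
    revert z₂ P₂ M₂ O₂
    rw [← hgg]
    rintro z₂ P₂ M₂ O₂ es1 es2 ⟨a2, a3, a4, a5, a6, a7⟩
    exact hlem (hG c) a2 (hp' c) a3 (hm' c) a4 (hs0 c) a5 (hu0 c) a6 (hi0 c) a7 es1 es2
  -- counting
  set A := Finset.univ.image Φ with hA
  have hAc : A.card = Nat.card (ConjClasses (orth B)) := by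
    rw [hA, Finset.card_image_of_injective _ hinj, Finset.card_univ, Nat.card_eq_fintype_card]
  set A' := (A.filter fun x => ¬ Rigid x).image flip with hA'
  have hA'c : A'.card = (A.filter fun x => ¬ Rigid x).card :=
    Finset.card_image_of_injective _ (Function.LeftInverse.injective flip_flip)
  have hdis : Disjoint A A' := Finset.disjoint_left.2 fun x hx hx' => by
    obtain ⟨c', -, rfl⟩ := Finset.mem_image.1 hx
    obtain ⟨y, hy, hyx⟩ := Finset.mem_image.1 hx'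
    obtain ⟨hy1, hy2⟩ := Finset.mem_filter.1 hy
    obtain ⟨c, -, rfl⟩ := Finset.mem_image.1 hy1
    exact hdisj c c' hy2 hyx.symm
  have h1 : (A ∪ A').card ≤ Nat.card {x : Datum F m // GoodData x} := by
    rw [Nat.card_eq_fintype_card, Fintype.card_subtype]
    refine Finset.card_le_card fun x hx => Finset.mem_filter.2 ⟨Finset.mem_univ _, ?_⟩
    rcases Finset.mem_union.1 hx with h | h
    · obtain ⟨c, -, rfl⟩ := Finset.mem_image.1 h
      exact hgood c
    · obtain ⟨y, hy, rfl⟩ := Finset.mem_image.1 h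
      obtain ⟨c, -, rfl⟩ := Finset.mem_image.1 (Finset.mem_of_mem_filter y hy)
      exact good_flip (hgood c)
  have h3 : (A.filter fun x => Rigid x).card ≤ Nat.card {x : Datum F m // GoodData x ∧ Rigid x} := by
    rw [Nat.card_eq_fintype_card, Fintype.card_subtype]
    refine Finset.card_le_card fun x hx => Finset.mem_filter.2 ⟨Finset.mem_univ _, ?_⟩
    obtain ⟨hx1, hx2⟩ := Finset.mem_filter.1 hx
    obtain ⟨c, -, rfl⟩ := Finset.mem_image.1 hx1
    exact ⟨hgood c, hx2⟩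
  rw [Finset.card_union_of_disjoint hdis, hA'c] at h1
  have h4 := Finset.card_filter_add_card_filter_not (s := A) (fun x => Rigid x)
  omega

end Cfsg.Agent.KnownB.OrthClassCount
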