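import Cfsg.Agent.KnownB.SpWeights

/-!
# Weight sums for the classes of orthogonal groups in odd characteristic
-/

set_option autoImplicit false
set_option linter.unusedSectionVars false

namespace Cfsg.Agent.KnownB.OrthClassCount

open Cfsg.Agent.KnownB.SpClassCount

/-- The options at an index: degrees up to `n`, signs only for odd exponents. -/
def opts (n i : ℕ) : Finset (ℕ × Eps) :=
  Finset.range (n + 1) ×ˢ if Even i then Finset.univ else {(false, false, false, false)}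

/-- The admissible vectors. -/
def valid (n : ℕ) : Finset (Fin (2 * n) → ℕ × Eps) :=
  (Fintype.piFinset fun i : Fin (2 * n) => opts n i.1).filter fun f =>
    ∑ i, (i.1 + 1) * (2 * (f i).1 + esum (f i).2) = 2 * n

/-- The admissible vectors without signs. -/
def rigid (n : ℕ) : Finset (Fin (2 * n) → ℕ × Eps) :=
  (valid n).filter fun f => ∀ i, esum (f i).2 = 0

theorem prod_geom_le (N : ℕ) : ∏ j ∈ Finset.range N, 1 / (1 - (1 / 3 : ℚ) ^ (j + 1)) ≤ 9 / 5 := by
  have h : ∀ N, 3 ≤ N → ∏ j ∈ Finset.range N, 1 / (1 - (1 / 3 : ℚ) ^ (j + 1)) ≤ 9 / 5 - 11 / 10 * (1 / 3) ^ N := by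
    intro N hN
    induction N, hN using Nat.le_induction with
    | base => norm_num [Finset.prod_range_succ]
    | succ k hk ih =>
      rw [Finset.prod_range_succ]
      have hy0 : (0 : ℚ) ≤ (1 / 3) ^ (k + 1) := by positivity
      have hy1 : (1 / 3 : ℚ) ^ (k + 1) ≤ 1 / 81 := by
        calc (1 / 3 : ℚ) ^ (k + 1) ≤ (1 / 3) ^ 4 := pow_le_pow_of_le_one (by norm_num) (by norm_num) (by omega)
          _ = 1 / 81 := by norm_num
      have e : (1 / 3 : ℚ) ^ k = 3 * (1 / 3) ^ (k + 1) := by rw [pow_succ]; ring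
      rw [e] at ih
      have hfac : 1 / (1 - (1 / 3 : ℚ) ^ (k + 1)) ≤ 1 + 81 / 80 * (1 / 3) ^ (k + 1) := by
        rw [div_le_iff₀ (by linarith)]
        nlinarith
      have hf0 : (0 : ℚ) ≤ 1 / (1 - (1 / 3 : ℚ) ^ (k + 1)) := div_nonneg zero_le_one (by linarith)
      refine (mul_le_mul_of_nonneg_right ih hf0).trans ?_
      refine (mul_le_mul_of_nonneg_left hfac (by linarith)).trans ?_
      generalize (1 / 3 : ℚ) ^ (k + 1) = y at *
      nlinarith
  rcases le_or_gt 3 N with hN | hN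
  · exact (h N hN).trans (sub_le_self _ (by positivity))
  · interval_cases N <;> norm_num [Finset.prod_range_succ]

/-- A rational above `1 / √3`. -/
def Y0 : ℚ := 28868 / 50000

theorem Y0_sq : 1 / 3 ≤ Y0 ^ 2 := by norm_num [Y0]

theorem prod_sign_le (N : ℕ) : ∏ j ∈ Finset.range N, (1 + Y0 ^ (2 * j + 1)) ^ 4 ≤ 93 / 5 := by
  have h : ∀ N, 5 ≤ N → ∏ j ∈ Finset.range N, (1 + Y0 ^ (2 * j + 1)) ^ 4 ≤ 93 / 5 - 100 * Y0 ^ (2 * N) := by
    intro N hN
    induction N, hN using Nat.le_induction with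
    | base => norm_num [Y0, Finset.prod_range_succ]
    | succ k hk ih =>
      rw [Finset.prod_range_succ]
      have hy0 : (0 : ℚ) ≤ Y0 ^ (2 * k) := pow_nonneg (by norm_num [Y0]) _
      have hy1 : Y0 ^ (2 * k) ≤ 1 / 200 := by
        calc Y0 ^ (2 * k) ≤ Y0 ^ 10 := pow_le_pow_of_le_one (by norm_num [Y0]) (by norm_num [Y0]) (by omega)
          _ ≤ 1 / 200 := by norm_num [Y0]
      rw [show 2 * (k + 1) = 2 * k + 2 by ring, pow_add, pow_add, pow_one]
      have hY : Y0 ^ 2 ≤ 3334 / 10000 := by norm_num [Y0]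
      have hY' : Y0 ≤ 57737 / 100000 := by norm_num [Y0]
      have hY0 : 0 ≤ Y0 := by norm_num [Y0]
      generalize Y0 ^ (2 * k) = u at *
      generalize Y0 ^ 2 = w at *
      have hu : 0 ≤ u * Y0 := mul_nonneg hy0 hY0
      have hu1 : u * Y0 ≤ 1 / 200 := by nlinarith
      have hfac : (1 + u * Y0) ^ 4 ≤ 1 + 5 * (u * Y0) := by
        generalize u * Y0 = z at *
        have h2 : z ^ 2 ≤ z / 200 := by nlinarith
        have h3 : z ^ 3 ≤ z ^ 2 := by nlinarith
        have h4 : z ^ 4 ≤ z ^ 2 := by nlinarith [mul_nonneg (sq_nonneg z) hu]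
        nlinarith
      refine (mul_le_mul_of_nonneg_right ih (by positivity)).trans ?_
      refine (mul_le_mul_of_nonneg_left hfac (by linarith)).trans ?_
      nlinarith [mul_nonneg hy0 hy0, mul_le_mul_of_nonneg_left hY hy0, mul_le_mul_of_nonneg_left hY' hy0]
  rcases le_or_gt 5 N with hN | hN
  · exact (h N hN).trans (sub_le_self _ (mul_nonneg (by norm_num) (pow_nonneg (by norm_num [Y0]) _)))
  · interval_cases N <;> norm_num [Y0, Finset.prod_range_succ]

/-- The weight at an index. -/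
def W (y : ℚ) {n : ℕ} (i : Fin (2 * n)) (p : ℕ × Eps) : ℚ :=
  (1 / 3 : ℚ) ^ (i.1 * p.1) * if Even i.1 then y ^ ((i.1 + 1) * esum p.2) else 1

theorem geom (x : ℚ) (h0 : 0 ≤ x) (h1 : x < 1) (N : ℕ) : ∑ j ∈ Finset.range N, x ^ j ≤ 1 / (1 - x) := by
  rw [le_div_iff₀ (by linarith), geom_sum_mul_neg]
  linarith [pow_nonneg h0 N]

/-- The sum of the weights over the options at an index with the degree cleared at zero. -/
theorem sum_opts (n : ℕ) (y : ℚ) (i : Fin (2 * n)) :
    (∑ p ∈ (if i.1 = 0 then ({0} : Finset ℕ) ×ˢ (Finset.univ : Finset Eps) else opts n i.1), W y i p) =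
      (if i.1 = 0 then 1 else ∑ c ∈ Finset.range (n + 1), ((1 / 3 : ℚ) ^ i.1) ^ c) *
        if Even i.1 then (1 + y ^ (i.1 + 1)) ^ 4 else 1 := by
  have hU : (∑ ε : Eps, y ^ ((i.1 + 1) * esum ε)) = (1 + y ^ (i.1 + 1)) ^ 4 := by
    simp only [pow_mul, Fintype.sum_prod_type, Fintype.sum_bool, esum, Bool.toNat_true, Bool.toNat_false]
    ring
  by_cases h0 : i.1 = 0
  · have he : Even i.1 := by rw [h0]; exact Even.zero
    rw [if_pos h0, if_pos h0, one_mul, if_pos he, Finset.sum_product, Finset.sum_singleton, ← hU]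
    simp [W, h0]
  · rw [if_neg h0, if_neg h0, opts, Finset.sum_product, Finset.sum_mul]
    refine Finset.sum_congr rfl fun c _ => ?_
    simp only [W, ← pow_mul, ← Finset.mul_sum]
    congr 1
    split_ifs with he
    · exact hU
    · simp

theorem term_le {q : ℕ} (hq : 3 ≤ q) {n : ℕ} {f : Fin (2 * n) → ℕ × Eps} (hf : f ∈ valid n) :
    ((q ^ (∑ i, (f i).1) : ℕ) : ℚ) ≤ (q : ℚ) ^ n * ∏ i, W Y0 i (f i) ∧
      Even (∑ i : Fin (2 * n), if Even i.1 then (i.1 + 1) * esum (f i).2 else 0) := by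
  obtain ⟨hmem, hsum⟩ := Finset.mem_filter.1 hf
  set E := ∑ i : Fin (2 * n), if Even i.1 then (i.1 + 1) * esum (f i).2 else 0
  set S := ∑ i : Fin (2 * n), i.1 * (f i).1
  have h2 : ∀ i : Fin (2 * n), (i.1 + 1) * (2 * (f i).1 + esum (f i).2) =
      2 * ((f i).1 + i.1 * (f i).1) + if Even i.1 then (i.1 + 1) * esum (f i).2 else 0 := fun i => by
    have hi := Fintype.mem_piFinset.1 hmem i
    simp only [opts, Finset.mem_product] at hi
    split_ifs at hi ⊢ with he
    · ring
    · rw [show esum (f i).2 = 0 by rw [Finset.mem_singleton.1 hi.2]; rfl]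
      ring
  rw [Finset.sum_congr rfl fun i _ => h2 i, Finset.sum_add_distrib, ← Finset.mul_sum, Finset.sum_add_distrib] at hsum
  obtain ⟨e, he⟩ : Even E := ⟨n - (∑ i, (f i).1 + S), by omega⟩
  refine ⟨?_, ⟨e, he⟩⟩
  have hW : ∏ i, W Y0 i (f i) = (1 / 3 : ℚ) ^ S * Y0 ^ E := by
    simp only [W, Finset.prod_mul_distrib, Finset.prod_pow_eq_pow_sum]
    congr 1
    rw [← Finset.prod_pow_eq_pow_sum]
    exact Finset.prod_congr rfl fun i _ => by split_ifs <;> simp
  rw [hW, show (q : ℚ) ^ n = (q : ℚ) ^ (∑ i, (f i).1) * ((q : ℚ) ^ S * (q : ℚ) ^ e) by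
      rw [← pow_add, ← pow_add]; congr 1; omega,
    Nat.cast_pow, mul_assoc]
  refine le_mul_of_one_le_right (by positivity) ?_
  have hq3 : (3 : ℚ) ≤ q := by exact_mod_cast hq
  calc (1 : ℚ) ≤ ((q : ℚ) * (1 / 3)) ^ S * ((q : ℚ) * Y0 ^ 2) ^ e := by
        refine one_le_mul_of_one_le_of_one_le (one_le_pow₀ (by linarith)) (one_le_pow₀ ?_)
        nlinarith [Y0_sq]
    _ = _ := by
        rw [mul_pow, mul_pow, ← pow_mul, he, ← two_mul]
        ring

theorem W_nonneg {n : ℕ} (i : Fin (2 * n)) (p : ℕ × Eps) : 0 ≤ W Y0 i p := by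
  have : (0 : ℚ) ≤ Y0 := by norm_num [Y0]
  rw [W]
  split_ifs <;> positivity

/-- The options with the degree cleared at zero. -/
def T (n : ℕ) (i : Fin (2 * n)) : Finset (ℕ × Eps) :=
  if i.1 = 0 then ({0} : Finset ℕ) ×ˢ (Finset.univ : Finset Eps) else opts n i.1

theorem geom_part_le (n : ℕ) :
    ∏ i : Fin (2 * n), (if i.1 = 0 then (1 : ℚ) else ∑ c ∈ Finset.range (n + 1), ((1 / 3 : ℚ) ^ i.1) ^ c) ≤ 9 / 5 := by
  refine (Finset.prod_le_prod (g := fun i : Fin (2 * n) => if i.1 = 0 then (1 : ℚ) else 1 / (1 - (1 / 3 : ℚ) ^ i.1))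
    (fun i _ => ?_) fun i _ => ?_).trans ?_
  · split_ifs
    · exact zero_le_one
    · positivity
  · split_ifs with h
    · exact le_rfl
    · exact geom _ (by positivity) (pow_lt_one₀ (by norm_num) (by norm_num) h) _
  · rw [Fin.prod_univ_eq_prod_range (fun i => if i = 0 then (1 : ℚ) else 1 / (1 - (1 / 3 : ℚ) ^ i))]
    rcases Nat.eq_zero_or_pos n with rfl | hn
    · norm_num
    rw [show 2 * n = (2 * n - 1) + 1 by omega, Finset.prod_range_succ']
    simp only [Nat.succ_ne_zero, if_false, if_true, mul_one]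
    exact prod_geom_le _

theorem sign_part (n : ℕ) (y : ℚ) :
    ∏ i : Fin (2 * n), (if Even i.1 then (1 + y ^ (i.1 + 1)) ^ 4 else 1) =
      ∏ j ∈ Finset.range n, (1 + y ^ (2 * j + 1)) ^ 4 := by
  rw [Fin.prod_univ_eq_prod_range (fun i => if Even i then (1 + y ^ (i + 1)) ^ 4 else 1)]
  induction n with
  | zero => simp
  | succ m ih =>
    rw [Nat.mul_succ, Finset.prod_range_succ, Finset.prod_range_succ, ih, Finset.prod_range_succ _ m,
      if_pos (even_two_mul m), if_neg (Nat.not_even_two_mul_add_one m), mul_one]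

/-- The main bound. -/
theorem total_le {q : ℕ} (hq : 3 ≤ q) {n : ℕ} (hn : 1 ≤ n) :
    ∑ f ∈ valid n, q ^ (∑ i, (f i).1) + ∑ f ∈ rigid n, q ^ (∑ i, (f i).1) ≤ 19 * q ^ n := by
  classical
  let z0 : Fin (2 * n) := ⟨0, by omega⟩
  let clr : (Fin (2 * n) → ℕ × Eps) → Fin (2 * n) → ℕ × Eps := fun f => Function.update f z0 (0, (f z0).2)
  have hinj : Set.InjOn clr (valid n) := by
    intro a ha b hb hab
    have hne : ∀ i, i ≠ z0 → a i = b i := fun i hi => by
      have := congrFun hab i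
      simpa [clr, Function.update_of_ne hi] using this
    have h2 : (a z0).2 = (b z0).2 := by
      have := congrArg Prod.snd (congrFun hab z0)
      simpa [clr] using this
    have e1 := (Finset.mem_filter.1 (Finset.mem_coe.1 ha)).2
    have e2 := (Finset.mem_filter.1 (Finset.mem_coe.1 hb)).2
    rw [← Finset.add_sum_erase _ _ (Finset.mem_univ z0)] at e1 e2
    rw [Finset.sum_congr rfl fun i hi => by rw [hne i (Finset.ne_of_mem_erase hi)]] at e1
    rw [h2] at e1
    funext i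
    by_cases hi : i = z0
    · subst hi
      refine Prod.ext ?_ h2
      simp only [show z0.1 = 0 from rfl] at e1 e2
      omega
    · exact hne i hi
  have hclr : ∀ (y : ℚ) f, ∏ i, W y i (clr f i) = ∏ i, W y i (f i) := fun y f => by
    refine Finset.prod_congr rfl fun i _ => ?_
    by_cases hi : i = z0
    · subst hi
      simp [clr, W, z0]
    · simp [clr, Function.update_of_ne hi]
  have hmemT : ∀ f ∈ valid n, clr f ∈ Fintype.piFinset (T n) := fun f hf => Fintype.mem_piFinset.2 fun i => by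
    by_cases hi : i = z0
    · simp [T, clr, hi, z0]
    · have hi0 : i.1 ≠ 0 := fun h => hi (Fin.ext h)
      simp only [T, clr, if_neg hi0, Function.update_of_ne hi]
      exact Fintype.mem_piFinset.1 (Finset.mem_filter.1 hf).1 i
  have hneg : ∀ f ∈ valid n, ∏ i, W (-Y0) i (f i) = ∏ i, W Y0 i (f i) := fun f hf => by
    obtain ⟨e, he⟩ := (term_le hq hf).2
    have hW : ∀ y : ℚ, ∏ i, W y i (f i) = (∏ i : Fin (2 * n), (1 / 3 : ℚ) ^ (i.1 * (f i).1)) *
        y ^ (∑ i : Fin (2 * n), if Even i.1 then (i.1 + 1) * esum (f i).2 else 0) := fun y => by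
      rw [← Finset.prod_pow_eq_pow_sum, ← Finset.prod_mul_distrib]
      exact Finset.prod_congr rfl fun i _ => by rw [W]; split_ifs <;> simp
    rw [hW, hW, he, (Even.neg_pow ⟨e, rfl⟩)]
  have hsumT : ∀ y : ℚ, ∑ f ∈ Fintype.piFinset (T n), ∏ i, W y i (f i) =
      (∏ i : Fin (2 * n), (if i.1 = 0 then (1 : ℚ) else ∑ c ∈ Finset.range (n + 1), ((1 / 3 : ℚ) ^ i.1) ^ c)) *
        ∏ j ∈ Finset.range n, (1 + y ^ (2 * j + 1)) ^ 4 := fun y => by
    rw [← sign_part n y, ← Finset.prod_mul_distrib, ← Finset.prod_univ_sum]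
    exact Finset.prod_congr rfl fun i _ => sum_opts n y i
  set G := ∏ i : Fin (2 * n), (if i.1 = 0 then (1 : ℚ) else ∑ c ∈ Finset.range (n + 1), ((1 / 3 : ℚ) ^ i.1) ^ c) with hG
  have hG0 : 0 ≤ G := Finset.prod_nonneg fun i _ => by split_ifs <;> positivity
  have hG1 : G ≤ 9 / 5 := geom_part_le n
  -- all vectors
  have h1 : 2 * ∑ f ∈ valid n, ∏ i, W Y0 i (f i) ≤ G * (93 / 5 + 1 / 30) := by
    calc 2 * ∑ f ∈ valid n, ∏ i, W Y0 i (f i)
        = ∑ f ∈ (valid n).image clr, (∏ i, W Y0 i (f i) + ∏ i, W (-Y0) i (f i)) := by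
          rw [Finset.sum_image hinj, Finset.mul_sum]
          exact Finset.sum_congr rfl fun f hf => by rw [hclr, hclr, hneg f hf]; ring
      _ ≤ ∑ f ∈ Fintype.piFinset (T n), (∏ i, W Y0 i (f i) + ∏ i, W (-Y0) i (f i)) := by
          refine Finset.sum_le_sum_of_subset_of_nonneg (Finset.image_subset_iff.2 hmemT) fun f _ _ => ?_
          rw [← Finset.prod_const_one (s := (Finset.univ : Finset (Fin (2 * n))))] at *
          have hb : |∏ i, W (-Y0) i (f i)| = ∏ i, W Y0 i (f i) := by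
            rw [Finset.abs_prod]
            refine Finset.prod_congr rfl fun i _ => ?_
            have : (0 : ℚ) ≤ Y0 := by norm_num [Y0]
            simp only [W, abs_mul]
            rw [abs_of_nonneg (by positivity : (0 : ℚ) ≤ (1 / 3 : ℚ) ^ (i.1 * (f i).1))]
            split_ifs
            · rw [abs_pow, abs_neg, abs_of_nonneg this]
            · rw [abs_one]
          linarith [neg_abs_le (∏ i, W (-Y0) i (f i))]
      _ = G * (∏ j ∈ Finset.range n, (1 + Y0 ^ (2 * j + 1)) ^ 4 + ∏ j ∈ Finset.range n, (1 + (-Y0) ^ (2 * j + 1)) ^ 4) := by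
          rw [Finset.sum_add_distrib, hsumT, hsumT]
          ring
      _ ≤ _ := by
          refine mul_le_mul_of_nonneg_left (add_le_add (prod_sign_le n) ?_) hG0
          have hz : ∀ j, 0 ≤ Y0 ^ (2 * j + 1) ∧ Y0 ^ (2 * j + 1) ≤ 1 := fun j =>
            ⟨pow_nonneg (by norm_num [Y0]) _, pow_le_one₀ (by norm_num [Y0]) (by norm_num [Y0])⟩
          have hf : ∀ j, 0 ≤ (1 + (-Y0) ^ (2 * j + 1)) ^ 4 ∧ (1 + (-Y0) ^ (2 * j + 1)) ^ 4 ≤ 1 := fun j => by
            rw [(odd_two_mul_add_one j).neg_pow]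
            have := hz j
            exact ⟨pow_nonneg (by linarith) _, pow_le_one₀ (by linarith) (by linarith)⟩
          obtain ⟨m, rfl⟩ : ∃ m, n = m + 1 := ⟨n - 1, by omega⟩
          rw [Finset.prod_range_succ']
          refine (mul_le_of_le_one_left (hf 0).1 (Finset.prod_le_one (fun j _ => (hf _).1) fun j _ => (hf _).2)).trans ?_
          norm_num [Y0]
  -- rigid vectors
  have h2 : ∑ f ∈ rigid n, ∏ i, W Y0 i (f i) ≤ G := by
    have e : ∀ f ∈ rigid n, ∏ i, W Y0 i (f i) = ∏ i, W 0 i (f i) := fun f hf => by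
      refine Finset.prod_congr rfl fun i _ => ?_
      rw [W, W, (Finset.mem_filter.1 hf).2 i]
      simp
    rw [Finset.sum_congr rfl e]
    calc ∑ f ∈ rigid n, ∏ i, W 0 i (f i) = ∑ f ∈ (rigid n).image clr, ∏ i, W 0 i (f i) := by
          have hsub : Set.InjOn clr (rigid n) := hinj.mono (Finset.coe_subset.2 (Finset.filter_subset _ _))
          rw [Finset.sum_image hsub]
          exact Finset.sum_congr rfl fun f _ => (hclr 0 f).symm
      _ ≤ ∑ f ∈ Fintype.piFinset (T n), ∏ i, W 0 i (f i) := by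
          refine Finset.sum_le_sum_of_subset_of_nonneg
            (Finset.image_subset_iff.2 fun f hf => hmemT f (Finset.mem_of_mem_filter f hf)) fun f _ _ => ?_
          refine Finset.prod_nonneg fun i _ => ?_
          rw [W]
          split_ifs <;> positivity
      _ = G := by
          rw [hsumT]
          simp
  have hmain : ((∑ f ∈ valid n, q ^ (∑ i, (f i).1) + ∑ f ∈ rigid n, q ^ (∑ i, (f i).1) : ℕ) : ℚ) ≤
      ((19 * q ^ n : ℕ) : ℚ) := by
    rw [Nat.cast_add, Nat.cast_sum, Nat.cast_sum]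
    refine (add_le_add (Finset.sum_le_sum fun f hf => (term_le hq hf).1)
      (Finset.sum_le_sum fun f hf => (term_le hq (Finset.mem_of_mem_filter f hf)).1)).trans ?_
    rw [← Finset.mul_sum, ← Finset.mul_sum]
    push_cast
    have hp : (0 : ℚ) ≤ (q : ℚ) ^ n := by positivity
    simp only [rigid] at h2 ⊢
    rw [← mul_add, mul_comm (19 : ℚ)]
    refine mul_le_mul_of_nonneg_left ?_ hp
    linarith [mul_le_mul_of_nonneg_right hG1 (show (0 : ℚ) ≤ 93 / 5 + 1 / 30 by norm_num)]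
  exact_mod_cast hmain

end Cfsg.Agent.KnownB.OrthClassCount
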