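import Mathlib

/-!
# Weight sums for the classes of symplectic groups in odd characteristic
-/

set_option autoImplicit false
set_option linter.unusedSectionVars false

namespace Cfsg.Agent.KnownB.SpClassCount

/-- Four signs. -/
abbrev Eps := Bool × Bool × Bool × Bool

/-- The number of set signs. -/
def esum (ε : Eps) : ℕ := ε.1.toNat + ε.2.1.toNat + ε.2.2.1.toNat + ε.2.2.2.toNat

/-- The options at an index: degrees up to `n`, signs only for even exponents. -/
def opts (n i : ℕ) : Finset (ℕ × Eps) :=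
  Finset.range (n + 1) ×ˢ if Odd i then Finset.univ else {(false, false, false, false)}

/-- The admissible vectors. -/
def valid (n : ℕ) : Finset (Fin (2 * n) → ℕ × Eps) :=
  (Fintype.piFinset fun i : Fin (2 * n) => opts n i.1).filter fun f =>
    ∑ i, (i.1 + 1) * (2 * (f i).1 + esum (f i).2) = 2 * n

/-- The factor of the product bound. -/
def fac (x : ℚ) (j : ℕ) : ℚ := (1 + x ^ (j + 1)) ^ 4 / (1 - x ^ (j + 1))

theorem pow_lt {x : ℚ} (h0 : 0 ≤ x) (h3 : x ≤ 1 / 3) (j : ℕ) : x ^ (j + 1) < 1 :=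
  pow_lt_one₀ h0 (by linarith) (Nat.succ_ne_zero j)

theorem fac_ge {x : ℚ} (h0 : 0 ≤ x) (h3 : x ≤ 1 / 3) (j : ℕ) :
    1 ≤ (1 + x ^ (j + 1)) ^ 4 ∧ 1 ≤ 1 / (1 - x ^ (j + 1)) := by
  have h1 := pow_lt h0 h3 j
  have h2 : 0 ≤ x ^ (j + 1) := pow_nonneg h0 _
  exact ⟨one_le_pow₀ (by linarith), by rw [le_div_iff₀ (by linarith)]; linarith⟩

theorem prod_fac_le {x : ℚ} (h0 : 0 ≤ x) (h3 : x ≤ 1 / 3) (N : ℕ) :
    ∏ j ∈ Finset.range N, fac x j ≤ 54 / 5 := by
  have hmono : ∏ j ∈ Finset.range N, fac x j ≤ ∏ j ∈ Finset.range N, fac (1 / 3) j := by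
    refine Finset.prod_le_prod (fun j _ => ?_) fun j _ => ?_
    · have := pow_lt h0 h3 j
      exact div_nonneg (by positivity) (by linarith)
    · have h1 := pow_le_pow_left₀ h0 h3 (j + 1)
      have h2 := pow_lt (by norm_num : (0:ℚ) ≤ 1 / 3) le_rfl j
      have h4 : 0 ≤ x ^ (j + 1) := pow_nonneg h0 _
      exact div_le_div₀ (by positivity) (pow_le_pow_left₀ (by linarith) (by linarith) 4) (by linarith) (by linarith)
  refine hmono.trans ?_
  have h : ∀ N, 6 ≤ N → ∏ j ∈ Finset.range N, fac (1 / 3) j ≤ 54 / 5 - 40 * (1 / 3 : ℚ) ^ N := by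
    intro N hN
    induction N, hN using Nat.le_induction with
    | base => norm_num [fac, Finset.prod_range_succ]
    | succ k hk ih =>
      rw [Finset.prod_range_succ]
      have hy0 : (0 : ℚ) ≤ (1 / 3) ^ (k + 1) := by positivity
      have hy1 : (1 / 3 : ℚ) ^ (k + 1) ≤ 1 / 2187 := by
        calc (1 / 3 : ℚ) ^ (k + 1) ≤ (1 / 3) ^ 7 := pow_le_pow_of_le_one (by norm_num) (by norm_num) (by omega)
          _ = 1 / 2187 := by norm_num
      have e : (1 / 3 : ℚ) ^ k = 3 * (1 / 3) ^ (k + 1) := by rw [pow_succ]; ring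
      rw [e] at ih
      have hfac : fac (1 / 3) k ≤ 1 + 6 * (1 / 3 : ℚ) ^ (k + 1) := by
        rw [fac, div_le_iff₀ (by linarith)]
        generalize (1 / 3 : ℚ) ^ (k + 1) = y at *
        have h2 : y ^ 2 ≤ y / 2187 := by nlinarith
        have h3' : y ^ 3 ≤ y ^ 2 := by nlinarith
        have h4 : y ^ 4 ≤ y ^ 2 := by nlinarith [mul_nonneg (sq_nonneg y) hy0]
        nlinarith
      have hf0 : 0 ≤ fac (1 / 3) k := div_nonneg (by positivity) (by linarith)
      refine (mul_le_mul_of_nonneg_right ih hf0).trans ?_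
      refine (mul_le_mul_of_nonneg_left hfac ?_).trans ?_
      · linarith
      · generalize (1 / 3 : ℚ) ^ (k + 1) = y at *
        nlinarith
  rcases le_or_gt 6 N with hN | hN
  · exact (h N hN).trans (sub_le_self _ (by positivity))
  · interval_cases N <;> norm_num [fac, Finset.prod_range_succ]

theorem geom (x : ℚ) (h0 : 0 ≤ x) (h1 : x < 1) (N : ℕ) : ∑ j ∈ Finset.range N, x ^ j ≤ 1 / (1 - x) := by
  rw [le_div_iff₀ (by linarith), geom_sum_mul_neg]
  linarith [pow_nonneg h0 N]

/-- The main bound. -/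
theorem total_le {q : ℕ} (hq : 3 ≤ q) (n : ℕ) :
    5 * ∑ f ∈ valid n, q ^ (∑ i, (f i).1) ≤ 54 * q ^ n := by
  rcases Nat.eq_zero_or_pos n with rfl | hn
  · haveI : Subsingleton (Fin (2 * 0) → ℕ × Eps) := ⟨fun a b => funext fun i => absurd i.2 (by omega)⟩
    have h : (valid 0).card ≤ 1 := Finset.card_le_one_of_subsingleton _
    simp
    omega
  have hq0 : (0 : ℚ) < q := by exact_mod_cast (show 0 < q by omega)
  set x : ℚ := 1 / q with hx
  have h0 : 0 ≤ x := by positivity
  have h3 : x ≤ 1 / 3 := by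
    rw [hx]
    exact one_div_le_one_div_of_le (by norm_num) (by exact_mod_cast hq)
  let w : Fin (2 * n) → ℕ × Eps → ℚ := fun i p => x ^ (i.1 * p.1 + (i.1 + 1) / 2 * esum p.2)
  have hterm : ∀ f ∈ valid n, ((q ^ (∑ i, (f i).1) : ℕ) : ℚ) = (q : ℚ) ^ n * ∏ i, w i (f i) := by
    intro f hf
    obtain ⟨hmem, hsum⟩ := Finset.mem_filter.1 hf
    have h2 : ∀ i : Fin (2 * n), (i.1 + 1) * (2 * (f i).1 + esum (f i).2) =
        2 * ((f i).1 + (i.1 * (f i).1 + (i.1 + 1) / 2 * esum (f i).2)) := fun i => by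
      have hi := Fintype.mem_piFinset.1 hmem i
      simp only [opts, Finset.mem_product] at hi
      split_ifs at hi with ho
      · obtain ⟨k, hk⟩ := ho
        rw [show (i.1 + 1) / 2 = k + 1 by omega, hk]
        ring
      · rw [show esum (f i).2 = 0 by rw [Finset.mem_singleton.1 hi.2]; rfl]
        ring
    rw [Finset.sum_congr rfl fun i _ => h2 i, ← Finset.mul_sum, Finset.sum_add_distrib] at hsum
    have h4 : n = ∑ i, (f i).1 + ∑ i : Fin (2 * n), (i.1 * (f i).1 + (i.1 + 1) / 2 * esum (f i).2) := by omega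
    rw [show (∏ i, w i (f i)) = x ^ ∑ i : Fin (2 * n), (i.1 * (f i).1 + (i.1 + 1) / 2 * esum (f i).2) from
      Finset.prod_pow_eq_pow_sum _ _ _]
    rw [show (q : ℚ) ^ n = (q : ℚ) ^ (∑ i, (f i).1) *
        (q : ℚ) ^ ∑ i : Fin (2 * n), (i.1 * (f i).1 + (i.1 + 1) / 2 * esum (f i).2) by rw [← pow_add, ← h4],
      Nat.cast_pow, mul_assoc, ← mul_pow, hx, mul_one_div, div_self hq0.ne', one_pow, mul_one]
  let z0 : Fin (2 * n) := ⟨0, by omega⟩
  let zero : ℕ × Eps := (0, false, false, false, false)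
  let clr : (Fin (2 * n) → ℕ × Eps) → Fin (2 * n) → ℕ × Eps := fun f => Function.update f z0 zero
  have hz : ∀ f ∈ valid n, (f z0).2 = (false, false, false, false) := fun f hf => by
    have hi := Fintype.mem_piFinset.1 (Finset.mem_filter.1 hf).1 z0
    simp only [opts, Finset.mem_product, z0, Nat.not_odd_zero, if_false, Finset.mem_singleton] at hi
    exact hi.2
  have hinj : Set.InjOn clr (valid n) := by
    intro a ha b hb hab
    have hne : ∀ i, i ≠ z0 → a i = b i := fun i hi => by
      have := congrFun hab i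
      simpa [clr, Function.update_of_ne hi] using this
    have h2 := hz a ha
    have h4 := hz b hb
    have e1 := (Finset.mem_filter.1 (Finset.mem_coe.1 ha)).2
    have e2 := (Finset.mem_filter.1 (Finset.mem_coe.1 hb)).2
    rw [← Finset.add_sum_erase _ _ (Finset.mem_univ z0)] at e1 e2
    rw [Finset.sum_congr rfl fun i hi => by rw [hne i (Finset.ne_of_mem_erase hi)]] at e1
    rw [h2] at e1
    rw [h4] at e2
    funext i
    by_cases hi : i = z0
    · subst hi
      refine Prod.ext ?_ (h2.trans h4.symm)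
      simp only [show z0.1 = 0 from rfl, esum, Bool.toNat_false] at e1 e2
      omega
    · exact hne i hi
  let T : Fin (2 * n) → Finset (ℕ × Eps) := fun i => if i = z0 then {zero} else opts n i.1
  have hwclr : ∀ f ∈ valid n, ∏ i, w i (clr f i) = ∏ i, w i (f i) := fun f hf => by
    refine Finset.prod_congr rfl fun i _ => ?_
    by_cases hi : i = z0
    · subst hi
      simp [clr, w, z0, zero, hz f hf, esum]
    · simp [clr, Function.update_of_ne hi]
  suffices hs : (∑ f ∈ valid n, ∏ i, w i (f i)) ≤ 54 / 5 by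
    have e : ((5 * ∑ f ∈ valid n, q ^ (∑ i, (f i).1) : ℕ) : ℚ) ≤ ((54 * q ^ n : ℕ) : ℚ) := by
      rw [Nat.cast_mul, Nat.cast_sum, Finset.sum_congr rfl hterm, ← Finset.mul_sum]
      push_cast
      nlinarith [pow_nonneg hq0.le n]
    exact_mod_cast e
  calc (∑ f ∈ valid n, ∏ i, w i (f i)) = ∑ f ∈ (valid n).image clr, ∏ i, w i (f i) := by
        rw [Finset.sum_image hinj]
        exact (Finset.sum_congr rfl hwclr).symm
    _ ≤ ∑ f ∈ Fintype.piFinset T, ∏ i, w i (f i) := by
        refine Finset.sum_le_sum_of_subset_of_nonneg (fun f hf => ?_) fun f _ _ =>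
          Finset.prod_nonneg fun i _ => by positivity
        obtain ⟨g, hg, rfl⟩ := Finset.mem_image.1 hf
        refine Fintype.mem_piFinset.2 fun i => ?_
        by_cases hi : i = z0
        · simp [T, clr, hi]
        · simp only [T, clr, if_neg hi, Function.update_of_ne hi]
          exact Fintype.mem_piFinset.1 (Finset.mem_filter.1 hg).1 i
    _ = ∏ i, ∑ p ∈ T i, w i p := (Finset.prod_univ_sum T w).symm
    _ ≤ ∏ i : Fin (2 * n), (if i.1 = 0 then 1 else 1 / (1 - x ^ i.1)) * (if Odd i.1 then (1 + x ^ ((i.1 + 1) / 2)) ^ 4 else 1) := by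
        refine Finset.prod_le_prod (fun i _ => Finset.sum_nonneg fun p _ => by positivity) fun i _ => ?_
        by_cases hi : i = z0
        · subst hi
          simp [T, w, zero, z0, esum]
        · have hi0 : i.1 ≠ 0 := fun h => hi (Fin.ext h)
          simp only [T, if_neg hi, opts, Finset.sum_product, w, pow_add, ← Finset.mul_sum, ← Finset.sum_mul, pow_mul, if_neg hi0]
          refine mul_le_mul ?_ ?_ (Finset.sum_nonneg fun p _ => by positivity) ?_
          · exact geom _ (pow_nonneg h0 _) (pow_lt_one₀ h0 (by linarith) hi0) _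
          · split_ifs
            · simp only [Fintype.sum_prod_type, Fintype.sum_bool, esum, Bool.toNat_true, Bool.toNat_false]
              ring_nf
              exact le_rfl
            · simp [esum]
          · have := pow_lt_one₀ h0 (show x < 1 by linarith) hi0
            exact div_nonneg zero_le_one (by linarith)
    _ = (∏ i : Fin (2 * n), if i.1 = 0 then 1 else 1 / (1 - x ^ i.1)) *
          ∏ i : Fin (2 * n), if Odd i.1 then (1 + x ^ ((i.1 + 1) / 2)) ^ 4 else 1 := Finset.prod_mul_distrib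
    _ ≤ (∏ j ∈ Finset.range (2 * n), 1 / (1 - x ^ (j + 1))) * ∏ j ∈ Finset.range (2 * n), (1 + x ^ (j + 1)) ^ 4 := by
        have key : ∀ m, (∏ i ∈ Finset.range (m + 1), if i = 0 then 1 else 1 / (1 - x ^ i)) =
            ∏ j ∈ Finset.range m, 1 / (1 - x ^ (j + 1)) := fun m => by
          rw [Finset.prod_range_succ']
          simp
        have key2 : ∀ m, (∏ i ∈ Finset.range (2 * m), if Odd i then (1 + x ^ ((i + 1) / 2)) ^ 4 else 1) =
            ∏ j ∈ Finset.range m, (1 + x ^ (j + 1)) ^ 4 := fun m => by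
          induction m with
          | zero => simp
          | succ m ih =>
            rw [Nat.mul_succ, Finset.prod_range_succ, Finset.prod_range_succ, ih, Finset.prod_range_succ _ m,
              if_neg (by rw [Nat.not_odd_iff_even]; exact even_two_mul m), if_pos (odd_two_mul_add_one m),
              mul_one, show (2 * m + 1 + 1) / 2 = m + 1 by omega]
        have hd : ∀ j, 0 ≤ 1 / (1 - x ^ (j + 1)) := fun j => zero_le_one.trans (fac_ge h0 h3 j).2
        refine mul_le_mul ?_ ?_ (Finset.prod_nonneg fun i _ => by split_ifs <;> positivity) (Finset.prod_nonneg fun j _ => hd j)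
        · rw [Fin.prod_univ_eq_prod_range (fun i => if i = 0 then 1 else 1 / (1 - x ^ i)),
            show 2 * n = (2 * n - 1) + 1 by omega, key]
          refine Finset.prod_le_prod_of_subset_of_one_le ?_ (fun j _ => hd j) fun j _ _ => (fac_ge h0 h3 j).2
          exact Finset.range_subset_range.2 (by omega)
        · rw [Fin.prod_univ_eq_prod_range (fun i => if Odd i then (1 + x ^ ((i + 1) / 2)) ^ 4 else 1), key2]
          refine Finset.prod_le_prod_of_subset_of_one_le ?_ (fun j _ => by positivity) fun j _ _ => (fac_ge h0 h3 j).1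
          exact Finset.range_subset_range.2 (by omega)
    _ = ∏ j ∈ Finset.range (2 * n), fac x j := by
        rw [← Finset.prod_mul_distrib]
        exact Finset.prod_congr rfl fun j _ => by rw [fac]; ring
    _ ≤ 54 / 5 := prod_fac_le h0 h3 _

end Cfsg.Agent.KnownB.SpClassCount
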