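import Cfsg.Agent.KnownB.SpClassData
import Cfsg.Agent.KnownB.SpWeights

/-!
# Bounds for the class number of `Sp_2n(q)`, `q` odd
-/

set_option autoImplicit false
set_option linter.unusedSectionVars false
set_option linter.style.haveILetI false

namespace Cfsg.Agent.KnownB.SpClassCount

open Polynomial Cfsg.Agent.KnownB.ClassTuples Cfsg.Agent.Linear.SpPrimeClasses

universe u

variable {F : Type u} [Field F] [Fintype F] {n : ℕ}

theorem hat_pow (f : F[X]) (k : ℕ) : hat (f ^ k) = hat f ^ k := by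
  induction k with
  | zero => rw [pow_zero, pow_zero, hat_one]
  | succ k ih => rw [pow_succ, pow_succ, hat_mul, ih]

theorem hat_X_sub_C {s : F} (hs : s * s = 1) : hat (X - C s) = X - C s := by
  have hX : (X : F[X]).reverse = 1 := by rw [← mul_one X, reverse_X_mul, ← C_1, reverse_C]
  have h0 : (X - C s).coeff 0 = -s := by simp
  rw [hat, h0, show (X - C s : F[X]).reverse = 1 + C (-s) * X by
    rw [sub_eq_add_neg, ← C_neg, reverse_add_C, hX, natDegree_X, pow_one],
    show (-s)⁻¹ = -s from inv_eq_of_mul_eq_one_left (by rw [neg_mul_neg, hs]), mul_add, mul_one, ← mul_assoc, ← C.map_mul,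
    neg_mul_neg, hs, C_1, one_mul, C_neg]
  ring

/-- Removing prescribed multiplicities at `1` and `-1` leaves a palindrome. -/
theorem exists_palindrome (h2 : (2 : F) ≠ 0) {h : F[X]} (hm : h.Monic) (h0 : h.coeff 0 ≠ 0) (hh : hat h = h) {e e' : ℕ}
    (he : e ≤ h.rootMultiplicity 1) (hpe : Even (h.rootMultiplicity 1 - e)) (he' : e' ≤ h.rootMultiplicity (-1))
    (hpe' : Even (h.rootMultiplicity (-1) - e')) :
    ∃ (c : ℕ) (P : F[X]), h = (X - C 1) ^ e * (X - C (-1)) ^ e' * P ∧ P.Monic ∧ P.natDegree = 2 * c ∧ P.reverse = P ∧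
      h.natDegree = 2 * c + e + e' := by
  set a := h.rootMultiplicity 1 with ha
  set b := h.rootMultiplicity (-1) with hb
  obtain ⟨h1, hh1, hn1⟩ := exists_eq_pow_rootMultiplicity_mul_and_not_dvd h hm.ne_zero 1
  rw [← ha] at hh1
  have hh1ne : h1 ≠ 0 := fun hz => hm.ne_zero (by rw [hh1, hz, mul_zero])
  have h11 : (1 : F) ≠ -1 := fun hz => h2 (by linear_combination hz)
  have hb1 : h1.rootMultiplicity (-1) = b := by
    rw [hb, hh1, rootMultiplicity_mul (by rw [← hh1]; exact hm.ne_zero), rootMultiplicity_eq_zero (p := (X - C 1) ^ a) ?_,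
      zero_add]
    intro hr
    rw [IsRoot, eval_pow, eval_sub, eval_X, eval_C] at hr
    exact h11 (sub_eq_zero.1 (eq_zero_of_pow_eq_zero hr)).symm
  obtain ⟨R, hR, hnR⟩ := exists_eq_pow_rootMultiplicity_mul_and_not_dvd h1 hh1ne (-1)
  rw [hb1] at hR
  have hRm : R.Monic := by
    rw [hh1, hR, ← mul_assoc] at hm
    exact ((monic_X_sub_C (1 : F)).pow a |>.mul ((monic_X_sub_C (-1 : F)).pow b)).of_mul_monic_left hm
  have hR1 : R.eval 1 ≠ 0 := fun hz => hn1 (by rw [hR]; exact (dvd_iff_isRoot.2 hz).mul_left _)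
  have hR1' : R.eval (-1) ≠ 0 := fun hz => hnR (dvd_iff_isRoot.2 hz)
  have hR0 : R.coeff 0 ≠ 0 := fun hz => h0 (by rw [hh1, hR, mul_coeff_zero, mul_coeff_zero, hz, mul_zero, mul_zero])
  have hx1 : hat (X - C (1 : F)) = X - C 1 := hat_X_sub_C (one_mul _)
  have hx2 : hat (X - C (-1 : F)) = X - C (-1) := hat_X_sub_C (by ring)
  have hRh : hat R = R := by
    have := hh
    rw [hh1, hR, hat_mul, hat_mul, hat_pow, hat_pow, hx1, hx2] at this
    exact mul_left_cancel₀ (pow_ne_zero _ (X_sub_C_ne_zero _)) (mul_left_cancel₀ (pow_ne_zero _ (X_sub_C_ne_zero _)) this)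
  have hRrev := reverse_eq_of_hat_eq hRh hR1 hR0
  have hR01 : R.coeff 0 = 1 := by rw [← hRrev, coeff_zero_reverse, hRm.leadingCoeff]
  have hRe : Even R.natDegree := Nat.not_odd_iff_even.1 fun ho => hR1'
    (Cfsg.Agent.Forms.eval_eq_zero_of_reverse (e := (-1 : F)) (by ring) ho (by rw [neg_neg, C_1, one_mul]; exact hRrev))
  obtain ⟨k, hk⟩ := hpe
  obtain ⟨l, hl⟩ := hpe'
  obtain ⟨r, hr⟩ := hRe
  set P := (X - C (1 : F)) ^ (a - e) * (X - C (-1)) ^ (b - e') * R with hP
  have hPm : P.Monic := (((monic_X_sub_C (1 : F)).pow _).mul ((monic_X_sub_C (-1 : F)).pow _)).mul hRm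
  have hPd : P.natDegree = 2 * (k + l + r) := by
    rw [hP, Monic.natDegree_mul (((monic_X_sub_C (1 : F)).pow _).mul ((monic_X_sub_C (-1 : F)).pow _)) hRm,
      Monic.natDegree_mul ((monic_X_sub_C (1 : F)).pow _) ((monic_X_sub_C (-1 : F)).pow _), natDegree_pow, natDegree_pow,
      natDegree_X_sub_C, natDegree_X_sub_C, hr, hk, hl]
    ring
  have hP0 : P.coeff 0 = 1 := by
    rw [hP, mul_coeff_zero, mul_coeff_zero, coeff_zero_eq_eval_zero, coeff_zero_eq_eval_zero, hR01]
    simp only [eval_pow, eval_sub, eval_X, eval_C, zero_sub, neg_neg, one_pow, mul_one]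
    exact Even.neg_one_pow ⟨k, hk⟩
  have hPh : hat P = P := by rw [hP, hat_mul, hat_mul, hat_pow, hat_pow, hx1, hx2, hRh]
  have hPrev : P.reverse = P := by
    conv_rhs => rw [← hPh]
    rw [hat, hP0, inv_one, C_1, one_mul]
  have heq : h = (X - C 1) ^ e * (X - C (-1)) ^ e' * P := by
    conv_lhs => rw [hh1, hR, ← Nat.add_sub_cancel' he, ← Nat.add_sub_cancel' he', pow_add, pow_add]
    rw [hP]
    ring
  refine ⟨_, P, heq, hPm, hPd, hPrev, ?_⟩
  conv_lhs => rw [heq]
  rw [Monic.natDegree_mul (((monic_X_sub_C (1 : F)).pow _).mul ((monic_X_sub_C (-1 : F)).pow _)) hPm,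
    Monic.natDegree_mul ((monic_X_sub_C (1 : F)).pow _) ((monic_X_sub_C (-1 : F)).pow _), natDegree_pow, natDegree_pow,
    natDegree_X_sub_C, natDegree_X_sub_C, hPd]
  ring

/-- Monic palindromes of degree `2 c`. -/
abbrev Pal (F : Type u) [Field F] (c : ℕ) := {P : F[X] // P.Monic ∧ P.natDegree = 2 * c ∧ P.reverse = P}

theorem pal_inj (c : ℕ) : Function.Injective fun (P : Pal F c) (j : Fin c) => P.1.coeff (j.1 + 1) := fun P Q h => by
  have hsym : ∀ (P : Pal F c) j, j ≤ 2 * c → P.1.coeff j = P.1.coeff (2 * c - j) := fun P j hj => by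
    conv_lhs => rw [← P.2.2.2]
    rw [coeff_reverse, P.2.2.1, revAt_le hj]
  have h0 : ∀ P : Pal F c, P.1.coeff 0 = 1 := fun P => by
    rw [← P.2.2.2, coeff_zero_reverse, P.2.1.leadingCoeff]
  have hlow : ∀ j, j ≤ c → P.1.coeff j = Q.1.coeff j := fun j hj => by
    rcases j with _ | j
    · rw [h0, h0]
    · exact congrFun h ⟨j, hj⟩
  refine Subtype.ext (Polynomial.ext fun j => ?_)
  by_cases hj : j ≤ 2 * c
  · by_cases hjc : j ≤ c
    · exact hlow j hjc
    · rw [hsym P j hj, hsym Q j hj, hlow _ (by omega)]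
  · rw [coeff_eq_zero_of_natDegree_lt (by rw [P.2.2.1]; omega), coeff_eq_zero_of_natDegree_lt (by rw [Q.2.2.1]; omega)]

instance finite_pal (c : ℕ) : Finite (Pal F c) := Finite.of_injective _ (pal_inj c)

theorem card_pal_le (c : ℕ) : Nat.card (Pal F c) ≤ Fintype.card F ^ c := by
  refine (Nat.card_le_card_of_injective _ (pal_inj c)).trans (le_of_eq ?_)
  rw [Nat.card_fun, Nat.card_fin, Nat.card_eq_fintype_card]

/-- Multiplicity parity and sign give two bits. -/
theorem bits {a : ℕ} {s : Bool} (h : s = true → 0 < a) :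
    (xor (decide (Odd a)) s).toNat + s.toNat ≤ a ∧ Even (a - ((xor (decide (Odd a)) s).toNat + s.toNat)) := by
  rcases Nat.even_or_odd a with he | ho
  · rw [decide_eq_false (Nat.not_odd_iff_even.2 he)]
    obtain ⟨k, rfl⟩ := he
    cases s
    · exact ⟨Nat.zero_le _, ⟨k, by simp⟩⟩
    · have := h rfl
      exact ⟨by simp; omega, ⟨k - 1, by simp; omega⟩⟩
  · rw [decide_eq_true ho]
    obtain ⟨k, rfl⟩ := ho
    cases s <;> exact ⟨by simp, ⟨k, by simp; omega⟩⟩

theorem classes_upper (hodd : Odd (Fintype.card F)) :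
    5 * Nat.card (ConjClasses (Matrix.symplecticGroup (Fin n) F)) ≤ 54 * Fintype.card F ^ n := by
  classical
  have hq : 3 ≤ Fintype.card F := by
    have := Fintype.one_lt_card (α := F)
    obtain ⟨k, hk⟩ := hodd
    omega
  have h2 : (2 : F) ≠ 0 := Ring.two_ne_zero fun h => by
    have := FiniteField.even_card_iff_char_two.1 h
    obtain ⟨k, hk⟩ := hodd
    omega
  refine le_trans (Nat.mul_le_mul_left 5 ?_) (total_le hq n)
  refine (card_classes_le_data hodd).trans ?_
  let D := {x : Tup F (2 * n) (2 * n) × Finset (Fin (2 * n)) × Finset (Fin (2 * n)) // GoodData x}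
  let b1 : D → Fin (2 * n) → Bool := fun x i => xor (decide (Odd ((x.1.1.1 i).rootMultiplicity 1))) (decide (i ∈ x.1.2.1))
  let b3 : D → Fin (2 * n) → Bool := fun x i => xor (decide (Odd ((x.1.1.1 i).rootMultiplicity (-1)))) (decide (i ∈ x.1.2.2))
  have hex : ∀ (x : D) (i : Fin (2 * n)), ∃ (c : ℕ) (P : F[X]),
      x.1.1.1 i = (X - C 1) ^ ((b1 x i).toNat + (decide (i ∈ x.1.2.1)).toNat) *
        (X - C (-1)) ^ ((b3 x i).toNat + (decide (i ∈ x.1.2.2)).toNat) * P ∧ P.Monic ∧ P.natDegree = 2 * c ∧ P.reverse = P ∧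
      (x.1.1.1 i).natDegree = 2 * c + ((b1 x i).toNat + (decide (i ∈ x.1.2.1)).toNat) +
        ((b3 x i).toNat + (decide (i ∈ x.1.2.2)).toNat) := fun x i => by
    have hs1 := bits (a := (x.1.1.1 i).rootMultiplicity 1) (s := decide (i ∈ x.1.2.1))
      fun h => (x.2.2.2.1 i (of_decide_eq_true h)).2
    have hs2 := bits (a := (x.1.1.1 i).rootMultiplicity (-1)) (s := decide (i ∈ x.1.2.2))
      fun h => (x.2.2.2.2 i (of_decide_eq_true h)).2
    exact exists_palindrome h2 (x.1.1.2.1 i).1 (x.1.1.2.1 i).2 (x.2.1 i) hs1.1 hs1.2 hs2.1 hs2.2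
  choose c P hP hPm hPd hPr hd using hex
  let f : D → Fin (2 * n) → ℕ × Eps := fun x i =>
    (c x i, b1 x i, decide (i ∈ x.1.2.1), b3 x i, decide (i ∈ x.1.2.2))
  have hvalid : ∀ x, f x ∈ valid n := fun x => by
    have hdeg : ∀ i, (x.1.1.1 i).natDegree = 2 * (f x i).1 + esum (f x i).2 := fun i => by
      rw [hd x i]
      simp only [f, esum]
      omega
    have hsum : ∑ i : Fin (2 * n), (i.1 + 1) * (2 * (f x i).1 + esum (f x i).2) = 2 * n := by
      exact Eq.trans (Finset.sum_congr rfl fun i _ => by rw [hdeg i]) x.1.1.2.2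
    refine Finset.mem_filter.2 ⟨Fintype.mem_piFinset.2 fun i => Finset.mem_product.2 ⟨?_, ?_⟩, hsum⟩
    · rw [Finset.mem_range]
      have h1 := Finset.single_le_sum (f := fun i : Fin (2 * n) => (i.1 + 1) * (2 * (f x i).1 + esum (f x i).2))
        (fun i _ => Nat.zero_le _) (Finset.mem_univ i)
      rw [hsum] at h1
      have h3 := le_trans (Nat.le_mul_of_pos_left _ (Nat.succ_pos i.1)) h1
      omega
    · split_ifs with ho
      · exact Finset.mem_univ _
      · rw [Nat.not_odd_iff_even] at ho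
        obtain ⟨he1, he2⟩ := x.2.2.1 i ho.add_one
        have hn1 : i ∉ x.1.2.1 := fun hi => Nat.not_even_iff_odd.2 ho.add_one (x.2.2.2.1 i hi).1
        have hn2 : i ∉ x.1.2.2 := fun hi => Nat.not_even_iff_odd.2 ho.add_one (x.2.2.2.2 i hi).1
        simp [f, b1, b3, hn1, hn2, Nat.not_odd_iff_even.2 he1, Nat.not_odd_iff_even.2 he2]
  let Ψ : D → Σ g : valid n, ∀ i, Pal F (g.1 i).1 := fun x =>
    ⟨⟨f x, hvalid x⟩, fun i => ⟨P x i, hPm x i, hPd x i, hPr x i⟩⟩
  have hinj : Function.Injective Ψ := fun x y h => by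
    have hf : f x = f y := congrArg (fun z => (Sigma.fst z).1) h
    have hPe : ∀ i, P x i = P y i := fun i => congrArg (fun z => ((Sigma.snd z) i).1) h
    have hS1 : x.1.2.1 = y.1.2.1 := Finset.ext fun i => by
      have := congrArg (fun z => z.2.2.1) (congrFun hf i)
      simpa [f] using this
    have hS2 : x.1.2.2 = y.1.2.2 := Finset.ext fun i => by
      have := congrArg (fun z => z.2.2.2.2) (congrFun hf i)
      simpa [f] using this
    have ht : x.1.1 = y.1.1 := Subtype.ext (funext fun i => by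
      have e1 := congrArg (fun z => z.2.1) (congrFun hf i)
      have e3 := congrArg (fun z => z.2.2.2.1) (congrFun hf i)
      simp only [f] at e1 e3
      rw [hP x i, hP y i, e1, e3, hS1, hS2, hPe i])
    exact Subtype.ext (Prod.ext ht (Prod.ext hS1 hS2))
  refine (Nat.card_le_card_of_injective Ψ hinj).trans ?_
  rw [Nat.card_sigma, ← Finset.sum_coe_sort (valid n)]
  refine Finset.sum_le_sum fun g _ => ?_
  rw [Nat.card_pi, ← Finset.prod_pow_eq_pow_sum]
  exact Finset.prod_le_prod' fun i _ => card_pal_le _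

theorem classes_lower : Fintype.card F ^ n ≤ Nat.card (ConjClasses (Matrix.symplecticGroup (Fin n) F)) := by
  classical
  obtain ⟨p, hp⟩ := CharP.exists F
  haveI : Fact p.Prime := ⟨CharP.char_is_prime F p⟩
  let co : (Fin n → F) → ℕ → F := fun v j =>
    if h : 1 ≤ j ∧ j ≤ n then v ⟨j - 1, by omega⟩
    else if h : n < j ∧ j < 2 * n then v ⟨2 * n - j - 1, by omega⟩
    else if j = 0 ∨ j = 2 * n then 1 else 0
  have hsym : ∀ v j, j ≤ 2 * n → co v (2 * n - j) = co v j := fun v j hj => by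
    simp only [co]
    split_ifs <;> first | rfl | (congr 1; exact Fin.ext (by simp; omega)) | omega
  let P : (Fin n → F) → F[X] := fun v => ∑ j ∈ Finset.range (2 * n + 1), C (co v j) * X ^ j
  have hcoeff : ∀ v j, (P v).coeff j = if j ≤ 2 * n then co v j else 0 := fun v j => by
    simp only [P, finsetSum_coeff, coeff_C_mul_X_pow, Finset.sum_ite_eq, Finset.mem_range, Nat.lt_succ_iff]
  have htop : ∀ v, co v (2 * n) = 1 := fun v => by
    simp only [co]
    rw [dif_neg (by omega), dif_neg (by omega)]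
    simp
  have hc0 : ∀ v, (P v).coeff 0 = 1 := fun v => by
    rw [hcoeff, if_pos (Nat.zero_le _)]
    have := hsym v (2 * n) le_rfl
    rw [Nat.sub_self] at this
    rw [this, htop]
  have hdeg : ∀ v, (P v).natDegree = 2 * n := fun v => by
    refine natDegree_eq_of_le_of_coeff_ne_zero (natDegree_le_iff_coeff_eq_zero.2 fun j hj => ?_) ?_
    · rw [hcoeff, if_neg (by omega)]
    · rw [hcoeff, if_pos le_rfl, htop]
      exact one_ne_zero
  have hmon : ∀ v, (P v).Monic := fun v => by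
    rw [Monic, leadingCoeff, hdeg, hcoeff, if_pos le_rfl, htop]
  have hrev : ∀ v, (P v).reverse = P v := fun v => by
    ext j
    rw [coeff_reverse, hdeg]
    by_cases hj : j ≤ 2 * n
    · rw [revAt_le hj, hcoeff, hcoeff, if_pos (Nat.sub_le _ _), if_pos hj, hsym v j hj]
    · rw [revAt_eq_self_of_lt (by omega)]
  have hex : ∀ v, ∃ g : Matrix.symplecticGroup (Fin n) F, (g : Matrix (Fin n ⊕ Fin n) (Fin n ⊕ Fin n) F).charpoly = P v := by
    intro v
    haveI : Module.Finite F (AdjoinRoot (P v)) := (hmon v).finite_adjoinRoot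
    haveI : Finite (AdjoinRoot (P v)) := Module.finite_of_finite F
    obtain ⟨i, j, hij, he⟩ : ∃ i j : ℕ, i < j ∧ (AdjoinRoot.root (P v)) ^ i = AdjoinRoot.root (P v) ^ j := by
      obtain ⟨i, j, hne, he⟩ := Finite.exists_ne_map_eq_of_infinite fun k : ℕ => AdjoinRoot.root (P v) ^ k
      rcases lt_or_gt_of_ne hne with h | h
      exacts [⟨i, j, h, he⟩, ⟨j, i, h, he.symm⟩]
    obtain ⟨r, rfl⟩ : ∃ r, j = i + r := ⟨j - i, by omega⟩
    have hdvd : P v ∣ X ^ r - 1 := by
      have h1 : P v ∣ X ^ i * (X ^ r - 1) := by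
        rw [mul_sub, mul_one, ← pow_add, ← AdjoinRoot.mk_eq_zero, map_sub, map_pow, map_pow, AdjoinRoot.mk_X, ← he, sub_self]
      refine IsCoprime.dvd_of_dvd_mul_left (IsCoprime.pow_right ?_) h1
      refine ⟨1, -(P v).divX, ?_⟩
      conv_lhs => arg 1; rw [one_mul, ← X_mul_divX_add (P v), hc0, C_1]
      ring
    obtain ⟨k, r', hr', hrr⟩ : ∃ k r', ¬ p ∣ r' ∧ r = p ^ k * r' :=
      ⟨_, _, Nat.not_dvd_ordCompl (Fact.out : p.Prime) (by omega), (Nat.ordProj_mul_ordCompl_eq_self r p).symm⟩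
    have hrF : (r' : F) ≠ 0 := fun h => hr' ((CharP.cast_eq_zero_iff F p r').1 h)
    obtain ⟨g, -, hg⟩ := exists_elem (m := n) hrF (P v) (hmon v) (by rw [hdeg]; omega) (hrev v) (p ^ k) (by
      rwa [sub_pow_char_pow, one_pow, ← pow_mul, mul_comm r', ← hrr])
    exact ⟨g, hg⟩
  choose g hg using hex
  refine le_trans (le_of_eq ?_) (Nat.card_le_card_of_injective (fun v => ConjClasses.mk (g v)) fun v w h => ?_)
  · rw [Nat.card_fun, Nat.card_fin, Nat.card_eq_fintype_card]
  obtain ⟨c, hc⟩ := ((Matrix.symplecticGroup (Fin n) F).subtype).map_isConj (ConjClasses.mk_eq_mk_iff_isConj.1 h)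
  have hP : P v = P w := by
    have h1 : (g w : Matrix (Fin n ⊕ Fin n) (Fin n ⊕ Fin n) F) = c.1 * (g v).1 * (c⁻¹).1 :=
      (Units.eq_mul_inv_iff_mul_eq c).2 hc.eq.symm
    rw [← hg v, ← hg w, h1, Matrix.coe_units_inv, Matrix.charpoly_units_conj]
  funext j
  have h1 := congrArg (fun Q : F[X] => Q.coeff (j.1 + 1)) hP
  simp only [hcoeff, if_pos (show j.1 + 1 ≤ 2 * n by omega), co] at h1
  rw [dif_pos ⟨by omega, j.2⟩, dif_pos ⟨by omega, j.2⟩] at h1
  exact h1

end Cfsg.Agent.KnownB.SpClassCount
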