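import Cfsg.Agent.KnownB.OrthClassData
import Cfsg.Agent.KnownB.OrthWeights
import Cfsg.Agent.KnownB.SpClassNumber

/-!
# Bounds for the class numbers of orthogonal groups of even dimension, odd `q`
-/

set_option autoImplicit false
set_option linter.unusedSectionVars false
set_option linter.style.haveILetI false

namespace Cfsg.Agent.KnownB.OrthClassCount

open Polynomial Cfsg.Agent.KnownB.ClassTuples Cfsg.Agent.Linear.SpPrimeClasses
open Cfsg.Agent.KnownB.SpClassCount (Eps esum Pal pal_inj card_pal_le bits exists_palindrome classes_lower)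
open scoped Matrix

universe u

variable {F : Type u} [Field F] [Fintype F] {n : ℕ}

theorem two_ne_zero_of_odd (hodd : Odd (Fintype.card F)) : (2 : F) ≠ 0 := Ring.two_ne_zero fun h => by
  have := FiniteField.even_card_iff_char_two.1 h
  obtain ⟨k, hk⟩ := hodd
  omega

theorem three_le_card (hodd : Odd (Fintype.card F)) : 3 ≤ Fintype.card F := by
  have := Fintype.one_lt_card (α := F)
  obtain ⟨k, hk⟩ := hodd
  omega

theorem classes_upper (hodd : Odd (Fintype.card F)) (hn : 1 ≤ n) {B : Matrix (Fin (2 * n)) (Fin (2 * n)) F}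
    (hs : Bᵀ = B) (hu : IsUnit B.det) :
    2 * Nat.card (ConjClasses (orth B)) ≤ 19 * Fintype.card F ^ n := by
  classical
  have h2 := two_ne_zero_of_odd hodd
  refine le_trans ((two_classes_le hodd hs hu).trans (Nat.add_le_add ?_ ?_)) (total_le (three_le_card hodd) hn)
  all_goals
    let b1 : Datum F (2 * n) → Fin (2 * n) → Bool := fun x i => xor (decide (Odd ((x.1.1 i).rootMultiplicity 1))) (decide (i ∈ x.2.1))
    let b3 : Datum F (2 * n) → Fin (2 * n) → Bool := fun x i => xor (decide (Odd ((x.1.1 i).rootMultiplicity (-1)))) (decide (i ∈ x.2.2))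
    have hex : ∀ (x : {x : Datum F (2 * n) // GoodData x}) (i : Fin (2 * n)), ∃ (c : ℕ) (P : F[X]),
        x.1.1.1 i = (X - C 1) ^ ((b1 x.1 i).toNat + (decide (i ∈ x.1.2.1)).toNat) *
          (X - C (-1)) ^ ((b3 x.1 i).toNat + (decide (i ∈ x.1.2.2)).toNat) * P ∧ P.Monic ∧ P.natDegree = 2 * c ∧ P.reverse = P ∧
        (x.1.1.1 i).natDegree = 2 * c + ((b1 x.1 i).toNat + (decide (i ∈ x.1.2.1)).toNat) +
          ((b3 x.1 i).toNat + (decide (i ∈ x.1.2.2)).toNat) := fun x i => by
      have hs1 := bits (a := (x.1.1.1 i).rootMultiplicity 1) (s := decide (i ∈ x.1.2.1))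
        fun h => (x.2.2.2.1 i (of_decide_eq_true h)).2
      have hs2 := bits (a := (x.1.1.1 i).rootMultiplicity (-1)) (s := decide (i ∈ x.1.2.2))
        fun h => (x.2.2.2.2 i (of_decide_eq_true h)).2
      exact exists_palindrome h2 (x.1.1.2.1 i).1 (x.1.1.2.1 i).2 (x.2.1 i) hs1.1 hs1.2 hs2.1 hs2.2
    choose c P hP hPm hPd hPr hd using hex
    let f : {x : Datum F (2 * n) // GoodData x} → Fin (2 * n) → ℕ × Eps := fun x i =>
      (c x i, b1 x.1 i, decide (i ∈ x.1.2.1), b3 x.1 i, decide (i ∈ x.1.2.2))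
    have hvalid : ∀ x, f x ∈ valid n := fun x => by
      have hdeg : ∀ i, (x.1.1.1 i).natDegree = 2 * (f x i).1 + esum (f x i).2 := fun i => by
        rw [hd x i]
        simp only [f, esum]
        omega
      have hsum : ∑ i : Fin (2 * n), (i.1 + 1) * (2 * (f x i).1 + esum (f x i).2) = 2 * n :=
        Eq.trans (Finset.sum_congr rfl fun i _ => by rw [hdeg i]) x.1.1.2.2
      refine Finset.mem_filter.2 ⟨Fintype.mem_piFinset.2 fun i => Finset.mem_product.2 ⟨?_, ?_⟩, hsum⟩
      · rw [Finset.mem_range]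
        have h1 := Finset.single_le_sum (f := fun i : Fin (2 * n) => (i.1 + 1) * (2 * (f x i).1 + esum (f x i).2))
          (fun i _ => Nat.zero_le _) (Finset.mem_univ i)
        rw [hsum] at h1
        have h3 := le_trans (Nat.le_mul_of_pos_left _ (Nat.succ_pos i.1)) h1
        omega
      · split_ifs with ho
        · exact Finset.mem_univ _
        · rw [Nat.not_even_iff_odd] at ho
          obtain ⟨he1, he2⟩ := x.2.2.1 i ho.add_one
          have hn1 : i ∉ x.1.2.1 := fun hi => Nat.not_even_iff_odd.2 (x.2.2.2.1 i hi).1 ho.add_one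
          have hn2 : i ∉ x.1.2.2 := fun hi => Nat.not_even_iff_odd.2 (x.2.2.2.2 i hi).1 ho.add_one
          simp [f, b1, b3, hn1, hn2, Nat.not_odd_iff_even.2 he1, Nat.not_odd_iff_even.2 he2]
    have hrigid : ∀ x : {x : Datum F (2 * n) // GoodData x}, Rigid x.1 → f x ∈ rigid n := fun x hx => by
      refine Finset.mem_filter.2 ⟨hvalid x, fun i => ?_⟩
      by_cases ho : Even i.1
      · obtain ⟨r1, r2⟩ := hx i ho.add_one
        have hn1 : i ∉ x.1.2.1 := fun hi => by have := (x.2.2.2.1 i hi).2; omega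
        have hn2 : i ∉ x.1.2.2 := fun hi => by have := (x.2.2.2.2 i hi).2; omega
        simp [f, b1, b3, esum, hn1, hn2, r1, r2]
      · have h := (Fintype.mem_piFinset.1 (Finset.mem_filter.1 (hvalid x)).1 i)
        simp only [opts, Finset.mem_product, if_neg ho, Finset.mem_singleton] at h
        rw [h.2]
        rfl
    let Ψ : (x : {x : Datum F (2 * n) // GoodData x}) → Σ g : Fin (2 * n) → ℕ × Eps, ∀ i, Pal F (g i).1 := fun x =>
      ⟨f x, fun i => ⟨P x i, hPm x i, hPd x i, hPr x i⟩⟩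
    have hinj : Function.Injective Ψ := fun x y h => by
      have hf : f x = f y := congrArg (fun z => Sigma.fst z) h
      have hPe : ∀ i, P x i = P y i := fun i => congrArg (fun z => ((Sigma.snd z) i).1) h
      have hS1 : x.1.2.1 = y.1.2.1 := Finset.ext fun i => by
        have := congrArg (fun z => z.2.2.1) (congrFun hf i)
        simpa [f] using this
      have hS2 : x.1.2.2 = y.1.2.2 := Finset.ext fun i => by
        have := congrArg (fun z => z.2.2.2.2) (congrFun hf i)
        simpa [f] using this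
      have ht : x.1.1 = y.1.1 := Subtype.ext (funext fun i => by
        have e1 := congrArg (fun z => z.2.1) (congrFun hf i)
        have e3 := congrArg (fun z => z.2.2.2.1) (congrFun hf i)
        simp only [f] at e1 e3
        rw [hP x i, hP y i, e1, e3, hS1, hS2, hPe i])
      exact Subtype.ext (Prod.ext ht (Prod.ext hS1 hS2))
    have hcount : ∀ (V : Finset (Fin (2 * n) → ℕ × Eps)) (R : Datum F (2 * n) → Prop),
        (∀ x : {x : Datum F (2 * n) // GoodData x}, R x.1 → f x ∈ V) →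
        Nat.card {x : Datum F (2 * n) // GoodData x ∧ R x} ≤ ∑ g ∈ V, Fintype.card F ^ ∑ i, (g i).1 := by
      intro V R hV
      let Ψ' : {x : Datum F (2 * n) // GoodData x ∧ R x} → Σ g : V, ∀ i, Pal F (g.1 i).1 := fun x =>
        ⟨⟨f ⟨x.1, x.2.1⟩, hV ⟨x.1, x.2.1⟩ x.2.2⟩, (Ψ ⟨x.1, x.2.1⟩).2⟩
      have hinj' : Function.Injective Ψ' := fun x y h => by
        have := hinj (congrArg (fun z : Σ g : V, ∀ i, Pal F (g.1 i).1 =>
          (⟨z.1.1, z.2⟩ : Σ g : Fin (2 * n) → ℕ × Eps, ∀ i, Pal F (g i).1)) h)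
        exact Subtype.ext (congrArg (fun z : {x : Datum F (2 * n) // GoodData x} => z.1) this)
      refine (Nat.card_le_card_of_injective Ψ' hinj').trans ?_
      rw [Nat.card_sigma, ← Finset.sum_coe_sort V]
      refine Finset.sum_le_sum fun g _ => ?_
      rw [Nat.card_pi, ← Finset.prod_pow_eq_pow_sum]
      exact Finset.prod_le_prod' fun i _ => card_pal_le _
  · refine le_trans (le_of_eq ?_) (hcount (valid n) (fun _ => True) fun x _ => hvalid x)
    exact Nat.card_congr (Equiv.subtypeEquivRight fun x => by simp)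
  · exact hcount (rigid n) Rigid hrigid

theorem isSquare_det_J (F : Type u) [Field F] (k : ℕ) : IsSquare (Matrix.J (Fin k) F).det := by
  have h : Matrix.J (Fin k) F = Matrix.fromBlocks 1 (-1) 0 1 * Matrix.fromBlocks 1 0 1 1 * Matrix.fromBlocks 1 (-1) 0 1 := by
    simp [Matrix.J, Matrix.fromBlocks_multiply]
  rw [h, Matrix.det_mul, Matrix.det_mul, Matrix.det_fromBlocks_zero₂₁, Matrix.det_fromBlocks_zero₁₂]
  simp

/-- A palindrome without the roots `1`, `-1` is the characteristic polynomial of an isometry of a form of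
discriminant `R 1 * R (-1)`. -/
theorem exists_core {k : ℕ} (R : F[X]) (hm : R.Monic) (hd : R.natDegree = 2 * k) (hrev : R.reverse = R)
    (h1 : R.eval 1 ≠ 0) (h1' : R.eval (-1) ≠ 0) :
    ∃ (g G : Matrix (Fin k ⊕ Fin k) (Fin k ⊕ Fin k) F), g.charpoly = R ∧ Gᵀ = G ∧ IsUnit G.det ∧ gᵀ * G * g = G ∧
      IsUnit g ∧ (IsSquare G.det ↔ IsSquare (R.eval 1 * R.eval (-1))) := by
  classical
  obtain ⟨u, hu⟩ : ∃ u : Matrix.symplecticGroup (Fin k) F, (u : Matrix (Fin k ⊕ Fin k) (Fin k ⊕ Fin k) F).charpoly = R := by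
    obtain ⟨p, hp⟩ := CharP.exists F
    haveI : Fact p.Prime := ⟨CharP.char_is_prime F p⟩
    haveI : Module.Finite F (AdjoinRoot R) := hm.finite_adjoinRoot
    haveI : Finite (AdjoinRoot R) := Module.finite_of_finite F
    have h0 : R.coeff 0 = 1 := by rw [← hrev, coeff_zero_reverse, hm.leadingCoeff]
    obtain ⟨i, j, hij, he⟩ : ∃ i j : ℕ, i < j ∧ (AdjoinRoot.root R) ^ i = AdjoinRoot.root R ^ j := by
      obtain ⟨i, j, hne, he⟩ := Finite.exists_ne_map_eq_of_infinite fun l : ℕ => AdjoinRoot.root R ^ l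
      rcases lt_or_gt_of_ne hne with h | h
      exacts [⟨i, j, h, he⟩, ⟨j, i, h, he.symm⟩]
    obtain ⟨r, rfl⟩ : ∃ r, j = i + r := ⟨j - i, by omega⟩
    have hdvd : R ∣ X ^ r - 1 := by
      have h1 : R ∣ X ^ i * (X ^ r - 1) := by
        rw [mul_sub, mul_one, ← pow_add, ← AdjoinRoot.mk_eq_zero, map_sub, map_pow, map_pow, AdjoinRoot.mk_X, ← he, sub_self]
      refine IsCoprime.dvd_of_dvd_mul_left (IsCoprime.pow_right ?_) h1
      refine ⟨1, -R.divX, ?_⟩
      conv_lhs => arg 1; rw [one_mul, ← X_mul_divX_add R, h0, C_1]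
      ring
    obtain ⟨l, r', hr', hrr⟩ : ∃ l r', ¬ p ∣ r' ∧ r = p ^ l * r' :=
      ⟨_, _, Nat.not_dvd_ordCompl (Fact.out : p.Prime) (by omega), (Nat.ordProj_mul_ordCompl_eq_self r p).symm⟩
    have hrF : (r' : F) ≠ 0 := fun h => hr' ((CharP.cast_eq_zero_iff F p r').1 h)
    obtain ⟨u, -, hu⟩ := exists_elem (m := k) hrF R hm (by rw [hd]; omega) hrev (p ^ l) (by
      rwa [sub_pow_char_pow, one_pow, ← pow_mul, mul_comm r', ← hrr])
    exact ⟨u, hu⟩
  set A := (u : Matrix (Fin k ⊕ Fin k) (Fin k ⊕ Fin k) F) with hA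
  set Ai := ((u⁻¹ : Matrix.symplecticGroup (Fin k) F) : Matrix (Fin k ⊕ Fin k) (Fin k ⊕ Fin k) F) with hAi
  have hAA : A * Ai = 1 := congrArg Subtype.val (mul_inv_cancel u)
  have hAA' : Ai * A = 1 := congrArg Subtype.val (inv_mul_cancel u)
  set J := Matrix.J (Fin k) F
  have hJ : Aᵀ * J * A = J := SymplecticGroup.mem_iff'.1 u.2
  have hev : ∀ c : F, R.eval c = (Matrix.scalar (Fin k ⊕ Fin k) c - A).det := fun c => by
    rw [← hu, Matrix.eval_charpoly]
  have e1 : (A - 1).det = R.eval 1 := by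
    rw [hev, map_one, ← neg_sub, Matrix.det_neg]
    simp [← two_mul, pow_mul]
  have e2 : (A + 1).det = R.eval (-1) := by
    rw [hev, map_neg, map_one, show -1 - A = -(A + 1) by abel, Matrix.det_neg]
    simp [← two_mul, pow_mul]
  have hdetA : A.det = 1 := SymplecticGroup.det_eq_one u.2
  have hdetAi : Ai.det = 1 := SymplecticGroup.det_eq_one (u⁻¹).2
  have hZ : A - Ai = Ai * ((A - 1) * (A + 1)) := by
    rw [show (A - 1) * (A + 1) = A * A - 1 by noncomm_ring, mul_sub, mul_one, ← mul_assoc, hAA', one_mul]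
  have f1 : Aᵀ * J = J * Ai := by
    conv_rhs => rw [← hJ]
    rw [mul_assoc, mul_assoc, hAA, mul_one]
  have f2 : Aiᵀ * J = J * A := by
    conv_lhs => rw [← hJ]
    rw [← mul_assoc, ← mul_assoc, ← Matrix.transpose_mul, hAA, Matrix.transpose_one, one_mul]
  have hdet : (J * (A - Ai)).det = J.det * (R.eval 1 * R.eval (-1)) := by
    rw [Matrix.det_mul, hZ, Matrix.det_mul, Matrix.det_mul, hdetAi, one_mul, e1, e2]
  have hJu : J.det ≠ 0 := (Matrix.isUnit_det_J (Fin k) F).ne_zero
  refine ⟨A, J * (A - Ai), hu, ?_, ?_, ?_, IsUnit.of_mul_eq_one Ai hAA, ?_⟩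
  · rw [Matrix.transpose_mul, Matrix.transpose_sub, show Jᵀ = -J from Matrix.J_transpose (Fin k) F, Matrix.mul_neg,
      sub_mul, f1, f2, mul_sub]
    abel
  · rw [hdet]
    exact isUnit_iff_ne_zero.2 (mul_ne_zero hJu (mul_ne_zero h1 h1'))
  · rw [← mul_assoc Aᵀ, mul_assoc _ (A - Ai), show (A - Ai) * A = A * (A - Ai) by rw [sub_mul, mul_sub, hAA', hAA],
      ← mul_assoc, hJ]
  · rw [hdet, isSquare_mul_iff hJu (mul_ne_zero h1 h1')]
    simp [J, isSquare_det_J]

/-- Palindromes whose values at `±1` fit the discriminant are characteristic polynomials of isometries. -/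
theorem exists_isometry (hodd : Odd (Fintype.card F)) {B : Matrix (Fin (2 * n)) (Fin (2 * n)) F} (hs : Bᵀ = B)
    (hu : IsUnit B.det) (P : F[X]) (hm : P.Monic) (hd : P.natDegree = 2 * n) (hrev : P.reverse = P)
    (hc : P.eval 1 * P.eval (-1) = 0 ∨ (IsSquare (P.eval 1 * P.eval (-1)) ↔ IsSquare B.det)) :
    ∃ g : orth B, (g.1 : Matrix (Fin (2 * n)) (Fin (2 * n)) F).charpoly = P := by
  classical
  have h2 := two_ne_zero_of_odd hodd
  have h0 : P.coeff 0 = 1 := by rw [← hrev, coeff_zero_reverse, hm.leadingCoeff]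
  have hhat : hat P = P := hat_eq_of_reverse_eq hm hrev
  set a := P.rootMultiplicity 1 with ha
  set b := P.rootMultiplicity (-1) with hb
  obtain ⟨k, R, hPR, hRm, hRd, hRr, hPd⟩ := exists_palindrome h2 hm (by rw [h0]; exact one_ne_zero) hhat
    (e := a) (e' := b) le_rfl (by rw [Nat.sub_self]; exact Even.zero) le_rfl (by rw [Nat.sub_self]; exact Even.zero)
  have hR1 : R.eval 1 ≠ 0 := fun hz => by
    have : (X - C (1 : F)) ^ (a + 1) ∣ P := by
      rw [hPR, pow_succ, mul_assoc]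
      exact mul_dvd_mul_left _ ((dvd_iff_isRoot.2 hz).mul_left _)
    have := (le_rootMultiplicity_iff hm.ne_zero).2 this
    omega
  have hR1' : R.eval (-1) ≠ 0 := fun hz => by
    have : (X - C (-1 : F)) ^ (b + 1) ∣ P := by
      rw [hPR, pow_succ, mul_assoc ((X - C 1) ^ a)]
      exact (mul_dvd_mul_left _ (dvd_iff_isRoot.2 hz)).mul_left _
    have := (le_rootMultiplicity_iff hm.ne_zero).2 this
    omega
  obtain ⟨g0, G0, hg0, hG0s, hG0u, hg0i, hg0u, hG0d⟩ := exists_core R hRm hRd hRr hR1 hR1'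
  let w : Fin (a + b) → F := fun i => if i.1 < a then 1 else -1
  have hw : ∀ i, w i * w i = 1 := fun i => by simp only [w]; split_ifs <;> ring
  obtain ⟨D, hD0, hDd⟩ : ∃ D : Fin (a + b) → F, (∀ i, D i ≠ 0) ∧
      (IsSquare ((∏ i, D i) * G0.det) ↔ IsSquare B.det) := by
    rcases Nat.eq_zero_or_pos (a + b) with h | h
    · haveI : IsEmpty (Fin (a + b)) := by rw [h]; exact Fin.isEmpty
      refine ⟨fun _ => 1, fun _ => one_ne_zero, ?_⟩
      rw [Fintype.prod_empty, one_mul, hG0d]
      have hPe : P = R := by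
        rw [hPR, show a = 0 by omega, show b = 0 by omega]
        simp
      rw [hPe] at hc
      exact hc.resolve_left (mul_ne_zero hR1 hR1')
    · refine ⟨Function.update (fun _ => 1) ⟨0, h⟩ (B.det * G0.det), fun i => ?_, ?_⟩
      · rw [Function.update_apply]
        split_ifs
        · exact mul_ne_zero hu.ne_zero hG0u.ne_zero
        · exact one_ne_zero
      · rw [Finset.prod_update_of_mem (Finset.mem_univ _)]
        simp only [Finset.prod_const_one, mul_one]
        rw [mul_assoc, isSquare_mul_iff hu.ne_zero (mul_ne_zero hG0u.ne_zero hG0u.ne_zero)]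
        simp [IsSquare.mul_self G0.det]
  have hcard : Fintype.card (Fin (a + b) ⊕ (Fin k ⊕ Fin k)) = Fintype.card (Fin (2 * n)) := by
    simp only [Fintype.card_sum, Fintype.card_fin]
    omega
  let e := Fintype.equivOfCardEq hcard
  let R' := Matrix.reindexAlgEquiv F F e
  set M := R' (Matrix.fromBlocks (Matrix.diagonal w) 0 0 g0) with hM
  set G := R' (Matrix.fromBlocks (Matrix.diagonal D) 0 0 G0) with hG
  have hGs : Gᵀ = G := by
    show R' (Matrix.fromBlocks (Matrix.diagonal D) 0 0 G0)ᵀ = _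
    rw [Matrix.fromBlocks_transpose, Matrix.diagonal_transpose, hG0s, Matrix.transpose_zero, Matrix.transpose_zero]
  have hGd : G.det = (∏ i, D i) * G0.det := by
    rw [hG, Matrix.det_reindexAlgEquiv, Matrix.det_fromBlocks_zero₂₁, Matrix.det_diagonal]
  have hGi : Mᵀ * G * M = G := by
    show R' (Matrix.fromBlocks (Matrix.diagonal w) 0 0 g0)ᵀ * _ * _ = _
    rw [hM, hG, ← map_mul, ← map_mul, Matrix.fromBlocks_transpose, Matrix.fromBlocks_multiply, Matrix.fromBlocks_multiply]
    simp only [Matrix.diagonal_transpose, Matrix.transpose_zero, Matrix.zero_mul, Matrix.mul_zero, add_zero, zero_add,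
      Matrix.diagonal_mul_diagonal, hg0i]
    congr 2
    ext i j
    by_cases hij : i = j
    · subst hij
      rw [Matrix.diagonal_apply_eq, Matrix.diagonal_apply_eq, mul_right_comm, hw, one_mul]
    · simp [Matrix.diagonal_apply_ne _ hij]
  have hGu : IsUnit G.det := by
    rw [hGd]
    exact (isUnit_iff_ne_zero.2 (Finset.prod_ne_zero_iff.2 fun i _ => hD0 i)).mul hG0u
  obtain ⟨Pm, hPmu, hPm⟩ := Cfsg.Agent.Linear.AltJordan.congr_symm h2 hGs hs hGu hu (by rw [hGd]; exact hDd)
  have hMu : IsUnit M := by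
    refine IsUnit.map R' ?_
    rw [Matrix.isUnit_iff_isUnit_det, Matrix.det_fromBlocks_zero₂₁, Matrix.det_diagonal]
    exact (isUnit_iff_ne_zero.2 (Finset.prod_ne_zero_iff.2 fun i _ => left_ne_zero_of_mul_eq_one (hw i))).mul
      ((Matrix.isUnit_iff_isUnit_det _).1 hg0u)
  obtain ⟨Mu, hMu⟩ := hMu
  obtain ⟨Q, hQ⟩ := (Matrix.isUnit_iff_isUnit_det _).2 hPmu
  refine ⟨⟨Q⁻¹ * Mu * Q, ?_⟩, ?_⟩
  · show (Q⁻¹ * Mu * Q : GL (Fin (2 * n)) F).1ᵀ * B * (Q⁻¹ * Mu * Q : GL (Fin (2 * n)) F).1 = B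
    rw [← hQ] at hPm
    calc (Q⁻¹ * Mu * Q : GL (Fin (2 * n)) F).1ᵀ * B * (Q⁻¹ * Mu * Q : GL (Fin (2 * n)) F).1
        = Q.1ᵀ * Mu.1ᵀ * ((Q.1 * (Q⁻¹ : GL (Fin (2 * n)) F).1)ᵀ * G * (Q.1 * (Q⁻¹ : GL (Fin (2 * n)) F).1)) * Mu.1 * Q.1 := by
          rw [← hPm, Units.val_mul, Units.val_mul, Matrix.transpose_mul, Matrix.transpose_mul, Matrix.transpose_mul]
          simp only [mul_assoc]
      _ = Q.1ᵀ * (Mu.1ᵀ * G * Mu.1) * Q.1 := by
          rw [Units.mul_inv, Matrix.transpose_one, one_mul, mul_one]; simp only [mul_assoc]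
      _ = B := by rw [hMu, hGi, hPm]
  · show (Q⁻¹ * Mu * Q : GL (Fin (2 * n)) F).1.charpoly = P
    rw [Units.val_mul, Units.val_mul, Matrix.coe_units_inv, Matrix.charpoly_units_conj', hMu, hM,
      Matrix.coe_reindexAlgEquiv, Matrix.charpoly_reindex, Matrix.charpoly_fromBlocks_zero₂₁, hg0,
      Matrix.charpoly_diagonal, hPR, Fin.prod_univ_add]
    congr 1
    simp [w]

theorem classes_lower' (hodd : Odd (Fintype.card F)) (hn : 2 ≤ n) {B : Matrix (Fin (2 * n)) (Fin (2 * n)) F}
    (hs : Bᵀ = B) (hu : IsUnit B.det) :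
    Fintype.card F ^ n ≤ 2 * Nat.card (ConjClasses (orth B)) := by
  classical
  have h2 := two_ne_zero_of_odd hodd
  obtain ⟨m, rfl⟩ : ∃ m, n = m + 2 := ⟨n - 2, by omega⟩
  let P0 : (Fin m → F) → F[X] := fun w =>
    1 + X ^ (2 * (m + 2)) + ∑ j : Fin m, C (w j) * (X ^ (j.1 + 1) + X ^ (2 * (m + 2) - (j.1 + 1)))
  obtain ⟨e, he_def⟩ : ∃ e : F, e = (-1) ^ (m + 2) := ⟨_, rfl⟩
  let tt : F × F × (Fin m → F) → F := fun x =>
    (x.1 - (P0 x.2.2).eval 1 + e * (x.2.1 - (P0 x.2.2).eval (-1))) / 2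
  let ss : F × F × (Fin m → F) → F := fun x =>
    (x.1 - (P0 x.2.2).eval 1 - e * (x.2.1 - (P0 x.2.2).eval (-1))) / 4
  let P : F × F × (Fin m → F) → F[X] := fun x =>
    P0 x.2.2 + C (ss x) * (X ^ (m + 1) + X ^ (m + 3)) + C (tt x) * X ^ (m + 2)
  have hcoeff : ∀ x j, (P x).coeff j = (if j = 0 then 1 else 0) + (if j = 2 * (m + 2) then 1 else 0) +
      (∑ i : Fin m, x.2.2 i * ((if j = i.1 + 1 then 1 else 0) + if j = 2 * (m + 2) - (i.1 + 1) then 1 else 0)) +
      ss x * ((if j = m + 1 then 1 else 0) + if j = m + 3 then 1 else 0) + tt x * (if j = m + 2 then 1 else 0) := by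
    intro x j
    simp only [P, P0, coeff_add, coeff_one, coeff_X_pow, finsetSum_coeff, coeff_C_mul]
  have hlead : ∀ x, (P x).coeff (2 * (m + 2)) = 1 := fun x => by
    rw [hcoeff, if_neg (by omega), if_pos rfl, if_neg (by omega), if_neg (by omega), if_neg (by omega),
      Finset.sum_eq_zero fun i _ => by rw [if_neg (by omega), if_neg (by omega)]; ring]
    ring
  have hdeg : ∀ x, (P x).natDegree = 2 * (m + 2) := fun x => by
    refine natDegree_eq_of_le_of_coeff_ne_zero (natDegree_le_iff_coeff_eq_zero.2 fun j hj => ?_) ?_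
    · rw [hcoeff, if_neg (by omega), if_neg (by omega), if_neg (by omega), if_neg (by omega), if_neg (by omega),
        Finset.sum_eq_zero fun i _ => by rw [if_neg (by omega), if_neg (by omega)]; ring]
      ring
    · rw [hlead]
      exact one_ne_zero
  have hmon : ∀ x, (P x).Monic := fun x => by rw [Monic, leadingCoeff, hdeg, hlead]
  have hrev : ∀ x, (P x).reverse = P x := fun x => by
    have hX : ∀ j, j ≤ 2 * (m + 2) → reflect (2 * (m + 2)) (X ^ j : F[X]) = X ^ (2 * (m + 2) - j) := fun j hj => by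
      rw [reflect_monomial, revAt_le hj]
    rw [Polynomial.reverse, hdeg]
    simp only [P, P0, reflect_add, reflect_C_mul]
    rw [reflect_one, hX _ le_rfl, Nat.sub_self, pow_zero, add_comm (X ^ (2 * (m + 2))) (1 : F[X]), hX _ (by omega),
      hX _ (by omega), hX _ (by omega), show 2 * (m + 2) - (m + 1) = m + 3 by omega,
      show 2 * (m + 2) - (m + 3) = m + 1 by omega, show 2 * (m + 2) - (m + 2) = m + 2 by omega,
      add_comm (X ^ (m + 3)) (X ^ (m + 1))]
    congr 3
    have hsum : ∀ (s : Finset (Fin m)) (f : Fin m → F[X]),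
        reflect (2 * (m + 2)) (∑ j ∈ s, f j) = ∑ j ∈ s, reflect (2 * (m + 2)) (f j) := fun s f => by
      induction s using Finset.induction with
      | empty => simp
      | insert i t hi ih => rw [Finset.sum_insert hi, Finset.sum_insert hi, reflect_add, ih]
    rw [hsum]
    refine Finset.sum_congr rfl fun j _ => ?_
    rw [reflect_C_mul, reflect_add, hX _ (by omega), hX _ (Nat.sub_le _ _),
      show 2 * (m + 2) - (2 * (m + 2) - (j.1 + 1)) = j.1 + 1 by omega, add_comm]
  have he : e * e = 1 := by simp [he_def, ← mul_pow]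
  have h4 : (4 : F) ≠ 0 := by
    rw [show (4 : F) = 2 * 2 by norm_num]
    exact mul_ne_zero h2 h2
  have hev1 : ∀ x, (P x).eval 1 = x.1 := fun x => by
    simp only [P, eval_add, eval_mul, eval_C, eval_pow, eval_X, one_pow, ss, tt]
    field_simp
    ring
  have hev2 : ∀ x, (P x).eval (-1) = x.2.1 := fun x => by
    simp only [P, eval_add, eval_mul, eval_C, eval_pow, eval_X, ss, tt]
    rw [show ((-1 : F)) ^ (m + 1) = -e by simp only [he_def, pow_succ]; ring,
      show ((-1 : F)) ^ (m + 3) = -e by simp only [he_def, pow_succ]; ring, ← he_def]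
    field_simp
    linear_combination (8 : F) * (x.2.1 - eval (-1) (P0 x.2.2)) * he
  have hlow : ∀ x (i : Fin m), (P x).coeff (i.1 + 1) = x.2.2 i := fun x i => by
    rw [hcoeff, if_neg (by omega), if_neg (by omega), if_neg (by omega), if_neg (by omega), if_neg (by omega),
      Finset.sum_eq_single i (fun l _ hl => by
        rw [if_neg (fun h => hl (Fin.ext (by omega))), if_neg (by omega)]; ring) (by simp),
      if_pos rfl, if_neg (by omega)]
    ring
  -- pairs of values
  let Ok : F × F → Prop := fun p => p.1 * p.2 = 0 ∨ (IsSquare (p.1 * p.2) ↔ IsSquare B.det)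
  obtain ⟨δ, hδ⟩ := FiniteField.exists_nonsquare (F := F) (by
    intro h
    have := FiniteField.even_card_iff_char_two.1 h
    obtain ⟨k, hk⟩ := hodd
    omega)
  have hδ0 : δ ≠ 0 := fun h => hδ (h ▸ IsSquare.zero)
  have hfl : ∀ p : F × F, ¬ Ok p → Ok (δ * p.1, p.2) := fun p hp => by
    simp only [Ok, not_or] at hp
    refine Or.inr ?_
    show IsSquare (δ * p.1 * p.2) ↔ _
    rw [mul_assoc, isSquare_mul_iff hδ0 hp.1]
    tauto
  have hpairs : Fintype.card F ^ 2 ≤ 2 * Nat.card {p : F × F // Ok p} := by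
    let j : F × F → {p : F × F // Ok p} ⊕ {p : F × F // Ok p} := fun p =>
      if h : Ok p then Sum.inl ⟨p, h⟩ else Sum.inr ⟨(δ * p.1, p.2), hfl p h⟩
    have hj : Function.Injective j := fun p p' h => by
      simp only [j] at h
      split_ifs at h with h1 h2' h2'
      · exact congrArg Subtype.val (Sum.inl.inj h)
      · have := congrArg Subtype.val (Sum.inr.inj h)
        simp only [Prod.mk.injEq, mul_eq_mul_left_iff, hδ0, or_false] at this
        exact Prod.ext this.1 this.2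
    have := Nat.card_le_card_of_injective j hj
    rw [Nat.card_prod, Nat.card_sum, Nat.card_eq_fintype_card (α := F)] at this
    rw [sq]
    omega
  choose g hg using fun x : {x : F × F × (Fin m → F) // Ok (x.1, x.2.1)} =>
    exists_isometry hodd hs hu (P x.1) (hmon _) (hdeg _) (hrev _) (by rw [hev1, hev2]; exact x.2)
  have hginj : Function.Injective fun x => ConjClasses.mk (g x) := fun x y h => by
    obtain ⟨c, hc⟩ := isConj_iff.1 (ConjClasses.mk_eq_mk_iff_isConj.1 h)
    have hP : P x.1 = P y.1 := by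
      rw [← hg x, ← hg y, ← hc]
      simp only [Subgroup.coe_mul, Subgroup.coe_inv, Units.val_mul, Matrix.coe_units_inv, Matrix.charpoly_units_conj]
    refine Subtype.ext (Prod.ext ?_ (Prod.ext ?_ (funext fun i => ?_)))
    · rw [← hev1 x.1, ← hev1 y.1, hP]
    · rw [← hev2 x.1, ← hev2 y.1, hP]
    · rw [← hlow x.1 i, ← hlow y.1 i, hP]
  have hcard : Nat.card {x : F × F × (Fin m → F) // Ok (x.1, x.2.1)} =
      Nat.card {p : F × F // Ok p} * Fintype.card F ^ m := by
    let e' : {x : F × F × (Fin m → F) // Ok (x.1, x.2.1)} ≃ {p : F × F // Ok p} × (Fin m → F) :=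
      { toFun := fun x => (⟨(x.1.1, x.1.2.1), x.2⟩, x.1.2.2)
        invFun := fun y => ⟨(y.1.1.1, y.1.1.2, y.2), y.1.2⟩ }
    rw [Nat.card_congr e', Nat.card_prod, Nat.card_fun, Nat.card_fin, Nat.card_eq_fintype_card (α := F)]
  have := Nat.card_le_card_of_injective _ hginj
  rw [hcard] at this
  calc Fintype.card F ^ (m + 2) = Fintype.card F ^ 2 * Fintype.card F ^ m := by rw [← pow_add, Nat.add_comm]
    _ ≤ 2 * Nat.card {p : F × F // Ok p} * Fintype.card F ^ m := Nat.mul_le_mul_right _ hpairs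
    _ ≤ _ := by rw [mul_assoc]; exact Nat.mul_le_mul_left _ this

theorem card_conjClasses_congr {G H : Type*} [Group G] [Group H] [Finite G] [Finite H] (e : G ≃* H) :
    Nat.card (ConjClasses G) = Nat.card (ConjClasses H) :=
  le_antisymm
    (Nat.card_le_card_of_surjective (ConjClasses.map e.symm.toMonoidHom) (ConjClasses.map_surjective e.symm.surjective))
    (Nat.card_le_card_of_surjective (ConjClasses.map e.toMonoidHom) (ConjClasses.map_surjective e.surjective))

/-- The isometry group of a quadratic form is the group of its Gram matrix. -/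
theorem bounds_isometryGroup (hodd : Odd (Fintype.card F)) {n : ℕ} (hn : 2 ≤ n) {ι : Type} [Fintype ι] [DecidableEq ι]
    (hι : Fintype.card ι = 2 * n) (Q : (ι → F) → F) (Gm : Matrix ι ι F) (hGs : Gmᵀ = Gm) (hGu : IsUnit Gm.det)
    (hQ : ∀ v, v ⬝ᵥ Gm *ᵥ v = 2 * Q v) :
    Fintype.card F ^ n ≤ 2 * Nat.card (ConjClasses ↥(Cfsg.isometryGroup F Q)) ∧
      2 * Nat.card (ConjClasses ↥(Cfsg.isometryGroup F Q)) ≤ 19 * Fintype.card F ^ n := by
  classical
  have h2 := two_ne_zero_of_odd hodd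
  let ε : ι ≃ Fin (2 * n) := Fintype.equivFinOfCardEq hι
  let R := Matrix.reindexAlgEquiv F F ε
  have hs : (R Gm)ᵀ = R Gm := by
    show R Gmᵀ = _
    rw [hGs]
  have hu : IsUnit (R Gm).det := by
    rw [Matrix.det_reindexAlgEquiv]
    exact hGu
  let E : GL ι F ≃* GL (Fin (2 * n)) F := Units.mapEquiv R.toMulEquiv
  have hmem : ∀ M : GL ι F, M ∈ Cfsg.isometryGroup F Q ↔ E M ∈ orth (R Gm) := fun M => by
    have hquad : ∀ v, v ⬝ᵥ (M.1ᵀ * Gm * M.1) *ᵥ v = 2 * Q (M.1 *ᵥ v) := fun v => by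
      rw [← hQ, ← Matrix.mulVec_mulVec, ← Matrix.mulVec_mulVec, Matrix.dotProduct_mulVec, Matrix.vecMul_transpose]
    show _ ↔ R M.1ᵀ * R Gm * R M.1 = R Gm
    rw [← map_mul, ← map_mul, R.injective.eq_iff]
    constructor
    · intro h
      have hH : ∀ v, v ⬝ᵥ (M.1ᵀ * Gm * M.1 - Gm) *ᵥ v = 0 := fun v => by
        rw [Matrix.sub_mulVec, dotProduct_sub, hquad, hQ, show Q (M.1 *ᵥ v) = Q v from h v v, sub_self]
      have hHs : (M.1ᵀ * Gm * M.1 - Gm)ᵀ = M.1ᵀ * Gm * M.1 - Gm := by
        rw [Matrix.transpose_sub, Matrix.transpose_mul, Matrix.transpose_mul, Matrix.transpose_transpose, hGs, mul_assoc]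
      rw [← sub_eq_zero]
      generalize M.1ᵀ * Gm * M.1 - Gm = H at hH hHs ⊢
      ext i j
      have h1 := hH (Pi.single i 1 + Pi.single j 1)
      have h3 := hH (Pi.single i 1)
      have h5 := hH (Pi.single j 1)
      have h6 : H j i = H i j := congrFun (congrFun hHs i) j
      simp only [Matrix.mulVec_add, dotProduct_add, add_dotProduct, Matrix.mulVec_single, single_dotProduct,
        MulOpposite.op_one, one_smul, one_mul, Matrix.col_apply] at h1 h3 h5
      rw [Matrix.zero_apply]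
      refine (mul_eq_zero.1 (show (2 : F) * H i j = 0 from ?_)).resolve_left h2
      linear_combination h1 - h3 - h5 - h6
    · intro h v _
      show Q (M.1 *ᵥ v) = Q v
      refine mul_left_cancel₀ h2 ?_
      rw [← hquad, h, hQ]
  let e : ↥(Cfsg.isometryGroup F Q) ≃* orth (R Gm) :=
    { toFun := fun M => ⟨E M.1, (hmem M.1).1 M.2⟩
      invFun := fun M => ⟨E.symm M.1, (hmem _).2 (by rw [E.apply_symm_apply]; exact M.2)⟩
      left_inv := fun M => Subtype.ext (E.symm_apply_apply _)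
      right_inv := fun M => Subtype.ext (E.apply_symm_apply _)
      map_mul' := fun a b => Subtype.ext (map_mul E a.1 b.1) }
  rw [card_conjClasses_congr e]
  exact ⟨classes_lower' hodd hn hs hu, classes_upper hodd (by omega) hs hu⟩

/-- The hyperbolic part. -/
theorem hyp_quad {m : ℕ} (v : Fin m ⊕ Fin m → F) :
    v ⬝ᵥ (Matrix.fromBlocks 0 1 1 0 : Matrix (Fin m ⊕ Fin m) (Fin m ⊕ Fin m) F) *ᵥ v =
      2 * ∑ i : Fin m, v (.inl i) * v (.inr i) := by
  rw [Matrix.fromBlocks_mulVec]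
  simp only [Matrix.zero_mulVec, Matrix.one_mulVec, zero_add, add_zero, dotProduct, Fintype.sum_sum_type, Sum.elim_inl,
    Sum.elim_inr, Function.comp_apply, Finset.mul_sum, ← Finset.sum_add_distrib]
  exact Finset.sum_congr rfl fun i _ => by ring

theorem hyp_unit (m : ℕ) : IsUnit (Matrix.fromBlocks 0 1 1 0 : Matrix (Fin m ⊕ Fin m) (Fin m ⊕ Fin m) F).det :=
  (Matrix.isUnit_iff_isUnit_det _).1 (IsUnit.of_mul_eq_one (Matrix.fromBlocks 0 1 1 0) (by
    simp [Matrix.fromBlocks_multiply]))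

theorem bounds_plus_minus (hodd : Odd (Fintype.card F)) (n : ℕ) (hn : 2 ≤ n) (a b : F)
    (hab : ∀ z₁ z₂ : F, z₁ ^ 2 + a * z₁ * z₂ + b * z₂ ^ 2 = 0 → z₁ = 0 ∧ z₂ = 0) :
    (Fintype.card F ^ n ≤ 2 * Nat.card (ConjClasses ↥(Cfsg.isometryGroup F (Cfsg.quadFormPlus n F))) ∧
      2 * Nat.card (ConjClasses ↥(Cfsg.isometryGroup F (Cfsg.quadFormPlus n F))) ≤ 19 * Fintype.card F ^ n) ∧
    (Fintype.card F ^ n ≤ 2 * Nat.card (ConjClasses ↥(Cfsg.isometryGroup F (Cfsg.quadFormMinus (n - 1) F a b))) ∧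
      2 * Nat.card (ConjClasses ↥(Cfsg.isometryGroup F (Cfsg.quadFormMinus (n - 1) F a b))) ≤ 19 * Fintype.card F ^ n) := by
  have h2 := two_ne_zero_of_odd hodd
  constructor
  · refine bounds_isometryGroup hodd hn (by simp; omega) _ (Matrix.fromBlocks 0 1 1 0) ?_ (hyp_unit n) fun v => ?_
    · simp [Matrix.fromBlocks_transpose]
    · exact hyp_quad v
  · refine bounds_isometryGroup hodd hn (by simp; omega) _
      (Matrix.fromBlocks (Matrix.fromBlocks 0 1 1 0) 0 0 !![2, a; a, 2 * b]) ?_ ?_ fun v => ?_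
    · simp only [Matrix.fromBlocks_transpose, Matrix.transpose_zero, Matrix.transpose_one]
      congr 1
      ext i j
      fin_cases i <;> fin_cases j <;> rfl
    · rw [Matrix.det_fromBlocks_zero₂₁, Matrix.det_fin_two_of]
      refine (hyp_unit _).mul (isUnit_iff_ne_zero.2 fun h => ?_)
      have h0 : (-a / 2) ^ 2 + a * (-a / 2) * 1 + b * 1 ^ 2 = 0 := by
        field_simp
        linear_combination h
      exact one_ne_zero (hab _ _ h0).2
    · rw [Cfsg.quadFormMinus, mul_add, ← hyp_quad (fun x => v (.inl x)), Matrix.fromBlocks_mulVec]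
      simp only [Matrix.zero_mulVec, zero_add, add_zero, dotProduct, Fintype.sum_sum_type, Sum.elim_inl, Sum.elim_inr,
        Function.comp_def]
      simp [Matrix.mulVec, dotProduct, Fin.sum_univ_two]
      ring

end Cfsg.Agent.KnownB.OrthClassCount
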