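import Cfsg.Agent.KnownB.ClassTupleDet

/-!
# Matrices with a prescribed decomposition
-/

set_option autoImplicit false
set_option linter.unusedSectionVars false
set_option linter.style.haveILetI false

namespace Cfsg.Agent.KnownB.ClassTuples

open Polynomial Cfsg.Agent.Linear.GLClasses

universe u

variable {F : Type u} [Field F] [Fintype F] {n : ℕ}

/-- Conditions on the keys of a decomposition. -/
def GoodKey (x : F[X] × ℕ) : Prop := Irreducible x.1 ∧ x.1.Monic ∧ x.1.coeff 0 ≠ 0 ∧ 1 ≤ x.2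

theorem goodKey_of_dec {g : GL (Fin n) F} (D : Dec g) (j : D.J) : GoodKey (D.key j) :=
  ⟨(D.hkey j).1, (D.hkey j).2.1, (D.hkey j).2.2.1, (D.hkey j).2.2.2.1⟩

/-- There is a matrix with the given decomposition. -/
theorem exists_realize {J : Type u} [Fintype J] (key : J → F[X] × ℕ) (hk : ∀ j, GoodKey (key j)) {d : ℕ}
    (hd : ∑ j, (key j).2 * (key j).1.natDegree = d) :
    ∃ (A : GL (Fin d) F) (D : Dec A) (e : D.J ≃ J), ∀ j, key (e j) = D.key j := by
  classical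
  haveI hfin : ∀ j, Module.Finite F (F[X] ⧸ (F[X] ∙ (key j).1 ^ (key j).2)) := fun j =>
    ((hk j).2.1.pow _).finite_quotient
  have hrank : Module.finrank F (∀ j, F[X] ⧸ (F[X] ∙ (key j).1 ^ (key j).2)) = d := by
    rw [Module.finrank_pi_fintype, ← hd]
    exact Finset.sum_congr rfl fun j _ => by rw [finrank_quot _ ((hk j).2.1.pow _), natDegree_pow]
  let L : (Fin d → F) ≃ₗ[F] ∀ j, F[X] ⧸ (F[X] ∙ (key j).1 ^ (key j).2) :=
    LinearEquiv.ofFinrankEq _ _ (by rw [Module.finrank_fin_fun, hrank])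
  let Φ : (∀ j, F[X] ⧸ (F[X] ∙ (key j).1 ^ (key j).2)) →ₗ[F] ∀ j, F[X] ⧸ (F[X] ∙ (key j).1 ^ (key j).2) :=
    LinearMap.pi fun j => (mulBy ((key j).1 ^ (key j).2) X).comp (LinearMap.proj j)
  let T : (Fin d → F) →ₗ[F] (Fin d → F) := L.symm.toLinearMap ∘ₗ Φ ∘ₗ L.symm.symm.toLinearMap
  have hdet : (LinearMap.toMatrix' T).det ≠ 0 := by
    rw [LinearMap.det_toMatrix', LinearMap.det_conj, det_piMap]
    refine Finset.prod_ne_zero_iff.2 fun j _ => ?_
    rw [det_mulBy_X ((hk j).2.1.pow _), ← Polynomial.constantCoeff_apply, map_pow]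
    exact mul_ne_zero (pow_ne_zero _ (neg_ne_zero.2 one_ne_zero)) (pow_ne_zero _ (hk j).2.2.1)
  let A : GL (Fin d) F := Matrix.GeneralLinearGroup.mkOfDetNeZero (LinearMap.toMatrix' T) hdet
  have hA : Matrix.toLin' A.1 = T := Matrix.toLin'_toMatrix' T
  let ψ : Mod A.1 ≃ₗ[F[X]] ∀ j, F[X] ⧸ (F[X] ∙ (key j).1 ^ (key j).2) :=
    LinearEquiv.ofAEval (Matrix.toLin' A.1) L fun v => by
      show L (Matrix.toLin' A.1 v) = _
      rw [hA]
      show L (L.symm (Φ (L v))) = _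
      rw [LinearEquiv.apply_symm_apply]
      rfl
  refine ⟨A, ⟨J, inferInstance, key, fun j => ⟨(hk j).1, (hk j).2.1, (hk j).2.2.1, (hk j).2.2.2, ?_⟩, hd, ψ⟩,
    Equiv.refl J, fun j => rfl⟩
  have h1 := Finset.single_le_sum (f := fun j => (key j).2 * (key j).1.natDegree) (fun i _ => Nat.zero_le _)
    (Finset.mem_univ j)
  rw [hd] at h1
  exact le_trans (Nat.le_mul_of_pos_right _ (hk j).1.natDegree_pos) h1

/-- The determinant of a polynomial in `g`. -/
theorem det_aeval {g : GL (Fin n) F} (D : Dec g) (p : F[X]) :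
    (aeval g.1 p).det = (letI := D.fin; ∏ j, LinearMap.det (mulBy ((D.key j).1 ^ (D.key j).2) p)) := by
  letI := D.fin
  haveI : ∀ j : D.J, Module.Finite F (F[X] ⧸ (F[X] ∙ (D.key j).1 ^ (D.key j).2)) := fun j =>
    ((D.hkey j).2.1.pow _).finite_quotient
  let L : (Fin n → F) ≃ₗ[F] ∀ j, F[X] ⧸ (F[X] ∙ (D.key j).1 ^ (D.key j).2) :=
    (Module.AEval'.of (Matrix.toLin' g.1)).trans (D.iso.restrictScalars F)
  rw [← LinearMap.det_toLin']
  have h1 : Matrix.toLin' (aeval g.1 p) = aeval (Matrix.toLin' g.1) p :=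
    (aeval_algHom_apply (Matrix.toLinAlgEquiv' (R := F) (n := Fin n)).toAlgHom g.1 p).symm
  have h2 : Matrix.toLin' (aeval g.1 p) = L.symm.toLinearMap ∘ₗ (LinearMap.pi fun j =>
      (mulBy ((D.key j).1 ^ (D.key j).2) p).comp (LinearMap.proj j)) ∘ₗ L.symm.symm.toLinearMap := by
    refine LinearMap.ext fun v => L.injective ?_
    rw [h1]
    simp only [LinearMap.comp_apply, LinearEquiv.coe_coe, LinearEquiv.apply_symm_apply]
    show D.iso (Module.AEval.of F _ (Matrix.toLin' g.1) (aeval (Matrix.toLin' g.1) p • v)) = _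
    rw [Module.AEval.of_aeval_smul, map_smul]
    rfl
  rw [h2, LinearMap.det_conj]
  exact det_piMap _

/-- A decomposition is carried along conjugation. -/
theorem exists_dec_conj {g g' : GL (Fin n) F} (D : Dec g) (h : IsConj g g') :
    ∃ (D' : Dec g') (e : D'.J ≃ D.J), ∀ j, D.key (e j) = D'.key j := by
  obtain ⟨P, hP⟩ := isConj_iff.1 h
  let L : (Fin n → F) ≃ₗ[F] (Fin n → F) :=
    LinearEquiv.ofLinear (Matrix.toLin' (P⁻¹ : GL (Fin n) F).1) (Matrix.toLin' P.1)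
      (by rw [← Matrix.toLin'_mul, ← Units.val_mul, inv_mul_cancel, Units.val_one, Matrix.toLin'_one])
      (by rw [← Matrix.toLin'_mul, ← Units.val_mul, mul_inv_cancel, Units.val_one, Matrix.toLin'_one])
  let ψ : Mod g'.1 ≃ₗ[F[X]] Mod g.1 :=
    LinearEquiv.ofAEval (Matrix.toLin' g'.1) (L.trans (Module.AEval'.of (Matrix.toLin' g.1))) fun v => by
      rw [LinearEquiv.trans_apply, LinearEquiv.trans_apply, Module.AEval'.X_smul_of]
      congr 1
      show Matrix.toLin' (P⁻¹ : GL (Fin n) F).1 (Matrix.toLin' g'.1 v) =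
        Matrix.toLin' g.1 (Matrix.toLin' (P⁻¹ : GL (Fin n) F).1 v)
      rw [← LinearMap.comp_apply, ← LinearMap.comp_apply, ← Matrix.toLin'_mul, ← Matrix.toLin'_mul, ← Units.val_mul,
        ← Units.val_mul, show P⁻¹ * g' = g * P⁻¹ by rw [← hP]; group]
  exact ⟨⟨D.J, D.fin, D.key, D.hkey, D.hdeg, ψ.trans D.iso⟩, Equiv.refl _, fun _ => rfl⟩

theorem Dec.count_eq_of_equiv {g : GL (Fin n) F} (D : Dec g) {J : Type u} (key : J → F[X] × ℕ) (e : D.J ≃ J)
    (he : ∀ j, key (e j) = D.key j) (x : F[X] × ℕ) : D.count x = Nat.card {j // key j = x} :=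
  Nat.card_congr (e.subtypeEquiv fun j => by rw [he])

theorem Dec.isConj_of_count {g g' : GL (Fin n) F} (D : Dec g) (D' : Dec g') (h : ∀ x, D.count x = D'.count x) :
    IsConj g g' := by
  classical
  refine D.isConj D' fun i => Multiset.ext.2 fun f => ?_
  rw [D.count_slot, D'.count_slot, h]

theorem count_dec_eq {g : GL (Fin n) F} (D D' : Dec g) (x : F[X] × ℕ) : D.count x = D'.count x := by
  classical
  by_cases hx : Irreducible x.1 ∧ x.1.Monic ∧ 1 ≤ x.2
  · exact count_eq D' D ⟨hx.1, hx.2.1⟩ ⟨hx.1, hx.2.1⟩ rfl (fun _ => rfl) x.2 hx.2.2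
  · have hz : ∀ D : Dec g, D.count x = 0 := fun D => by
      rw [Dec.count, Nat.card_eq_zero]
      exact Or.inl ⟨fun j => hx (j.2 ▸ ⟨(D.hkey j.1).1, (D.hkey j.1).2.1, (D.hkey j.1).2.2.2.1⟩)⟩
    rw [hz, hz]

end Cfsg.Agent.KnownB.ClassTuples
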