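import Cfsg.Agent.KnownB.SLClassBound

/-!
# Numerical bounds for the class numbers of `SL_n(q)` and `PSL_n(q)`
-/

set_option autoImplicit false
set_option linter.unusedSectionVars false
set_option linter.style.haveILetI false

namespace Cfsg.Agent.KnownB.ClassTuples

open Polynomial Cfsg.Agent.Linear.GLClasses Cfsg.Agent.Linear.GLClassArith

universe u

/-- The bound on the sum of squared weights. -/
def B (q m : ℕ) : ℕ := A q m m + ∑ r ∈ ((q - 1).gcd m).divisors.erase 1, (r ^ 2 - 1) * A q (m / r) (m / r)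

theorem A11 (q : ℕ) : A q 1 1 = q - 1 := by simp [A, w, Finset.sum_range_succ]

theorem A22 {q : ℕ} (hq : 1 ≤ q) : A q 2 2 + 1 = q ^ 2 := by
  obtain ⟨p, rfl⟩ : ∃ p, q = p + 1 := ⟨q - 1, by omega⟩
  simp [A, w, Finset.sum_range_succ]
  ring

theorem A33 {q : ℕ} (hq : 1 ≤ q) : A q 3 3 + q = q ^ 3 := by
  obtain ⟨p, rfl⟩ : ∃ p, q = p + 1 := ⟨q - 1, by omega⟩
  simp [A, w, Finset.sum_range_succ]
  ring

theorem B_one (q : ℕ) : B q 1 = q - 1 := by simp [B, A11]

theorem B_two {q : ℕ} (hq : 2 ≤ q) :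
    B q 2 ≤ (q - 1) * (q + 4) ∧ (¬ 2 ∣ q - 1 → B q 2 ≤ (q - 1) * (q + 1)) := by
  obtain ⟨p, rfl⟩ : ∃ p, q = p + 1 := ⟨q - 1, by omega⟩
  have h2 := A22 (show 1 ≤ p + 1 by omega)
  simp only [B, Nat.add_sub_cancel]
  rcases (Nat.dvd_prime Nat.prime_two).1 (Nat.gcd_dvd_right p 2) with hg | hg
  · rw [hg, Nat.divisors_one]
    have he : (({1} : Finset ℕ).erase 1) = ∅ := by decide
    rw [he, Finset.sum_empty]
    exact ⟨by norm_num at *; nlinarith, fun _ => by norm_num at *; nlinarith⟩
  · rw [hg, show (Nat.divisors 2).erase 1 = {2} by decide, Finset.sum_singleton, show (2 : ℕ) / 2 = 1 from rfl, A11,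
      Nat.add_sub_cancel]
    exact ⟨by norm_num at *; nlinarith, fun h => absurd (hg ▸ Nat.gcd_dvd_left p 2) h⟩

theorem geom_le {q : ℕ} (hq : 2 ≤ q) : ∀ h : ℕ, ∑ j ∈ Finset.Icc 1 h, q ^ j ≤ 2 * q ^ h
  | 0 => by simp
  | h + 1 => by
    rw [Finset.sum_Icc_succ_top (by omega), two_mul]
    refine Nat.add_le_add_right ((geom_le hq h).trans ?_) _
    rw [pow_succ']
    exact Nat.mul_le_mul_right _ hq

theorem B_ge_three {q m : ℕ} (hq : 2 ≤ q) (hm : 3 ≤ m) :
    B q m ≤ (q - 1) * (q ^ (m - 1) + 3 * q ^ (m - 2)) := by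
  obtain ⟨p, rfl⟩ : ∃ p, q = p + 1 := ⟨q - 1, by omega⟩
  simp only [B, Nat.add_sub_cancel]
  have hA := A_le hq (show 1 ≤ m by omega)
  rcases eq_or_lt_of_le hm with rfl | hm4
  · have h3 := A33 (show 1 ≤ p + 1 by omega)
    rcases (Nat.dvd_prime Nat.prime_three).1 (Nat.gcd_dvd_right p 3) with hg | hg
    · rw [hg, Nat.divisors_one, show (({1} : Finset ℕ).erase 1) = ∅ by decide, Finset.sum_empty]
      norm_num at *
      nlinarith
    · rw [hg, show (Nat.divisors 3).erase 1 = {3} by decide, Finset.sum_singleton, show (3 : ℕ) / 3 = 1 from rfl, A11,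
        Nat.add_sub_cancel]
      have hp : 3 ≤ p := Nat.le_of_dvd (by omega) (hg ▸ Nat.gcd_dvd_left p 3)
      norm_num at *
      nlinarith
  rcases eq_or_lt_of_le (show 4 ≤ m by omega) with rfl | hm5
  · have h2 := A22 (show 1 ≤ p + 1 by omega)
    have hg : p.gcd 4 = 1 ∨ p.gcd 4 = 2 ∨ p.gcd 4 = 4 := by
      have h := Nat.gcd_dvd_right p 4
      have hle : p.gcd 4 ≤ 4 := Nat.le_of_dvd (by norm_num) h
      generalize p.gcd 4 = g at *
      interval_cases g <;> simp_all
    have hdv := Nat.gcd_dvd_left p 4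
    rcases hg with hg | hg | hg <;> rw [hg] at hdv ⊢
    · rw [Nat.divisors_one, show (({1} : Finset ℕ).erase 1) = ∅ by decide, Finset.sum_empty]
      norm_num at *
      nlinarith
    · rw [show (Nat.divisors 2).erase 1 = {2} by decide, Finset.sum_singleton, show 4 / 2 = 2 from rfl]
      have hp : 2 ≤ p := Nat.le_of_dvd (by omega) hdv
      norm_num at *
      nlinarith
    · rw [show (Nat.divisors 4).erase 1 = {2, 4} by decide, Finset.sum_insert (by simp), Finset.sum_singleton,
        show 4 / 2 = 2 from rfl, show (4 : ℕ) / 4 = 1 from rfl, A11, Nat.add_sub_cancel]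
      have hp : 4 ≤ p := Nat.le_of_dvd (by omega) hdv
      norm_num at *
      nlinarith
  have hE : ∑ r ∈ (p.gcd m).divisors.erase 1, (r ^ 2 - 1) * A (p + 1) (m / r) (m / r) ≤
      p ^ 2 * (2 * (p + 1) ^ (m / 2)) := by
    set E := (p.gcd m).divisors.erase 1
    have hmem : ∀ r ∈ E, 2 ≤ r ∧ r ≤ p ∧ r ∣ m := fun r hr => by
      have h1 := Nat.dvd_of_mem_divisors (Finset.mem_of_mem_erase hr)
      have h2 := Finset.ne_of_mem_erase hr
      have h3 : r ≠ 0 := fun h => (Nat.gcd_pos_of_pos_right p (show 0 < m by omega)).ne' (Nat.eq_zero_of_zero_dvd (h ▸ h1))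
      exact ⟨by omega, Nat.le_of_dvd (by omega) (h1.trans (Nat.gcd_dvd_left _ _)), h1.trans (Nat.gcd_dvd_right _ _)⟩
    calc ∑ r ∈ E, (r ^ 2 - 1) * A (p + 1) (m / r) (m / r) ≤ ∑ r ∈ E, p ^ 2 * (p + 1) ^ (m / r) := by
          refine Finset.sum_le_sum fun r hr => ?_
          obtain ⟨h1, h2, h3⟩ := hmem r hr
          exact Nat.mul_le_mul ((Nat.sub_le _ _).trans (Nat.pow_le_pow_left h2 2))
            (A_le hq (Nat.div_pos (Nat.le_of_dvd (by omega) h3) (by omega)))
      _ = p ^ 2 * ∑ j ∈ E.image (m / ·), (p + 1) ^ j := by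
          rw [Finset.mul_sum, Finset.sum_image]
          intro a ha b hb hab
          have h1 := hmem a ha
          have h2 := hmem b hb
          have e1 := Nat.div_mul_cancel h1.2.2
          have e2 := Nat.div_mul_cancel h2.2.2
          simp only at hab
          rw [hab] at e1
          exact Nat.eq_of_mul_eq_mul_left (Nat.div_pos (Nat.le_of_dvd (by omega) h2.2.2) (by omega)) (e1.trans e2.symm)
      _ ≤ p ^ 2 * ∑ j ∈ Finset.Icc 1 (m / 2), (p + 1) ^ j := by
          refine Nat.mul_le_mul_left _ (Finset.sum_le_sum_of_subset fun j hj => ?_)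
          obtain ⟨r, hr, rfl⟩ := Finset.mem_image.1 hj
          obtain ⟨h1, -, h3⟩ := hmem r hr
          exact Finset.mem_Icc.2 ⟨Nat.div_pos (Nat.le_of_dvd (by omega) h3) (by omega), Nat.div_le_div_left h1 (by omega)⟩
      _ ≤ _ := Nat.mul_le_mul_left _ (geom_le hq _)
  refine le_trans (Nat.add_le_add hA hE) ?_
  obtain ⟨a, rfl⟩ : ∃ a, m = a + 2 := ⟨m - 2, by omega⟩
  have hX : (p + 1) ^ ((a + 2) / 2) * (p + 1) ≤ (p + 1) ^ a := by
    rw [← pow_succ]
    exact Nat.pow_le_pow_right (by omega) (by omega)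
  rw [show a + 2 - 1 = a + 1 by omega, show a + 2 - 2 = a by omega]
  generalize hQ : (p + 1) ^ a = Q at hX
  generalize (p + 1) ^ ((a + 2) / 2) = X at hX ⊢
  rw [pow_succ, pow_succ, hQ]
  norm_num at *
  nlinarith

theorem B_le_five {q m : ℕ} (hq : 2 ≤ q) (hm : 2 ≤ m) : 2 * B q m ≤ 5 * ((q - 1) * q ^ (m - 1)) := by
  rcases eq_or_lt_of_le hm with rfl | hm3
  · obtain ⟨h1, h2⟩ := B_two hq
    obtain ⟨p, rfl⟩ : ∃ p, q = p + 1 := ⟨q - 1, by omega⟩
    simp only [Nat.add_sub_cancel] at *
    by_cases h : 2 ∣ p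
    · have := Nat.le_of_dvd (by omega) h
      norm_num at *
      nlinarith
    · have := h2 h
      norm_num at *
      nlinarith
  · have := B_ge_three hq hm3
    obtain ⟨a, rfl⟩ : ∃ a, m = a + 2 := ⟨m - 2, by omega⟩
    obtain ⟨p, rfl⟩ : ∃ p, q = p + 1 := ⟨q - 1, by omega⟩
    simp only [Nat.add_sub_cancel, show a + 2 - 1 = a + 1 by omega, pow_succ] at *
    nlinarith [Nat.zero_le (p * (p + 1) ^ a), Nat.mul_le_mul_left (p * (p + 1) ^ a) hq]

variable {F : Type u} [Field F] [Fintype F] {n : ℕ}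

theorem card_SL_classes_le (hn : 1 ≤ n) :
    (Fintype.card F - 1) * Nat.card (ConjClasses (Matrix.SpecialLinearGroup (Fin n) F)) ≤ B (Fintype.card F) n := by
  classical
  letI := Fintype.ofFinite (Tup F n n)
  have h := card_classes_le_sum (F := F) (n := n) (fun _ => True) (fun _ => True) (fun _ _ _ _ => trivial)
  rw [Nat.card_congr (Equiv.subtypeUnivEquiv fun _ => trivial)] at h
  simp only [and_true] at h
  exact (Nat.mul_le_mul_left _ h).trans ((twist_le 1).trans (sum_sq_le hn le_rfl))

theorem lt_card_SL_classes (hn : 2 ≤ n) :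
    Fintype.card F ^ (n - 1) < Nat.card (ConjClasses (Matrix.SpecialLinearGroup (Fin n) F)) := by
  classical
  obtain ⟨m, rfl⟩ : ∃ m, n = m + 1 := ⟨n - 1, by omega⟩
  let f : (Fin m → F) → F[X] := fun x =>
    X ^ (m + 1) + ((∑ i : Fin m, C (x i) * X ^ (i.1 + 1)) + C ((-1 : F) ^ (m + 1)))
  have hlt : ∀ x : Fin m → F, ((∑ i : Fin m, C (x i) * X ^ (i.1 + 1)) + C ((-1 : F) ^ (m + 1))).degree < (m + 1 : ℕ) := by
    intro x
    refine lt_of_le_of_lt (degree_add_le _ _) (max_lt ?_ ?_)
    · refine lt_of_le_of_lt (degree_sum_le _ _) ((Finset.sup_lt_iff (WithBot.bot_lt_coe _)).2 fun i _ => ?_)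
      exact lt_of_le_of_lt (degree_C_mul_X_pow_le _ _) (by exact_mod_cast (by omega : i.1 + 1 < m + 1))
    · exact lt_of_le_of_lt degree_C_le (by exact_mod_cast Nat.succ_pos m)
  have hmon : ∀ x, (f x).Monic := fun x => monic_X_pow_add (hlt x)
  have hdeg : ∀ x, (f x).natDegree = m + 1 := fun x =>
    natDegree_eq_of_degree_eq_some ((degree_add_eq_left_of_degree_lt (by rw [degree_X_pow]; exact hlt x)).trans (degree_X_pow _))
  have hc0 : ∀ x, (f x).coeff 0 = (-1 : F) ^ (m + 1) := fun x => by simp [f, coeff_zero_eq_eval_zero, eval_finset_sum]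
  have hcs : ∀ x (i : Fin m), (f x).coeff (i.1 + 1) = x i := fun x i => by
    simp only [f, coeff_add, finset_sum_coeff, coeff_C_mul_X_pow, coeff_X_pow, coeff_C]
    rw [if_neg (by omega), Finset.sum_eq_single i (fun j _ hj => if_neg (fun h => hj (Fin.ext (by omega)))) (by simp)]
    simp
  have hex : ∀ x, ∃ g : Matrix.SpecialLinearGroup (Fin (m + 1)) F, g.1.charpoly = f x ∧ g ≠ 1 := fun x => by
    let pb := AdjoinRoot.powerBasis (hmon x).ne_zero
    let e : Fin pb.dim ≃ Fin (m + 1) := finCongr ((AdjoinRoot.powerBasis_dim _).trans (hdeg x))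
    set M := Matrix.reindex e e (Algebra.leftMulMatrix pb.basis pb.gen) with hM
    have hchar : M.charpoly = f x := by
      rw [hM, Matrix.charpoly_reindex, charpoly_leftMulMatrix, AdjoinRoot.minpoly_powerBasis_gen_of_monic (hmon x)]
    have hdet : M.det = 1 := by
      rw [Matrix.det_eq_sign_charpoly_coeff, hchar, hc0, Fintype.card_fin, ← mul_pow, neg_one_mul, neg_neg, one_pow]
    refine ⟨⟨M, hdet⟩, hchar, fun h => ?_⟩
    have h2 : M = 1 := congrArg Subtype.val h
    rw [hM, Matrix.reindex_apply, ← Matrix.submatrix_one_equiv e.symm] at h2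
    have h3 : Algebra.leftMulMatrix pb.basis pb.gen = 1 := by
      ext i j
      simpa [Matrix.one_apply] using congrFun (congrFun h2 (e i)) (e j)
    have h4 : pb.gen = 1 := Algebra.leftMulMatrix_injective pb.basis (by rw [h3, map_one])
    have h5 := AdjoinRoot.minpoly_powerBasis_gen_of_monic (hmon x)
    rw [show (AdjoinRoot.powerBasis (hmon x).ne_zero).gen = 1 from h4] at h5
    haveI : Nontrivial (AdjoinRoot (f x)) := AdjoinRoot.nontrivial _ (by
      rw [degree_eq_natDegree (hmon x).ne_zero, hdeg x]; exact_mod_cast Nat.succ_ne_zero m)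
    rw [minpoly.one] at h5
    have h6 := congrArg natDegree h5
    rw [hdeg x, natDegree_sub_eq_left_of_natDegree_lt (by simp), natDegree_X] at h6
    omega
  choose g hg hg1 using hex
  let Φ : Option (Fin m → F) → ConjClasses (Matrix.SpecialLinearGroup (Fin (m + 1)) F) :=
    fun o => o.elim (ConjClasses.mk 1) fun x => ConjClasses.mk (g x)
  have hchar : ∀ a b : Matrix.SpecialLinearGroup (Fin (m + 1)) F, IsConj a b → a.1.charpoly = b.1.charpoly := by
    intro a b hab
    obtain ⟨c, hc⟩ := isConj_iff.1 ((Matrix.SpecialLinearGroup.toGL (n := Fin (m + 1)) (R := F)).map_isConj hab)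
    have := congrArg (fun y : GL (Fin (m + 1)) F => y.1.charpoly) hc
    rw [Units.val_mul, Units.val_mul, Matrix.coe_units_inv, Matrix.charpoly_units_conj] at this
    exact this
  have hinj : Function.Injective Φ := by
    rintro (_ | x) (_ | y) h
    · rfl
    · exact absurd (isConj_one_right.1 (ConjClasses.mk_eq_mk_iff_isConj.1 h)) (hg1 y)
    · exact absurd (isConj_one_right.1 (ConjClasses.mk_eq_mk_iff_isConj.1 h).symm) (hg1 x)
    · have h1 : f x = f y := by rw [← hg x, ← hg y, hchar _ _ (ConjClasses.mk_eq_mk_iff_isConj.1 h)]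
      exact congrArg some (funext fun i => by rw [← hcs x i, ← hcs y i, h1])
  have := Nat.card_le_card_of_injective Φ hinj
  rw [Nat.card_eq_fintype_card, Fintype.card_option, Fintype.card_fun, Fintype.card_fin] at this
  rw [Nat.add_sub_cancel]
  omega

/-- The central element acts on the classes by multiplication. -/
noncomputable def centerSmul (z : Subgroup.center (Matrix.SpecialLinearGroup (Fin n) F)) :
    ConjClasses (Matrix.SpecialLinearGroup (Fin n) F) → ConjClasses (Matrix.SpecialLinearGroup (Fin n) F) :=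
  Quotient.lift (fun g => ConjClasses.mk (z.1 * g)) fun a b (h : IsConj a b) => by
    obtain ⟨c, rfl⟩ := isConj_iff.1 h
    refine ConjClasses.mk_eq_mk_iff_isConj.2 (isConj_iff.2 ⟨c, ?_⟩)
    rw [← mul_assoc, Subgroup.mem_center_iff.1 z.2 c, mul_assoc, mul_assoc, mul_assoc]

theorem centerSmul_mk (z : Subgroup.center (Matrix.SpecialLinearGroup (Fin n) F)) (g) :
    centerSmul z (ConjClasses.mk g) = ConjClasses.mk (z.1 * g) := rfl

theorem card_fixed_le (hn : 2 ≤ n) (z : Subgroup.center (Matrix.SpecialLinearGroup (Fin n) F)) (hz : z ≠ 1) :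
    ∃ r m : ℕ, r * m = n ∧ 2 ≤ r ∧
      (Fintype.card F - 1) * Nat.card {C // centerSmul z C = C} ≤ B (Fintype.card F) m := by
  classical
  have i₀ : Fin n := ⟨0, by omega⟩
  obtain ⟨ζ, hζn, hζ⟩ : ∃ ζ : F, ζ ^ n = 1 ∧ Matrix.scalar (Fin n) ζ = z.1.1 := by
    obtain ⟨ζ, h1, h2⟩ := Matrix.SpecialLinearGroup.mem_center_iff.1 z.2
    exact ⟨ζ, by simpa using h1, h2⟩
  have hζ0 : ζ ≠ 0 := fun h => by rw [h, zero_pow (by omega)] at hζn; exact zero_ne_one hζn
  have hζ1 : ζ ≠ 1 := fun h => hz (Subtype.ext (Subtype.ext (by rw [← hζ, h, map_one]; rfl)))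
  obtain ⟨m, hm⟩ := orderOf_dvd_of_pow_eq_one hζn
  have hr : 2 ≤ orderOf ζ := by
    have h1 : orderOf ζ ≠ 1 := fun h => hζ1 (orderOf_eq_one_iff.1 h)
    have h0 : orderOf ζ ≠ 0 := fun h => by rw [h, zero_mul] at hm; omega
    omega
  have hm1 : 1 ≤ m := Nat.one_le_iff_ne_zero.2 fun h => by rw [h, mul_zero] at hm; omega
  refine ⟨orderOf ζ, m, hm.symm, hr, ?_⟩
  letI := Fintype.ofFinite (Tup F n n)
  letI := Fintype.ofFinite (Tup F n m)
  have h := card_classes_le_sum (F := F) (n := n) (fun C => centerSmul z C = C)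
    (fun x => ∀ i, (x.1 i).scaleRoots ζ = x.1 i) fun g g0 hQ hg => by
      rw [centerSmul_mk, ConjClasses.mk_eq_mk_iff_isConj] at hQ
      have hg' := (Matrix.SpecialLinearGroup.toGL (n := Fin n) (R := F)).map_isConj hQ
      obtain ⟨c, hc⟩ := isConj_iff.1 hg
      have h1 : IsConj g0 ((Matrix.SpecialLinearGroup.toGL z.1) * g0) := by
        refine hg.symm.trans (hg'.symm.trans ?_)
        rw [map_mul, ← hc]
        refine isConj_iff.2 ⟨c, ?_⟩
        have hcz : c * Matrix.SpecialLinearGroup.toGL z.1 = Matrix.SpecialLinearGroup.toGL z.1 * c := by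
          refine Units.ext ?_
          rw [Units.val_mul, Units.val_mul]
          show c.1 * z.1.1 = z.1.1 * c.1
          rw [← hζ]
          exact (Matrix.scalar_commute ζ (fun _ => mul_comm _ _) _).eq.symm
        rw [← mul_assoc, hcz]
        group
      intro i
      refine tup_scale hζ0 ?_ h1 i
      rw [Units.val_mul]
      show z.1.1 * g0.1 = _
      rw [← hζ, Matrix.scalar_apply, ← Matrix.smul_one_eq_diagonal, smul_mul_assoc, one_mul]
  exact (Nat.mul_le_mul_left _ (h.trans (sum_fixed_le hm.symm (by omega) hζ0 rfl))).trans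
    ((twist_le (orderOf ζ)).trans (sum_sq_le hm1 (by rw [hm]; exact Nat.le_mul_of_pos_left m (by omega))))

theorem projective_bounds (hn : 2 ≤ n) :
    Fintype.card F ^ (n - 1) ≤ Nat.gcd n (Fintype.card F - 1) * Nat.card (ConjClasses (Matrix.ProjectiveSpecialLinearGroup (Fin n) F)) ∧
      Nat.gcd n (Fintype.card F - 1) * Nat.card (ConjClasses (Matrix.ProjectiveSpecialLinearGroup (Fin n) F)) ≤
        Fintype.card F ^ (n - 1) + 5 * Fintype.card F ^ (n - 2) := by
  classical
  haveI : NeZero n := ⟨by omega⟩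
  set G := Matrix.SpecialLinearGroup (Fin n) F
  set Z := Subgroup.center G
  set q := Fintype.card F with hq
  have hq2 : 2 ≤ q := Fintype.one_lt_card
  rw [← Cfsg.Agent.Linear.card_center_SL n]
  let π : G →* Matrix.ProjectiveSpecialLinearGroup (Fin n) F := QuotientGroup.mk' _
  constructor
  · refine (lt_card_SL_classes hn).le.trans ?_
    rw [← Nat.card_prod]
    choose lift hlift using (QuotientGroup.mk'_surjective Z)
    choose rep hrep using ConjClasses.mk_surjective (α := Matrix.ProjectiveSpecialLinearGroup (Fin n) F)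
    refine Nat.card_le_card_of_surjective (fun p => ConjClasses.mk (p.1.1 * lift (rep p.2))) fun C => ?_
    obtain ⟨g, rfl⟩ := ConjClasses.mk_surjective C
    set D := ConjClasses.mk (π g)
    obtain ⟨c, hc⟩ := isConj_iff.1 (ConjClasses.mk_eq_mk_iff_isConj.1 (hrep D))
    obtain ⟨c, rfl⟩ := QuotientGroup.mk'_surjective Z c
    have h1 : QuotientGroup.mk' Z (c * lift (rep D) * c⁻¹) = π g := by rw [map_mul, map_mul, map_inv, hlift]; exact hc
    obtain ⟨w, hw, hw'⟩ := (QuotientGroup.mk'_eq_mk' _).1 h1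
    refine ⟨(⟨w, hw⟩, D), ?_⟩
    rw [ConjClasses.mk_eq_mk_iff_isConj, ← hw']
    refine isConj_iff.2 ⟨c, ?_⟩
    show c * (w * lift (rep D)) * c⁻¹ = c * lift (rep D) * c⁻¹ * w
    rw [← mul_assoc, Subgroup.mem_center_iff.1 hw c, Subgroup.mem_center_iff.1 hw (c * lift (rep D) * c⁻¹)]
    group
  · letI act : MulAction Z (ConjClasses G) :=
      { smul := centerSmul
        one_smul := fun C => by
          obtain ⟨g, rfl⟩ := ConjClasses.mk_surjective C
          show ConjClasses.mk ((1 : Z).1 * g) = _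
          rw [OneMemClass.coe_one, one_mul]
        mul_smul := fun a b C => by
          obtain ⟨g, rfl⟩ := ConjClasses.mk_surjective C
          show ConjClasses.mk ((a * b : Z).1 * g) = ConjClasses.mk (a.1 * (b.1 * g))
          rw [Subgroup.coe_mul, mul_assoc] }
    letI := Fintype.ofFinite (ConjClasses G)
    letI := Fintype.ofFinite Z
    have hb := MulAction.sum_card_fixedBy_eq_card_orbits_mul_card_group Z (ConjClasses G)
    have hsurj : Nat.card (ConjClasses (Matrix.ProjectiveSpecialLinearGroup (Fin n) F)) ≤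
        Fintype.card (MulAction.orbitRel.Quotient Z (ConjClasses G)) := by
      rw [← Nat.card_eq_fintype_card]
      refine Nat.card_le_card_of_surjective
        (Quotient.lift (ConjClasses.map π) fun a b (h : a ∈ MulAction.orbit Z b) => ?_) fun D => ?_
      · obtain ⟨w, rfl⟩ := h
        obtain ⟨g, rfl⟩ := ConjClasses.mk_surjective b
        show ConjClasses.mk (π (w.1 * g)) = ConjClasses.mk (π g)
        rw [map_mul, show π w.1 = 1 from (QuotientGroup.eq_one_iff _).2 w.2, one_mul]
      · obtain ⟨C, hC⟩ := ConjClasses.map_surjective (QuotientGroup.mk'_surjective Z) D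
        exact ⟨Quotient.mk _ C, hC⟩
    rw [mul_comm]
    refine (Nat.mul_le_mul_right _ hsurj).trans ?_
    rw [Nat.card_eq_fintype_card (α := Z), ← hb, ← Finset.add_sum_erase _ _ (Finset.mem_univ (1 : Z))]
    have h1 : Fintype.card (MulAction.fixedBy (ConjClasses G) (1 : Z)) = Nat.card (ConjClasses G) := by
      rw [← Nat.card_eq_fintype_card]
      exact Nat.card_congr (Equiv.subtypeUnivEquiv fun C => one_smul Z C)
    have hfix : ∀ z ∈ (Finset.univ : Finset Z).erase 1, ∃ r m : ℕ, r * m = n ∧ 2 ≤ r ∧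
        (q - 1) * Fintype.card (MulAction.fixedBy (ConjClasses G) z) ≤ B q m := fun z hz => by
      obtain ⟨r, m, e1, e2, e3⟩ := card_fixed_le hn z (Finset.ne_of_mem_erase hz)
      refine ⟨r, m, e1, e2, le_of_eq_of_le ?_ e3⟩
      rw [← Nat.card_eq_fintype_card]
      rfl
    have hZc : ((Finset.univ : Finset Z).erase 1).card + 1 = Nat.gcd n (q - 1) := by
      rw [Finset.card_erase_add_one (Finset.mem_univ _), Finset.card_univ, ← Nat.card_eq_fintype_card]
      exact Cfsg.Agent.Linear.card_center_SL n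
    have hZq : ((Finset.univ : Finset Z).erase 1).card + 2 ≤ q := by
      have := Nat.le_of_dvd (by omega) (Nat.gcd_dvd_right n (q - 1))
      omega
    have hK := card_SL_classes_le (F := F) (show 1 ≤ n by omega)
    rw [← hq] at hK
    rw [h1]
    obtain ⟨p, hp⟩ : ∃ p, q = p + 1 := ⟨q - 1, by omega⟩
    have hp0 : 0 < p := by omega
    rw [hp, Nat.add_sub_cancel] at hK
    refine Nat.le_of_mul_le_mul_left ?_ hp0
    rw [Nat.mul_add, Finset.mul_sum]
    rcases eq_or_lt_of_le hn with rfl | hn3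
    · obtain ⟨hB1, hB2⟩ := B_two hq2
      have hs : ∑ z ∈ (Finset.univ : Finset Z).erase 1, p * Fintype.card (MulAction.fixedBy (ConjClasses G) z) ≤
          ((Finset.univ : Finset Z).erase 1).card * p := by
        rw [← smul_eq_mul, ← Finset.sum_const]
        refine Finset.sum_le_sum fun z hz => ?_
        obtain ⟨r, m, e1, e2, e3⟩ := hfix z hz
        have hm : m = 1 := by rcases m with _ | _ | m <;> simp at e1 ⊢; nlinarith
        rwa [hm, B_one, hp, Nat.add_sub_cancel] at e3
      refine (Nat.add_le_add hK hs).trans ?_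
      by_cases h2 : 2 ∣ p
      · have hc : ((Finset.univ : Finset Z).erase 1).card ≤ 1 := by
          have := Nat.le_of_dvd (by norm_num) (Nat.gcd_dvd_left 2 (q - 1))
          omega
        rw [hp, Nat.add_sub_cancel] at hB1
        rw [hp]
        simp only [show (2 : ℕ) - 1 = 1 from rfl, Nat.sub_self, pow_one, pow_zero, mul_one]
        nlinarith
      · have hc : ((Finset.univ : Finset Z).erase 1).card = 0 := by
          have h3 : Nat.gcd 2 (q - 1) = 1 := by
            rw [hp, Nat.add_sub_cancel]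
            exact Nat.prime_two.coprime_iff_not_dvd.2 h2
          omega
        have := hB2 (by rw [hp, Nat.add_sub_cancel]; exact h2)
        rw [hp, Nat.add_sub_cancel] at this
        rw [hc, hp]
        simp only [show (2 : ℕ) - 1 = 1 from rfl, Nat.sub_self, pow_one, pow_zero, mul_one, zero_mul, add_zero]
        nlinarith
    have hKn := hK.trans ((B_ge_three (q := p + 1) (by omega) hn3).trans_eq (by rw [Nat.add_sub_cancel]))
    suffices hs : 2 * ∑ z ∈ (Finset.univ : Finset Z).erase 1, p * Fintype.card (MulAction.fixedBy (ConjClasses G) z) ≤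
        4 * (p * q ^ (n - 2)) by
      rw [hp] at hs ⊢
      nlinarith
    rcases le_or_gt 5 n with hn5 | hn5
    · refine le_trans (b := ∑ _z ∈ (Finset.univ : Finset Z).erase 1, 5 * (p * q ^ (n / 2 - 1))) ?_ ?_
      · rw [Finset.mul_sum]
        refine Finset.sum_le_sum fun z hz => ?_
        obtain ⟨r, m, e1, e2, e3⟩ := hfix z hz
        rw [hp, Nat.add_sub_cancel] at e3
        have hm : 2 * m ≤ n := by rw [← e1]; exact Nat.mul_le_mul_right m e2
        refine (Nat.mul_le_mul_left 2 e3).trans ?_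
        rcases Nat.lt_or_ge m 2 with hm2 | hm2
        · have hm0 : m = 1 := by rcases m with _ | _ | m <;> simp at e1 ⊢ <;> omega
          rw [hm0, B_one, Nat.add_sub_cancel]
          have : 1 ≤ q ^ (n / 2 - 1) := Nat.one_le_pow _ _ (by omega)
          nlinarith
        · refine (B_le_five (q := p + 1) (by omega) hm2).trans ?_
          rw [Nat.add_sub_cancel, hp]
          gcongr
          · omega
          · omega
      · rw [Finset.sum_const, smul_eq_mul]
        have hx : q ^ (n / 2 - 1) * q ^ 2 ≤ q ^ (n - 2) := by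
          rw [← pow_add]; exact Nat.pow_le_pow_right (by omega) (by omega)
        generalize ((Finset.univ : Finset Z).erase 1).card = c at hZq
        generalize q ^ (n / 2 - 1) = x at hx ⊢
        generalize q ^ (n - 2) = y at hx ⊢
        have h5c : 5 * c ≤ 4 * q ^ 2 := by nlinarith
        calc c * (5 * (p * x)) = p * x * (5 * c) := by ring
          _ ≤ p * x * (4 * q ^ 2) := Nat.mul_le_mul_left _ h5c
          _ = 4 * (p * (x * q ^ 2)) := by ring
          _ ≤ 4 * (p * y) := by gcongr
    · have hm12 : ∀ z ∈ (Finset.univ : Finset Z).erase 1,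
          p * Fintype.card (MulAction.fixedBy (ConjClasses G) z) ≤ if n = 3 then p else p * (q + 4) := fun z hz => by
        obtain ⟨r, m, e1, e2, e3⟩ := hfix z hz
        rw [hp, Nat.add_sub_cancel] at e3
        have hm : (m = 1) ∨ (m = 2 ∧ n ≠ 3) := by
          rcases m with _ | _ | _ | m
          · omega
          · exact Or.inl rfl
          · exact Or.inr ⟨rfl, by omega⟩
          · nlinarith
        rcases hm with rfl | ⟨rfl, h3⟩
        · rw [B_one, Nat.add_sub_cancel] at e3
          split_ifs with h3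
          · exact e3
          · exact e3.trans (Nat.le_mul_of_pos_right p (by omega))
        · rw [if_neg h3, hp]
          exact e3.trans ((B_two (by omega)).1.trans_eq (by rw [Nat.add_sub_cancel]))
      refine (Nat.mul_le_mul_left 2 (Finset.sum_le_sum hm12)).trans ?_
      rw [Finset.sum_const, smul_eq_mul]
      have hcn : ((Finset.univ : Finset Z).erase 1).card + 1 ≤ n := hZc ▸ Nat.le_of_dvd (by omega) (Nat.gcd_dvd_left _ _)
      generalize hc : ((Finset.univ : Finset Z).erase 1).card = c at hcn hZq hZc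
      obtain h | h : n = 3 ∨ n = 4 := by omega
      · rw [if_pos h, show n - 2 = 1 by omega, pow_one]
        have : c ≤ 2 := by omega
        nlinarith
      · rw [if_neg (by omega), show n - 2 = 2 by omega]
        have hcg : c + 1 ∣ q - 1 := hZc ▸ Nat.gcd_dvd_right _ _
        have : c ≤ 3 := by omega
        interval_cases c <;> nlinarith

end Cfsg.Agent.KnownB.ClassTuples
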