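import Mathlib

/-!
# Weight sums for unitary class counting
-/

set_option autoImplicit false
set_option linter.unusedSectionVars false

namespace Cfsg.Agent.KnownB.ClassTuples.Weights

/-- The number of self-dual monic polynomials of degree `d` over `F_{q^2}`, as a bound. -/
def wt (q d : ℕ) : ℕ := if d = 0 then 1 else (q + 1) * q ^ (d - 1)

/-- Degree vectors of weighted degree `m`. -/
def vec (k m : ℕ) : Finset (Fin k → ℕ) :=
  (Fintype.piFinset fun _ : Fin k => Finset.range (m + 1)).filter fun d => ∑ i, (i.1 + 1) * d i = m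

theorem mem_vec {k m : ℕ} {d : Fin k → ℕ} : d ∈ vec k m ↔ ∑ i, (i.1 + 1) * d i = m := by
  refine ⟨fun h => (Finset.mem_filter.1 h).2, fun h => Finset.mem_filter.2 ⟨Fintype.mem_piFinset.2 fun i => ?_, h⟩⟩
  rw [Finset.mem_range, Nat.lt_succ_iff, ← h]
  refine le_trans ?_ (Finset.single_le_sum (fun j _ => Nat.zero_le ((j.1 + 1) * d j)) (Finset.mem_univ i))
  exact Nat.le_mul_of_pos_left _ (Nat.succ_pos _)

/-- The total weight. -/
def total (q k m : ℕ) : ℕ := ∑ d ∈ vec k m, ∏ i, wt q (d i)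

/-- The exponent attached to a vector. -/
def sq (q : ℕ) {k : ℕ} (d : Fin k → ℕ) : ℕ :=
  (q + 1).gcd ((Finset.univ.filter fun i => d i ≠ 0).gcd fun i => i.1 + 1)

/-- The product bound. -/
def bnd (q k : ℕ) : ℚ := (1 + 1 / q) * ∏ i ∈ Finset.range k, (1 + (1 + 1 / (q : ℚ)) / ((q : ℚ) ^ (i + 1) - 1))

theorem geom (x : ℚ) (h0 : 0 ≤ x) (h1 : x < 1) (N : ℕ) : ∑ j ∈ Finset.range N, x ^ j ≤ 1 / (1 - x) := by
  rw [le_div_iff₀ (by linarith), geom_sum_mul_neg]
  linarith [pow_nonneg h0 N]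

theorem wt_div_le {q : ℕ} (hq : 2 ≤ q) (d : ℕ) : (wt q d : ℚ) / (q : ℚ) ^ d ≤ 1 + 1 / q := by
  have hq' : (0 : ℚ) < q := by exact_mod_cast (show 0 < q by omega)
  rcases d with _ | d
  · simp [wt]
  · rw [wt, if_neg (Nat.succ_ne_zero d), Nat.add_sub_cancel]
    push_cast
    rw [pow_succ]
    field_simp
    exact le_refl _

theorem series_le {q : ℕ} (hq : 2 ≤ q) (i m : ℕ) :
    ∑ j ∈ Finset.range (m + 1), (wt q j : ℚ) / (q : ℚ) ^ ((i + 2) * j) ≤
      1 + (1 + 1 / (q : ℚ)) / ((q : ℚ) ^ (i + 1) - 1) := by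
  have hq' : (1 : ℚ) < q := by exact_mod_cast (show 1 < q by omega)
  have hq0 : (0 : ℚ) < q := by linarith
  have hY : (1 : ℚ) < (q : ℚ) ^ (i + 1) := one_lt_pow₀ hq' (Nat.succ_ne_zero i)
  set x : ℚ := 1 / (q : ℚ) ^ (i + 1) with hx
  have hx1 : x < 1 := by rw [hx, div_lt_one (by linarith)]; exact hY
  have hx0 : 0 ≤ x := by positivity
  rw [Finset.sum_range_succ']
  simp only [wt, Nat.succ_ne_zero, if_false, if_true, mul_zero, pow_zero, Nat.cast_one, div_one,
    Nat.add_sub_cancel]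
  rw [add_comm]
  refine add_le_add le_rfl ?_
  have hterm : ∀ j : ℕ, (((q + 1) * q ^ j : ℕ) : ℚ) / (q : ℚ) ^ ((i + 2) * (j + 1)) = (1 + 1 / q) * x * x ^ j := fun j => by
    rw [mul_assoc, ← pow_succ', hx, div_pow, one_pow, ← pow_mul, show (i + 2) * (j + 1) = (j + 1) + (i + 1) * (j + 1) by ring,
      pow_add]
    push_cast
    rw [pow_succ]
    field_simp
  rw [Finset.sum_congr rfl fun j _ => hterm j, ← Finset.mul_sum]
  refine (mul_le_mul_of_nonneg_left (geom x hx0 hx1 m) (by positivity)).trans (le_of_eq ?_)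
  rw [hx]
  have : (q : ℚ) ^ (i + 1) - 1 ≠ 0 := by linarith
  field_simp

theorem total_le {q : ℕ} (hq : 2 ≤ q) (k m : ℕ) : (total q (k + 1) m : ℚ) ≤ (q : ℚ) ^ m * bnd q k := by
  have hq0 : (0 : ℚ) < q := by exact_mod_cast (show 0 < q by omega)
  rw [total, Nat.cast_sum]
  have hpt : ∀ d ∈ vec (k + 1) m, ((∏ i, wt q (d i) : ℕ) : ℚ) ≤
      (q : ℚ) ^ m * ((1 + 1 / q) * ∏ i : Fin k, (wt q (d i.succ) : ℚ) / (q : ℚ) ^ ((i.1 + 2) * d i.succ)) := by
    intro d hd
    have h := mem_vec.1 hd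
    rw [Fin.sum_univ_succ] at h
    simp only [Fin.val_zero, zero_add, one_mul, Fin.val_succ] at h
    rw [Fin.prod_univ_succ, Nat.cast_mul, Nat.cast_prod]
    have e : (q : ℚ) ^ m = (q : ℚ) ^ d 0 * ∏ i : Fin k, (q : ℚ) ^ ((i.1 + 2) * d i.succ) := by
      rw [Finset.prod_pow_eq_pow_sum, ← pow_add, h]
    have h2 := wt_div_le hq (d 0)
    rw [div_le_iff₀ (by positivity)] at h2
    rw [e, Finset.prod_div_distrib]
    have hP : (0 : ℚ) < ∏ i : Fin k, (q : ℚ) ^ ((i.1 + 2) * d i.succ) := Finset.prod_pos fun i _ => by positivity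
    have hW : (0 : ℚ) ≤ ∏ i : Fin k, (wt q (d i.succ) : ℚ) := Finset.prod_nonneg fun i _ => by positivity
    calc (wt q (d 0) : ℚ) * ∏ i : Fin k, (wt q (d i.succ) : ℚ)
        ≤ (1 + 1 / q) * (q : ℚ) ^ d 0 * ∏ i : Fin k, (wt q (d i.succ) : ℚ) := mul_le_mul_of_nonneg_right h2 hW
      _ = _ := by field_simp
  refine (Finset.sum_le_sum hpt).trans ?_
  rw [← Finset.mul_sum, ← Finset.mul_sum, bnd]
  refine mul_le_mul_of_nonneg_left (mul_le_mul_of_nonneg_left ?_ (by positivity)) (by positivity)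
  have hinj : Set.InjOn (fun d : Fin (k + 1) → ℕ => fun i : Fin k => d i.succ) (vec (k + 1) m) := by
    intro a ha b hb hab
    have h1 := mem_vec.1 (Finset.mem_coe.1 ha)
    have h2 := mem_vec.1 (Finset.mem_coe.1 hb)
    have hi : ∀ i : Fin k, a i.succ = b i.succ := fun i => congrFun hab i
    rw [Fin.sum_univ_succ] at h1 h2
    simp only [Fin.val_zero, zero_add, one_mul, hi] at h1 h2
    exact funext (Fin.cases (by omega) hi)
  calc ∑ d ∈ vec (k + 1) m, ∏ i : Fin k, (wt q (d i.succ) : ℚ) / (q : ℚ) ^ ((i.1 + 2) * d i.succ)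
      = ∑ f ∈ (vec (k + 1) m).image (fun d => fun i : Fin k => d i.succ),
          ∏ i : Fin k, (wt q (f i) : ℚ) / (q : ℚ) ^ ((i.1 + 2) * f i) :=
        (Finset.sum_image (f := fun f : Fin k → ℕ => ∏ i : Fin k, (wt q (f i) : ℚ) / (q : ℚ) ^ ((i.1 + 2) * f i)) hinj).symm
    _ ≤ ∑ f ∈ Fintype.piFinset (fun _ : Fin k => Finset.range (m + 1)),
          ∏ i : Fin k, (wt q (f i) : ℚ) / (q : ℚ) ^ ((i.1 + 2) * f i) := by
        refine Finset.sum_le_sum_of_subset_of_nonneg ?_ fun f _ _ => Finset.prod_nonneg fun i _ => by positivity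
        intro f hf
        obtain ⟨d, hd, rfl⟩ := Finset.mem_image.1 hf
        exact Fintype.mem_piFinset.2 fun i => Fintype.mem_piFinset.1 (Finset.mem_filter.1 hd).1 _
    _ = ∏ i : Fin k, ∑ j ∈ Finset.range (m + 1), (wt q j : ℚ) / (q : ℚ) ^ ((i.1 + 2) * j) := (Finset.prod_univ_sum (fun _ : Fin k => Finset.range (m + 1)) fun (i : Fin k) (j : ℕ) => (wt q j : ℚ) / (q : ℚ) ^ ((i.1 + 2) * j)).symm
    _ ≤ ∏ i : Fin k, (1 + (1 + 1 / (q : ℚ)) / ((q : ℚ) ^ (i.1 + 1) - 1)) :=
        Finset.prod_le_prod (fun i _ => Finset.sum_nonneg fun j _ => by positivity) fun i _ => series_le hq i.1 m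
    _ = _ := Fin.prod_univ_eq_prod_range (fun i => 1 + (1 + 1 / (q : ℚ)) / ((q : ℚ) ^ (i + 1) - 1)) k

theorem bnd_succ (q k : ℕ) : bnd q (k + 1) = bnd q k * (1 + (1 + 1 / (q : ℚ)) / ((q : ℚ) ^ (k + 1) - 1)) := by
  rw [bnd, bnd, Finset.prod_range_succ, mul_assoc]

theorem bnd_two (k : ℕ) : bnd 2 k ≤ 9 := by
  have h : ∀ k, 3 ≤ k → bnd 2 k ≤ 9 - 29 / 2 / (2 : ℚ) ^ k := by
    intro k hk
    induction k, hk using Nat.le_induction with
    | base => norm_num [bnd, Finset.prod_range_succ]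
    | succ k hk ih =>
      rw [bnd_succ]
      have h8 : (8 : ℚ) ≤ (2 : ℚ) ^ k := by
        calc (8 : ℚ) = 2 ^ 3 := by norm_num
          _ ≤ 2 ^ k := pow_le_pow_right₀ (by norm_num) hk
      have hf : (1 + 1 / ((2 : ℕ) : ℚ)) / (((2 : ℕ) : ℚ) ^ (k + 1) - 1) ≤ 8 / 5 / (2 : ℚ) ^ (k + 1) := by
        push_cast
        rw [div_le_div_iff₀ (by rw [pow_succ]; linarith) (by positivity), pow_succ]
        linarith
      have h0 : 0 ≤ (1 + 1 / ((2 : ℕ) : ℚ)) / (((2 : ℕ) : ℚ) ^ (k + 1) - 1) := by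
        push_cast
        exact div_nonneg (by norm_num) (by rw [pow_succ]; linarith)
      refine (mul_le_mul_of_nonneg_right ih (by linarith)).trans ?_
      have hA : 0 ≤ 29 / 2 / (2 : ℚ) ^ k := by positivity
      have e1 : 29 / 2 / (2 : ℚ) ^ (k + 1) = 29 / 2 / (2 : ℚ) ^ k / 2 := by rw [pow_succ]; ring
      have e2 : 8 / 5 / (2 : ℚ) ^ (k + 1) = 29 / 2 / (2 : ℚ) ^ k * (8 / 145) := by rw [pow_succ]; ring
      nlinarith
  rcases le_or_gt 3 k with hk | hk
  · exact (h k hk).trans (sub_le_self _ (by positivity))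
  · interval_cases k <;> norm_num [bnd, Finset.prod_range_succ]

theorem bnd_three (q : ℕ) (hq : 3 ≤ q) (k : ℕ) : bnd q k ≤ 3 := by
  have hmono : bnd q k ≤ bnd 3 k := by
    have hq' : (3 : ℚ) ≤ q := by exact_mod_cast hq
    have h1 : (1 : ℚ) / q ≤ 1 / ((3 : ℕ) : ℚ) := by
      push_cast
      exact one_div_le_one_div_of_le (by norm_num) hq'
    have hpow : ∀ i : ℕ, (1 : ℚ) < (3 : ℚ) ^ (i + 1) ∧ (3 : ℚ) ^ (i + 1) ≤ (q : ℚ) ^ (i + 1) := fun i =>
      ⟨one_lt_pow₀ (by norm_num) (Nat.succ_ne_zero i), pow_le_pow_left₀ (by norm_num) hq' _⟩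
    refine mul_le_mul (by linarith) (Finset.prod_le_prod (fun i _ => ?_) fun i _ => ?_)
      (Finset.prod_nonneg fun i _ => ?_) (by positivity)
    · have := hpow i
      exact add_nonneg zero_le_one (div_nonneg (by positivity) (by linarith))
    · have := hpow i
      refine add_le_add le_rfl (div_le_div₀ (by positivity) (by linarith) ?_ ?_) <;> push_cast <;> linarith
    · have := hpow i
      exact add_nonneg zero_le_one (div_nonneg (by positivity) (by linarith))
  refine hmono.trans ?_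
  have h : ∀ k, 3 ≤ k → bnd 3 k ≤ 3 - 7 / (3 : ℚ) ^ k := by
    intro k hk
    induction k, hk using Nat.le_induction with
    | base => norm_num [bnd, Finset.prod_range_succ]
    | succ k hk ih =>
      rw [bnd_succ]
      have h8 : (27 : ℚ) ≤ (3 : ℚ) ^ k := by
        calc (27 : ℚ) = 3 ^ 3 := by norm_num
          _ ≤ 3 ^ k := pow_le_pow_right₀ (by norm_num) hk
      have hf : (1 + 1 / ((3 : ℕ) : ℚ)) / (((3 : ℕ) : ℚ) ^ (k + 1) - 1) ≤ 14 / 9 / (3 : ℚ) ^ (k + 1) := by
        push_cast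
        rw [div_le_div_iff₀ (by rw [pow_succ]; linarith) (by positivity), pow_succ]
        linarith
      have h0 : 0 ≤ (1 + 1 / ((3 : ℕ) : ℚ)) / (((3 : ℕ) : ℚ) ^ (k + 1) - 1) := by
        push_cast
        exact div_nonneg (by norm_num) (by rw [pow_succ]; linarith)
      refine (mul_le_mul_of_nonneg_right ih (by linarith)).trans ?_
      have hA : 0 ≤ 7 / (3 : ℚ) ^ k := by positivity
      have e1 : 7 / (3 : ℚ) ^ (k + 1) = 7 / (3 : ℚ) ^ k / 3 := by rw [pow_succ]; ring
      have e2 : 14 / 9 / (3 : ℚ) ^ (k + 1) = 7 / (3 : ℚ) ^ k * (2 / 27) := by rw [pow_succ]; ring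
      nlinarith
  rcases le_or_gt 3 k with hk | hk
  · exact (h k hk).trans (sub_le_self _ (by positivity))
  · interval_cases k <;> norm_num [bnd, Finset.prod_range_succ]

theorem total_bound {q : ℕ} (hq : 2 ≤ q) (m : ℕ) (hm : 1 ≤ m) :
    (q = 2 → total q m m ≤ 9 * q ^ m) ∧ (3 ≤ q → total q m m ≤ 3 * q ^ m) := by
  obtain ⟨k, rfl⟩ : ∃ k, m = k + 1 := ⟨m - 1, by omega⟩
  have h := total_le hq k (k + 1)
  have hp : (0 : ℚ) ≤ (q : ℚ) ^ (k + 1) := by positivity
  constructor
  · rintro rfl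
    have := h.trans (mul_le_mul_of_nonneg_left (bnd_two k) hp)
    rw [mul_comm _ (9 : ℚ)] at this
    exact_mod_cast this
  · intro h3
    have := h.trans (mul_le_mul_of_nonneg_left (bnd_three q h3 k) hp)
    rw [mul_comm _ (3 : ℚ)] at this
    exact_mod_cast this

theorem total_small : total 2 1 1 ≤ 3 ∧ total 2 2 2 ≤ 15 := by
  constructor
  · have h := (total_le (le_refl 2) 0 1)
    norm_num [bnd] at h
    exact_mod_cast h
  · have h := (total_le (le_refl 2) 1 2)
    norm_num [bnd] at h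
    exact_mod_cast h

theorem sum_sq_le {q n : ℕ} (hn : 1 ≤ n) :
    ∑ d ∈ vec n n, sq q d ^ 2 * ∏ i, wt q (d i) ≤ total q n n +
      ∑ r ∈ ((q + 1).gcd n).divisors.erase 1, (r ^ 2 - 1) * total q (n / r) (n / r) := by
  classical
  set E := ((q + 1).gcd n).divisors.erase 1
  have hdvd : ∀ (d : Fin n → ℕ) (i : Fin n), d i ≠ 0 → sq q d ∣ i.1 + 1 := fun d i hi =>
    (Nat.gcd_dvd_right _ _).trans (Finset.gcd_dvd (Finset.mem_filter.2 ⟨Finset.mem_univ _, hi⟩))
  have hdeg : ∀ d ∈ vec n n, sq q d ∣ n := fun d hd => by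
    conv_rhs => rw [← mem_vec.1 hd]
    refine Finset.dvd_sum fun i _ => ?_
    by_cases hi : d i = 0
    · rw [hi, mul_zero]; exact dvd_zero _
    · exact (hdvd d i hi).mul_right _
  have hpt : ∀ d ∈ vec n n, sq q d ^ 2 * ∏ i, wt q (d i) ≤ (∏ i, wt q (d i)) +
      ∑ r ∈ E, if ∀ i, d i ≠ 0 → r ∣ i.1 + 1 then (r ^ 2 - 1) * ∏ i, wt q (d i) else 0 := by
    intro d hd
    by_cases h1 : sq q d = 1
    · rw [h1]; simp
    · have hmem : sq q d ∈ E := Finset.mem_erase.2 ⟨h1, Nat.mem_divisors.2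
        ⟨Nat.dvd_gcd (Nat.gcd_dvd_left _ _) (hdeg d hd), (Nat.gcd_pos_of_pos_right _ hn).ne'⟩⟩
      refine le_trans ?_ (Nat.add_le_add_left (Finset.single_le_sum (fun _ _ => Nat.zero_le _) hmem) _)
      rw [if_pos fun i hi => hdvd d i hi]
      have : 1 ≤ sq q d ^ 2 := Nat.one_le_pow _ _ (Nat.gcd_pos_of_pos_left _ (Nat.succ_pos q))
      have := Nat.le_mul_of_pos_left (∏ i, wt q (d i)) this
      rw [Nat.sub_mul, one_mul]
      omega
  refine (Finset.sum_le_sum hpt).trans ?_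
  rw [Finset.sum_add_distrib, Finset.sum_comm]
  refine Nat.add_le_add le_rfl (Finset.sum_le_sum fun r hr => ?_)
  rw [← Finset.sum_filter, ← Finset.mul_sum]
  refine Nat.mul_le_mul_left _ ?_
  have hrn : r ∣ n := (Nat.dvd_of_mem_divisors (Finset.mem_of_mem_erase hr)).trans (Nat.gcd_dvd_right _ _)
  have hr1 : 0 < r := Nat.pos_of_dvd_of_pos hrn hn
  obtain ⟨m, rfl⟩ := hrn
  rw [Nat.mul_div_cancel_left m hr1]
  let ι : Fin m → Fin (r * m) := fun j => ⟨r * (j.1 + 1) - 1, by
    have := Nat.mul_le_mul_left r (Nat.succ_le_of_lt j.2)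
    have := Nat.mul_pos hr1 (Nat.succ_pos j.1)
    simp only [Nat.succ_eq_add_one] at *
    omega⟩
  have hι : ∀ j, (ι j).1 + 1 = r * (j.1 + 1) := fun j => by
    have := Nat.mul_pos hr1 (Nat.succ_pos j.1)
    simp only [ι, Nat.succ_eq_add_one] at *
    omega
  have hιinj : Function.Injective ι := fun a b h => by
    have h1 := hι a
    rw [h, hι b] at h1
    exact Fin.ext (by have := Nat.eq_of_mul_eq_mul_left hr1 h1; omega)
  have hsurj : ∀ i : Fin (r * m), r ∣ i.1 + 1 → ∃ j, ι j = i := by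
    intro i hi
    obtain ⟨a, ha⟩ := hi
    obtain ⟨a, rfl⟩ : ∃ a', a = a' + 1 := ⟨a - 1, by rcases a with _ | a <;> simp at ha ⊢⟩
    have hlt : a < m := by
      have := i.2
      by_contra hle
      push Not at hle
      have := Nat.mul_le_mul_left r hle
      rw [Nat.mul_succ] at ha
      omega
    exact ⟨⟨a, hlt⟩, Fin.ext (by have := hι ⟨a, hlt⟩; simp only at this; omega)⟩
  have hzero : ∀ d ∈ (vec (r * m) (r * m)).filter (fun d => ∀ i, d i ≠ 0 → r ∣ i.1 + 1), ∀ i,
      (∀ j, ι j ≠ i) → d i = 0 := by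
    intro d hd i hi
    by_contra hne
    obtain ⟨j, hj⟩ := hsurj i ((Finset.mem_filter.1 hd).2 i hne)
    exact hi j hj
  have hinj : Set.InjOn (fun d : Fin (r * m) → ℕ => d ∘ ι) ((vec (r * m) (r * m)).filter fun d => ∀ i, d i ≠ 0 → r ∣ i.1 + 1) := by
    intro a ha b hb hab
    funext i
    by_cases hi : ∃ j, ι j = i
    · obtain ⟨j, rfl⟩ := hi
      exact congrFun hab j
    · push Not at hi
      rw [hzero a (Finset.mem_coe.1 ha) i hi, hzero b (Finset.mem_coe.1 hb) i hi]
  have hval : ∀ d ∈ (vec (r * m) (r * m)).filter (fun d => ∀ i, d i ≠ 0 → r ∣ i.1 + 1),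
      (d ∘ ι ∈ vec m m) ∧ ∏ i, wt q (d i) = ∏ j, wt q ((d ∘ ι) j) := by
    intro d hd
    constructor
    · refine mem_vec.2 (Nat.eq_of_mul_eq_mul_left hr1 ?_)
      conv_rhs => rw [← mem_vec.1 (Finset.mem_filter.1 hd).1]
      rw [Finset.mul_sum]
      refine Fintype.sum_of_injective ι hιinj _ _ (fun i hi => ?_) fun j => ?_
      · rw [hzero d hd i fun j hj => hi ⟨j, hj⟩, mul_zero]
      · rw [hι j, mul_assoc]; rfl
    · exact (Fintype.prod_of_injective ι hιinj _ _
        (fun i hi => by rw [hzero d hd i fun j hj => hi ⟨j, hj⟩]; rfl) fun j => rfl).symm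
  calc ∑ d ∈ (vec (r * m) (r * m)).filter (fun d => ∀ i, d i ≠ 0 → r ∣ i.1 + 1), ∏ i, wt q (d i)
      = ∑ f ∈ ((vec (r * m) (r * m)).filter fun d => ∀ i, d i ≠ 0 → r ∣ i.1 + 1).image (fun d => d ∘ ι), ∏ j, wt q (f j) := by
        rw [Finset.sum_image hinj]
        exact Finset.sum_congr rfl fun d hd => (hval d hd).2
    _ ≤ total q m m := Finset.sum_le_sum_of_subset fun f hf => by
        obtain ⟨d, hd, rfl⟩ := Finset.mem_image.1 hf
        exact (hval d hd).1

theorem geom_nat {q : ℕ} (hq : 2 ≤ q) : ∀ h : ℕ, ∑ j ∈ Finset.Icc 1 h, q ^ j ≤ 2 * q ^ h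
  | 0 => by simp
  | h + 1 => by
    rw [Finset.sum_Icc_succ_top (by omega), two_mul]
    refine Nat.add_le_add_right ((geom_nat hq h).trans ?_) _
    rw [pow_succ']
    exact Nat.mul_le_mul_right _ hq

/-- The final numerical inequality. -/
theorem final_le {q n : ℕ} (hq : 2 ≤ q) (hn : 2 ≤ n) :
    100 * ∑ d ∈ vec n n, sq q d ^ 2 * ∏ i, wt q (d i) ≤ 826 * ((q + 1) * q ^ (n - 1)) := by
  refine (Nat.mul_le_mul_left 100 (sum_sq_le (show 1 ≤ n by omega))).trans ?_
  have hpow : q * q ^ (n - 1) = q ^ n := by rw [← pow_succ', Nat.sub_add_cancel (by omega)]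
  have hmain : ∀ r ∈ ((q + 1).gcd n).divisors.erase 1, 2 ≤ r ∧ r ∣ q + 1 ∧ r ∣ n := fun r hr => by
    have h1 := Nat.dvd_of_mem_divisors (Finset.mem_of_mem_erase hr)
    have h2 := Finset.ne_of_mem_erase hr
    have h3 : r ≠ 0 := fun h => (Nat.gcd_pos_of_pos_left n (Nat.succ_pos q)).ne' (Nat.eq_zero_of_zero_dvd (h ▸ h1))
    exact ⟨by omega, h1.trans (Nat.gcd_dvd_left _ _), h1.trans (Nat.gcd_dvd_right _ _)⟩
  rcases eq_or_lt_of_le hq with rfl | hq3
  · have hT := (total_bound (le_refl 2) n (by omega)).1 rfl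
    have hEsub : ((2 + 1).gcd n).divisors.erase 1 ⊆ {3} := fun r hr => by
      have := (hmain r hr).1
      have h3 : r ≤ 3 := Nat.le_of_dvd (by norm_num) (hmain r hr).2.1
      interval_cases r
      · exact absurd (hmain 2 hr).2.1 (by norm_num)
      · simp
    have hE : 100 * ∑ r ∈ ((2 + 1).gcd n).divisors.erase 1, (r ^ 2 - 1) * total 2 (n / r) (n / r) ≤ 339 * 2 ^ n := by
      rcases Finset.subset_singleton_iff.1 hEsub with h | h
      · rw [h]; simp
      · obtain ⟨m, rfl⟩ := (hmain 3 (by rw [h]; simp)).2.2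
        rw [h, Finset.sum_singleton, Nat.mul_div_cancel_left m (by norm_num)]
        rcases Nat.lt_or_ge m 3 with hm | hm
        · interval_cases m
          · omega
          · have := total_small.1; norm_num; omega
          · have := total_small.2; norm_num; omega
        · have h1 := (total_bound (le_refl 2) m (by omega)).1 rfl
          have h2 : 64 * 2 ^ m ≤ 2 ^ (3 * m) := by
            rw [show (64 : ℕ) = 2 ^ 6 by norm_num, ← pow_add]
            exact Nat.pow_le_pow_right (by norm_num) (by omega)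
          norm_num
          omega
    rw [← hpow] at hT hE
    omega
  · have hT := fun m hm => (total_bound hq m hm).2 (show 3 ≤ q by omega)
    have hE : 100 * ∑ r ∈ ((q + 1).gcd n).divisors.erase 1, (r ^ 2 - 1) * total q (n / r) (n / r) ≤ 526 * q ^ n := by
      rcases Nat.lt_or_ge n 5 with hn5 | hn5
      · have hsub : ((q + 1).gcd n).divisors.erase 1 ⊆ n.divisors.erase 1 :=
          Finset.erase_subset_erase _ (Nat.divisors_subset_of_dvd (by omega) (Nat.gcd_dvd_right _ _))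
        refine (Nat.mul_le_mul_left 100 (Finset.sum_le_sum_of_subset hsub)).trans ?_
        have hq9 : 9 ≤ q ^ 2 := by nlinarith
        interval_cases n
        · rw [show (Nat.divisors 2).erase 1 = {2} by decide, Finset.sum_singleton]
          have := hT 1 le_rfl
          norm_num at this ⊢
          nlinarith
        · rw [show (Nat.divisors 3).erase 1 = {3} by decide, Finset.sum_singleton]
          have := hT 1 le_rfl
          norm_num at this ⊢
          nlinarith
        · rw [show (Nat.divisors 4).erase 1 = {2, 4} by decide, Finset.sum_insert (by simp), Finset.sum_singleton]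
          have := hT 1 le_rfl
          have := hT 2 (by omega)
          norm_num at *
          nlinarith
      · refine le_trans (b := 100 * ((q + 1) ^ 2 * (3 * (2 * q ^ (n / 2))))) (Nat.mul_le_mul_left 100 ?_) ?_
        · set E := ((q + 1).gcd n).divisors.erase 1
          calc ∑ r ∈ E, (r ^ 2 - 1) * total q (n / r) (n / r) ≤ ∑ r ∈ E, (q + 1) ^ 2 * (3 * q ^ (n / r)) := by
                refine Finset.sum_le_sum fun r hr => ?_
                obtain ⟨h1, h2, h3⟩ := hmain r hr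
                exact Nat.mul_le_mul ((Nat.sub_le _ _).trans (Nat.pow_le_pow_left (Nat.le_of_dvd (Nat.succ_pos q) h2) 2))
                  (hT _ (Nat.div_pos (Nat.le_of_dvd (by omega) h3) (by omega)))
            _ = (q + 1) ^ 2 * (3 * ∑ j ∈ E.image (n / ·), q ^ j) := by
                rw [Finset.mul_sum, Finset.mul_sum, Finset.sum_image]
                intro a ha b hb hab
                have h1 := hmain a ha
                have h2 := hmain b hb
                have e1 := Nat.div_mul_cancel h1.2.2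
                have e2 := Nat.div_mul_cancel h2.2.2
                simp only at hab
                rw [hab] at e1
                exact Nat.eq_of_mul_eq_mul_left (Nat.div_pos (Nat.le_of_dvd (by omega) h2.2.2) (by omega)) (e1.trans e2.symm)
            _ ≤ _ := by
                refine Nat.mul_le_mul_left _ (Nat.mul_le_mul_left _ ((Finset.sum_le_sum_of_subset ?_).trans (geom_nat hq _)))
                intro j hj
                obtain ⟨r, hr, rfl⟩ := Finset.mem_image.1 hj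
                obtain ⟨h1, -, h3⟩ := hmain r hr
                exact Finset.mem_Icc.2 ⟨Nat.div_pos (Nat.le_of_dvd (by omega) h3) (by omega), Nat.div_le_div_left h1 (by omega)⟩
        · have hX : q ^ (n / 2) * q ^ 3 ≤ q ^ n := by
            rw [← pow_add]; exact Nat.pow_le_pow_right (by omega) (by omega)
          generalize q ^ (n / 2) = X at hX ⊢
          generalize q ^ n = Y at hX ⊢
          have h16 : 600 * (q + 1) ^ 2 ≤ 526 * q ^ 3 := by nlinarith [Nat.mul_le_mul_left (q * q) (show 3 ≤ q by omega)]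
          calc 100 * ((q + 1) ^ 2 * (3 * (2 * X))) = X * (600 * (q + 1) ^ 2) := by ring
            _ ≤ X * (526 * q ^ 3) := Nat.mul_le_mul_left _ h16
            _ = 526 * (X * q ^ 3) := by ring
            _ ≤ 526 * Y := Nat.mul_le_mul_left _ hX
    have h0 := hT n (by omega)
    rw [← hpow] at h0 hE
    rw [Nat.add_mul, one_mul, Nat.mul_add, Nat.mul_add]
    omega

end Cfsg.Agent.KnownB.ClassTuples.Weights
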