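import Cfsg.Agent.KnownB.UnitaryTuples
import Cfsg.Agent.KnownB.SLClassBound
import Cfsg.Agent.KnownB.SUWeights
import Cfsg.Agent.GeomClasses.SubfieldInUnitary

/-!
# Counting the classes of `SU_n(q)`
-/

set_option autoImplicit false
set_option linter.unusedSectionVars false
set_option linter.style.haveILetI false

namespace Cfsg.Agent.KnownB.ClassTuples

open Polynomial Cfsg.Agent.Linear.GLClasses Cfsg.Agent.KnownB.Unitary Cfsg.Agent.Linear.SpPrimeClasses
  Cfsg.Agent.Linear.GUPrimeCount Cfsg.Agent.Linear.PrimeOrderClasses Weights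
open Cfsg.Agent.Forms (frobQ frobQ_frobQ two_le_q)

universe u

variable {K : Type u} [Field K] [Fintype K] {n q : ℕ}

/-- The group of norm-one elements. -/
noncomputable def muGrp (K : Type u) [Field K] (q : ℕ) : Subgroup Kˣ := (powMonoidHom (q + 1) : Kˣ →* Kˣ).ker

theorem mem_muGrp (hK : Fintype.card K = q ^ 2) (a : Kˣ) : a ∈ muGrp K q ↔ (a : K) * frobQ hK (a : K) = 1 := by
  rw [muGrp, MonoidHom.mem_ker, powMonoidHom_apply, ← Units.val_inj, Units.val_pow_eq_pow_val, Units.val_one, pow_succ']
  exact Iff.rfl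

theorem card_muGrp (hK : Fintype.card K = q ^ 2) : Nat.card (muGrp K q) = q + 1 := by
  rw [muGrp, IsCyclic.card_powMonoidHom_ker, Nat.card_units, Nat.card_eq_fintype_card, hK]
  have hq := two_le_q hK
  refine Nat.gcd_eq_right ⟨q - 1, ?_⟩
  rw [show q ^ 2 - 1 = (q + 1) * (q - 1) by
    rw [← Nat.sq_sub_sq, one_pow]]

/-- The determinant on unitary elements with norm-one values. -/
noncomputable def detMu (hK : Fintype.card K = q ^ 2) : Cfsg.GU n K q →* muGrp K q :=
  (Matrix.GeneralLinearGroup.det.comp (Cfsg.GU n K q).subtype).codRestrict _ fun g => by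
    rw [mem_muGrp hK]
    have h := congrArg Matrix.det ((mem_GU_iff_adj hK g.1).1 g.2)
    rw [Matrix.det_mul, Matrix.det_one, adj, Matrix.det_transpose] at h
    rw [mul_comm]
    refine Eq.trans ?_ h
    rw [← RingHom.mapMatrix_apply, ← RingHom.map_det]
    rfl

/-- The degree vector of a tuple. -/
noncomputable def dv {k m : ℕ} (x : Tup K k m) : Fin k → ℕ := fun i => (x.1 i).natDegree

theorem tup_tau (hK : Fintype.card K = q ^ 2) {g : GL (Fin n) K} (hg : g ∈ Cfsg.GU n K q) (i : Fin n) :
    tau (frobQ hK) (tup g i) = tup g i := by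
  classical
  set σ := frobQ hK
  have hσ2 : ∀ c, σ (σ c) = c := frobQ_frobQ hK
  show tau σ ((dec g).slot i).prod = ((dec g).slot i).prod
  generalize dec g = D
  set s := D.slot i with hs
  have hgood : ∀ f ∈ s, GoodKey (f, i.1 + 1) := fun f hf =>
    ⟨(D.slot_mem i f hf).1, (D.slot_mem i f hf).2.1, (D.slot_mem i f hf).2.2, Nat.le_add_left 1 _⟩
  have hcount : ∀ f ∈ s, s.count (tau σ f) = s.count f := fun f hf => by
    rw [hs, Dec.count_slot, Dec.count_slot]
    exact count_tau_of_mem hK hg D (x := (f, i.1 + 1)) (hgood f hf)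
  have hback : ∀ f ∈ s, tau σ (tau σ f) = f := fun f hf =>
    (tau_props hσ2 (hgood f hf).2.1 (hgood f hf).2.2.1).2.2
  have hle : s.map (tau σ) ≤ s := Multiset.le_iff_count.2 fun x => by
    by_cases hx : x ∈ s.map (tau σ)
    · obtain ⟨f, hf, rfl⟩ := Multiset.mem_map.1 hx
      rw [Multiset.count_map, hcount f hf, Multiset.count, Multiset.countP_eq_card_filter]
      refine le_of_eq (congrArg _ (Multiset.filter_congr fun y hy => ?_))
      constructor
      · intro h
        rw [← hback f hf, h, hback y hy]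
      · rintro rfl
        rfl
    · rw [Multiset.count_eq_zero_of_notMem hx]
      exact Nat.zero_le _
  have heq := Multiset.eq_of_le_of_card_le hle (by rw [Multiset.card_map])
  rw [tau_prod, heq]

/-- The splitting weight of a tuple. -/
noncomputable def uw (q : ℕ) {k m : ℕ} (x : Tup K k m) : ℕ := sq q (dv x)

theorem card_classes_le_uw (hK : Fintype.card K = q ^ 2) [Fintype (Tup K n n)] [DecidableEq K]
    [DecidablePred fun x : Tup K n n => ∀ i, tau (frobQ hK) (x.1 i) = x.1 i] :
    Nat.card (ConjClasses (Cfsg.SU n K q)) ≤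
      ∑ x : Tup K n n with (∀ i, tau (frobQ hK) (x.1 i) = x.1 i) ∧ cst 1 x = 1, uw q x := by
  classical
  let ι : Cfsg.SU n K q →* Cfsg.GU n K q :=
    ((Matrix.SpecialLinearGroup.toGL).comp (Cfsg.SU n K q).subtype).codRestrict _ fun g u v => g.2 u v
  have hιinj : Function.Injective ι := fun a b h =>
    Subtype.ext (Matrix.SpecialLinearGroup.toGL_injective (congrArg Subtype.val h))
  choose rep hrep using ConjClasses.mk_surjective (α := Cfsg.SU n K q)
  let g0 : ConjClasses (Cfsg.SU n K q) → Cfsg.GU n K q := fun C => (ConjClasses.mk (ι (rep C))).out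
  have hg0 : ∀ C, IsConj (ι (rep C)) (g0 C) := fun C =>
    ConjClasses.mk_eq_mk_iff_isConj.1 (Quotient.out_eq (ConjClasses.mk (ι (rep C)))).symm
  choose P hP using fun C => isConj_iff.1 (hg0 C)
  have hmem : ∀ C, (∀ i, tau (frobQ hK) ((tupT (g0 C).1).1 i) = (tupT (g0 C).1).1 i) ∧ cst 1 (tupT (g0 C).1) = 1 := fun C => by
    refine ⟨fun i => tup_tau hK (g0 C).2 i, ?_⟩
    rw [cst_tupT, ← hP C,
      Subgroup.coe_mul, Subgroup.coe_mul, Subgroup.coe_inv, Units.val_mul, Units.val_mul, Matrix.det_units_conj]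
    exact (rep C).1.2
  let Φ : ConjClasses (Cfsg.SU n K q) → Σ x : {x : Tup K n n // (∀ i, tau (frobQ hK) (x.1 i) = x.1 i) ∧ cst 1 x = 1},
      muGrp K q ⧸ (powMonoidHom (uw q x.1) : muGrp K q →* muGrp K q).range :=
    fun C => ⟨⟨tupT (g0 C).1, hmem C⟩, QuotientGroup.mk (detMu hK (P C))⟩
  have hΦ : Function.Injective Φ := fun C D e => by
    have e1 : tupT (g0 C).1 = tupT (g0 D).1 := congrArg (fun x => (Sigma.fst x).1) e
    have e2 : g0 C = g0 D := by
      have h1 : IsConj (g0 C) (g0 D) := (conj_iff hK _ _).2 (isConj_of_tup (congrArg Subtype.val e1))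
      show (ConjClasses.mk _).out = (ConjClasses.mk _).out
      congr 1
      exact ConjClasses.mk_eq_mk_iff_isConj.2 ((hg0 C).trans (h1.trans (hg0 D).symm))
    have e3 : (detMu hK (P C))⁻¹ * detMu hK (P D) ∈ (powMonoidHom (uw q (tupT (g0 C).1)) : muGrp K q →* muGrp K q).range :=
      sigma_quot (fun x : {x : Tup K n n // (∀ i, tau (frobQ hK) (x.1 i) = x.1 i) ∧ cst 1 x = 1} =>
        (powMonoidHom (uw q x.1) : muGrp K q →* muGrp K q).range)
        (x := ⟨tupT (g0 C).1, hmem C⟩) (y := ⟨tupT (g0 D).1, hmem D⟩) e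
    obtain ⟨y, hy⟩ := e3
    have hc := pow_gcd_mem ((Subgroup.centralizer {g0 C}).map (detMu hK))
      (Finset.univ.filter fun i => dv (tupT (g0 C).1) i ≠ 0)
      (fun i => i.1 + 1) (fun i hi x => by
        obtain ⟨c, hc0, hc1, hc2⟩ := exists_unitary_centralizer_det hK (g0 C).2 i (Finset.mem_filter.1 hi).2
          x.1.1 ((mem_muGrp hK x.1).1 x.2)
        refine ⟨⟨c, hc0⟩, Subgroup.mem_centralizer_singleton_iff.2 (Subtype.ext hc1), Subtype.ext (Units.ext ?_)⟩
        rw [SubmonoidClass.coe_pow, Units.val_pow_eq_pow_val]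
        exact hc2) y
    rw [card_muGrp hK] at hc
    obtain ⟨c, hc1, hc2⟩ := hc
    rw [SetLike.mem_coe, Subgroup.mem_centralizer_singleton_iff] at hc1
    change detMu hK c = y ^ uw q (tupT (g0 C).1) at hc2
    rw [powMonoidHom_apply, ← hc2] at hy
    set M := (P D)⁻¹ * c * P C with hM
    have hdet : detMu hK M = 1 := by
      rw [hM, map_mul, map_mul, map_inv, hy, mul_comm (detMu hK (P C))⁻¹, inv_mul_cancel_left, inv_mul_cancel]
    let w : Cfsg.SU n K q := ⟨⟨M.1.1, congrArg (fun a : muGrp K q => (a.1 : K)) hdet⟩, fun u v => M.2 u v⟩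
    have hw : ι w = M := Subtype.ext (Units.ext rfl)
    rw [← hrep C, ← hrep D, ConjClasses.mk_eq_mk_iff_isConj]
    refine isConj_iff.2 ⟨w, hιinj ?_⟩
    rw [map_mul, map_mul, map_inv, hw, hM]
    calc (P D)⁻¹ * c * P C * ι (rep C) * ((P D)⁻¹ * c * P C)⁻¹
        = (P D)⁻¹ * (c * (P C * ι (rep C) * (P C)⁻¹) * c⁻¹) * P D := by group
      _ = (P D)⁻¹ * g0 C * P D := by rw [hP C, hc1, mul_inv_cancel_right]
      _ = (P D)⁻¹ * (P D * ι (rep D) * (P D)⁻¹) * P D := by rw [hP D, e2]
      _ = ι (rep D) := by group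
  refine (Nat.card_le_card_of_injective Φ hΦ).trans (le_of_eq ?_)
  rw [Nat.card_sigma, Finset.sum_subtype (p := fun x => (∀ i, tau (frobQ hK) (x.1 i) = x.1 i) ∧ cst 1 x = 1)
    (Finset.univ.filter fun x : Tup K n n => (∀ i, tau (frobQ hK) (x.1 i) = x.1 i) ∧ cst 1 x = 1) (by simp) (uw q)]
  refine Finset.sum_congr rfl fun x _ => ?_
  rw [← Subgroup.index, IsCyclic.index_powMonoidHom_range, card_muGrp hK]
  exact Nat.gcd_eq_right (Nat.gcd_dvd_left _ _)

/-- Self-dual monic polynomials of given degree and constant term. -/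
theorem card_selfdual (hK : Fintype.card K = q ^ 2) (d : ℕ) (c : muGrp K q) :
    Finite {P : K[X] // P.Monic ∧ tau (frobQ hK) P = P ∧ P.natDegree = d ∧ P.coeff 0 = (c.1 : K)} ∧
    Nat.card {P : K[X] // P.Monic ∧ tau (frobQ hK) P = P ∧ P.natDegree = d ∧ P.coeff 0 = (c.1 : K)} ≤ q ^ (d - 1) := by
  classical
  set σ := frobQ hK
  have hq := two_le_q hK
  have hc0 : (c.1 : K) ≠ 0 := Units.ne_zero _
  let S := {P : K[X] // P.Monic ∧ tau σ P = P ∧ P.natDegree = d ∧ P.coeff 0 = (c.1 : K)}
  have hrel : ∀ P : S, ∀ j, j ≤ d → P.1.coeff j = (c.1 : K) * σ (P.1.coeff (d - j)) := by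
    intro P j hj
    obtain ⟨hm, ht, hd, h0⟩ := P.2
    conv_lhs => rw [← ht]
    rw [tau, hat, coeff_C_mul, coeff_reverse, natDegree_map, hd, revAt_le hj, coeff_map, coeff_map, h0]
    congr 1
    refine inv_eq_of_mul_eq_one_left ?_
    exact (mem_muGrp hK c.1).1 c.2
  rcases Nat.eq_zero_or_pos d with rfl | hd
  · haveI : Subsingleton S := ⟨fun P Q => Subtype.ext (by
      rw [P.2.1.natDegree_eq_zero.1 P.2.2.2.1, Q.2.1.natDegree_eq_zero.1 Q.2.2.2.1])⟩
    exact ⟨Finite.of_subsingleton, Finite.card_le_one_iff_subsingleton.2 inferInstance⟩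
  · set L := (d - 1) / 2 with hL
    let R : Finset K := (C (c.1 : K) * X ^ q - X : K[X]).roots.toFinset
    have hdeg : (C (c.1 : K) * X ^ q - X : K[X]).natDegree = q := by
      rw [natDegree_sub_eq_left_of_natDegree_lt]
      · rw [natDegree_C_mul_X_pow q _ hc0]
      · rw [natDegree_C_mul_X_pow q _ hc0, natDegree_X]; omega
    have hR : R.card ≤ q := (Multiset.toFinset_card_le _).trans ((card_roots' _).trans hdeg.le)
    have hmid : ∀ P : S, ¬ Odd d → P.1.coeff (d / 2) ∈ R := fun P he => by
      have hne : (C (c.1 : K) * X ^ q - X : K[X]) ≠ 0 := fun h => by rw [h, natDegree_zero] at hdeg; omega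
      rw [Multiset.mem_toFinset, mem_roots hne, IsRoot, eval_sub, eval_mul, eval_C, eval_pow, eval_X, sub_eq_zero]
      have h := hrel P (d / 2) (Nat.div_le_self _ _)
      rw [Nat.not_odd_iff_even] at he
      obtain ⟨e, rfl⟩ := he
      rw [show e + e - (e + e) / 2 = (e + e) / 2 by omega] at h
      exact h.symm
    have hext : ∀ P Q : S, (∀ j : Fin L, P.1.coeff (j.1 + 1) = Q.1.coeff (j.1 + 1)) →
        (¬ Odd d → P.1.coeff (d / 2) = Q.1.coeff (d / 2)) → P = Q := by
      intro P Q hlow hm
      have hsmall : ∀ j, 2 * j ≤ d → P.1.coeff j = Q.1.coeff j := by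
        intro j hj
        rcases j with _ | j
        · rw [P.2.2.2.2, Q.2.2.2.2]
        · by_cases hjL : j < L
          · exact hlow ⟨j, hjL⟩
          · have he : ¬ Odd d := fun ho => by obtain ⟨e, rfl⟩ := ho; omega
            have : j + 1 = d / 2 := by
              rw [Nat.not_odd_iff_even] at he
              obtain ⟨e, rfl⟩ := he
              omega
            rw [this]
            exact hm he
      refine Subtype.ext (Polynomial.ext fun j => ?_)
      by_cases hjd : j ≤ d
      · by_cases hj : 2 * j ≤ d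
        · exact hsmall j hj
        · rw [hrel P j hjd, hrel Q j hjd, hsmall (d - j) (by omega)]
      · rw [coeff_eq_zero_of_natDegree_lt (by rw [P.2.2.2.1]; omega),
          coeff_eq_zero_of_natDegree_lt (by rw [Q.2.2.2.1]; omega)]
    by_cases ho : Odd d
    · have hinj : Function.Injective fun P : S => fun j : Fin L => P.1.coeff (j.1 + 1) := fun P Q h =>
        hext P Q (fun j => congrFun h j) fun h' => absurd ho h'
      refine ⟨Finite.of_injective _ hinj, (Nat.card_le_card_of_injective _ hinj).trans ?_⟩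
      rw [Nat.card_fun, Nat.card_fin, Nat.card_eq_fintype_card, hK, ← pow_mul]
      obtain ⟨e, rfl⟩ := ho
      exact Nat.pow_le_pow_right (by omega) (by omega)
    · have hinj : Function.Injective fun P : S => ((fun j : Fin L => P.1.coeff (j.1 + 1)), (⟨P.1.coeff (d / 2), hmid P ho⟩ : R)) :=
        fun P Q h => hext P Q (fun j => congrFun (congrArg Prod.fst h) j) fun _ => congrArg (fun x => (Prod.snd x).1) h
      refine ⟨Finite.of_injective _ hinj, (Nat.card_le_card_of_injective _ hinj).trans ?_⟩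
      rw [Nat.card_prod, Nat.card_fun, Nat.card_fin, Nat.card_eq_fintype_card, hK, ← pow_mul, Nat.card_eq_finsetCard]
      refine (Nat.mul_le_mul_left _ hR).trans ?_
      rw [← pow_succ]
      rw [Nat.not_odd_iff_even] at ho
      obtain ⟨e, rfl⟩ := ho
      exact Nat.pow_le_pow_right (by omega) (by omega)

theorem exists_neg_one_mem (hK : Fintype.card K = q ^ 2) : (-1 : Kˣ) ∈ muGrp K q := by
  rw [mem_muGrp hK, Units.val_neg, Units.val_one, map_neg, map_one]
  ring

/-- Counting self-dual tuples with signed constant product one. -/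
theorem uw_sum_le (hK : Fintype.card K = q ^ 2) [Fintype (Tup K n n)] [DecidableEq K]
    [DecidablePred fun x : Tup K n n => ∀ i, tau (frobQ hK) (x.1 i) = x.1 i] :
    (q + 1) * ∑ x : Tup K n n with (∀ i, tau (frobQ hK) (x.1 i) = x.1 i) ∧ cst 1 x = 1, uw q x ≤
      ∑ d ∈ vec n n, sq q d ^ 2 * ∏ i, wt q (d i) := by
  classical
  set X' := Finset.univ.filter fun x : Tup K n n => (∀ i, tau (frobQ hK) (x.1 i) = x.1 i) ∧ cst 1 x = 1
  rw [← Finset.sum_fiberwise_of_maps_to (s := X') (t := vec n n) (g := dv) fun x _ => mem_vec.2 x.2.2, Finset.mul_sum]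
  refine Finset.sum_le_sum fun d hd => ?_
  rw [Finset.sum_congr rfl fun x hx => show uw q x = sq q d by rw [uw, (Finset.mem_filter.1 hx).2],
    Finset.sum_const, smul_eq_mul]
  set Xd := X'.filter fun x => dv x = d
  let m1 : muGrp K q := ⟨-1, exists_neg_one_mem hK⟩
  let H : Subgroup (Fin n → muGrp K q) := Subgroup.pi Set.univ fun i => if d i = 0 then ⊥ else ⊤
  let φ : H →* muGrp K q := MonoidHom.mk' (fun c => ∏ i, c.1 i ^ (i.1 + 1)) fun a b => by
    simp only [Subgroup.coe_mul, Pi.mul_apply, mul_pow, Finset.prod_mul_distrib]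
  let Cset := {c : H // ∏ i, (m1 ^ d i * c.1 i) ^ (i.1 + 1) = 1}
  -- the number of admissible constants
  have hC : (q + 1) * Nat.card Cset ≤ sq q d * Nat.card H := by
    have h1 : Nat.card Cset ≤ Nat.card φ.ker := by
      rcases isEmpty_or_nonempty Cset with h | ⟨⟨c₀⟩⟩
      · rw [Nat.card_of_isEmpty]; exact Nat.zero_le _
      · refine Nat.card_le_card_of_injective (fun c => (⟨c.1 * c₀.1⁻¹, ?_⟩ : φ.ker)) fun a b h =>
          Subtype.ext (mul_right_cancel (congrArg Subtype.val h))
        rw [MonoidHom.mem_ker, map_mul, map_inv, mul_inv_eq_one]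
        have ha := c.2
        have hb := c₀.2
        simp only [mul_pow, Finset.prod_mul_distrib] at ha hb
        exact mul_left_cancel (ha.trans hb.symm)
    have h2 : q + 1 ≤ sq q d * Nat.card φ.range := by
      have hsub : (powMonoidHom (sq q d) : muGrp K q →* muGrp K q).range ≤ φ.range := by
        rintro _ ⟨y, rfl⟩
        have := pow_gcd_mem φ.range (Finset.univ.filter fun i => d i ≠ 0) (fun i => i.1 + 1) (fun i hi x => by
          refine ⟨⟨Pi.mulSingle i x, ?_⟩, ?_⟩
          · refine (Subgroup.mem_pi _).2 fun j _ => ?_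
            by_cases hj : j = i
            · subst hj
              rw [if_neg (Finset.mem_filter.1 hi).2]
              exact Subgroup.mem_top _
            · rw [Pi.mulSingle_eq_of_ne hj]
              exact one_mem _
          · show ∏ j, (Pi.mulSingle i x : Fin n → muGrp K q) j ^ (j.1 + 1) = _
            rw [Finset.prod_eq_single i (fun j _ hj => by rw [Pi.mulSingle_eq_of_ne hj, one_pow])
              (fun h => absurd (Finset.mem_univ _) h), Pi.mulSingle_eq_same]) y
        rwa [card_muGrp hK] at this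
      have h3 := Subgroup.index_mul_card (powMonoidHom (sq q d) : muGrp K q →* muGrp K q).range
      rw [IsCyclic.index_powMonoidHom_range, card_muGrp hK, Nat.gcd_eq_right (show sq q d ∣ q + 1 from Nat.gcd_dvd_left _ _)] at h3
      conv_lhs => rw [← h3]
      exact Nat.mul_le_mul_left _ (Nat.card_le_card_of_injective _ (Subgroup.inclusion_injective hsub))
    have h4 : Nat.card H = Nat.card φ.range * Nat.card φ.ker := by
      rw [Subgroup.card_eq_card_quotient_mul_card_subgroup φ.ker, Nat.card_congr (QuotientGroup.quotientKerEquivRange φ).toEquiv]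
    rw [h4, ← mul_assoc]
    exact Nat.mul_le_mul h2 h1
  have hH : Nat.card H = ∏ i, if d i = 0 then 1 else q + 1 := by
    have e : H ≃ (∀ i, ↥(if d i = 0 then (⊥ : Subgroup (muGrp K q)) else ⊤)) :=
      { toFun := fun c i => ⟨c.1 i, c.2 i trivial⟩
        invFun := fun f => ⟨fun i => (f i).1, fun i _ => (f i).2⟩ }
    rw [Nat.card_congr e, Nat.card_pi]
    refine Finset.prod_congr rfl fun i _ => ?_
    split_ifs with h
    · rw [Subgroup.card_bot]
    · rw [Subgroup.card_top, card_muGrp hK]
  -- the fibres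
  haveI : ∀ (c : Cset) (i : Fin n), Finite {P : K[X] // P.Monic ∧ tau (frobQ hK) P = P ∧ P.natDegree = d i ∧ P.coeff 0 = ((c.1.1 i).1 : K)} :=
    fun c i => (card_selfdual hK (d i) (c.1.1 i)).1
  have hmu : ∀ x : Xd, ∀ i, ∃ a : muGrp K q, (a.1 : K) = (x.1.1 i).coeff 0 := by
    intro x i
    obtain ⟨hm, h0⟩ := x.1.2.1 i
    have ht := ((Finset.mem_filter.1 (Finset.mem_filter.1 x.2).1).2.1) i
    refine ⟨⟨Units.mk0 _ h0, ?_⟩, rfl⟩
    rw [mem_muGrp hK, Units.val_mk0]
    have h1 := congrArg (fun P : K[X] => P.coeff 0) ht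
    simp only [tau, hat, coeff_C_mul, coeff_zero_reverse, (hm.map (frobQ hK)).leadingCoeff, mul_one, coeff_map] at h1
    nth_rewrite 1 [← h1]
    exact inv_mul_cancel₀ ((map_ne_zero (frobQ hK)).2 h0)
  choose a ha using hmu
  have hdv : ∀ (x : Xd) i, (x.1.1 i).natDegree = d i := fun x i => congrFun (Finset.mem_filter.1 x.2).2 i
  have hcst : ∀ x : Xd, ∏ i, (m1 ^ d i * a x i) ^ (i.1 + 1) = 1 := fun x => by
    refine Subtype.ext (Units.ext ?_)
    have h := (Finset.mem_filter.1 (Finset.mem_filter.1 x.2).1).2.2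
    rw [SubmonoidClass.coe_finsetProd, Units.coe_prod]
    simp only [SubmonoidClass.coe_pow, Subgroup.coe_mul, Units.val_pow_eq_pow_val, Units.val_mul, ha, m1, Units.val_neg,
      Units.val_one, OneMemClass.coe_one, ← hdv x]
    refine Eq.trans ?_ h
    simp only [cst, one_mul]
  have hmemH : ∀ x : Xd, (fun i => a x i) ∈ H := fun x => (Subgroup.mem_pi _).2 fun i _ => by
    show a x i ∈ (if d i = 0 then (⊥ : Subgroup (muGrp K q)) else ⊤)
    split_ifs with h
    · rw [Subgroup.mem_bot]
      refine Subtype.ext (Units.ext ?_)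
      rw [ha, (x.1.2.1 i).1.natDegree_eq_zero.1 (by rw [hdv x i, h])]
      simp
    · exact Subgroup.mem_top _
  let Ψ : Xd → Σ c : Cset, ∀ i, {P : K[X] // P.Monic ∧ tau (frobQ hK) P = P ∧ P.natDegree = d i ∧ P.coeff 0 = ((c.1.1 i).1 : K)} :=
    fun x => ⟨⟨⟨fun i => a x i, hmemH x⟩, hcst x⟩, fun i => ⟨x.1.1 i, (x.1.2.1 i).1,
      ((Finset.mem_filter.1 (Finset.mem_filter.1 x.2).1).2.1) i, hdv x i, (ha x i).symm⟩⟩
  have hΨ : Function.Injective Ψ := fun x y h => by
    refine Subtype.ext (Subtype.ext (funext fun i => ?_))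
    exact congrArg (fun z => (Sigma.snd z i).1) h
  haveI := Fintype.ofFinite Cset
  have hcard : Xd.card ≤ Nat.card Cset * ∏ i, q ^ (d i - 1) := by
    rw [← Nat.card_eq_finsetCard]
    refine (Nat.card_le_card_of_injective Ψ hΨ).trans ?_
    rw [Nat.card_sigma]
    refine (Finset.sum_le_sum (g := fun _ => ∏ i, q ^ (d i - 1)) fun c _ => ?_).trans (le_of_eq ?_)
    · rw [Nat.card_pi]
      exact Finset.prod_le_prod' fun i _ => (card_selfdual hK (d i) (c.1.1 i)).2
    · rw [Finset.sum_const, smul_eq_mul, Finset.card_univ, Nat.card_eq_fintype_card]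
  calc (q + 1) * (Xd.card * sq q d) ≤ (q + 1) * (Nat.card Cset * (∏ i, q ^ (d i - 1)) * sq q d) :=
        Nat.mul_le_mul_left _ (Nat.mul_le_mul_right _ hcard)
    _ = ((q + 1) * Nat.card Cset) * ((∏ i, q ^ (d i - 1)) * sq q d) := by ring
    _ ≤ (sq q d * Nat.card H) * ((∏ i, q ^ (d i - 1)) * sq q d) := Nat.mul_le_mul_right _ hC
    _ = sq q d ^ 2 * ∏ i, wt q (d i) := by
        rw [hH, show (∏ i, wt q (d i)) = (∏ i, if d i = 0 then 1 else q + 1) * ∏ i, q ^ (d i - 1) by
          rw [← Finset.prod_mul_distrib]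
          refine Finset.prod_congr rfl fun i _ => ?_
          rw [wt]
          split_ifs with h <;> simp [h]]
        ring

theorem SU_classes_upper (hK : Fintype.card K = q ^ 2) (hn : 2 ≤ n) :
    100 * Nat.card (ConjClasses (Cfsg.SU n K q)) ≤ 826 * q ^ (n - 1) := by
  classical
  letI := Fintype.ofFinite (Tup K n n)
  refine Nat.le_of_mul_le_mul_left ?_ (Nat.succ_pos q)
  calc (q + 1) * (100 * Nat.card (ConjClasses (Cfsg.SU n K q)))
      = 100 * ((q + 1) * Nat.card (ConjClasses (Cfsg.SU n K q))) := by ring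
    _ ≤ 100 * ∑ d ∈ vec n n, sq q d ^ 2 * ∏ i, wt q (d i) :=
        Nat.mul_le_mul_left _ ((Nat.mul_le_mul_left _ (card_classes_le_uw hK)).trans (uw_sum_le hK))
    _ ≤ 826 * ((q + 1) * q ^ (n - 1)) := final_le (two_le_q hK) hn
    _ = _ := by rw [Nat.succ_eq_add_one]; ring

/-- The lower bound. -/
theorem SU_classes_lower (hK : Fintype.card K = q ^ 2) (hn : 2 ≤ n) :
    q ^ (n - 1) ≤ Nat.card (ConjClasses (Cfsg.SU n K q)) := by
  classical
  set σ := frobQ hK
  have hq := two_le_q hK
  have hσ2 : ∀ c, σ (σ c) = c := frobQ_frobQ hK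
  set L := (n - 1) / 2 with hL
  let M := {x : K // if Even n then x ^ q = x else x = 0}
  have hMc : (if Even n then q else 1) ≤ Nat.card M := by
    split_ifs with h
    · refine le_of_eq ?_
      rw [← Cfsg.Agent.GeomClasses.SubfieldSU.card_fixed hK]
      exact Nat.card_congr (Equiv.subtypeEquivRight fun x => by simp [h])
    · haveI : Nonempty M := ⟨⟨0, by simp [h]⟩⟩
      exact Nat.one_le_iff_ne_zero.2 Nat.card_pos.ne'
  let ε : K := (-1) ^ n
  have hεσ : σ ε = ε := by simp [ε, map_pow]
  have hε2 : ε * ε = 1 := by rw [← mul_pow, neg_one_mul, neg_neg, one_pow]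
  let co : (Fin L → K) × M → ℕ → K := fun p j =>
    if j = 0 then ε else if j = n then 1 else if h : j - 1 < L then p.1 ⟨j - 1, h⟩
    else if h : n - j - 1 < L then ε * σ (p.1 ⟨n - j - 1, h⟩) else p.2.1
  have hrel : ∀ p j, j ≤ n → co p j = ε * σ (co p (n - j)) := by
    intro p j hj
    rcases Nat.eq_zero_or_pos j with rfl | hj0
    · simp only [co, if_true, Nat.sub_zero, show n ≠ 0 by omega, if_false, map_one, mul_one]
    rcases eq_or_lt_of_le hj with rfl | hjn
    · simp only [co, show j ≠ 0 by omega, if_false, if_true, Nat.sub_self, hεσ, hε2]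
    simp only [co, show j ≠ 0 by omega, show j ≠ n by omega, show n - j ≠ 0 by omega, show n - j ≠ n by omega, if_false,
      show n - (n - j) - 1 = j - 1 by omega]
    by_cases h1 : j - 1 < L
    · have h2 : ¬ n - j - 1 < L := by omega
      rw [dif_pos h1, dif_neg h2, dif_pos h1, map_mul, hεσ, hσ2, ← mul_assoc, hε2, one_mul]
    · by_cases h2 : n - j - 1 < L
      · rw [dif_neg h1, dif_pos h2, dif_pos h2]
      · rw [dif_neg h1, dif_neg h2, dif_neg h2, dif_neg h1]
        have he : Even n := ⟨j, by omega⟩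
        have := p.2.2
        rw [if_pos he] at this
        show p.2.1 = ε * p.2.1 ^ q
        rw [this, show ε = 1 from he.neg_one_pow, one_mul]
  let P : (Fin L → K) × M → K[X] := fun p => ∑ j ∈ Finset.range (n + 1), C (co p j) * X ^ j
  have hcoeff : ∀ p j, (P p).coeff j = if j ≤ n then co p j else 0 := fun p j => by
    simp only [P, finsetSum_coeff, coeff_C_mul_X_pow, Finset.sum_ite_eq, Finset.mem_range, Nat.lt_succ_iff]
  have hdeg : ∀ p, (P p).natDegree = n := fun p => by
    refine natDegree_eq_of_le_of_coeff_ne_zero (natDegree_le_iff_coeff_eq_zero.2 fun j hj => ?_) ?_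
    · rw [hcoeff, if_neg (by omega)]
    · rw [hcoeff, if_pos le_rfl]
      simp [co, show n ≠ 0 by omega]
  have hmon : ∀ p, (P p).Monic := fun p => by
    rw [Monic, leadingCoeff, hdeg, hcoeff, if_pos le_rfl]
    simp [co, show n ≠ 0 by omega]
  have hc0 : ∀ p, (P p).coeff 0 = ε := fun p => by rw [hcoeff, if_pos (Nat.zero_le _)]; simp [co]
  have hε0 : ε ≠ 0 := pow_ne_zero _ (neg_ne_zero.2 one_ne_zero)
  have htau : ∀ p, tau σ (P p) = P p := fun p => by
    ext j
    rw [tau, hat, coeff_C_mul, coeff_reverse, natDegree_map, hdeg, coeff_map, coeff_map, hc0, hεσ]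
    by_cases hj : j ≤ n
    · rw [revAt_le hj, hcoeff, hcoeff, if_pos (Nat.sub_le n j), if_pos hj, hrel p j hj,
        show ε⁻¹ = ε from inv_eq_of_mul_eq_one_left hε2]
    · rw [revAt_eq_self_of_lt (by omega), hcoeff, if_neg hj, map_zero, mul_zero]
  -- realise each polynomial
  have hfac : ∀ p, ∀ f ∈ UniqueFactorizationMonoid.normalizedFactors (P p), GoodKey (f, 1) := fun p f hf => by
    have h1 := UniqueFactorizationMonoid.irreducible_of_normalized_factor f hf
    have h2 : f.Monic := by
      rw [← UniqueFactorizationMonoid.normalize_normalized_factor f hf]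
      exact monic_normalize h1.ne_zero
    refine ⟨h1, h2, fun h0 => ?_, le_rfl⟩
    have hd := UniqueFactorizationMonoid.dvd_of_mem_normalizedFactors hf
    have := X_dvd_iff.1 ((X_dvd_iff.2 h0).trans hd)
    rw [hc0] at this
    exact hε0 this
  have hinv : ∀ p, (UniqueFactorizationMonoid.normalizedFactors (P p)).map (tau σ) =
      UniqueFactorizationMonoid.normalizedFactors (P p) := fun p => by
    have hprod := prod_normalizedFactors_monic (hmon p)
    have h := congrArg (tau σ) hprod
    rw [tau_prod, htau] at h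
    conv_rhs => rw [← h, normalizedFactors_prod_monic _ (fun f hf => by
      obtain ⟨g, hg, rfl⟩ := Multiset.mem_map.1 hf
      exact ⟨(tauKey_good σ hσ2 (hfac p g hg)).1, (tauKey_good σ hσ2 (hfac p g hg)).2.1⟩)]
  have hex : ∀ p, ∃ (B : Cfsg.SU n K q) (D : Dec B.1.toGL), ∀ f, D.count (f, 1) =
      (UniqueFactorizationMonoid.normalizedFactors (P p)).count f := by
    intro p
    obtain ⟨S, hS⟩ : ∃ S : Multiset K[X], S = UniqueFactorizationMonoid.normalizedFactors (P p) := ⟨_, rfl⟩
    rw [← hS]
    have hSgood : ∀ f ∈ S, GoodKey (f, 1) := fun f hf => hfac p f (hS ▸ hf)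
    have hSprod : S.prod = P p := by rw [hS, prod_normalizedFactors_monic (hmon p)]
    have hSinv : S.map (tau σ) = S := by rw [hS, hinv p]
    let key : S.ToType → K[X] × ℕ := fun j => (j.1, 1)
    have hkey : ∀ j, GoodKey (key j) := fun j => hSgood _ Multiset.coe_mem
    have hsum : ∑ j, (key j).2 * (key j).1.natDegree = n := by
      rw [← hdeg p, ← hSprod, natDegree_multiset_prod_of_monic _ fun f hf => (hSgood f hf).2.1,
        ← Multiset.map_univ S natDegree]
      simp only [key, one_mul]
      rfl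
    obtain ⟨A, DA, e, he⟩ := exists_realize key hkey hsum
    have hcnt : ∀ x : K[X] × ℕ, DA.count x = if x.2 = 1 then S.count x.1 else 0 := fun x => by
      rw [DA.count_eq_of_equiv key e he]
      split_ifs with hx
      · rw [← Nat.card_fin (S.count x.1)]
        refine Nat.card_congr
          { toFun := fun j => ⟨j.1.2.1, lt_of_lt_of_eq j.1.2.2
                (congrArg (fun f => S.count f) (congrArg Prod.fst j.2))⟩
            invFun := fun i => ⟨⟨x.1, i⟩, Prod.ext rfl hx.symm⟩
            left_inv := fun j => ?_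
            right_inv := fun i => rfl }
        obtain ⟨⟨f, k⟩, hj⟩ := j
        obtain rfl : f = x.1 := congrArg Prod.fst hj
        rfl
      · rw [Nat.card_eq_zero]
        exact Or.inl ⟨fun j => hx (by rw [← j.2])⟩
    have hinvA : ∀ x, GoodKey x → DA.count (tau σ x.1, x.2) = DA.count x := fun x hx => by
      rw [hcnt, hcnt]
      dsimp only
      split_ifs with h
      · conv_lhs => rw [← hSinv]
        rw [Multiset.count_map, Multiset.count, Multiset.countP_eq_card_filter]
        refine congrArg _ (Multiset.filter_congr fun y hy => ?_)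
        have hy' : tau σ (tau σ y) = y := (tau_props hσ2 (hSgood y hy).2.1 (hSgood y hy).2.2.1).2.2
        constructor
        · intro e'
          rw [← hy', ← e', (tau_props hσ2 hx.2.1 hx.2.2.1).2.2]
        · rintro rfl
          rfl
      · rfl
    obtain ⟨B, hB⟩ := exists_unitary_of_invariant hK DA hinvA
    have hdet : B.1.1.det = 1 := by
      obtain ⟨c, hc⟩ := isConj_iff.1 hB
      rw [← hc, Units.val_mul, Units.val_mul, Matrix.det_units_conj]
      letI := DA.fin
      have h1 := det_aeval DA X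
      rw [aeval_X] at h1
      have h2 : ∀ j, LinearMap.det (mulBy ((DA.key j).1 ^ (DA.key j).2) X) =
          (-1 : K) ^ (key (e j)).1.natDegree * (key (e j)).1.coeff 0 := fun j => by
        rw [← he j]
        show LinearMap.det (mulBy ((key (e j)).1 ^ 1) X) = _
        rw [det_mulBy_X ((hkey (e j)).2.1.pow 1), pow_one]
      rw [h1, Finset.prod_congr rfl fun j _ => h2 j,
        Fintype.prod_equiv e (fun j => (-1 : K) ^ (key (e j)).1.natDegree * (key (e j)).1.coeff 0)
          (fun i => (-1 : K) ^ (key i).1.natDegree * (key i).1.coeff 0) (fun j => rfl),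
        Finset.prod_mul_distrib, Finset.prod_pow_eq_pow_sum,
        show ∑ i, (key i).1.natDegree = n by
          refine Eq.trans (Finset.sum_congr rfl fun i _ => ?_) hsum
          simp only [key, one_mul],
        show ∏ i : S.ToType, (key i).1.coeff 0 = ε by
          simp only [← Polynomial.constantCoeff_apply, key]
          rw [← map_prod, ← Multiset.prod_eq_prod_coe, hSprod]
          exact hc0 p]
      exact hε2
    let B' : Cfsg.SU n K q := ⟨⟨B.1.1, hdet⟩, fun u v => B.2 u v⟩
    have hB' : IsConj A B'.1.toGL := by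
      rw [show B'.1.toGL = B.1 from Units.ext rfl]
      exact hB
    obtain ⟨D', e', he'⟩ := exists_dec_conj DA hB'
    refine ⟨B', D', fun f => ?_⟩
    rw [D'.count_eq_of_equiv DA.key e' he']
    exact (hcnt (f, 1)).trans (if_pos rfl)
  choose B D hD using hex
  have hinj : Function.Injective fun p => ConjClasses.mk (B p) := fun p p' h => by
    have hc := ((Matrix.SpecialLinearGroup.toGL).comp (Cfsg.SU n K q).subtype).map_isConj (ConjClasses.mk_eq_mk_iff_isConj.1 h)
    obtain ⟨D'', e'', he''⟩ := exists_dec_conj (D p) hc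
    have hS : UniqueFactorizationMonoid.normalizedFactors (P p) = UniqueFactorizationMonoid.normalizedFactors (P p') := by
      refine Multiset.ext.2 fun f => ?_
      rw [← hD p, ← hD p']
      have e1 : (D p).count (f, 1) = D''.count (f, 1) := (D''.count_eq_of_equiv (D p).key e'' he'' (f, 1)).symm
      rw [e1]
      exact count_dec_eq _ _ _
    have hP : P p = P p' := by
      rw [← prod_normalizedFactors_monic (hmon p), ← prod_normalizedFactors_monic (hmon p'), hS]
    have hco : ∀ j, j ≤ n → co p j = co p' j := fun j hj => by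
      have := congrArg (fun Q : K[X] => Q.coeff j) hP
      simp only [hcoeff, if_pos hj] at this
      exact this
    refine Prod.ext (funext fun j => ?_) (Subtype.ext ?_)
    · have h1 := hco (j.1 + 1) (by omega)
      simpa [co, show j.1 + 1 ≠ n by omega, j.2] using h1
    · by_cases he : Even n
      · obtain ⟨k, hk⟩ := he
        have h1 := hco k (by omega)
        simpa [co, show k ≠ 0 by omega, show k ≠ n by omega, show ¬ k - 1 < L by omega,
          show ¬ n - k - 1 < L by omega] using h1
      · have h1 := p.2.2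
        have h2 := p'.2.2
        rw [if_neg he] at h1 h2
        rw [h1, h2]
  refine le_trans ?_ (Nat.card_le_card_of_injective _ hinj)
  rw [Nat.card_prod, Nat.card_fun, Nat.card_fin, Nat.card_eq_fintype_card, hK, ← pow_mul]
  refine le_trans ?_ (Nat.mul_le_mul_left _ hMc)
  split_ifs with he
  · rw [← pow_succ]
    obtain ⟨k, rfl⟩ := he
    exact Nat.pow_le_pow_right (by omega) (by omega)
  · rw [mul_one]
    rw [Nat.not_even_iff_odd] at he
    obtain ⟨k, rfl⟩ := he
    exact Nat.pow_le_pow_right (by omega) (by omega)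

end Cfsg.Agent.KnownB.ClassTuples
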