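import Cfsg.Agent.KnownB.UnitaryTuples
import Cfsg.Agent.KnownB.Unitary.Norm
import Cfsg.Agent.KnownB.Unitary.Similar
import Cfsg.Agent.Linear.SpUnipotentClasses

/-!
# Splitting symplectic elements at the eigenvalues `1` and `-1`
-/

set_option autoImplicit false
set_option linter.unusedSectionVars false
set_option linter.style.haveILetI false

namespace Cfsg.Agent.KnownB.ClassTuples

open Polynomial Cfsg.Agent.Linear.UnipotentCent
open scoped Matrix

universe u

variable {F : Type u} [Field F] [Fintype F]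

/-- Invariant alternating forms of an element without the eigenvalues `1`, `-1` are congruent under its centraliser. -/
theorem congr_centralizer {r : ℕ} (A : GL (Fin r) F) (h1 : IsUnit (A.1 - 1)) (h1' : IsUnit (A.1 + 1))
    {G G' : Matrix (Fin r) (Fin r) F} (hG : Gᵀ = -G) (hG' : G'ᵀ = -G') (hGu : IsUnit G.det) (hG'u : IsUnit G'.det)
    (hi : A.1ᵀ * G * A.1 = G) (hi' : A.1ᵀ * G' * A.1 = G') :
    ∃ w : GL (Fin r) F, w.1 * A.1 = A.1 * w.1 ∧ w.1ᵀ * G * w.1 = G' := by
  classical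
  set Ai := (A⁻¹ : GL (Fin r) F).1 with hAi
  set Xm := G⁻¹ * G' with hX
  have hGG : G * G⁻¹ = 1 := Matrix.mul_nonsing_inv _ hGu
  have hGG' : G⁻¹ * G = 1 := Matrix.nonsing_inv_mul _ hGu
  have hA' : G' * A.1 = Aiᵀ * G' := by
    calc G' * A.1 = (A.1 * Ai)ᵀ * G' * A.1 := by rw [hAi, Units.mul_inv, Matrix.transpose_one, one_mul]
      _ = Aiᵀ * (A.1ᵀ * G' * A.1) := by rw [Matrix.transpose_mul]; simp only [mul_assoc]
      _ = _ := by rw [hi']
  have hA : A.1 * G⁻¹ = G⁻¹ * Aiᵀ := by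
    have h : G * A.1 = Aiᵀ * G := by
      calc G * A.1 = (A.1 * Ai)ᵀ * G * A.1 := by rw [hAi, Units.mul_inv, Matrix.transpose_one, one_mul]
        _ = Aiᵀ * (A.1ᵀ * G * A.1) := by rw [Matrix.transpose_mul]; simp only [mul_assoc]
        _ = _ := by rw [hi]
    calc A.1 * G⁻¹ = G⁻¹ * (G * A.1) * G⁻¹ := by rw [← mul_assoc, hGG', one_mul]
      _ = G⁻¹ * Aiᵀ := by rw [h, mul_assoc, mul_assoc, hGG, mul_one]
  have hAX : A.1 * Xm = Xm * A.1 := by
    rw [hX, ← mul_assoc, hA, mul_assoc, ← hA', mul_assoc]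
  let τ : Matrix (Fin r) (Fin r) F → Matrix (Fin r) (Fin r) F := fun Y => G⁻¹ * Yᵀ * G
  have hτA : τ A.1 = Ai := by
    calc τ A.1 = G⁻¹ * (A.1ᵀ * G * A.1) * Ai := by
          simp only [τ, mul_assoc]
          rw [hAi, Units.mul_inv, mul_one]
      _ = _ := by rw [hi, hGG', one_mul]
  have hτX : τ Xm = Xm := by
    simp only [τ, hX, Matrix.transpose_mul, Matrix.transpose_nonsing_inv, hG, hG']
    rw [show (-G)⁻¹ = -G⁻¹ from Matrix.inv_eq_right_inv (by rw [neg_mul_neg, hGG]),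
      mul_assoc, mul_assoc, Matrix.neg_mul G⁻¹, hGG', Matrix.mul_neg, Matrix.mul_one, neg_neg]
  set S : Set (Matrix (Fin r) (Fin r) F) := {A.1, Xm}
  set R := Algebra.adjoin F S
  have hcomm : ∀ x ∈ R, ∀ y ∈ R, x * y = y * x := fun x hx y hy =>
    Algebra.commute_of_mem_adjoin_of_forall_mem_commute hy fun z hz => by
      refine (Algebra.commute_of_mem_adjoin_of_forall_mem_commute hx fun w hw => ?_).symm
      rcases hz with rfl | rfl <;> rcases hw with rfl | rfl
      · exact Commute.refl _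
      · exact hAX
      · exact hAX.symm
      · exact Commute.refl _
  have hAR : A.1 ∈ R := Algebra.subset_adjoin (Set.mem_insert _ _)
  have hAiR : Ai ∈ R :=
    Algebra.adjoin_mono (Set.singleton_subset_iff.2 (Set.mem_insert _ _)) (Cfsg.Agent.KnownB.Unitary.inv_mem_adjoin A)
  have hXR : Xm ∈ R := Algebra.subset_adjoin (Set.mem_insert_of_mem _ rfl)
  have hmul : ∀ x y, τ (x * y) = τ y * τ x := fun x y => by
    simp only [τ, Matrix.transpose_mul, mul_assoc]
    rw [← mul_assoc G G⁻¹, hGG, one_mul]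
  have hadd : ∀ x y, τ (x + y) = τ x + τ y := fun x y => by
    simp only [τ, Matrix.transpose_add, mul_add, add_mul]
  have hsc : ∀ c, τ (algebraMap F _ c) = algebraMap F _ c := fun c => by
    simp only [τ, Algebra.algebraMap_eq_smul_one, Matrix.transpose_smul, Matrix.transpose_one, Matrix.mul_smul,
      Matrix.smul_mul, mul_one, hGG']
  have hmem : ∀ x ∈ R, τ x ∈ R := fun x hx => by
    induction hx using Algebra.adjoin_induction with
    | mem y hy =>
      rcases hy with rfl | rfl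
      · rw [hτA]; exact hAiR
      · rw [hτX]; exact hXR
    | algebraMap c => rw [hsc]; exact R.algebraMap_mem _
    | add x y _ _ hx hy => rw [hadd]; exact add_mem hx hy
    | mul x y _ _ hx hy => rw [hmul]; exact mul_mem hy hx
  have htt : ∀ x, τ (τ x) = x := fun x => by
    simp only [τ, Matrix.transpose_mul, Matrix.transpose_transpose, Matrix.transpose_nonsing_inv, hG]
    rw [show (-G)⁻¹ = -G⁻¹ from Matrix.inv_eq_right_inv (by rw [neg_mul_neg, hGG])]
    simp only [Matrix.neg_mul, Matrix.mul_neg, neg_neg]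
    rw [← mul_assoc, ← mul_assoc, hGG', one_mul, mul_assoc, hGG', mul_one]
  letI cr : CommRing R := { (inferInstance : Ring R) with
    mul_comm := fun a b => Subtype.ext (hcomm _ a.2 _ b.2) }
  let φ : R →+* R :=
    { toFun := fun x => ⟨τ x, hmem _ x.2⟩
      map_one' := Subtype.ext (by
        show τ 1 = 1
        simp only [τ, Matrix.transpose_one, mul_one, hGG'])
      map_mul' := fun a b => Subtype.ext (by
        show τ (a.1 * b.1) = τ a.1 * τ b.1
        rw [hmul, hcomm _ (hmem _ b.2) _ (hmem _ a.2)])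
      map_zero' := Subtype.ext (by
        show τ 0 = 0
        simp only [τ, Matrix.transpose_zero, mul_zero, zero_mul])
      map_add' := fun a b => Subtype.ext (hadd a b) }
  haveI : Finite R := Subtype.finite
  have hunit : ∀ x : R, IsUnit x.1 → IsUnit x := fun x hx => by
    obtain ⟨y, hy⟩ := (Finite.injective_iff_surjective (f := fun z : R => x * z)).1
      (fun a b hab => Subtype.ext (hx.mul_left_cancel (congrArg Subtype.val hab))) 1
    exact IsUnit.of_mul_eq_one y hy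
  obtain ⟨y, hy, hyX⟩ := Cfsg.Agent.KnownB.Unitary.norm_surjective φ (fun x => Subtype.ext (htt x.1))
    (θ := ⟨A.1, hAR⟩) (hunit _ (by
      show IsUnit (A.1 - τ A.1)
      rw [hτA, show A.1 - Ai = Ai * ((A.1 - 1) * (A.1 + 1)) by
        rw [show (A.1 - 1) * (A.1 + 1) = A.1 * A.1 - 1 by noncomm_ring, mul_sub, mul_one, ← mul_assoc, hAi,
          Units.inv_mul, one_mul]]
      exact (A⁻¹).isUnit.mul (h1.mul h1')))
    (u := ⟨Xm, hXR⟩) (hunit _ ((Matrix.isUnit_iff_isUnit_det _).2 (by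
      show IsUnit (G⁻¹ * G').det
      rw [Matrix.det_mul]
      exact (Matrix.isUnit_nonsing_inv_det _ hGu).mul hG'u)))
    (Subtype.ext hτX)
  have hyu : IsUnit y.1 := hy.map R.val
  refine ⟨hyu.unit, hcomm _ y.2 _ hAR, ?_⟩
  show y.1ᵀ * G * y.1 = G'
  have h := congrArg Subtype.val hyX
  change G⁻¹ * y.1ᵀ * G * y.1 = G⁻¹ * G' at h
  have h' := congrArg (fun Z => G * Z) h
  simpa only [← mul_assoc, hGG, one_mul] using h'

/-- Blocks with disjoint spectra are orthogonal. -/
theorem cross_zero {ι κ : Type*} [Fintype ι] [DecidableEq ι] [Fintype κ] [DecidableEq κ] {A : Matrix ι ι F}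
    {B : Matrix κ κ F} {H : Matrix ι κ F} {k : ℕ} (hA : (A - 1) ^ k = 0) (hB : IsUnit (B - 1))
    (h : Aᵀ * H * B = H) : H = 0 := by
  have key : ∀ j, H * (1 - B) ^ j = ((A - 1) ^ j)ᵀ * H * B ^ j := fun j => by
    induction j with
    | zero => simp
    | succ j ih =>
      have hc : Commute B (1 - B) := (Commute.one_right B).sub_right (Commute.refl B)
      have h1 : H * (1 - B) = (A - 1)ᵀ * (H * B) := by
        rw [Matrix.transpose_sub, Matrix.transpose_one, Matrix.sub_mul, Matrix.one_mul, Matrix.mul_sub, Matrix.mul_one,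
          ← Matrix.mul_assoc, h]
      rw [pow_succ (1 - B), ← Matrix.mul_assoc, ih, Matrix.mul_assoc _ (B ^ j), (hc.pow_left j).eq, ← Matrix.mul_assoc,
        Matrix.mul_assoc _ H (1 - B), h1, pow_succ', Matrix.transpose_mul, pow_succ']
      simp only [Matrix.mul_assoc]
  have h2 := key k
  rw [hA, Matrix.transpose_zero, Matrix.zero_mul, Matrix.zero_mul] at h2
  obtain ⟨u, hu⟩ : IsUnit ((1 - B) ^ k) := by
    rw [← neg_sub B 1]; exact hB.neg.pow k
  calc H = H * (1 - B) ^ k * (u⁻¹ : (Matrix κ κ F)ˣ).1 := by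
        rw [← hu, Matrix.mul_assoc, Units.mul_inv, Matrix.mul_one]
    _ = 0 := by rw [h2, Matrix.zero_mul]

variable {n : ℕ}

/-- Splitting the decomposition along a set of polynomials. -/
theorem exists_split {g : GL (Fin n) F} (D : Dec g) (P : F[X] → Prop) :
    ∃ (a b : ℕ) (ε : Fin a ⊕ Fin b ≃ Fin n) (A : GL (Fin a) F) (B : GL (Fin b) F) (DA : Dec A) (DB : Dec B),
      (∀ j, P (DA.key j).1) ∧ (∀ j, ¬ P (DB.key j).1) ∧
      (∀ x, P x.1 → DA.count x = D.count x) ∧ (∀ x, ¬ P x.1 → DB.count x = D.count x) ∧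
      IsConj (Matrix.reindex ε ε (Matrix.fromBlocks A.1 0 0 B.1)) g.1 := by
  classical
  letI := D.fin
  have part : ∀ U : Finset D.J, ∃ (A : GL (Fin (∑ j ∈ U, (D.key j).2 * (D.key j).1.natDegree)) F) (DA : Dec A)
      (e : DA.J ≃ U), ∀ j, D.key (e j).1 = DA.key j := fun U => by
    obtain ⟨A, DA, e, he⟩ := exists_realize (F := F) (fun j : U => D.key j.1) (fun j => goodKey_of_dec D j.1)
      (Finset.sum_coe_sort U fun j => (D.key j).2 * (D.key j).1.natDegree)
    exact ⟨A, DA, e, he⟩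
  set S := Finset.univ.filter fun j => P (D.key j).1 with hS
  set a := ∑ j ∈ S, (D.key j).2 * (D.key j).1.natDegree with ha
  set b := ∑ j ∈ Sᶜ, (D.key j).2 * (D.key j).1.natDegree with hb
  obtain ⟨A, DA, e₁, he₁⟩ := part S
  obtain ⟨B, DB, e₂, he₂⟩ := part Sᶜ
  have hn : a + b = n := (Finset.sum_add_sum_compl S _).trans D.hdeg
  set ε : Fin a ⊕ Fin b ≃ Fin n := finSumFinEquiv.trans (finCongr hn) with hε
  let C : GL (Fin n) F := Matrix.GeneralLinearGroup.mkOfDetNeZero (Matrix.reindex ε ε (Matrix.fromBlocks A.1 0 0 B.1)) (by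
    rw [Matrix.det_reindex_self, Matrix.det_fromBlocks_zero₂₁]
    exact mul_ne_zero (Matrix.isUnit_iff_isUnit_det _ |>.1 A.isUnit).ne_zero
      (Matrix.isUnit_iff_isUnit_det _ |>.1 B.isUnit).ne_zero)
  have hC : C.1 = Matrix.reindex ε ε (Matrix.fromBlocks A.1 0 0 B.1) := rfl
  have hcnt : ∀ (U : Finset D.J) {m : ℕ} {M : GL (Fin m) F} (DM : Dec M) (e : DM.J ≃ U),
      (∀ j, D.key (e j).1 = DM.key j) → ∀ x, (∀ j, D.key j = x → j ∈ U) → DM.count x = D.count x := by
    intro U m M DM e he x hx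
    rw [DM.count_eq_of_equiv (fun j : U => D.key j.1) e he, Dec.count]
    exact Nat.card_congr { toFun := fun j => ⟨j.1.1, j.2⟩, invFun := fun j => ⟨⟨j.1, hx j.1 j.2⟩, j.2⟩ }
  refine ⟨a, b, ε, A, B, DA, DB, fun j => ?_, fun j => ?_, fun x hx => hcnt S DA e₁ he₁ x fun j hj => ?_,
    fun x hx => hcnt Sᶜ DB e₂ he₂ x fun j hj => ?_, ?_⟩
  · rw [← he₁ j]; exact (Finset.mem_filter.1 (e₁ j).2).2
  · rw [← he₂ j]
    have := Finset.mem_compl.1 (e₂ j).2
    simpa [hS] using this
  · simp [hS, hj, hx]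
  · simp [hS, hj, hx]
  suffices hconj : IsConj C g by exact (Units.coeHom (Matrix (Fin n) (Fin n) F)).map_isConj hconj
  refine (dec C).isConj_of_count D fun x => ?_
  by_cases hx : Irreducible x.1 ∧ x.1.Monic ∧ 1 ≤ x.2
  · refine count_eq D (dec C) ⟨hx.1, hx.2.1⟩ ⟨hx.1, hx.2.1⟩ rfl (fun j => ?_) x.2 hx.2.2
    rw [hC, Dec.imCard_blocks ε]
    letI := DA.fin
    letI := DB.fin
    rw [DA.imCard_pow x.1 ⟨hx.1, hx.2.1⟩, DB.imCard_pow x.1 ⟨hx.1, hx.2.1⟩, D.imCard_pow x.1 ⟨hx.1, hx.2.1⟩, ← pow_add]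
    congr 1
    set U : D.J → ℕ := fun y => if (D.key y).1 = x.1 then min (D.key y).2 j else 0 with hU
    have e1 : (∑ y, if (DA.key y).1 = x.1 then min (DA.key y).2 j else 0) = ∑ y ∈ S, U y :=
      (Fintype.sum_equiv e₁ _ (fun y : S => U y.1) fun y => by simp only [hU, he₁]).trans (Finset.sum_coe_sort S U)
    have e2 : (∑ y, if (DB.key y).1 = x.1 then min (DB.key y).2 j else 0) = ∑ y ∈ Sᶜ, U y :=
      (Fintype.sum_equiv e₂ _ (fun y : (Sᶜ : Finset D.J) => U y.1) fun y => by simp only [hU, he₂]).trans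
        (Finset.sum_coe_sort Sᶜ U)
    have hb' : ∀ W : Finset D.J, x.1.natDegree * ∑ y ∈ W, U y ≤ ∑ y ∈ W, (D.key y).2 * (D.key y).1.natDegree := by
      intro W
      rw [Finset.mul_sum]
      refine Finset.sum_le_sum fun y _ => ?_
      simp only [hU]
      split_ifs with h
      · rw [h, mul_comm]
        exact Nat.mul_le_mul_right _ (min_le_left _ _)
      · simp
    have hsum : ∑ y, U y = ∑ y ∈ S, U y + ∑ y ∈ Sᶜ, U y := (Finset.sum_add_sum_compl S U).symm
    have h1 : x.1.natDegree * ∑ y ∈ S, U y ≤ a := hb' S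
    have h2 : x.1.natDegree * ∑ y ∈ Sᶜ, U y ≤ b := hb' Sᶜ
    rw [e1, e2, hsum, Nat.mul_add]
    omega
  · have hz : ∀ {g : GL (Fin n) F} (D : Dec g), D.count x = 0 := fun D => by
      rw [Dec.count, Nat.card_eq_zero]
      exact Or.inl ⟨fun j => hx (j.2 ▸ ⟨(D.hkey j.1).1, (D.hkey j.1).2.1, (D.hkey j.1).2.2.2.1⟩)⟩
    rw [hz, hz]

theorem isUnit_sub_of_keys {g : GL (Fin n) F} (D : Dec g) (s : F) (h : ∀ j, (D.key j).1 ≠ X - C s) :
    IsUnit (g.1 - algebraMap F _ s) := by
  classical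
  letI := D.fin
  have h1 := D.imCard_pow (X - C s) ⟨irreducible_X_sub_C s, monic_X_sub_C s⟩ 1
  simp only [h, if_false, Finset.sum_const_zero, mul_zero, Nat.sub_zero, pow_one] at h1
  have h2 : Function.Surjective fun v : Fin n → F => (g.1 - algebraMap F _ s) *ᵥ v := by
    rw [← Set.range_eq_univ]
    refine (Set.eq_univ_iff_ncard _).2 ?_
    rw [← Nat.card_coe_set_eq, Nat.card_fun, Nat.card_fin, Nat.card_eq_fintype_card (α := F), ← h1, imCard]
    simp
  rw [← Matrix.mulVec_surjective_iff_isUnit]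
  exact h2

theorem aeval_eq_zero_of_keys {g : GL (Fin n) F} (D : Dec g) (f : F[X]) (h : ∀ j, (D.key j).1 = f) :
    aeval g.1 (f ^ n) = 0 := by
  classical
  letI := D.fin
  rcases isEmpty_or_nonempty D.J with hJ | ⟨⟨j₀⟩⟩
  · have hn : n = 0 := by rw [← D.hdeg]; simp
    subst hn
    exact Subsingleton.elim _ _
  have hf : Irreducible f ∧ f.Monic := ⟨h j₀ ▸ (D.hkey j₀).1, h j₀ ▸ (D.hkey j₀).2.1⟩
  have h1 := D.imCard_pow f hf n
  have h2 : (n - f.natDegree * ∑ x, if (D.key x).1 = f then min (D.key x).2 n else 0) = 0 := by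
    refine Nat.sub_eq_zero_of_le (le_of_eq ?_)
    conv_lhs => rw [← D.hdeg]
    rw [Finset.mul_sum]
    refine Finset.sum_congr rfl fun j _ => ?_
    rw [if_pos (h j), min_eq_left (D.hkey j).2.2.2.2, h j, mul_comm]
  rw [h2, pow_zero, imCard, Nat.card_eq_one_iff_unique] at h1
  haveI := h1.1
  refine Matrix.ext_of_mulVec_single fun i => ?_
  rw [Matrix.zero_mulVec]
  have := Subsingleton.elim (⟨_, Pi.single i 1, rfl⟩ : Set.range fun v : Fin n → F => aeval g.1 (f ^ n) *ᵥ v)
    ⟨_, 0, rfl⟩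
  simpa using congrArg Subtype.val this

/-- The Jordan type of a block with a single eigenvalue. -/
theorem exists_type {g : GL (Fin n) F} (D : Dec g) {s : F} (hs : s ≠ 0) (h : ∀ j, (D.key j).1 = X - C s) :
    ∃ (t : ℕ) (d : Fin t → ℕ) (e : Idx d ≃ Fin n), (∀ k, 1 ≤ d k) ∧
      IsConj (Matrix.reindex e e (s • Cfsg.jordanTypeMatrix d F)) g.1 ∧
      ∀ i, 1 ≤ i → (Finset.univ.filter fun k : Fin t => d k = i).card = D.count (X - C s, i) := by
  classical
  letI := D.fin
  let U : GL (Fin n) F := Units.map (algebraMap F (Matrix (Fin n) (Fin n) F)).toMonoidHom (Units.mk0 s hs)⁻¹ * g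
  have hU : U.1 = s⁻¹ • g.1 := by rw [Algebra.smul_def]; rfl
  have hg : g.1 = s • U.1 := by rw [hU, smul_smul, mul_inv_cancel₀ hs, one_smul]
  have hpow : ∀ j, aeval g.1 ((X - C s) ^ j) = s ^ j • (U.1 - 1) ^ j := fun j => by
    rw [map_pow, ← _root_.smul_pow, map_sub, aeval_X, aeval_C, hg, smul_sub, Algebra.algebraMap_eq_smul_one]
  have hnil : IsNilpotent (Cfsg.Agent.KnownA.Jordan.nilPart U) := by
    refine IsNilpotent.map ⟨n, ?_⟩ (Matrix.toLinAlgEquiv' (R := F) (n := Fin n))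
    have h1 := aeval_eq_zero_of_keys D _ h
    rw [hpow] at h1
    exact (smul_eq_zero.1 h1).resolve_left (pow_ne_zero _ hs)
  obtain ⟨t, d, e, hd, hc⟩ := Cfsg.Agent.Linear.GUUnipotentClasses.exists_jordan hnil
  refine ⟨t, d, e, hd, ?_, ?_⟩
  · obtain ⟨c, hc'⟩ := hc
    refine ⟨c, ?_⟩
    rw [hg]
    show c.1 * Matrix.reindex e e (s • Cfsg.jordanTypeMatrix d F) = s • U.1 * c.1
    rw [Matrix.smul_mul, ← hc'.eq, show Matrix.reindex e e (s • Cfsg.jordanTypeMatrix d F) =
      s • Matrix.reindex e e (Cfsg.jordanTypeMatrix d F) from rfl, Matrix.mul_smul]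
  have hr : ∀ j, Cfsg.Agent.Linear.JordanTypeParity.r d j =
      n - ∑ x, if (D.key x).1 = X - C s then min (D.key x).2 j else 0 := fun j => by
    have h1 := D.imCard_pow (X - C s) ⟨irreducible_X_sub_C s, monic_X_sub_C s⟩ j
    rw [imCard_eq_rank, hpow, natDegree_X_sub_C, one_mul, Matrix.smul_eq_diagonal_mul,
      Matrix.rank_mul_eq_right_of_isUnit_det _ _ (by
        rw [Matrix.det_diagonal, Finset.prod_const]
        exact (isUnit_iff_ne_zero.2 (pow_ne_zero j hs)).pow _),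
      Cfsg.Agent.Linear.JordanTypeParity.rank_sub_one_pow e hc] at h1
    exact Nat.pow_right_injective Fintype.one_lt_card h1
  have hsum : ∑ k, d k = n := by
    have := Fintype.card_congr e
    simpa [Fintype.card_sigma] using this
  intro i hi
  have hk1 : Cfsg.Agent.Linear.JordanTypeParity.r d (i - 1) + Cfsg.Agent.Linear.JordanTypeParity.r d (i + 1) =
      2 * Cfsg.Agent.Linear.JordanTypeParity.r d i + (Finset.univ.filter (fun k : Fin t => d k = i)).card := by
    simp only [Cfsg.Agent.Linear.JordanTypeParity.r]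
    rw [Finset.card_filter, Finset.mul_sum, ← Finset.sum_add_distrib, ← Finset.sum_add_distrib]
    refine Finset.sum_congr rfl fun k _ => ?_
    split_ifs <;> omega
  set V : ℕ → ℕ := fun j => ∑ x, if (D.key x).1 = X - C s then min (D.key x).2 j else 0 with hV
  have hk2 : 2 * V i = V (i - 1) + V (i + 1) + D.count (X - C s, i) := by
    rw [Dec.count, Nat.card_eq_fintype_card, Fintype.card_subtype, Finset.card_filter]
    simp only [hV]
    rw [← Finset.sum_add_distrib, ← Finset.sum_add_distrib, Finset.mul_sum]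
    refine Finset.sum_congr rfl fun x _ => ?_
    by_cases h2 : (D.key x).2 = i <;> simp [Prod.ext_iff, h x, h2] <;> omega
  have hVle : ∀ j, V j ≤ n := fun j => by
    conv_rhs => rw [← D.hdeg]
    refine Finset.sum_le_sum fun x _ => ?_
    rw [if_pos (h x), h x, natDegree_X_sub_C, mul_one]
    exact min_le_left _ _
  have h1 : ∀ j, Cfsg.Agent.Linear.JordanTypeParity.r d j = n - V j := hr
  have := h1 (i - 1)
  have := h1 i
  have := h1 (i + 1)
  have := hVle (i - 1)
  have := hVle i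
  have := hVle (i + 1)
  omega

end Cfsg.Agent.KnownB.ClassTuples
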