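import Cfsg.Agent.Linear.SpUnipotentClasses

/-!
# Symmetric forms invariant under a unipotent matrix in odd characteristic
-/

set_option autoImplicit false
set_option linter.unusedSectionVars false

namespace Cfsg.Agent.KnownB.SymJordan

open Matrix Cfsg.Agent.Linear Cfsg.Agent.Linear.UnipotentCent Cfsg.Agent.Linear.HermJordan
  Cfsg.Agent.Linear.GUUnipotentCent Cfsg.Agent.Linear.AltJordan

variable {F : Type*} [Field F] {t : ℕ}

/-- The invariant symmetric non-degenerate forms. -/
structure IsSymForm (d : Fin t → ℕ) (G : Matrix (Idx d) (Idx d) F) : Prop where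
  sym : Gᵀ = G
  unit : IsUnit G.det
  inv : (Cfsg.jordanTypeMatrix d F)ᵀ * G * Cfsg.jordanTypeMatrix d F = G

variable {d : Fin t → ℕ} {G G' : Matrix (Idx d) (Idx d) F}

theorem topG_transpose (hG : IsSymForm d G) (i : ℕ) (hi : 1 ≤ i) : (topG i G)ᵀ = (-1 : F) ^ (i + 1) • topG i G := by
  ext ⟨k, hk⟩ ⟨l, hl⟩
  have h1 : ent G l k 0 (d k - 1) = ent G k l (d k - 1) 0 := by
    simp only [ent]
    rw [dif_pos ⟨by omega, by omega⟩, dif_pos ⟨by omega, by omega⟩]
    exact congrFun (congrFun hG.sym _) _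
  simp only [topG, transpose_apply, of_apply, Matrix.smul_apply, smul_eq_mul]
  rw [h1, ent_anti hG.inv (hk.trans hl.symm) (d k - 1) 0 (by omega), hk]
  congr 1
  obtain ⟨j, rfl⟩ : ∃ j, i = j + 1 := ⟨i - 1, by omega⟩
  rw [Nat.add_sub_cancel, pow_succ, pow_succ]
  ring

variable (hd : ∀ k, 1 ≤ d k)
include hd

theorem isSymForm_model (h2 : (2 : F) ≠ 0) (A : Matrix (Fin t) (Fin t) F)
    (hA : ∀ k l, d k = d l → A l k = (-1) ^ (d k + 1) * A k l)
    (hAu : ∀ i, IsUnit (A.submatrix (Subtype.val : {k // d k = i} → Fin t) Subtype.val).det) :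
    IsSymForm d (model d A) := by
  classical
  refine ⟨?_, ?_, ?_⟩
  · ext ⟨k, a⟩ ⟨l, b⟩
    simp only [model, transpose_apply, of_apply]
    by_cases h : d l = d k
    · rw [if_pos h, if_pos h.symm]
      have e1 : ∀ x y : ℕ, hh (F := F) (d l) y x = (-1) ^ (d k + 1) * hh (d k) x y := fun x y => by rw [h, hh_swap]
      have hs : (-1 : F) ^ (d k + 1) * (-1) ^ (d k + 1) = 1 := by rw [← mul_pow]; simp
      linear_combination (hh (F := F) (d l) b.1 a.1) * (hA k l h.symm) + ((-1 : F) ^ (d k + 1) * A k l) * e1 a.1 b.1 +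
        (A k l * hh (d k) a.1 b.1) * hs
    · rw [if_neg h, if_neg (Ne.symm h)]
  · rw [← Matrix.isUnit_iff_isUnit_det, ← Matrix.mulVec_injective_iff_isUnit]
    show Function.Injective (Matrix.mulVecLin (model d A))
    rw [injective_iff_map_eq_zero]
    intro v hv
    have key : ∀ j, ∀ n : Fin t, ∀ hj : j < d n, v ⟨n, ⟨j, hj⟩⟩ = 0 := by
      intro j
      induction j using Nat.strong_induction_on with
      | _ j ih =>
        intro n hj
        set i := d n with hi
        let w : {k // d k = i} → F := fun m => v ⟨m.1, ⟨j, by omega⟩⟩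
        have hw : A.submatrix (Subtype.val : {k // d k = i} → Fin t) Subtype.val *ᵥ w = 0 := by
          funext k
          have hk := k.2
          have h := congrFun hv ⟨k.1, ⟨i - 1 - j, by omega⟩⟩
          rw [Matrix.mulVecLin_apply, Matrix.mulVec, dotProduct, Fintype.sum_sigma, Pi.zero_apply] at h
          have hne : hh (F := F) i (i - 1 - j) j ≠ 0 := (inv_hh h2 (by omega)).1.anti _ _ (by omega)
          refine (mul_eq_zero.1 (?_ : hh (F := F) i (i - 1 - j) j * (A.submatrix Subtype.val Subtype.val *ᵥ w) k = 0)).resolve_left hne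
          rw [← h, Matrix.mulVec, dotProduct, Finset.mul_sum,
            ← Finset.sum_subset (Finset.subset_univ (Finset.univ.filter fun m => d m = i)) fun m _ hm =>
              Finset.sum_eq_zero fun c _ => by
                simp only [model, of_apply]
                rw [if_neg (fun h' => hm (by simpa using h'.trans hk)), zero_mul],
            Finset.sum_subtype (p := fun m => d m = i) _ (fun m => by simp)]
          refine Finset.sum_congr rfl fun m _ => ?_
          have hm := m.2
          rw [Finset.sum_eq_single (⟨j, by omega⟩ : Fin (d m.1)) (fun c _ hc => ?_) (by simp)]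
          · simp only [model, of_apply, submatrix_apply, w]
            rw [if_pos (hm.trans hk.symm), hk]
            ring
          · rcases lt_trichotomy c.1 j with hlt | heq | hgt
            · rw [ih c.1 hlt m.1 c.2, mul_zero]
            · exact absurd (Fin.ext heq) hc
            · simp only [model, of_apply]
              rw [if_pos (hm.trans hk.symm), (inv_hh (F := F) h2 (hd k.1)).1.zero _ _ (by omega), mul_zero, zero_mul]
        have := (Matrix.mulVec_injective_iff_isUnit.2 ((Matrix.isUnit_iff_isUnit_det _).2 (hAu i)))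
          (hw.trans (Matrix.mulVec_zero _).symm)
        exact congrFun this ⟨n, rfl⟩
    funext x
    obtain ⟨k, j, hj⟩ := x
    exact key j k hj
  · rw [jordanType_eq, transpose_add, transpose_one, add_mul, one_mul, mul_add, mul_one, add_mul]
    ext ⟨k, a⟩ ⟨l, b⟩
    rw [Matrix.add_apply, Matrix.add_apply, Matrix.add_apply, mul_E_ent, mul_E_ent, E_transpose_mul_apply]
    have hlast : ent ((E d F)ᵀ * model d A) k l a.1 (b.1 + 1) = ent (model d A) k l (a.1 + 1) (b.1 + 1) := by
      by_cases hb : b.1 + 1 < d l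
      · rw [ent, dif_pos ⟨a.2, hb⟩, E_transpose_mul_apply]
      · rw [ent, ent, dif_neg (fun h => hb h.2), dif_neg (fun h => hb h.2)]
    simp only at *
    rw [hlast, ent_model h2 hd, ent_model h2 hd, ent_model h2 hd]
    by_cases h : d l = d k
    · rw [if_pos h, if_pos h, if_pos h]
      linear_combination A k l * (inv_hh (F := F) h2 (hd k)).1.rel a.1 b.1
    · rw [if_neg h, if_neg h, if_neg h]; ring

omit hd

/-- Invariant forms differ by an element of the commutant. -/
theorem com_ratio {G G' : Matrix (Idx d) (Idx d) F} (hG : IsSymForm d G) (hG' : IsSymForm d G') : Com d (G'⁻¹ * G) := by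
  set J := Cfsg.jordanTypeMatrix d F with hJ
  have hJu : IsUnit Jᵀ := IsUnit.of_mul_eq_one (G' * J * G'⁻¹) (by
    rw [← mul_assoc, ← mul_assoc, hG'.inv, Matrix.mul_nonsing_inv _ hG'.unit])
  rw [com_iff]
  refine ((Matrix.isUnit_iff_isUnit_det _).2 hG'.unit).mul_left_cancel (hJu.mul_left_cancel ?_)
  have hGX : G' * (G'⁻¹ * G) = G := by rw [← mul_assoc, Matrix.mul_nonsing_inv _ hG'.unit, one_mul]
  calc Jᵀ * (G' * (G'⁻¹ * G * J)) = Jᵀ * (G' * (G'⁻¹ * G)) * J := by simp only [mul_assoc]
    _ = G := by rw [hGX, hG.inv]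
    _ = Jᵀ * G' * J * (G'⁻¹ * G) := by rw [hG'.inv, hGX]
    _ = Jᵀ * (G' * (J * (G'⁻¹ * G))) := by simp only [mul_assoc]

include hd

theorem topG_isUnit [Fintype F] (h2 : (2 : F) ≠ 0) (hG : IsSymForm d G) (A : Matrix (Fin t) (Fin t) F)
    (hA : ∀ k l, d k = d l → A l k = (-1) ^ (d k + 1) * A k l)
    (hAu : ∀ i, IsUnit (A.submatrix (Subtype.val : {k // d k = i} → Fin t) Subtype.val).det) (i : ℕ) :
    IsUnit (topG i G).det := by
  have hM := isSymForm_model hd h2 A hA hAu
  set X := (model d A)⁻¹ * G with hX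
  have hXc : Com d X := com_ratio hG hM
  have hGX : G = (1 : Matrix (Idx d) (Idx d) F)ᵀ * model d A * X := by
    rw [transpose_one, one_mul, hX, ← mul_assoc, Matrix.mul_nonsing_inv _ hM.unit, one_mul]
  have hXu : IsUnit X := ((Matrix.isUnit_nonsing_inv_iff).2 ((Matrix.isUnit_iff_isUnit_det _).2 hM.unit)).mul
    ((Matrix.isUnit_iff_isUnit_det _).2 hG.unit)
  obtain ⟨u, hu⟩ := hXu
  rw [hGX, topG_congr hd hM.inv com_one hXc, top_one, transpose_one, one_mul, topG_model hd h2, Matrix.det_mul]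
  refine (hAu i).mul ((Matrix.isUnit_iff_isUnit_det _).1 ?_)
  rw [← hu] at hXc ⊢
  exact GUUnipotentCent.top_isUnit hd hXc i

omit hd

variable [Fintype F]

theorem even_count (h2 : (2 : F) ≠ 0) (hG : IsSymForm d G) {j : ℕ} (hj : Even j) (hj1 : 1 ≤ j) :
    Even (Finset.univ.filter (fun k : Fin t => d k = j)).card := by
  have hnil : IsNilpotent (Cfsg.jordanTypeMatrix d F - 1) := by
    refine ⟨∑ k, d k + 1, ?_⟩
    rw [jordanType_eq, add_sub_cancel_left]
    ext x y
    rw [JordanTypeParity.E_pow_apply, if_neg, Matrix.zero_apply]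
    rintro ⟨-, h⟩
    have := Finset.single_le_sum (f := d) (fun _ _ => Nat.zero_le _) (Finset.mem_univ x.1)
    have := x.2.2
    omega
  have key : ∀ i, Even (JordanTypeParity.r d (2 * i + 1)) := fun i => by
    rw [← JordanTypeParity.rank_sub_one_pow (F := F) (Equiv.refl (Idx d))
      (A := Cfsg.jordanTypeMatrix d F) (by simpa using IsConj.refl _)]
    exact JordanTypeParity.even_rank_orth h2 hG.unit hG.inv hG.sym hnil i
  obtain ⟨c, rfl⟩ := hj
  obtain ⟨c, rfl⟩ : ∃ c', c = c' + 1 := ⟨c - 1, by omega⟩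
  exact JordanTypeParity.r_parity d (by omega) (by rw [show c + 1 + (c + 1) - 1 = 2 * c + 1 by omega]; exact key c)
    (by rw [show c + 1 + (c + 1) + 1 = 2 * (c + 1) + 1 by omega]; exact key (c + 1))

/-- Coefficients of a model with given signs. -/
theorem exists_coeff (δ : F) (hδ : δ ≠ 0) (d : Fin t → ℕ)
    (hpar : ∀ j : ℕ, Even j → Even (Finset.univ.filter (fun k : Fin t => d k = j)).card) (b : ℕ → Bool) :
    ∃ A : Matrix (Fin t) (Fin t) F, (∀ k l, d k = d l → A l k = (-1) ^ (d k + 1) * A k l) ∧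
      (∀ i, IsUnit (A.submatrix (Subtype.val : {k // d k = i} → Fin t) Subtype.val).det) ∧
      (∀ i, Odd i → (∃ k, d k = i) →
        (A.submatrix (Subtype.val : {k // d k = i} → Fin t) Subtype.val).det = if b i then δ else 1) ∧
      ∀ k l, Odd (d k) → A k l ≠ 0 → l = k := by
  classical
  obtain ⟨σ, hσ, hσd, hfix⟩ := JordanTypeForms.exists_pairing d
  have hne : ∀ k, Even (d k) → σ k ≠ k := fun k he h => Nat.not_even_iff_odd.2 (hfix k h) (hpar _ he)
  let w : Fin t → F := fun k => if b (d k) = true ∧ ∀ l, d l = d k → k ≤ l then δ else 1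
  have hw : ∀ k, w k ≠ 0 := fun k => by simp only [w]; split_ifs; exacts [hδ, one_ne_zero]
  let A : Matrix (Fin t) (Fin t) F := Matrix.of fun k l =>
    if Odd (d k) then (if l = k then w k else 0) else if l = σ k then (if k < σ k then 1 else -1) else 0
  have hdiag : ∀ i, Odd i → (A.submatrix (Subtype.val : {k // d k = i} → Fin t) Subtype.val) =
      Matrix.diagonal fun k => w k.1 := fun i hi => by
    ext ⟨k, hk⟩ ⟨l, hl⟩
    simp only [A, submatrix_apply, of_apply, diagonal_apply, Subtype.mk.injEq]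
    rw [if_pos (hk ▸ hi)]
    exact if_congr eq_comm rfl rfl
  refine ⟨A, fun k l hkl => ?_, fun i => ?_, fun i hi ⟨k, hk⟩ => ?_, fun k l ho hne => ?_⟩
  · simp only [A, of_apply, ← hkl]
    by_cases he : Odd (d k)
    · rw [if_pos he, if_pos he, he.add_one.neg_one_pow, one_mul]
      by_cases h : k = l
      · subst h; rfl
      · rw [if_neg h, if_neg (Ne.symm h)]
    · rw [if_neg he, if_neg he, (Nat.not_odd_iff_even.1 he).add_one.neg_one_pow]
      by_cases h : l = σ k
      · subst h
        rw [hσ, if_pos rfl, if_pos rfl]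
        rcases lt_or_gt_of_ne (hne k (Nat.not_odd_iff_even.1 he)) with h' | h'
        · rw [if_pos h', if_neg (not_lt.2 h'.le)]; ring
        · rw [if_neg (not_lt.2 h'.le), if_pos h']; ring
      · rw [if_neg h, if_neg (fun h' => h (by rw [h', hσ])), mul_zero]
  · by_cases hi : Odd i
    · rw [hdiag i hi, Matrix.det_diagonal]
      exact isUnit_iff_ne_zero.2 (Finset.prod_ne_zero_iff.2 fun k _ => hw k.1)
    · refine (Matrix.isUnit_iff_isUnit_det _).1 (IsUnit.of_mul_eq_one
        (-(A.submatrix (Subtype.val : {k // d k = i} → Fin t) Subtype.val)) ?_)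
      rw [mul_neg]
      ext ⟨k, hk⟩ ⟨l, hl⟩
      rw [Matrix.neg_apply, Matrix.mul_apply,
        Finset.sum_eq_single (⟨σ k, (hσd k).trans hk⟩ : {k // d k = i}) (fun z _ hz => ?_) (by simp)]
      · have he : ¬ Odd (d k) := hk ▸ hi
        simp only [A, submatrix_apply, of_apply, Matrix.one_apply, Subtype.mk.injEq]
        rw [if_neg he, if_pos trivial, if_neg (show ¬ Odd (d (σ k)) by rwa [hσd]), hσ]
        rcases lt_or_gt_of_ne (hne k (Nat.not_odd_iff_even.1 he)) with h' | h'
        · rw [if_neg (not_lt.2 h'.le), if_pos h']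
          by_cases h : l = k
          · rw [if_pos h, if_pos h.symm]; ring
          · rw [if_neg h, if_neg (Ne.symm h)]; ring
        · rw [if_pos h', if_neg (not_lt.2 h'.le)]
          by_cases h : l = k
          · rw [if_pos h, if_pos h.symm]; ring
          · rw [if_neg h, if_neg (Ne.symm h)]; ring
      · simp only [A, submatrix_apply, of_apply]
        rw [if_neg (hk ▸ hi), if_neg (fun h => hz (Subtype.ext h)), zero_mul]
  · rw [hdiag i hi, Matrix.det_diagonal]
    haveI : Nonempty {k // d k = i} := ⟨⟨k, hk⟩⟩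
    obtain ⟨k0, hk0⟩ := (Finset.univ : Finset {k // d k = i}).exists_min_image (fun k => k.1) Finset.univ_nonempty
    rw [Finset.prod_eq_single k0 (fun z _ hz => ?_) (by simp)]
    · simp only [w, k0.2]
      refine if_congr ⟨fun h => h.1, fun h => ⟨h, fun l hl => hk0.2 ⟨l, hl⟩ (Finset.mem_univ _)⟩⟩ rfl rfl
    · simp only [w]
      exact if_neg fun h => hz (Subtype.ext (le_antisymm (h.2 k0.1 (k0.2.trans z.2.symm)) (hk0.2 z (Finset.mem_univ _))))
  · simp only [A, of_apply, if_pos ho] at hne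
    by_contra h
    exact hne (if_neg h)

include hd

theorem topG_unit (h2 : (2 : F) ≠ 0) (hG : IsSymForm d G) (i : ℕ) : IsUnit (topG i G).det := by
  classical
  obtain ⟨A, hA, hAu, -⟩ := exists_coeff (1 : F) one_ne_zero d
    (fun j hj => (Nat.eq_zero_or_pos j).elim
      (fun h => by
        rw [Finset.filter_eq_empty_iff.2 fun k _ hk => by have := hd k; omega]
        exact Even.zero)
      fun h => even_count h2 hG hj h) fun _ => false
  exact topG_isUnit hd h2 hG A hA hAu i

omit hd

theorem isSymForm_congr (hG : IsSymForm d G) {X : Matrix (Idx d) (Idx d) F} (hX : Com d X) (hXu : IsUnit X.det) :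
    IsSymForm d (Xᵀ * G * X) := by
  refine ⟨?_, ?_, ?_⟩
  · rw [transpose_mul, transpose_mul, transpose_transpose, hG.sym, mul_assoc]
  · rw [Matrix.det_mul, Matrix.det_mul, Matrix.det_transpose]
    exact (hXu.mul hG.unit).mul hXu
  · set J := Cfsg.jordanTypeMatrix d F with hJ
    have hc : X * J = J * X := (com_iff X).1 hX
    calc Jᵀ * (Xᵀ * G * X) * J = (X * J)ᵀ * G * (X * J) := by rw [transpose_mul]; simp only [mul_assoc]
      _ = (J * X)ᵀ * G * (J * X) := by rw [hc]
      _ = Xᵀ * (Jᵀ * G * J) * X := by rw [transpose_mul]; simp only [mul_assoc]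
      _ = _ := by rw [hG.inv]

include hd

theorem det_top_sq (hG : IsSymForm d G) {g : Matrix (Idx d) (Idx d) F} (hg : Com d g) (i : ℕ) :
    (topG i (gᵀ * G * g)).det = (top d hd i (col hd g)).det * (top d hd i (col hd g)).det * (topG i G).det := by
  rw [topG_congr hd hG.inv hg hg, Matrix.det_mul, Matrix.det_mul, Matrix.det_transpose]
  ring

/-- Forms with the same discriminants are congruent under the commutant. -/
theorem exists_congr_com {p : ℕ} [Fact p.Prime] [CharP F p] (hp : p ≠ 2) (h2 : (2 : F) ≠ 0) (hG : IsSymForm d G)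
    (hG' : IsSymForm d G')
    (hdet : ∀ i, Odd i → (∃ k, d k = i) → (IsSquare (topG i G).det ↔ IsSquare (topG i G').det)) :
    ∃ g : GL (Idx d) F, Com d g.1 ∧ g.1ᵀ * G * g.1 = G' := by
  classical
  have hP : ∀ i : Fin (Finset.univ.sup d + 1), ∃ P : Matrix {k // d k = i.1} {k // d k = i.1} F,
      IsUnit P.det ∧ Pᵀ * topG i.1 G * P = topG i.1 G' := fun i => by
    rcases isEmpty_or_nonempty {k // d k = i.1} with h | ⟨⟨k, hk⟩⟩
    · exact ⟨1, by simp, Subsingleton.elim _ _⟩
    · have hi : 1 ≤ i.1 := hk ▸ hd k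
      have hu := topG_unit hd h2 hG i.1
      have hu' := topG_unit hd h2 hG' i.1
      have ht := topG_transpose hG i.1 hi
      have ht' := topG_transpose hG' i.1 hi
      rcases Nat.even_or_odd i.1 with he | ho
      · rw [he.add_one.neg_one_pow, neg_one_smul] at ht ht'
        exact congr_alt h2 ht ht' hu hu'
      · rw [ho.add_one.neg_one_pow, one_smul] at ht ht'
        exact congr_symm h2 ht ht' hu hu' (hdet _ ho ⟨k, hk⟩)
  choose P hPu hP using hP
  have hYc : Com d (T (liftTop P)) := com_T hd (ok_liftTop P)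
  have hYu : IsUnit (T (liftTop P)) := isUnit_of_top_com hd hYc fun i => by
    rw [col_T, top_liftTop]
    exact (Matrix.isUnit_iff_isUnit_det _).2 (hPu i)
  obtain ⟨Y, hY⟩ := hYu
  rw [← hY] at hYc
  have hG1 := isSymForm_congr hG hYc ((Matrix.isUnit_iff_isUnit_det _).1 Y.isUnit)
  set G1 := Y.1ᵀ * G * Y.1 with hG1d
  set X := G'⁻¹ * G1 with hXd
  have hXc : Com d X := com_ratio hG1 hG'
  have hGX : G' * X = G1 := by rw [hXd, ← mul_assoc, Matrix.mul_nonsing_inv _ hG'.unit, one_mul]
  have htop : ∀ i, top d hd i (col hd (X - 1)) = 0 := fun i => by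
    rw [col_sub, top_sub, top_one, sub_eq_zero]
    by_cases hi : i < Finset.univ.sup d + 1
    · refine ((Matrix.isUnit_iff_isUnit_det _).2 (topG_unit hd h2 hG' i)).mul_left_cancel ?_
      have h := topG_congr hd hG'.inv com_one hXc i
      rw [transpose_one, one_mul, top_one, transpose_one, one_mul, hGX, hG1d, topG_congr hd hG.inv hYc hYc, hY,
        col_T] at h
      have hl : top d hd i (liftTop P) = P ⟨i, hi⟩ := top_liftTop hd P ⟨i, hi⟩
      rw [hl, hP ⟨i, hi⟩] at h
      rw [mul_one]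
      exact h.symm
    · haveI : IsEmpty {k // d k = i} := ⟨fun k => hi (k.2 ▸ Nat.lt_succ_of_le (Finset.le_sup (Finset.mem_univ _)))⟩
      exact Subsingleton.elim _ _
  obtain ⟨n, hn⟩ := nilpotent_of_top hd (hXc.sub com_one) htop
  obtain ⟨N, hNodd, hXN⟩ : ∃ N, Odd N ∧ X ^ N = 1 := by
    refine ⟨p ^ n, ((Fact.out : p.Prime).odd_of_ne_two hp).pow, ?_⟩
    rcases isEmpty_or_nonempty (Idx d) with h | h
    · exact Subsingleton.elim _ _
    · have h0 : (X - 1) ^ p ^ n = 0 := pow_eq_zero_of_le (Nat.lt_pow_self (Fact.out : p.Prime).one_lt).le hn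
      rw [sub_pow_char_pow_of_commute (p := p) (h := Commute.one_right _), one_pow, sub_eq_zero] at h0
      exact h0
  obtain ⟨c, rfl⟩ := hNodd
  set W := X ^ (c + 1) with hWd
  have hWW : W * W = X := by
    rw [hWd, ← pow_add, show c + 1 + (c + 1) = (2 * c + 1) + 1 by omega, pow_succ, hXN, one_mul]
  have hWc : Com d W := by
    show X ^ (c + 1) * E d F = E d F * X ^ (c + 1)
    exact ((show Commute X (E d F) from hXc).pow_left (c + 1)).eq
  have hsym : SemiconjBy G' X Xᵀ := by
    show G' * X = Xᵀ * G'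
    have h : Xᵀ * G'ᵀ = G1ᵀ := by rw [← transpose_mul, hGX]
    rw [hG'.sym, hG1.sym] at h
    rw [h, hGX]
  have hW : G' * W = Wᵀ * G' := by
    rw [hWd, Matrix.transpose_pow]
    exact (hsym.pow_right (c + 1)).eq
  have hWG : Wᵀ * G' * W = G1 := by rw [← hW, mul_assoc, hWW, hGX]
  have hWu : IsUnit W := by
    refine (IsUnit.of_pow_eq_one hXN (by omega)).pow _
  obtain ⟨V, hV⟩ := hWu
  rw [← hV] at hWc
  refine ⟨Y * V⁻¹, Com.mul hYc (com_inv hWc), ?_⟩
  show (Y.1 * (V⁻¹ : GL (Idx d) F).1)ᵀ * G * (Y.1 * (V⁻¹ : GL (Idx d) F).1) = G'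
  calc _ = (V⁻¹ : GL (Idx d) F).1ᵀ * G1 * (V⁻¹ : GL (Idx d) F).1 := by
        rw [hG1d, transpose_mul]; simp only [mul_assoc]
    _ = (V⁻¹ : GL (Idx d) F).1ᵀ * (V.1ᵀ * G' * V.1) * (V⁻¹ : GL (Idx d) F).1 := by rw [hV, hWG]
    _ = (V.1 * (V⁻¹ : GL (Idx d) F).1)ᵀ * G' * (V.1 * (V⁻¹ : GL (Idx d) F).1) := by
        rw [transpose_mul]; simp only [mul_assoc]
    _ = G' := by rw [Units.mul_inv, transpose_one, one_mul, mul_one]

omit hd in
theorem model_diag_mul (c : Fin t → F) (A : Matrix (Fin t) (Fin t) F) :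
    model d (Matrix.diagonal c * A) = Matrix.diagonal (fun x : Idx d => c x.1) * model d A := by
  classical
  ext x y
  simp only [model, of_apply, Matrix.diagonal_mul]
  split_ifs <;> ring

/-- Changing exactly one sign changes the discriminant. -/
theorem det_flip {p : ℕ} [Fact p.Prime] [CharP F p] (hp : p ≠ 2) (h2 : (2 : F) ≠ 0) (hG : IsSymForm d G)
    (hG' : IsSymForm d G') {i₀ : ℕ} (hi₀ : Odd i₀) (hk₀ : ∃ k, d k = i₀)
    (hflip : IsSquare (topG i₀ G).det ↔ ¬ IsSquare (topG i₀ G').det)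
    (hsame : ∀ i, Odd i → i ≠ i₀ → (∃ k, d k = i) → (IsSquare (topG i G).det ↔ IsSquare (topG i G').det)) :
    IsSquare G.det ↔ ¬ IsSquare G'.det := by
  classical
  obtain ⟨δ, hδ⟩ := FiniteField.exists_nonsquare (F := F) (by rw [ringChar.eq F p]; exact hp)
  have hδ0 : δ ≠ 0 := fun h => hδ (h ▸ IsSquare.zero)
  have hq : ∀ a b : F, a ≠ 0 → b ≠ 0 → (IsSquare (a * b) ↔ (IsSquare a ↔ IsSquare b)) := fun a b ha hb => by
    by_cases h1 : IsSquare a <;> by_cases h2' : IsSquare b
    · exact iff_of_true (h1.mul h2') (iff_of_true h1 h2')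
    · exact iff_of_false (fun (hab : IsSquare (a * b)) => h2' (by simpa [ha] using hab.div h1)) fun h => h2' (h.1 h1)
    · exact iff_of_false (fun (hab : IsSquare (a * b)) => h1 (by simpa [hb] using hab.div h2')) fun h => h1 (h.2 h2')
    · exact iff_of_true (Cfsg.Agent.Forms.isSquare_mul_of_not_isSquare h1 h2') (iff_of_false h1 h2')
  obtain ⟨A, hA, hAu, hAd, hdiagA⟩ := exists_coeff δ hδ0 d
    (fun j hj => (Nat.eq_zero_or_pos j).elim
      (fun h => by
        rw [Finset.filter_eq_empty_iff.2 fun k _ hk => by have := hd k; omega]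
        exact Even.zero)
      fun h => even_count h2 hG hj h) (fun i => decide (¬ IsSquare (topG i G).det))
  have hM := isSymForm_model hd h2 A hA hAu
  have htopM : ∀ i, Odd i → (∃ k, d k = i) → (IsSquare (topG i (model d A)).det ↔ IsSquare (topG i G).det) :=
    fun i hi hk => by
      rw [topG_model hd h2, hAd i hi hk]
      by_cases h : IsSquare (topG i G).det <;> simp [h, hδ]
  obtain ⟨g, -, hg⟩ := exists_congr_com hd hp h2 hM hG htopM
  obtain ⟨k₀, hk₀'⟩ := hk₀
  let c : Fin t → F := fun k => if k = k₀ then δ else 1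
  have hc : ∀ k, c k ≠ 0 := fun k => by simp only [c]; split_ifs; exacts [hδ0, one_ne_zero]
  have hsq : ∀ k l, d k = d l → c k * A k l = c l * A k l := fun k l hkl => by
    by_cases he : Odd (d k)
    · by_cases hlk : l = k
      · rw [hlk]
      · have h1 := hA k l hkl
        have h3 : ¬ A k l ≠ 0 := fun hne => hlk (hdiagA k l he hne)
        rw [not_ne_iff.1 h3, mul_zero, mul_zero]
    · have h1 : c k = 1 := if_neg fun h => he (by rw [h, hk₀']; exact hi₀)
      have h3 : c l = 1 := if_neg fun h => he (by rw [hkl, h, hk₀']; exact hi₀)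
      rw [h1, h3]
  have hcA : ∀ k l, d k = d l → (Matrix.diagonal c * A) l k = (-1) ^ (d k + 1) * (Matrix.diagonal c * A) k l :=
    fun k l hkl => by
      rw [Matrix.diagonal_mul, Matrix.diagonal_mul]
      have h3 := hsq l k hkl.symm
      rw [h3, hA k l hkl]
      ring
  have hsub : ∀ i, (Matrix.diagonal c * A).submatrix (Subtype.val : {k // d k = i} → Fin t) Subtype.val =
      Matrix.diagonal (fun k : {k // d k = i} => c k.1) * A.submatrix Subtype.val Subtype.val := fun i => by
    ext k l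
    simp [Matrix.diagonal_mul]
  have hcAu : ∀ i, IsUnit ((Matrix.diagonal c * A).submatrix (Subtype.val : {k // d k = i} → Fin t) Subtype.val).det :=
    fun i => by
      rw [hsub, Matrix.det_mul, Matrix.det_diagonal]
      exact (isUnit_iff_ne_zero.2 (Finset.prod_ne_zero_iff.2 fun k _ => hc k.1)).mul (hAu i)
  have hN := isSymForm_model hd h2 _ hcA hcAu
  have hprod : ∀ i, (∏ k : {k // d k = i}, c k.1) = if i = i₀ then δ else 1 := fun i => by
    split_ifs with h
    · subst h
      rw [Fintype.prod_eq_single (⟨k₀, hk₀'⟩ : {k // d k = i}) fun k hk => if_neg fun he => hk (Subtype.ext he)]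
      exact if_pos rfl
    · exact Finset.prod_eq_one fun k _ => if_neg fun he => h (by rw [← k.2, he, hk₀'])
  have htopN : ∀ i, Odd i → (∃ k, d k = i) →
      (IsSquare (topG i (model d (Matrix.diagonal c * A))).det ↔ IsSquare (topG i G').det) := fun i hi hk => by
    have hne := ((topG_unit hd h2 hG i)).ne_zero
    rw [topG_model hd h2, hsub, Matrix.det_mul, Matrix.det_diagonal, hprod, ← topG_model hd h2]
    have hMne := (topG_unit hd h2 hM i).ne_zero
    split_ifs with h
    · subst h
      rw [hq δ _ hδ0 hMne, htopM i hi hk]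
      simp only [hδ, false_iff]
      tauto
    · rw [one_mul, htopM i hi hk, hsame i hi h hk]
  obtain ⟨g', -, hg'⟩ := exists_congr_com hd hp h2 hN hG' htopN
  have hdet : (model d (Matrix.diagonal c * A)).det = δ ^ i₀ * (model d A).det := by
    rw [model_diag_mul, Matrix.det_mul, Matrix.det_diagonal, Fintype.prod_sigma]
    congr 1
    rw [Fintype.prod_eq_single k₀ fun k hk => Finset.prod_eq_one fun x _ => if_neg hk]
    simp [c, hk₀']
  have e1 : ∀ (H H' : Matrix (Idx d) (Idx d) F) (u : GL (Idx d) F), u.1ᵀ * H * u.1 = H' →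
      (IsSquare H.det ↔ IsSquare H'.det) := fun H H' u hu => by
    have hu0 := ((Matrix.isUnit_iff_isUnit_det _).1 u.isUnit).ne_zero
    rw [← hu, Matrix.det_mul, Matrix.det_mul, Matrix.det_transpose]
    constructor
    · rintro ⟨s, hs⟩
      exact ⟨u.1.det * s, by rw [hs]; ring⟩
    · rintro ⟨s, hs⟩
      exact ⟨s / u.1.det, by field_simp; linear_combination hs⟩
  rw [← e1 _ _ g hg, ← e1 _ _ g' hg', hdet]
  obtain ⟨e, rfl⟩ := hi₀
  rw [hq _ _ (pow_ne_zero _ hδ0) hM.unit.ne_zero]
  have : ¬ IsSquare (δ ^ (2 * e + 1)) := fun hs => hδ (by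
    have := hs.div ((even_two_mul e).isSquare_pow δ)
    rwa [pow_succ, mul_div_cancel_left₀ _ (pow_ne_zero _ hδ0)] at this)
  tauto

end Cfsg.Agent.KnownB.SymJordan
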