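import Mathlib

/-! Normal forms of `3 × 3` matrices and a class `C` with `C C ⊇` all non-scalar matrices of
determinant one. -/

set_option autoImplicit false

namespace Cfsg.Agent.KnownB

open Matrix Polynomial

variable {F : Type*} [Field F]

/-- `X` is similar to `D`. -/
def SimTo (D X : Matrix (Fin 3) (Fin 3) F) : Prop :=
  ∃ P : Matrix (Fin 3) (Fin 3) F, P.det ≠ 0 ∧ X * P = P * D

/-- `A` is a product of two matrices similar to `D`. -/
def CovBy (D A : Matrix (Fin 3) (Fin 3) F) : Prop :=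
  ∃ X Y : Matrix (Fin 3) (Fin 3) F, SimTo D X ∧ SimTo D Y ∧ X * Y = A

theorem CovBy.conj {D A M P : Matrix (Fin 3) (Fin 3) F} (h : CovBy D M) (hP : P.det ≠ 0)
    (hAP : A * P = P * M) : CovBy D A := by
  obtain ⟨X, Y, ⟨S, hS, hXS⟩, ⟨T, hT, hYT⟩, hXY⟩ := h
  have hu : IsUnit P.det := hP.isUnit
  refine ⟨P * X * P⁻¹, P * Y * P⁻¹, ⟨P * S, ?_, ?_⟩, ⟨P * T, ?_, ?_⟩, ?_⟩
  · rw [det_mul]; exact mul_ne_zero hP hS
  · simp only [Matrix.mul_assoc, Matrix.nonsing_inv_mul_cancel_left _ _ hu, hXS]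
  · rw [det_mul]; exact mul_ne_zero hP hT
  · simp only [Matrix.mul_assoc, Matrix.nonsing_inv_mul_cancel_left _ _ hu, hYT]
  · calc P * X * P⁻¹ * (P * Y * P⁻¹) = P * (X * Y) * P⁻¹ := by
          simp only [Matrix.mul_assoc, Matrix.nonsing_inv_mul_cancel_left _ _ hu]
      _ = A := by rw [hXY, ← hAP, Matrix.mul_assoc, Matrix.mul_nonsing_inv _ hu, Matrix.mul_one]

theorem exists_minpoly_vector {ι : Type*} [Fintype ι] [DecidableEq ι] (A : Matrix ι ι F) :
    ∃ v : ι → F, ∀ P : F[X], Polynomial.aeval A P *ᵥ v = 0 → Polynomial.aeval A P = 0 := by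
  let φ : F[X] →+* Module.End F (ι → F) :=
    (Matrix.toLinAlgEquiv'.toAlgHom.comp (Polynomial.aeval A)).toRingHom
  letI : Module F[X] (ι → F) := Module.compHom _ φ
  have hsmul : ∀ (P : F[X]) (w : ι → F), P • w = Polynomial.aeval A P *ᵥ w :=
    fun P w => Matrix.toLinAlgEquiv'_apply _ _
  haveI : IsScalarTower F F[X] (ι → F) := ⟨fun a P w => by
    rw [hsmul, hsmul, map_smul, Matrix.smul_mulVec]⟩
  haveI : Module.Finite F[X] (ι → F) := Module.Finite.of_restrictScalars_finite F _ _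
  obtain ⟨v, hv⟩ := Module.exists_ker_toSpanSingleton_eq_annihilator F[X] (ι → F)
  refine ⟨v, fun P hP => ?_⟩
  have hmem : P ∈ Module.annihilator F[X] (ι → F) := by
    rw [← hv, LinearMap.mem_ker, LinearMap.toSpanSingleton_apply, hsmul, hP]
  apply Matrix.toLin'.injective
  apply LinearMap.ext
  intro w
  rw [map_zero, LinearMap.zero_apply, Matrix.toLin'_apply, ← hsmul]
  exact Module.mem_annihilator.mp hmem w

/-- Every non-scalar `A` of determinant one is similar to one of two explicit forms. -/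
theorem normal_form_three (A : Matrix (Fin 3) (Fin 3) F) (hdet : A.det = 1)
    (hns : ∀ c : F, Matrix.scalar (Fin 3) c ≠ A) :
    (∃ s t : F, ∃ P : Matrix (Fin 3) (Fin 3) F, P.det ≠ 0 ∧
        A * P = P * !![0, 0, 1; 1, 0, s; 0, 1, t]) ∨
    (∃ τ ν : F, τ ^ 2 * ν = 1 ∧ ∃ P : Matrix (Fin 3) (Fin 3) F, P.det ≠ 0 ∧
        A * P = P * !![0, -(τ * ν), 0; 1, τ + ν, 0; 0, 0, τ]) := by
  obtain ⟨v, hv⟩ := exists_minpoly_vector A
  set w := A *ᵥ v with hw
  set u := A *ᵥ w with hu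
  have hcomb : ∀ a b c : F, Polynomial.aeval A (C a + C b * X + C c * X ^ 2) *ᵥ v =
      a • v + b • w + c • u := by
    intro a b c
    simp [hu, hw, Matrix.add_mulVec, Matrix.smul_mulVec, Matrix.mulVec_mulVec, sq,
      Algebra.algebraMap_eq_smul_one, Matrix.smul_mul]
  let P : Matrix (Fin 3) (Fin 3) F := Matrix.of fun i j => ![v, w, u] j i
  have hPv : ∀ x : Fin 3 → F, P *ᵥ x = x 0 • v + x 1 • w + x 2 • u := by
    intro x; funext i
    simp [P, Matrix.mulVec, dotProduct, Fin.sum_univ_three, mul_comm]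
  by_cases hP : P.det ≠ 0
  · -- cyclic
    left
    obtain ⟨x, hx⟩ : ∃ x : Fin 3 → F, P *ᵥ x = A *ᵥ u := ⟨P⁻¹ *ᵥ (A *ᵥ u), by
      rw [Matrix.mulVec_mulVec, Matrix.mul_nonsing_inv _ hP.isUnit, Matrix.one_mulVec]⟩
    have hAP : A * P = P * !![0, 0, x 0; 1, 0, x 1; 0, 1, x 2] := by
      ext i j
      have hxi := congrFun hx i
      have h1 := congrFun hw i
      have h2 := congrFun hu i
      fin_cases j <;>
        simp [P, Matrix.mul_apply, Fin.sum_univ_three, Matrix.mulVec, dotProduct] at hxi h1 h2 ⊢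
      · linear_combination -h1
      · linear_combination -h2
      · linear_combination -hxi
    have hx0 : x 0 = 1 := by
      have h := congrArg Matrix.det hAP
      rw [Matrix.det_mul, Matrix.det_mul, hdet, one_mul,
        show (!![0, 0, x 0; 1, 0, x 1; 0, 1, x 2] : Matrix (Fin 3) (Fin 3) F).det = x 0 by
          simp [Matrix.det_fin_three]] at h
      exact (mul_right_eq_self₀.mp h.symm).resolve_right hP
    refine ⟨x 1, x 2, P, hP, ?_⟩
    rw [hx0] at hAP
    exact hAP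
  · push Not at hP
    right
    obtain ⟨y, hy0, hy⟩ := Matrix.exists_mulVec_eq_zero_iff.mpr hP
    have hvw : ∀ a b : F, a • v + b • w = 0 → a = 0 ∧ b = 0 := by
      intro a b hab
      have h0 : Polynomial.aeval A (C a + C b * X + C 0 * X ^ 2) = 0 :=
        hv _ (by rw [hcomb, hab]; simp)
      simp [Algebra.algebraMap_eq_smul_one] at h0
      rcases eq_or_ne b 0 with rfl | hb
      · refine ⟨?_, rfl⟩
        have := congrFun (congrFun h0 0) 0
        simpa using this
      · exfalso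
        refine hns (-a / b) ?_
        ext i j
        have := congrFun (congrFun h0 i) j
        simp [Matrix.one_apply] at this
        simp [Matrix.scalar_apply, Matrix.diagonal_apply]
        split_ifs with h
        · simp [h] at this; subst h; field_simp; linear_combination -this
        · simp [h] at this; exact (this.resolve_left hb).symm
    have hy2 : y 2 ≠ 0 := by
      intro h2
      rw [hPv, h2, zero_smul, add_zero] at hy
      obtain ⟨h0, h1⟩ := hvw _ _ hy
      exact hy0 (funext fun i => by fin_cases i <;> assumption)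
    -- `m(A) = 0` with `m = X² - T X + d`
    set T : F := -(y 1 / y 2) with hT
    set d : F := y 0 / y 2 with hd
    have hm : A * A - T • A + d • (1 : Matrix (Fin 3) (Fin 3) F) = 0 := by
      have h0 : Polynomial.aeval A (C d + C (-T) * X + C 1 * X ^ 2) = 0 := hv _ (by
        rw [hcomb, ← smul_zero (y 2)⁻¹, ← hy, hPv, smul_add, smul_add, smul_smul, smul_smul,
          smul_smul, inv_mul_cancel₀ hy2, hT, hd, neg_neg, div_eq_inv_mul, div_eq_inv_mul])
      simp [Algebra.algebraMap_eq_smul_one, sq] at h0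
      rw [← h0]; abel
    have hAw : A *ᵥ w = (-d) • v + T • w := by
      have := congrArg (fun M => M *ᵥ v) hm
      simp only [Matrix.add_mulVec, Matrix.sub_mulVec, Matrix.smul_mulVec, Matrix.one_mulVec,
        Matrix.zero_mulVec, ← Matrix.mulVec_mulVec, ← hw] at this
      rw [← sub_eq_zero, ← this, neg_smul]
      abel
    -- a third vector outside the plane
    obtain ⟨z, hz⟩ : ∃ z : Fin 3 → F, z ∉ Submodule.span F {v, w} := by
      by_contra hcon
      push Not at hcon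
      have htop : Submodule.span F ({v, w} : Set (Fin 3 → F)) = ⊤ :=
        Submodule.eq_top_iff'.mpr hcon
      classical
      have h1 := finrank_span_finset_le_card (R := F) ({v, w} : Finset (Fin 3 → F))
      rw [Set.finrank, Finset.coe_insert, Finset.coe_singleton, htop, finrank_top,
        Module.finrank_fin_fun] at h1
      have h2 : ({v, w} : Finset (Fin 3 → F)).card ≤ 2 := Finset.card_le_two
      omega
    let Q : Matrix (Fin 3) (Fin 3) F := Matrix.of fun i j => ![v, w, z] j i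
    have hQv : ∀ x : Fin 3 → F, Q *ᵥ x = x 0 • v + x 1 • w + x 2 • z := by
      intro x; funext i
      simp [Q, Matrix.mulVec, dotProduct, Fin.sum_univ_three, mul_comm]
    have hQ : Q.det ≠ 0 := by
      intro h
      obtain ⟨x, hx0, hx⟩ := Matrix.exists_mulVec_eq_zero_iff.mpr h
      rw [hQv] at hx
      by_cases hx2 : x 2 = 0
      · rw [hx2, zero_smul, add_zero] at hx
        obtain ⟨h0, h1⟩ := hvw _ _ hx
        exact hx0 (funext fun i => by fin_cases i <;> assumption)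
      · apply hz
        have : z = (-(x 0) / x 2) • v + (-(x 1) / x 2) • w := by
          funext i
          have := congrFun hx i
          simp at this ⊢
          field_simp
          linear_combination this
        rw [this]
        exact Submodule.add_mem _ (Submodule.smul_mem _ _ (Submodule.subset_span (by simp)))
          (Submodule.smul_mem _ _ (Submodule.subset_span (by simp)))
    obtain ⟨x, hx⟩ : ∃ x : Fin 3 → F, Q *ᵥ x = A *ᵥ z := ⟨Q⁻¹ *ᵥ (A *ᵥ z), by
      rw [Matrix.mulVec_mulVec, Matrix.mul_nonsing_inv _ hQ.isUnit, Matrix.one_mulVec]⟩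
    set R : Matrix (Fin 3) (Fin 3) F := !![0, -d, x 0; 1, T, x 1; 0, 0, x 2] with hR
    have hAQ : A * Q = Q * R := by
      ext i j
      have h1 := congrFun hAw i
      have h2 := congrFun hx i
      have h3 := congrFun hw i
      fin_cases j <;>
        simp [Q, hR, Matrix.mul_apply, Fin.sum_univ_three, Matrix.mulVec, dotProduct] at h1 h2 h3 ⊢
      · linear_combination -h3
      · linear_combination h1
      · linear_combination -h2
    have hRm : R * R - T • R + d • (1 : Matrix (Fin 3) (Fin 3) F) = 0 := by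
      have h1 : Q * (R * R - T • R + d • (1 : Matrix (Fin 3) (Fin 3) F)) = 0 := by
        rw [Matrix.mul_add, Matrix.mul_sub, ← Matrix.mul_assoc, ← hAQ, Matrix.mul_assoc, ← hAQ,
          Matrix.mul_smul, ← hAQ, Matrix.mul_smul, Matrix.mul_one, ← Matrix.mul_assoc,
          ← Matrix.smul_mul, ← Matrix.sub_mul,
          show d • Q = (d • (1 : Matrix (Fin 3) (Fin 3) F)) * Q by simp, ← Matrix.add_mul, hm,
          Matrix.zero_mul]
      have h2 := congrArg (fun M => Q⁻¹ * M) h1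
      simpa [← Matrix.mul_assoc, Matrix.nonsing_inv_mul _ hQ.isUnit] using h2
    have e22 := congrFun (congrFun hRm 2) 2
    have e12 := congrFun (congrFun hRm 1) 2
    simp [hR, Matrix.mul_apply, Fin.sum_univ_three] at e22 e12
    set τ := x 2
    refine ⟨τ, T - τ, ?_, Q * !![1, 0, -(x 1); 0, 1, 0; 0, 0, 1], ?_, ?_⟩
    · have h := congrArg Matrix.det hAQ
      rw [Matrix.det_mul, Matrix.det_mul, hdet, one_mul] at h
      have h1 : R.det = 1 := (mul_right_eq_self₀.mp h.symm).resolve_right hQ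
      simp [hR, Matrix.det_fin_three] at h1
      linear_combination h1 - τ * e22
    · rw [Matrix.det_mul]
      simpa [Matrix.det_fin_three] using hQ
    · rw [← Matrix.mul_assoc, hAQ, Matrix.mul_assoc Q, Matrix.mul_assoc Q]
      congr 1
      have hd' : d = τ * (T - τ) := by linear_combination e22
      have hx0 : x 0 = (-τ) * x 1 := by linear_combination e12
      ext i j
      fin_cases i <;> fin_cases j <;>
        simp [hR, Matrix.mul_apply, Fin.sum_univ_three, hd', hx0]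
      all_goals ring

/-- Diagonalisation of a lower triangular matrix with distinct diagonal entries. -/
theorem simTo_lower {a b c : F} (hab : a ≠ b) (hac : a ≠ c) (hbc : b ≠ c) (p r s : F) :
    SimTo (Matrix.diagonal ![a, b, c]) !![a, 0, 0; p, b, 0; r, s, c] := by
  refine ⟨!![1, 0, 0; p / (a - b), 1, 0; (r + s * (p / (a - b))) / (a - c), s / (b - c), 1],
    by simp [Matrix.det_fin_three], ?_⟩
  have h1 := sub_ne_zero.mpr hab
  have h2 := sub_ne_zero.mpr hac
  have h3 := sub_ne_zero.mpr hbc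
  ext i j
  fin_cases i <;> fin_cases j <;>
    simp [Matrix.mul_apply, Fin.sum_univ_three, Matrix.diagonal_apply]
  all_goals field_simp
  all_goals ring

theorem simTo_upper {a b c : F} (hab : a ≠ b) (hac : a ≠ c) (hbc : b ≠ c) (p r s : F) :
    SimTo (Matrix.diagonal ![a, b, c]) !![a, p, r; 0, b, s; 0, 0, c] := by
  refine ⟨!![1, p / (b - a), (r + p * (s / (c - b))) / (c - a); 0, 1, s / (c - b); 0, 0, 1],
    by simp [Matrix.det_fin_three], ?_⟩
  have h1 := sub_ne_zero.mpr hab.symm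
  have h2 := sub_ne_zero.mpr hac.symm
  have h3 := sub_ne_zero.mpr hbc.symm
  ext i j
  fin_cases i <;> fin_cases j <;>
    simp [Matrix.mul_apply, Fin.sum_univ_three, Matrix.diagonal_apply]
  all_goals field_simp
  all_goals ring

/-- A matrix with prescribed leading minors is a product of triangular conjugates of `diag(a,b,c)`. -/
theorem covBy_minors {a b c : F} (habc : a * b * c = 1) (hab : a ≠ b) (hac : a ≠ c) (hbc : b ≠ c)
    (M : Matrix (Fin 3) (Fin 3) F) (hM : M.det = 1) (h1 : M 0 0 = a * a)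
    (h2 : M 0 0 * M 1 1 - M 0 1 * M 1 0 = a * a * b * b) :
    CovBy (Matrix.diagonal ![a, b, c]) M := by
  have ha : a ≠ 0 := fun h => by simp [h] at habc
  have hb : b ≠ 0 := fun h => by simp [h] at habc
  refine ⟨_, _, simTo_lower hab hac hbc (M 1 0 / a) (M 2 0 / a)
      ((M 2 1 - M 2 0 * M 0 1 / (a * a)) / b),
    simTo_upper hab hac hbc (M 0 1 / a) (M 0 2 / a) ((M 1 2 - M 1 0 * M 0 2 / (a * a)) / b), ?_⟩
  rw [Matrix.det_fin_three] at hM
  ext i j
  fin_cases i <;> fin_cases j <;> simp [Matrix.mul_apply, Fin.sum_univ_three]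
  · exact h1.symm
  · field_simp
  · field_simp
  · field_simp
  · field_simp
    linear_combination -h2 + M 1 1 * h1
  · field_simp
    ring
  · field_simp
  · field_simp
    ring
  · have e1 : a ^ 2 * M 1 1 = a ^ 2 * b ^ 2 + M 0 1 * M 1 0 := by
      rw [h1] at h2; linear_combination h2
    have e2 : M 2 2 * (a ^ 2 * b ^ 2) - a ^ 2 * M 1 2 * M 2 1 + M 0 1 * M 1 2 * M 2 0 +
        M 0 2 * M 1 0 * M 2 1 - M 0 2 * M 1 1 * M 2 0 = 1 := by
      rw [h1] at hM; linear_combination hM - M 2 2 * e1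
    apply mul_right_cancel₀ (b := a ^ 4 * b ^ 2) (mul_ne_zero (pow_ne_zero 4 ha) (pow_ne_zero 2 hb))
    field_simp
    linear_combination -(a ^ 2) * e2 - M 2 0 * M 0 2 * e1 + a ^ 2 * (a * b * c + 1) * habc

theorem covBy_split {a b c : F} (habc : a * b * c = 1) (hab : a ≠ b) (hac : a ≠ c) (hbc : b ≠ c)
    (A : Matrix (Fin 3) (Fin 3) F) (hA : A.det = 1) (hns : ∀ t : F, Matrix.scalar (Fin 3) t ≠ A) :
    CovBy (Matrix.diagonal ![a, b, c]) A := by
  have key : ∀ M P : Matrix (Fin 3) (Fin 3) F, P.det ≠ 0 → A * P = P * M → M 0 0 = a * a →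
      M 0 0 * M 1 1 - M 0 1 * M 1 0 = a * a * b * b → CovBy (Matrix.diagonal ![a, b, c]) A := by
    intro M P hP hAP h1 h2
    have hM : M.det = 1 := by
      have h := congrArg Matrix.det hAP
      rw [Matrix.det_mul, Matrix.det_mul, hA, one_mul] at h
      exact (mul_right_eq_self₀.mp h.symm).resolve_right hP
    exact (covBy_minors habc hab hac hbc M hM h1 h2).conj hP hAP
  rcases normal_form_three A hA hns with ⟨s, t, P, hP, hAP⟩ | ⟨τ, ν, hτν, P, hP, hAP⟩
  · set μ := a * a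
    set μ₂ := a * a * b * b
    refine key !![μ, -μ₂, 1 + μ * (μ₂ + s) + (μ ^ 2 - μ₂) * (t - μ);
        1, 0, μ₂ + s + μ * (t - μ);
        0, 1, t - μ]
      (P * !![1, -μ, μ₂; 0, 1, -μ; 0, 0, 1]) (by simpa [Matrix.det_fin_three] using hP) ?_
      (by simp) (by simp)
    rw [← Matrix.mul_assoc, hAP, Matrix.mul_assoc P, Matrix.mul_assoc P]
    congr 1
    ext i j
    fin_cases i <;> fin_cases j <;> simp [Matrix.mul_apply, Fin.sum_univ_three]
    all_goals ring
  · have hτ : τ ≠ 0 := fun h => by simp [h] at hτν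
    set p0 := a * a - τ with hp0
    set p1 := a * a * b * b / τ - a * a with hp1
    set p2 := ν - a * a * b * b / τ with hp2
    have hgen : ∀ R1 R2 : Fin 3 → F, R1 0 + R1 1 + R1 2 = 1 → R2 0 + R2 1 + R2 2 = 0 →
        (!![p0 - ν * R1 0, p1 - ν * R1 1, p2 - ν * R1 2; R1 0, R1 1, R1 2; R2 0, R2 1, R2 2] :
          Matrix (Fin 3) (Fin 3) F).det ≠ 0 →
        CovBy (Matrix.diagonal ![a, b, c]) A := by
      intro R1 R2 hs1 hs2 hd
      refine key !![τ + p0, p1, p2; p0, τ + p1, p2; p0, p1, τ + p2] (P * !![p0 - ν * R1 0,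
        p1 - ν * R1 1, p2 - ν * R1 2; R1 0, R1 1, R1 2; R2 0, R2 1, R2 2]) ?_ ?_
        (by simp [hp0]) ?_
      · rw [Matrix.det_mul]; exact mul_ne_zero hP hd
      · rw [← Matrix.mul_assoc, hAP, Matrix.mul_assoc P, Matrix.mul_assoc P]
        congr 1
        have hs : p0 + p1 + p2 = ν - τ := by rw [hp0, hp1, hp2]; ring
        ext i j
        fin_cases i <;> fin_cases j <;> simp [Matrix.mul_apply, Fin.sum_univ_three]
        · linear_combination -p0 * hs + ν * p0 * hs1
        · linear_combination -p1 * hs + ν * p1 * hs1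
        · linear_combination -p2 * hs + ν * p2 * hs1
        · linear_combination -p0 * hs1
        · linear_combination -p1 * hs1
        · linear_combination -p2 * hs1
        · linear_combination -p0 * hs2
        · linear_combination -p1 * hs2
        · linear_combination -p2 * hs2
      · simp [hp0, hp1]; field_simp; ring
    by_cases h12 : p1 + p2 = 0
    · by_cases h2 : p2 = 0
      · have h1 : p1 = 0 := by linear_combination h12 - h2
        by_cases h0 : p0 = 0
        · -- all zero: `ν = τ`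
          have hν : ν = τ := by linear_combination h0 + h1 + h2 - hp0 - hp1 - hp2
          refine key !![τ, 1, 0; 0, τ, 0; 0, 0, τ] (P * !![-τ, 1, 0; 1, 0, 0; 0, 0, 1]) ?_ ?_ ?_ ?_
          · rw [Matrix.det_mul]; exact mul_ne_zero hP (by simp [Matrix.det_fin_three])
          · rw [← Matrix.mul_assoc, hAP, Matrix.mul_assoc P, Matrix.mul_assoc P]
            congr 1
            ext i j
            fin_cases i <;> fin_cases j <;> simp [Matrix.mul_apply, Fin.sum_univ_three, hν]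
            all_goals ring
          · simp; linear_combination -h0
          · simp
            have h1' : a * a * b * b / τ = τ := by linear_combination h1 + h0 - hp0 - hp1
            field_simp at h1'
            linear_combination -h1'
        · refine hgen ![0, 1, 0] ![0, 1, -1] (by simp) (by simp) ?_
          simp [Matrix.det_fin_three, h1, h2, h0]
      · refine hgen ![1, 0, 0] ![1, -1, 0] (by simp) (by simp) ?_
        simpa [Matrix.det_fin_three] using h2
    · refine hgen ![1, 0, 0] ![0, 1, -1] (by simp) (by simp) ?_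
      simp [Matrix.det_fin_three]
      intro h; exact h12 (by linear_combination h)

theorem covBy_three_forms :
    (∀ s t : ZMod 3, CovBy (!![0, 0, 1; 1, 0, 1; 0, 1, 0] : Matrix (Fin 3) (Fin 3) (ZMod 3)) !![0, 0, 1; 1, 0, s; 0, 1, t]) ∧
    (∀ τ ν : ZMod 3, τ ^ 2 * ν = 1 →
      CovBy (!![0, 0, 1; 1, 0, 1; 0, 1, 0] : Matrix (Fin 3) (Fin 3) (ZMod 3)) !![0, -(τ * ν), 0; 1, τ + ν, 0; 0, 0, τ]) := by
  refine ⟨fun s t => ?_, fun τ ν h => ?_⟩
  · fin_cases s <;> fin_cases t
    · exact ⟨!![0, 1, 0; 0, 0, 2; 2, 2, 0], !![0, 2, 2; 0, 0, 1; 2, 0, 0], ⟨!![0, 0, 1; 0, 1, 0; 2, 0, 2], by decide, by decide⟩, ⟨!![0, 0, 1; 1, 2, 0; 2, 0, 0], by decide, by decide⟩, by decide⟩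
    · exact ⟨!![0, 1, 0; 0, 2, 1; 1, 0, 1], !![2, 1, 0; 0, 0, 1; 1, 0, 1], ⟨!![0, 0, 1; 0, 1, 0; 1, 1, 1], by decide, by decide⟩, ⟨!![0, 0, 1; 0, 1, 1; 1, 1, 1], by decide, by decide⟩, by decide⟩
    · exact ⟨!![0, 1, 0; 0, 0, 1; 1, 1, 0], !![0, 1, 1; 0, 0, 1; 1, 0, 0], ⟨!![0, 0, 1; 0, 1, 0; 1, 0, 1], by decide, by decide⟩, ⟨!![0, 0, 1; 2, 1, 0; 1, 0, 0], by decide, by decide⟩, by decide⟩
    · exact ⟨!![0, 2, 0; 1, 0, 2; 1, 1, 0], !![0, 1, 1; 0, 0, 2; 2, 1, 0], ⟨!![0, 0, 1; 0, 2, 0; 1, 0, 2], by decide, by decide⟩, ⟨!![0, 0, 1; 2, 2, 1; 1, 2, 2], by decide, by decide⟩, by decide⟩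
    · exact ⟨!![0, 1, 0; 0, 2, 2; 2, 0, 1], !![2, 2, 0; 0, 0, 1; 2, 0, 1], ⟨!![0, 0, 1; 0, 1, 0; 2, 2, 2], by decide, by decide⟩, ⟨!![0, 0, 1; 0, 2, 2; 2, 2, 2], by decide, by decide⟩, by decide⟩
    · exact ⟨!![0, 1, 0; 1, 0, 2; 2, 0, 0], !![0, 2, 1; 0, 0, 1; 2, 2, 0], ⟨!![0, 0, 1; 0, 1, 0; 2, 0, 0], by decide, by decide⟩, ⟨!![0, 0, 1; 1, 1, 2; 1, 2, 2], by decide, by decide⟩, by decide⟩
    · exact ⟨!![0, 1, 0; 1, 2, 2; 1, 1, 1], !![2, 2, 1; 0, 0, 1; 1, 2, 1], ⟨!![0, 0, 1; 0, 1, 0; 2, 2, 0], by decide, by decide⟩, ⟨!![0, 0, 1; 2, 2, 0; 2, 0, 1], by decide, by decide⟩, by decide⟩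
    · exact ⟨!![0, 1, 0; 1, 2, 1; 2, 2, 1], !![2, 1, 2; 0, 0, 1; 2, 2, 1], ⟨!![0, 0, 1; 0, 1, 0; 1, 1, 0], by decide, by decide⟩, ⟨!![0, 0, 1; 1, 1, 0; 1, 0, 2], by decide, by decide⟩, by decide⟩
    · exact ⟨!![0, 1, 0; 1, 0, 1; 1, 0, 0], !![0, 1, 2; 0, 0, 1; 1, 2, 0], ⟨!![0, 0, 1; 0, 1, 0; 1, 0, 0], by decide, by decide⟩, ⟨!![0, 0, 1; 2, 2, 1; 2, 1, 1], by decide, by decide⟩, by decide⟩
  · fin_cases τ <;> fin_cases ν <;> first | exact absurd h (by decide) | skip
    · exact ⟨!![2, 1, 0; 2, 1, 1; 0, 1, 0], !![0, 1, 1; 0, 0, 1; 1, 0, 0], ⟨!![0, 0, 1; 0, 1, 1; 1, 0, 1], by decide, by decide⟩, ⟨!![0, 0, 1; 2, 1, 0; 1, 0, 0], by decide, by decide⟩, by decide⟩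
    · exact ⟨!![1, 2, 0; 0, 2, 2; 1, 0, 0], !![0, 0, 2; 0, 2, 2; 2, 1, 1], ⟨!![0, 0, 1; 0, 2, 1; 1, 0, 0], by decide, by decide⟩, ⟨!![0, 0, 1; 2, 1, 0; 0, 2, 0], by decide, by decide⟩, by decide⟩

theorem covBy_three_rep :
    (!![0, 0, 1; 1, 0, 1; 0, 1, 0] : Matrix (Fin 3) (Fin 3) (ZMod 3)).det = 1 ∧
    (!![0, 0, 1; 1, 0, 1; 0, 1, 0] : Matrix (Fin 3) (Fin 3) (ZMod 3)) ^ 13 = 1 := by
  constructor <;> decide

theorem covBy_three [Fintype F] (hF : Fintype.card F = 3) :
    ∃ D : Matrix (Fin 3) (Fin 3) F, D.det = 1 ∧ D ^ 13 = 1 ∧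
      ∀ A : Matrix (Fin 3) (Fin 3) F, A.det = 1 → (∀ t : F, Matrix.scalar (Fin 3) t ≠ A) →
        CovBy D A := by
  have h3 : ((3 : ℕ) : F) = 0 := hF ▸ Nat.cast_card_eq_zero F
  haveI : Fact (Nat.Prime 3) := ⟨Nat.prime_three⟩
  haveI : CharP F 3 := (CharP.charP_iff_prime_eq_zero Nat.prime_three).mpr h3
  let φ : ZMod 3 →+* F := ZMod.castHom dvd_rfl F
  have hφ : Function.Bijective φ := by
    rw [Fintype.bijective_iff_injective_and_card]
    exact ⟨φ.injective, by simp [hF]⟩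
  have hmap : ∀ D M : Matrix (Fin 3) (Fin 3) (ZMod 3), CovBy D M →
      CovBy (D.map φ) (M.map φ) := by
    rintro D M ⟨X, Y, ⟨S, hS, hXS⟩, ⟨T, hT, hYT⟩, hXY⟩
    refine ⟨X.map φ, Y.map φ, ⟨S.map φ, ?_, ?_⟩, ⟨T.map φ, ?_, ?_⟩, ?_⟩
    · rw [← RingHom.mapMatrix_apply, ← RingHom.map_det]
      exact (map_ne_zero φ).mpr hS
    · rw [← Matrix.map_mul, hXS, Matrix.map_mul]
    · rw [← RingHom.mapMatrix_apply, ← RingHom.map_det]
      exact (map_ne_zero φ).mpr hT
    · rw [← Matrix.map_mul, hYT, Matrix.map_mul]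
    · rw [← Matrix.map_mul, hXY]
  refine ⟨(!![0, 0, 1; 1, 0, 1; 0, 1, 0] : Matrix (Fin 3) (Fin 3) (ZMod 3)).map φ, ?_, ?_, fun A hA hns => ?_⟩
  · rw [← RingHom.mapMatrix_apply, ← RingHom.map_det]
    rw [covBy_three_rep.1, map_one]
  · rw [← RingHom.mapMatrix_apply, ← map_pow, covBy_three_rep.2, map_one]
  · rcases normal_form_three A hA hns with ⟨s, t, P, hP, hAP⟩ | ⟨τ, ν, hτν, P, hP, hAP⟩
    · obtain ⟨s, rfl⟩ := hφ.2 s
      obtain ⟨t, rfl⟩ := hφ.2 t
      refine (hmap _ _ (covBy_three_forms.1 s t)).conj hP (hAP.trans ?_)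
      congr 1
      ext i j
      fin_cases i <;> fin_cases j <;> simp
    · obtain ⟨τ, rfl⟩ := hφ.2 τ
      obtain ⟨ν, rfl⟩ := hφ.2 ν
      have h : τ ^ 2 * ν = 1 := hφ.1 (by simpa using hτν)
      refine (hmap _ _ (covBy_three_forms.2 τ ν h)).conj hP (hAP.trans ?_)
      congr 1
      ext i j
      fin_cases i <;> fin_cases j <;> simp

end Cfsg.Agent.KnownB
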