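import Cfsg.Agent.KnownB.RatForm
import Cfsg.Agent.Linear.GUPrimeCount

/-!
# Invariant tuples of unitary elements and determinants of their centralisers
-/

set_option autoImplicit false
set_option linter.unusedSectionVars false
set_option linter.style.haveILetI false

namespace Cfsg.Agent.KnownB.ClassTuples

open Polynomial Cfsg.Agent.Linear.GLClasses Cfsg.Agent.KnownB.Unitary Cfsg.Agent.Linear.SpPrimeClasses
  Cfsg.Agent.Linear.GUPrimeCount
open Cfsg.Agent.Forms (frobQ frobQ_frobQ frobQ_ne_id)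
open scoped Matrix

universe u

variable {K : Type u} [Field K] [Fintype K] {n : ℕ}

theorem imCard_eq_rank (M : Matrix (Fin n) (Fin n) K) (p : K[X]) :
    imCard M p = Fintype.card K ^ (aeval M p).rank := by
  rw [imCard, ← Nat.card_eq_fintype_card (α := K), Matrix.rank, ← Module.natCard_eq_pow_finrank]
  rfl

theorem imCard_transpose (M : Matrix (Fin n) (Fin n) K) (p : K[X]) : imCard M.transpose p = imCard M p := by
  rw [imCard_eq_rank, imCard_eq_rank]
  congr 1
  have h : aeval M.transpose p = (aeval M p).transpose := by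
    induction p using Polynomial.induction_on' with
    | add a b ha hb => rw [map_add, map_add, ha, hb, Matrix.transpose_add]
    | monomial k c => rw [aeval_monomial, aeval_monomial, ← Algebra.smul_def, ← Algebra.smul_def, Matrix.transpose_smul, Matrix.transpose_pow]
  rw [h, Matrix.rank_transpose]

theorem imCard_map (σ : K →+* K) (M : Matrix (Fin n) (Fin n) K) (p : K[X]) :
    imCard (M.map σ) (p.map σ) = imCard M p := by
  have h : aeval (M.map σ) (p.map σ) = (aeval M p).map σ := by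
    induction p using Polynomial.induction_on' with
    | add a b ha hb => rw [Polynomial.map_add, map_add, map_add, ha, hb]; exact (map_add σ.mapMatrix _ _).symm
    | monomial k c =>
      rw [Polynomial.map_monomial, aeval_monomial, aeval_monomial, ← Algebra.smul_def, ← Algebra.smul_def]
      show σ c • (σ.mapMatrix M) ^ k = σ.mapMatrix (c • M ^ k)
      rw [← map_pow]
      ext i j
      simp
  have hσ : Function.Bijective σ := Finite.injective_iff_bijective.1 σ.injective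
  have hsurj : ∀ v : Fin n → K, ∃ w, ⇑σ ∘ w = v := fun v => by
    choose w hw using fun i => hσ.2 (v i)
    exact ⟨w, funext hw⟩
  rw [imCard, imCard, h]
  symm
  refine Nat.card_congr ((Equiv.Set.image (fun v : Fin n → K => ⇑σ ∘ v) _ (fun v w hvw => funext fun i => σ.injective (congrFun hvw i))).trans
    (Equiv.setCongr ?_))
  ext x
  constructor
  · rintro ⟨_, ⟨v, rfl⟩, rfl⟩
    exact ⟨⇑σ ∘ v, funext fun i => (RingHom.map_mulVec σ (aeval M p) v i).symm⟩
  · rintro ⟨v, rfl⟩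
    obtain ⟨w, rfl⟩ := hsurj v
    exact ⟨_, ⟨w, rfl⟩, funext fun i => RingHom.map_mulVec σ (aeval M p) w i⟩

theorem imCard_inv (g : GL (Fin n) K) (p : K[X]) (h0 : p.coeff 0 ≠ 0) :
    imCard (g⁻¹ : GL (Fin n) K).1 (hat p) = imCard g.1 p := by
  set gi := (g⁻¹ : GL (Fin n) K).1
  have h1 : aeval gi p.reverse * g.1 ^ p.natDegree = aeval g.1 p := by
    rw [aeval_eq_sum_range' (n := p.natDegree + 1) (lt_of_le_of_lt (Cfsg.Agent.Forms.natDegree_reverse_eq h0).le (Nat.lt_succ_self _)),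
      aeval_eq_sum_range, Finset.sum_mul]
    conv_rhs => rw [← Finset.sum_range_reflect]
    refine Finset.sum_congr rfl fun i hi => ?_
    have hi' : i ≤ p.natDegree := Nat.lt_succ_iff.1 (Finset.mem_range.1 hi)
    rw [coeff_reverse, revAt_le hi', Nat.add_sub_cancel, smul_mul_assoc]
    congr 1
    conv_lhs => rw [show p.natDegree = i + (p.natDegree - i) by omega, pow_add, ← mul_assoc,
      ← Units.val_pow_eq_pow_val, ← Units.val_pow_eq_pow_val, ← Units.val_mul, inv_pow, inv_mul_cancel, Units.val_one,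
      one_mul]
  have h2 : aeval gi (hat p) * g.1 ^ p.natDegree = (p.coeff 0)⁻¹ • aeval g.1 p := by
    rw [hat, map_mul, aeval_C, ← Algebra.smul_def, smul_mul_assoc, h1]
  rw [imCard, imCard]
  congr 2
  ext x
  constructor
  · rintro ⟨v, rfl⟩
    refine ⟨(p.coeff 0)⁻¹ • ((g⁻¹ : GL (Fin n) K) ^ p.natDegree).1 *ᵥ v, ?_⟩
    have h3 : aeval gi (hat p) = ((p.coeff 0)⁻¹ • aeval g.1 p) * ((g⁻¹ : GL (Fin n) K) ^ p.natDegree).1 := by
      rw [← h2, mul_assoc, ← Units.val_pow_eq_pow_val, ← Units.val_mul, inv_pow, mul_inv_cancel, Units.val_one, mul_one]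
    simp only [h3, ← Matrix.mulVec_mulVec, Matrix.mulVec_smul, Matrix.smul_mulVec]
  · rintro ⟨v, rfl⟩
    refine ⟨g.1 ^ p.natDegree *ᵥ (p.coeff 0 • v), ?_⟩
    simp only [Matrix.mulVec_mulVec, h2, Matrix.smul_mulVec, Matrix.mulVec_smul, smul_smul, mul_inv_cancel₀ h0, one_smul]

theorem Dec.imCard_blocks {d₁ d₂ : ℕ} (ε : Fin d₁ ⊕ Fin d₂ ≃ Fin n) (A : Matrix (Fin d₁) (Fin d₁) K) (B : Matrix (Fin d₂) (Fin d₂) K) (p : K[X]) :
    imCard (Matrix.reindex ε ε (Matrix.fromBlocks A 0 0 B)) p = imCard A p * imCard B p := by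
  have h : aeval (Matrix.reindexAlgEquiv K K ε (Matrix.fromBlocks A 0 0 B)) p =
      Matrix.reindex ε ε (Matrix.fromBlocks (aeval A p) 0 0 (aeval B p)) := by
    rw [show aeval (Matrix.reindexAlgEquiv K K ε (Matrix.fromBlocks A 0 0 B)) p =
      Matrix.reindexAlgEquiv K K ε (aeval (Matrix.fromBlocks A 0 0 B) p) from
      aeval_algHom_apply (Matrix.reindexAlgEquiv K K ε).toAlgHom _ p, Matrix.coe_reindexAlgEquiv]
    refine congrArg _ ?_
    induction p using Polynomial.induction_on' with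
    | add a b ha hb => rw [map_add, map_add, map_add, ha, hb, Matrix.fromBlocks_add, add_zero, add_zero]
    | monomial k c =>
      simp only [aeval_monomial, ← Algebra.smul_def]
      rw [Matrix.fromBlocks_diagonal_pow, Matrix.fromBlocks_smul, smul_zero, smul_zero]
  rw [Matrix.coe_reindexAlgEquiv] at h
  rw [imCard, imCard, imCard, h, ← Nat.card_prod]
  let E : (Fin n → K) ≃ (Fin d₁ → K) × (Fin d₂ → K) :=
    (Equiv.arrowCongr ε.symm (Equiv.refl K)).trans (Equiv.sumArrowEquivProdArrow _ _ _)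
  have key : ∀ v, E (Matrix.reindex ε ε (Matrix.fromBlocks (aeval A p) 0 0 (aeval B p)) *ᵥ v) =
      (aeval A p *ᵥ (E v).1, aeval B p *ᵥ (E v).2) := fun v => by
    have h2 : ∀ x, (Matrix.reindex ε ε (Matrix.fromBlocks (aeval A p) 0 0 (aeval B p)) *ᵥ v)
        (ε x) = (Matrix.fromBlocks (aeval A p) 0 0 (aeval B p) *ᵥ (v ∘ ε)) x := fun x => by
      rw [Matrix.reindex_apply, Matrix.submatrix_mulVec_equiv, Function.comp_apply, Equiv.symm_apply_apply, Equiv.symm_symm]
    refine Prod.ext (funext fun i => ?_) (funext fun i => ?_)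
    · show _ = _
      refine (h2 (Sum.inl i)).trans ?_
      simp [Matrix.fromBlocks_mulVec, E, Function.comp_def]
      rfl
    · show _ = _
      refine (h2 (Sum.inr i)).trans ?_
      simp [Matrix.fromBlocks_mulVec, E, Function.comp_def]
      rfl
  refine Nat.card_congr ((Equiv.image E _).trans ((Equiv.setCongr ?_).trans (Equiv.Set.prod _ _)))
  ext ⟨x, y⟩
  constructor
  · rintro ⟨_, ⟨v, rfl⟩, hxy⟩
    rw [key] at hxy
    cases hxy
    exact ⟨⟨_, rfl⟩, ⟨_, rfl⟩⟩
  · rintro ⟨⟨v, rfl⟩, ⟨w, rfl⟩⟩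
    exact ⟨_, ⟨E.symm (v, w), rfl⟩, by rw [key, Equiv.apply_symm_apply]⟩

variable (σ : K →+* K)

theorem map_hat (f : K[X]) : (hat f).map σ = tau σ f := by
  have hrev : (f.map σ).reverse = f.reverse.map σ := by
    ext k
    rw [coeff_reverse, coeff_map, coeff_map, coeff_reverse, natDegree_map_eq_of_injective σ.injective]
  rw [tau, hat, hat, Polynomial.map_mul, map_C, map_inv₀, ← hrev, coeff_map]

theorem tau_coeff_zero {f : K[X]} (hf : f.Monic) (h0 : f.coeff 0 ≠ 0) : (tau σ f).coeff 0 ≠ 0 := by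
  have h0' : (f.map σ).coeff 0 ≠ 0 := by rw [coeff_map]; exact (map_ne_zero σ).2 h0
  exact (hat_props (hf.map σ) h0').2.2.2

theorem tau_irreducible (hσ2 : ∀ c, σ (σ c) = c) {f : K[X]} (hf : Irreducible f) (hm : f.Monic) (h0 : f.coeff 0 ≠ 0) :
    Irreducible (tau σ f) := by
  obtain ⟨h1, h2, h3⟩ := tau_props hσ2 hm h0
  refine (h1.irreducible_iff_natDegree).2 ⟨fun h => ?_, fun a b ha hb hab => ?_⟩
  · have h4 := congrArg natDegree h
    rw [h2, natDegree_one] at h4
    exact hf.natDegree_pos.ne' h4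
  · have hab0 : (a * b).coeff 0 ≠ 0 := by rw [hab]; exact tau_coeff_zero σ hm h0
    rw [mul_coeff_zero] at hab0
    have ha0 := left_ne_zero_of_mul hab0
    have hb0 := right_ne_zero_of_mul hab0
    obtain ⟨ha1, ha2, -⟩ := tau_props hσ2 ha ha0
    obtain ⟨hb1, hb2, -⟩ := tau_props hσ2 hb hb0
    have h5 : f = tau σ a * tau σ b := by rw [← tau_mul, hab, h3]
    rcases (hm.irreducible_iff_natDegree.1 hf).2 _ _ ha1 hb1 h5.symm with h | h
    · exact Or.inl (ha2 ▸ h)
    · exact Or.inr (hb2 ▸ h)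

/-- The adjoint inverse. -/
def adjI (g : GL (Fin n) K) : GL (Fin n) K :=
  ⟨adj σ (g⁻¹ : GL (Fin n) K).1, adj σ g.1,
    by rw [← adj_mul, Units.mul_inv, adj_one], by rw [← adj_mul, Units.inv_mul, adj_one]⟩

theorem imCard_adjI (g : GL (Fin n) K) {p : K[X]} (h0 : p.coeff 0 ≠ 0) :
    imCard (adjI σ g).1 (tau σ p) = imCard g.1 p := by
  show imCard (((g⁻¹ : GL (Fin n) K).1.map σ).transpose) _ = _
  rw [imCard_transpose, ← map_hat, imCard_map, imCard_inv g p h0]

theorem tauKey_good (hσ2 : ∀ c, σ (σ c) = c) {x : K[X] × ℕ} (hx : GoodKey x) : GoodKey (tau σ x.1, x.2) :=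
  ⟨tau_irreducible σ hσ2 hx.1 hx.2.1 hx.2.2.1, (tau_props hσ2 hx.2.1 hx.2.2.1).1, tau_coeff_zero σ hx.2.1 hx.2.2.1, hx.2.2.2⟩

theorem count_adjI (hσ2 : ∀ c, σ (σ c) = c) {g : GL (Fin n) K} (D : Dec g) (D' : Dec (adjI σ g)) {x : K[X] × ℕ}
    (hx : GoodKey x) : D'.count (tau σ x.1, x.2) = D.count x := by
  refine count_eq D D' ⟨hx.1, hx.2.1⟩ ⟨(tauKey_good σ hσ2 hx).1, (tauKey_good σ hσ2 hx).2.1⟩
    (tau_props hσ2 hx.2.1 hx.2.2.1).2.1 (fun j => ?_) x.2 hx.2.2.2
  rw [← tau_pow]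
  refine imCard_adjI σ g ?_
  rw [← Polynomial.constantCoeff_apply, map_pow]
  exact pow_ne_zero _ hx.2.2.1

theorem isConj_adjI (hσ2 : ∀ c, σ (σ c) = c) {g : GL (Fin n) K} (D : Dec g)
    (h : ∀ x, GoodKey x → D.count (tau σ x.1, x.2) = D.count x) : IsConj g (adjI σ g) := by
  refine D.isConj_of_count (dec _) fun y => ?_
  by_cases hy : GoodKey y
  · have h3 := (tau_props hσ2 hy.2.1 hy.2.2.1).2.2
    have := count_adjI σ hσ2 D (dec (adjI σ g)) (tauKey_good σ hσ2 hy)
    rw [h3] at this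
    rw [this, h y hy]
  · have hz : ∀ {g : GL (Fin n) K} (D : Dec g), D.count y = 0 := fun D => by
      rw [Dec.count, Nat.card_eq_zero]
      exact Or.inl ⟨fun j => hy (j.2 ▸ goodKey_of_dec D j.1)⟩
    rw [hz, hz]

variable {q : ℕ} (hK : Fintype.card K = q ^ 2)
include hK

theorem count_tau_of_mem {g : GL (Fin n) K} (hg : g ∈ Cfsg.GU n K q) (D : Dec g) {x : K[X] × ℕ} (hx : GoodKey x) :
    D.count (tau (frobQ hK) x.1, x.2) = D.count x := by
  have h : adjI (frobQ hK) g = g := by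
    refine Units.ext ?_
    show adj (frobQ hK) (g⁻¹ : GL (Fin n) K).1 = g.1
    have h1 := (mem_GU_iff_adj hK g).1 hg
    have h2 : adj (frobQ hK) (g⁻¹ : GL (Fin n) K).1 * adj (frobQ hK) g.1 = 1 := by
      rw [← adj_mul, Units.mul_inv, adj_one]
    calc adj (frobQ hK) (g⁻¹ : GL (Fin n) K).1 = adj (frobQ hK) (g⁻¹ : GL (Fin n) K).1 * (adj (frobQ hK) g.1 * g.1) := by
          rw [h1, mul_one]
      _ = g.1 := by rw [← mul_assoc, h2, one_mul]
  have h' : ∀ D' : Dec (adjI (frobQ hK) g), D'.count (tau (frobQ hK) x.1, x.2) = D.count x := fun D' =>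
    count_adjI _ (frobQ_frobQ hK) D D' hx
  rw [h] at h'
  exact h' D

theorem exists_unitary_of_invariant {g : GL (Fin n) K} (D : Dec g)
    (h : ∀ x, GoodKey x → D.count (tau (frobQ hK) x.1, x.2) = D.count x) :
    ∃ B : ↥(Cfsg.GU n K q), IsConj g (B : GL (Fin n) K) := by
  refine (similar_iff hK g).2 ?_
  have h1 := (Units.coeHom (Matrix (Fin n) (Fin n) K)).map_isConj (isConj_adjI _ (frobQ_frobQ hK) D h)
  suffices h2 : ((g.1.map fun x => x ^ q).transpose)⁻¹ = adj (frobQ hK) (g⁻¹ : GL (Fin n) K).1 by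
    rw [h2]; exact h1
  refine Matrix.inv_eq_left_inv ?_
  rw [show (g.1.map fun x => x ^ q).transpose = adj (frobQ hK) g.1 from rfl, ← adj_mul, Units.mul_inv, adj_one]

theorem exists_norm_one_root {a : K} (ha : a * frobQ hK a = 1) : ∃ b : K, b ≠ 0 ∧ b / frobQ hK b = a := by
  set s := frobQ hK
  obtain ⟨z, hz⟩ : ∃ z, z + a * s z ≠ 0 := by
    by_cases h : a = -1
    · obtain ⟨t, ht⟩ := exists_moved hK
      exact ⟨t, by rw [h, neg_one_mul, ← sub_eq_add_neg]; exact ht⟩
    · exact ⟨1, by rw [map_one, mul_one]; exact fun h' => h (by linear_combination h')⟩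
  refine ⟨_, hz, ?_⟩
  rw [div_eq_iff (by rwa [ne_eq, map_eq_zero]), map_add, map_mul, frobQ_frobQ hK]
  linear_combination (-z) * ha

/-- A unitary element commuting with `g` with determinant `D / σ D`, where `D = det p(g)`. -/
theorem exists_unitary_poly {g : GL (Fin n) K} (hg : g ∈ Cfsg.GU n K q) (p : K[X]) (hp : (aeval g.1 p).det ≠ 0) :
    ∃ y ∈ Cfsg.GU n K q, y * g = g * y ∧
      y.1.det = (aeval g.1 p).det / frobQ hK (aeval g.1 p).det := by
  set s := frobQ hK
  set R := Algebra.adjoin K {g.1}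
  have hgi : adj s g.1 = (g⁻¹ : GL (Fin n) K).1 := by
    calc adj s g.1 = adj s g.1 * (g.1 * (g⁻¹ : GL (Fin n) K).1) := by rw [Units.mul_inv, mul_one]
      _ = _ := by rw [← mul_assoc, (mem_GU_iff_adj hK g).1 hg, one_mul]
  have hmem : ∀ x ∈ R, adj s x ∈ R := fun x hx => by
    induction hx using Algebra.adjoin_induction with
    | mem y hy => rw [Set.mem_singleton_iff] at hy; subst hy; rw [hgi]; exact inv_mem_adjoin g
    | algebraMap c => rw [adj_algebraMap]; exact R.algebraMap_mem _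
    | add x y _ _ hx hy => rw [adj_add]; exact add_mem hx hy
    | mul x y _ _ hx hy => rw [adj_mul]; exact mul_mem hy hx
  have hv : aeval g.1 p ∈ R := (Algebra.adjoin_singleton_eq_range_aeval K g.1).ge ⟨p, rfl⟩
  have hcomm : ∀ x ∈ R, Commute g.1 x := fun x hx =>
    (Algebra.commute_of_mem_adjoin_of_forall_mem_commute hx fun z hz => by
      rw [Set.mem_singleton_iff] at hz; subst hz; exact Commute.refl _)
  set v := Matrix.GeneralLinearGroup.mkOfDetNeZero (aeval g.1 p) hp with hv'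
  have hvw : Commute (aeval g.1 p) (adj s (aeval g.1 p)) :=
    (Algebra.commute_of_mem_adjoin_of_forall_mem_commute hv fun z hz => by
      rw [Set.mem_singleton_iff] at hz; subst hz; exact (hcomm _ (hmem _ hv)).symm).symm
  let w : GL (Fin n) K := ⟨adj s v.1, adj s (v⁻¹ : GL (Fin n) K).1,
    by rw [← adj_mul, Units.inv_mul, adj_one], by rw [← adj_mul, Units.mul_inv, adj_one]⟩
  have hvwG : v * w = w * v := Units.ext hvw.eq
  have hw : adj s (w⁻¹ : GL (Fin n) K).1 = (v⁻¹ : GL (Fin n) K).1 := adj_adj s (frobQ_frobQ hK) _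
  refine ⟨v * w⁻¹, ?_, ?_, ?_⟩
  · rw [mem_GU_iff_adj hK, Units.val_mul, adj_mul, hw]
    show ((v⁻¹ : GL (Fin n) K).1 * w.1) * (v.1 * (w⁻¹ : GL (Fin n) K).1) = 1
    have : v⁻¹ * w * (v * w⁻¹) = 1 := by
      rw [mul_assoc, ← mul_assoc w, ← hvwG]; group
    exact congrArg Units.val this
  · have h1 : Commute v g := Units.ext (hcomm _ hv).eq.symm
    have h2 : Commute w g := Units.ext (hcomm _ (hmem _ hv)).eq.symm
    exact (h1.mul_left h2.inv_left).eq
  · rw [Units.val_mul, Matrix.det_mul, div_eq_mul_inv]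
    congr 1
    refine eq_inv_of_mul_eq_one_left ?_
    have hd : s (aeval g.1 p).det = w.1.det := by
      show _ = (adj s v.1).det
      rw [adj, Matrix.det_transpose, RingHom.map_det]; rfl
    rw [hd, ← Matrix.det_mul, Units.inv_mul, Matrix.det_one]

theorem mem_GU_blocks {d₁ d₂ : ℕ} (ε : Fin d₁ ⊕ Fin d₂ ≃ Fin n) {A : GL (Fin d₁) K} {B : GL (Fin d₂) K} (hA : A ∈ Cfsg.GU d₁ K q)
    (hB : B ∈ Cfsg.GU d₂ K q) (C : GL (Fin n) K)
    (hC : C.1 = Matrix.reindex ε ε (Matrix.fromBlocks A.1 0 0 B.1)) :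
    C ∈ Cfsg.GU n K q := by
  rw [mem_GU_iff_adj hK] at hA hB ⊢
  rw [adj] at hA hB ⊢
  rw [hC, Matrix.reindex_apply, ← Matrix.submatrix_map, Matrix.transpose_submatrix, Matrix.submatrix_mul_equiv,
    Matrix.fromBlocks_map, Matrix.fromBlocks_transpose, Matrix.fromBlocks_multiply]
  simp [hA, hB, Matrix.map_zero _ (map_zero (frobQ hK))]

/-- Every norm-one `(i+1)`-th power is the determinant of a unitary element centralising `g`. -/
theorem exists_unitary_centralizer_det {g : GL (Fin n) K} (hg : g ∈ Cfsg.GU n K q) (i : Fin n)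
    (hi : (tup g i).natDegree ≠ 0) (a : K) (ha : a * frobQ hK a = 1) :
    ∃ c ∈ Cfsg.GU n K q, c * g = g * c ∧ c.1.det = a ^ (i.1 + 1) := by
  classical
  set σ := frobQ hK
  have hσ2 : ∀ c, σ (σ c) = c := frobQ_frobQ hK
  set D := dec g
  letI := D.fin
  obtain ⟨f, hf⟩ : ∃ f, f ∈ D.slot i := by
    refine Multiset.exists_mem_of_ne_zero fun h => hi ?_
    rw [tup_natDegree, h, Multiset.map_zero, Multiset.sum_zero]
  simp only [Dec.slot, Multiset.mem_map, Finset.mem_val, Finset.mem_filter, Finset.mem_univ, true_and] at hf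
  obtain ⟨j₀, hj, -⟩ := hf
  obtain ⟨j₁, hj₁⟩ : ∃ j₁, D.key j₁ = (tau σ (D.key j₀).1, (D.key j₀).2) := by
    have h := count_tau_of_mem hK hg D (goodKey_of_dec D j₀)
    have hpos : 0 < D.count (D.key j₀) := by
      haveI : Nonempty {j // D.key j = D.key j₀} := ⟨⟨j₀, rfl⟩⟩
      exact Nat.card_pos
    rw [← h] at hpos
    obtain ⟨⟨⟨j₁, hj₁⟩⟩, -⟩ := Nat.card_pos_iff.1 hpos
    exact ⟨j₁, hj₁⟩
  set S : Finset D.J := if tau σ (D.key j₀).1 = (D.key j₀).1 then {j₀} else {j₀, j₁} with hSdef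
  have hS : ∀ x, GoodKey x →
      (S.filter fun j => D.key j = (tau σ x.1, x.2)).card = (S.filter fun j => D.key j = x).card := by
    intro x hx
    have hτ : tau σ (tau σ (D.key j₀).1) = (D.key j₀).1 := (tau_props hσ2 (D.hkey j₀).2.1 (D.hkey j₀).2.2.1).2.2
    have hτx := (tau_props hσ2 hx.2.1 hx.2.2.1).2.2
    have e1 : D.key j₀ = (tau σ x.1, x.2) ↔ D.key j₁ = x := by
      rw [hj₁]
      constructor
      · intro h
        rw [h]
        exact Prod.ext hτx rfl
      · intro h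
        rw [← h]
        exact Prod.ext hτ.symm rfl
    have e2 : D.key j₁ = (tau σ x.1, x.2) ↔ D.key j₀ = x := by
      rw [hj₁]
      constructor
      · intro h
        have h1 := congrArg Prod.fst h
        have h2 := congrArg Prod.snd h
        simp only at h1 h2
        exact Prod.ext (by rw [← hτ, h1, hτx]) h2
      · intro h
        rw [h]
    rw [hSdef]
    split_ifs with hf
    · have hjj : D.key j₁ = D.key j₀ := by rw [hj₁, hf]
      rw [Finset.filter_singleton, Finset.filter_singleton]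
      rw [hjj] at e1
      by_cases h : D.key j₀ = x
      · rw [if_pos (e1.2 h), if_pos h]
      · rw [if_neg (fun h' => h (e1.1 h')), if_neg h]
    · have hne : j₀ ≠ j₁ := fun h => hf (congrArg Prod.fst ((congrArg D.key h).trans hj₁)).symm
      rw [Finset.card_filter, Finset.card_filter, Finset.sum_pair hne, Finset.sum_pair hne]
      simp only [e1, e2]
      exact add_comm _ _
  let T : Finset D.J := Sᶜ
  have hT : ∀ x, GoodKey x →
      (T.filter fun j => D.key j = (tau σ x.1, x.2)).card = (T.filter fun j => D.key j = x).card := by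
    intro x hx
    have hsplit : ∀ y, (S.filter fun j => D.key j = y).card + (T.filter fun j => D.key j = y).card = D.count y := by
      intro y
      rw [Dec.count, Nat.card_eq_fintype_card, Fintype.card_subtype,
        ← Finset.card_union_of_disjoint (Finset.disjoint_filter_filter (disjoint_compl_right (a := S))),
        ← Finset.filter_union, Finset.union_compl]
    have h1 := hsplit x
    have h2 := hsplit (tau σ x.1, x.2)
    have h3 : D.count (tau σ x.1, x.2) = D.count x := count_tau_of_mem hK hg D hx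
    have h4 := hS x hx
    omega
  have part : ∀ (U : Finset D.J), (∀ x, GoodKey x →
      (U.filter fun j => D.key j = (tau σ x.1, x.2)).card = (U.filter fun j => D.key j = x).card) →
      ∃ (B : GL (Fin (∑ j ∈ U, (D.key j).2 * (D.key j).1.natDegree)) K) (DB : Dec B) (e : DB.J ≃ U),
        B ∈ Cfsg.GU _ K q ∧ ∀ j, D.key (e j).1 = DB.key j := by
    intro U hU
    obtain ⟨A, DA, e, he⟩ := exists_realize (F := K) (fun j : U => D.key j.1) (fun j => goodKey_of_dec D j.1)
      (Finset.sum_coe_sort U fun j => (D.key j).2 * (D.key j).1.natDegree)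
    obtain ⟨B, hB⟩ := exists_unitary_of_invariant hK DA fun x hx => by
      have hc : ∀ y, Nat.card {j : U // D.key j.1 = y} = (U.filter fun j => D.key j = y).card := fun y => by
        rw [← Nat.card_eq_finsetCard]
        exact Nat.card_congr { toFun := fun j => ⟨j.1.1, Finset.mem_filter.2 ⟨j.1.2, j.2⟩⟩
                               invFun := fun j => ⟨⟨j.1, (Finset.mem_filter.1 j.2).1⟩, (Finset.mem_filter.1 j.2).2⟩ }
      rw [DA.count_eq_of_equiv (fun j : U => D.key j.1) e he, DA.count_eq_of_equiv (fun j : U => D.key j.1) e he, hc, hc, hU x hx]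
    obtain ⟨DB, e', he'⟩ := exists_dec_conj DA hB
    exact ⟨B.1, DB, e'.trans e, B.2, fun j => by rw [← he' j]; exact he _⟩
  set d₁ := ∑ j ∈ S, (D.key j).2 * (D.key j).1.natDegree with hd₁
  set d₂ := ∑ j ∈ T, (D.key j).2 * (D.key j).1.natDegree with hd₂
  obtain ⟨B₁, D₁, e₁, hB₁, he₁⟩ := part S hS
  obtain ⟨B₂, D₂, e₂, hB₂, he₂⟩ := part T hT
  -- the determinant element
  obtain ⟨b, hb, hba⟩ := exists_norm_one_root hK ha
  obtain ⟨u₀, hu₀⟩ := exists_mulBy_det ⟨(D.hkey j₀).1, (D.hkey j₀).2.1⟩ (D.hkey j₀).2.2.2.1 (Units.mk0 b hb)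
  obtain ⟨p, hp⟩ : ∃ p, ∏ j ∈ S, LinearMap.det (mulBy ((D.key j).1 ^ (D.key j).2) p) = b ^ (i.1 + 1) := by
    rw [hj, Units.val_mk0] at hu₀
    rw [hSdef]
    split_ifs with hf
    · exact ⟨u₀, by rw [Finset.prod_singleton, hj, hu₀]⟩
    · have hne : j₀ ≠ j₁ := fun h => hf (congrArg Prod.fst ((congrArg D.key h).trans hj₁)).symm
      obtain ⟨x, y, hxy⟩ : IsCoprime ((D.key j₀).1 ^ (D.key j₀).2) ((D.key j₁).1 ^ (D.key j₁).2) := by
        refine IsCoprime.pow ((D.hkey j₀).1.coprime_iff_not_dvd.2 fun hd => hf ?_)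
        have := eq_of_monic_of_associated (D.hkey j₀).2.1 (D.hkey j₁).2.1 ((D.hkey j₀).1.associated_of_dvd (D.hkey j₁).1 hd)
        rw [hj₁] at this
        exact this.symm
      refine ⟨u₀ * (y * (D.key j₁).1 ^ (D.key j₁).2) + x * (D.key j₀).1 ^ (D.key j₀).2, ?_⟩
      rw [Finset.prod_pair hne, det_mulBy, det_mulBy]
      have h0 : AdjoinRoot.mk ((D.key j₀).1 ^ (D.key j₀).2) (u₀ * (y * (D.key j₁).1 ^ (D.key j₁).2) + x * (D.key j₀).1 ^ (D.key j₀).2) =
          AdjoinRoot.mk _ u₀ := AdjoinRoot.mk_eq_mk.2 ⟨x - u₀ * x, by linear_combination u₀ * hxy⟩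
      have h1 : AdjoinRoot.mk ((D.key j₁).1 ^ (D.key j₁).2) (u₀ * (y * (D.key j₁).1 ^ (D.key j₁).2) + x * (D.key j₀).1 ^ (D.key j₀).2) =
          AdjoinRoot.mk _ 1 := AdjoinRoot.mk_eq_mk.2 ⟨u₀ * y - y, by linear_combination hxy⟩
      rw [h0, h1, map_one, map_one, mul_one, ← det_mulBy, hj, hu₀]
  have hdet₁ : (aeval B₁.1 p).det = b ^ (i.1 + 1) := by
    letI := D₁.fin
    rw [det_aeval D₁, ← hp, ← Finset.prod_coe_sort S]
    exact Fintype.prod_equiv e₁ _ _ fun j => by rw [he₁]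
  obtain ⟨y, hy, hyc, hyd⟩ := exists_unitary_poly hK hB₁ p (by rw [hdet₁]; exact pow_ne_zero _ hb)
  have hn : d₁ + d₂ = n := by
    rw [hd₁, hd₂, ← Finset.sum_union (disjoint_compl_right (a := S)), Finset.union_compl]
    exact D.hdeg
  set ε : Fin d₁ ⊕ Fin d₂ ≃ Fin n := finSumFinEquiv.trans (finCongr hn) with hε
  have blk : ∀ (A : GL (Fin d₁) K) (B : GL (Fin d₂) K), ∃ C : GL (Fin n) K,
      C.1 = Matrix.reindex ε ε (Matrix.fromBlocks A.1 0 0 B.1) := fun A B =>
    ⟨Matrix.GeneralLinearGroup.mkOfDetNeZero _ (by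
      rw [Matrix.det_reindex_self, Matrix.det_fromBlocks_zero₂₁]
      exact mul_ne_zero (Matrix.isUnit_iff_isUnit_det _ |>.1 A.isUnit).ne_zero
        (Matrix.isUnit_iff_isUnit_det _ |>.1 B.isUnit).ne_zero), rfl⟩
  obtain ⟨B, hBv⟩ := blk B₁ B₂
  obtain ⟨Y, hYv⟩ := blk y 1
  have hBmem := mem_GU_blocks hK ε hB₁ hB₂ B hBv
  have hYmem := mem_GU_blocks hK ε hy (one_mem _) Y hYv
  have hYB : Y * B = B * Y := by
    refine Units.ext ?_
    rw [Units.val_mul, Units.val_mul, hBv, hYv, Matrix.reindex_apply, Matrix.reindex_apply,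
      Matrix.submatrix_mul_equiv, Matrix.submatrix_mul_equiv, Matrix.fromBlocks_multiply, Matrix.fromBlocks_multiply]
    simp only [Units.val_one, Matrix.mul_zero, Matrix.zero_mul, add_zero, zero_add, one_mul, mul_one,
      ← Units.val_mul, hyc]
  have hYd : Y.1.det = a ^ (i.1 + 1) := by
    rw [hYv, Matrix.det_reindex_self, Matrix.det_fromBlocks_zero₂₁, Units.val_one, Matrix.det_one, mul_one, hyd, hdet₁,
      map_pow, ← div_pow, hba]
  have hconj : IsConj B g := by
    refine (dec B).isConj_of_count D fun x => ?_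
    by_cases hx : Irreducible x.1 ∧ x.1.Monic ∧ 1 ≤ x.2
    · refine count_eq D (dec B) ⟨hx.1, hx.2.1⟩ ⟨hx.1, hx.2.1⟩ rfl (fun j => ?_) x.2 hx.2.2
      rw [hBv, Dec.imCard_blocks ε]
      letI := D₁.fin
      letI := D₂.fin
      rw [D₁.imCard_pow x.1 ⟨hx.1, hx.2.1⟩, D₂.imCard_pow x.1 ⟨hx.1, hx.2.1⟩, D.imCard_pow x.1 ⟨hx.1, hx.2.1⟩, ← pow_add]
      congr 1
      set U : D.J → ℕ := fun y => if (D.key y).1 = x.1 then min (D.key y).2 j else 0 with hU
      have e1' : (∑ y, if (D₁.key y).1 = x.1 then min (D₁.key y).2 j else 0) = ∑ y ∈ S, U y := by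
        exact (Fintype.sum_equiv e₁ _ (fun y : S => U y.1) fun y => by simp only [hU, he₁]).trans
          (Finset.sum_coe_sort S U)
      have e2' : (∑ y, if (D₂.key y).1 = x.1 then min (D₂.key y).2 j else 0) = ∑ y ∈ T, U y := by
        exact (Fintype.sum_equiv e₂ _ (fun y : T => U y.1) fun y => by simp only [hU, he₂]).trans
          (Finset.sum_coe_sort T U)
      have hb : ∀ W : Finset D.J, x.1.natDegree * ∑ y ∈ W, U y ≤ ∑ y ∈ W, (D.key y).2 * (D.key y).1.natDegree := by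
        intro W
        rw [Finset.mul_sum]
        refine Finset.sum_le_sum fun y _ => ?_
        simp only [hU]
        split_ifs with h
        · rw [h, mul_comm]
          exact Nat.mul_le_mul_right _ (min_le_left _ _)
        · simp
      have hsum : ∑ y, U y = ∑ y ∈ S, U y + ∑ y ∈ T, U y := (Finset.sum_add_sum_compl S U).symm
      have h1 : x.1.natDegree * ∑ y ∈ S, U y ≤ d₁ := hb S
      have h2 : x.1.natDegree * ∑ y ∈ T, U y ≤ d₂ := hb T
      rw [e1', e2', hsum, Nat.mul_add]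
      omega
    · have hz : ∀ {g : GL (Fin n) K} (D : Dec g), D.count x = 0 := fun D => by
        rw [Dec.count, Nat.card_eq_zero]
        exact Or.inl ⟨fun j => hx (j.2 ▸ ⟨(D.hkey j.1).1, (D.hkey j.1).2.1, (D.hkey j.1).2.2.2.1⟩)⟩
      rw [hz, hz]
  obtain ⟨P, hP⟩ := isConj_iff.1 ((conj_iff hK ⟨B, hBmem⟩ ⟨g, hg⟩).2 hconj)
  have hP' : P.1 * B * P.1⁻¹ = g := congrArg Subtype.val hP
  refine ⟨P.1 * Y * P.1⁻¹, mul_mem (mul_mem P.2 hYmem) (inv_mem P.2), ?_, ?_⟩
  · rw [← hP', show P.1 * Y * P.1⁻¹ * (P.1 * B * P.1⁻¹) = P.1 * (Y * B) * P.1⁻¹ by group,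
      hYB]
    group
  · rw [Units.val_mul, Units.val_mul, Matrix.det_units_conj, hYd]

end Cfsg.Agent.KnownB.ClassTuples
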